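/- ORE tower, chapter 1 (orthogonal groups, `q` odd): definitions and jobs.
Proofs: `blueprints/ORE1.md`. -/
import Cfsg.Agent.H56.OmegaFin
import Cfsg.Agent.H58.QDisc

set_option autoImplicit false

namespace H56.Ore

open Module QuadraticMap Polynomial

universe u

section defs
variable {F V : Type*} [Field F] [AddCommGroup V] [Module F V]

/-- `N` is skew-adjoint. -/
def Skew (Q : QuadraticForm F V) (N : End F V) : Prop :=
  ∀ x y, polar Q (N x) y = -polar Q x (N y)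

/-- There is no proper invariant non-degenerate subspace. -/
def Ind (Q : QuadraticForm F V) (N : End F V) : Prop :=
  ∀ W : Submodule F V, (∀ x ∈ W, N x ∈ W) → Disjoint W (perp Q W) → W = ⊥ ∨ W = ⊤

/-- `s` is an involution with `s N s = -N`. -/
def Anti {Q : QuadraticForm F V} (N : End F V) (s : O Q) : Prop :=
  s * s = 1 ∧ ∀ x, s (N x) = -N (s x)

/-- `V` is cyclic on `v` with annihilator `f(X²) ^ k`. -/
def Cy (N : End F V) (f : F[X]) (k : ℕ) (v : V) : Prop :=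
  Irreducible f ∧ f.Monic ∧ f.coeff 0 ≠ 0 ∧ 0 < k ∧
    (∀ p : F[X], aeval N p v = 0 ↔ expand F 2 f ^ k ∣ p) ∧ ∀ x, ∃ p : F[X], aeval N p v = x

/-- The dimension of the radical. -/
noncomputable def rd (Q : QuadraticForm F V) : ℕ := finrank F (LinearMap.ker Q.polarBilin)

/-- `v` is not an eigenvector of `s` or `t`. -/
def Gen {Q : QuadraticForm F V} (s t : O Q) (v : V) : Prop :=
  s v ≠ v ∧ s v ≠ -v ∧ t v ≠ v ∧ t v ≠ -v

variable [FiniteDimensional F V] {Q : QuadraticForm F V} (hQ : Q.polarBilin.Nondegenerate)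

/-- First kind: a hyperbolic `(-1)`-eigenspace of about half the dimension. -/
def K1 (N : End F V) : Prop := ∃ s : O Q, Anti N s ∧ Even s.rk ∧ 2 * s.rk ≤ finrank F V + 1 ∧
  finrank F V ≤ 2 * s.rk + 1 ∧ spinor hQ s = sqcl (-1) ^ (s.rk / 2)

/-- Second kind: the spinor norm is free. -/
def K2 (N : End F V) : Prop :=
  ∀ θ, ∃ s : O Q, Anti N s ∧ 2 * s.rk = finrank F V ∧ spinor hQ s = θ

/-- `g = s t` with involutions of ranks `a`, `b`, and `s` has spinor norm `θ`. -/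
def Pr (g : O Q) (a b : ℕ) (θ : SqCl F) : Prop :=
  ∃ s : O Q, s * s = 1 ∧ s * g * (s * g) = 1 ∧ s.rk = a ∧ (s * g).rk = b ∧ spinor hQ s = θ

/-- The kinds of indecomposable isometries. -/
def KG (g : O Q) : Prop :=
  (∃ a, Even a ∧ 2 * a ≤ finrank F V + 1 ∧ finrank F V ≤ 2 * a + 1 ∧
    (Pr hQ g a a (sqcl (-1) ^ (a / 2)) ∨ (Pr hQ g a (finrank F V - a) (sqcl (-1) ^ (a / 2)) ∧
      (finrank F V = 1 → ∀ v, g v = -v)))) ∨
  ∃ a, finrank F V = 2 * a ∧ ∀ θ, Pr hQ g a a θ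

end defs

/-- Statements about all non-degenerate quadratic spaces over finite fields of odd order. -/
def All (P : ∀ {F V : Type u} [Field F] [Fintype F] [AddCommGroup V] [Module F V]
    [FiniteDimensional F V] {Q : QuadraticForm F V}, Q.polarBilin.Nondegenerate → Prop) : Prop :=
  ∀ {F V : Type u} [Field F] [Fintype F] [AddCommGroup V] [Module F V] [FiniteDimensional F V]
    {Q : QuadraticForm F V} (hQ : Q.polarBilin.Nondegenerate), (2 : F) ≠ 0 → P hQ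

def JobHyp : Prop := All.{u} fun {F V} _ _ _ _ _ {Q} hQ => ∀ (s : O Q) (L : Submodule F V),
  s * s = 1 → (∀ x ∈ L, Q x = 0) → (∀ x ∈ L, s x ∈ L) → (∀ x ∈ perp Q L, s x - x ∈ L) →
    Even s.rk ∧ spinor hQ s = sqcl (-1) ^ (s.rk / 2)

def JobZas : Prop := All.{u} fun {F V} _ _ _ _ _ {Q} hQ => ∀ c : O Q,
  LinearMap.det (c.lin + 1) ≠ 0 → spinor hQ c = sqcl (2 ^ finrank F V * LinearMap.det (c.lin + 1))

def JobNil : Prop := All.{u} fun {F V} _ _ _ _ _ {Q} hQ => ∀ N : End F V,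
  Nontrivial V → Skew Q N → Ind Q N → IsNilpotent N → K1 hQ N

def JobCyc : Prop := All.{u} fun {F V} _ _ _ _ _ {Q} _ => ∀ N : End F V,
  Nontrivial V → Skew Q N → Ind Q N → IsUnit N → ∃ f k v, Cy N f k v

def JobEv : Prop := All.{u} fun {F V} _ _ _ _ _ {Q} hQ => ∀ (N : End F V) (f : F[X]) (k : ℕ) (v : V),
  Skew Q N → IsUnit N → Cy N f k v → Even k → K1 hQ N

def JobDet : Prop := ∀ {F V : Type u} [Field F] [Fintype F] [AddCommGroup V] [Module F V]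
  [FiniteDimensional F V] (N : End F V) (f : F[X]) (k : ℕ) (v : V), (2 : F) ≠ 0 → Cy N f k v →
    Odd k → ∃ p : F[X], ¬ IsSquare (LinearMap.det (aeval N p))

def JobTF : Prop := All.{u} fun {F V} _ _ _ _ _ {Q} hQ => ∀ (N : End F V) (f : F[X]) (k : ℕ) (v : V),
  Skew Q N → IsUnit N → IsUnit (1 + N) → Cy N f k v → Odd k → K2 hQ N

def JobSkew : Prop := All.{u} fun {F V} _ _ _ _ _ {Q} hQ => ∀ N : End F V,
  Nontrivial V → Skew Q N → Ind Q N → IsUnit (1 + N) → K1 hQ N ∨ K2 hQ N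

def JobInd : Prop := All.{u} fun {_ V} _ _ _ _ _ {Q} hQ => ∀ g : O Q,
  Nontrivial V → Ind Q g.lin → KG hQ g

def JobO1 : Prop := All.{u} fun {F V} _ _ _ _ _ {Q} hQ => ∀ g : O Q, dickson hQ g = 1 →
  ∃ a θ, Pr hQ g a a θ ∧ 2 * a ≤ finrank F V + 1 ∧ finrank F V ≤ 2 * a + 1

def JobO2 : Prop := All.{u} fun {F V} _ _ _ _ _ {Q} hQ => ∀ g : O Q, dickson hQ g = 1 →
  finrank F V = 8 → (∃ θ, Pr hQ g 3 3 θ) ∨ Pr hQ g 4 4 1

def JobCnt1 : Prop := ∀ {F V : Type u} [Field F] [Fintype F] [AddCommGroup V] [Module F V]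
  [FiniteDimensional F V] (Q : QuadraticForm F V) (c : F) (r : ℝ), (2 : F) ≠ 0 → 0 ≤ r →
    r ^ 2 = Fintype.card F → r ^ 2 * Nat.card {v : V // Q v = c} ≤
      r ^ (2 * finrank F V) + (r ^ 2 - 1) * r ^ (finrank F V + rd Q)

def JobCnt2 : Prop := ∀ {F V : Type u} [Field F] [Fintype F] [AddCommGroup V] [Module F V]
  [FiniteDimensional F V] (Q Q' : QuadraticForm F V) (c : F) (r : ℝ), (2 : F) ≠ 0 → 0 ≤ r →
    r ^ 2 = Fintype.card F → r ^ (2 * finrank F V) - (r ^ 2 - 1) * (r ^ (finrank F V + rd Q) +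
      ∑ μ : F, r ^ (finrank F V + rd (Q' - μ • Q))) ≤ r ^ 4 * Nat.card {v : V // Q v = c ∧ Q' v = 0}

def JobR : Prop := All.{u} fun {F V} _ _ _ _ _ {Q} _ => ∀ (s t : O Q) (c : F),
  s * s = 1 → t * t = 1 → s.rk = t.rk → 7 ≤ finrank F V → 2 * s.rk ≤ finrank F V + 2 →
    finrank F V ≤ 2 * s.rk + 2 → 2 * finrank F (s * t).fix ≤ finrank F V + 1 →
      ∃ v, Q v = c ∧ polar Q v (s v) = polar Q v (t v) ∧ Gen s t v

def JobP : Prop := All.{u} fun {F V} _ _ _ _ _ {Q} _ => ∀ (s t : O Q) (c : F) (v : V),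
  s * s = 1 → t * t = 1 → s.rk = t.rk → 12 ≤ finrank F V → 2 * s.rk = finrank F V →
    2 * finrank F (s * t).fix ≤ finrank F V + 1 →
      ∃ w, Q w = c ∧ polar Q w (s w) = polar Q w (t w) ∧ polar Q v (s w) = polar Q v (t w) ∧
        ∀ x : F, Gen s t (w + x • v)

def JobAB : Prop := All.{u} fun {F V} _ _ _ _ _ {Q} _ => ∀ (Y U : Submodule F V) (c : F),
  Disjoint Y (perp Q Y) → 2 * finrank F U + 2 ≤ finrank F Y → ∃ a ∈ Y ⊓ perp Q U, Q a = c

def JobU : Prop := All.{u} fun {F V} _ _ _ _ _ {Q} hQ => ∀ (s t : O Q) (U : Submodule F V),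
  s * s = 1 → t * t = 1 → s.rk = t.rk → spinor hQ s = spinor hQ t →
    (∀ u ∈ U, ∀ u' ∈ U, polar Q u (s u') = polar Q u (t u')) →
    (∀ u ∈ U, (s u = u ↔ t u = u) ∧ (s u = -u ↔ t u = -u)) →
    (∀ c : F, c ≠ 0 → ∃ a ∈ perp Q U, Q a = c ∧ (s a = a ∨ s a = -a)) →
      ∃ h : O Q, dickson hQ h = 1 ∧ spinor hQ h = 1 ∧ h * s * h⁻¹ = t ∧ ∀ u ∈ U, h u = u

/-- The theorem of chapter 1. -/
def Main : Prop := All.{u} fun {F V} _ _ _ _ _ {Q} _ => 7 ≤ finrank F V →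
  ∀ g ∈ commutator (O Q), ∃ a ∈ commutator (O Q), ∃ b ∈ commutator (O Q), g = a * b * a⁻¹ * b⁻¹

end H56.Ore
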