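/- Tower DG (S5732): specification and kit (blueprints/DG.md). -/
import Cfsg.Agent.Base

set_option autoImplicit false
set_option linter.unusedSectionVars false

namespace H56.DG

open Subgroup
open scoped commutatorElement

universe u v

section defs
variable {H : Type u} (V : Type u) [Group H] [CommGroup V] [MulDistribMulAction H V]

/-- The vectors fixed by all elements of `S`. -/
def cv (S : Set H) : Subgroup V where
  carrier := {v | ∀ s ∈ S, s • v = v}
  one_mem' := fun s _ => smul_one s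
  mul_mem' := fun ha hb s hs => by rw [smul_mul', ha s hs, hb s hs]
  inv_mem' := fun ha s hs => by rw [smul_inv', ha s hs]

/-- `h` fixes only the trivial vector. -/
def Fpf (h : H) : Prop := ∀ v : V, h • v = v → v = 1

/-- The setting: a faithful action, the elements outside the normal subgroup `R` act freely. -/
structure St (R : Subgroup H) : Prop where
  normal : R.Normal
  faith : ∀ h : H, (∀ v : V, h • v = v) → h = 1
  out : ∀ h, h ∉ R → Fpf V h

variable (H) in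
/-- No proper non-trivial invariant subgroup. -/
def Irr : Prop := ∀ W : Subgroup V, (∀ h : H, ∀ w ∈ W, h • w ∈ W) → W = ⊥ ∨ W = ⊤

/-- The bound. -/
def Good (R : Subgroup H) : Prop := (R.index + 1) ^ 2 ≤ Nat.card V

/-- The bound, or numbers that give it for large `V`. -/
def Concl (R : Subgroup H) : Prop :=
  Good V R ∨ ∃ r w : ℕ, R.index ≤ r ^ 10 * w ∧ w ^ 3 ≤ Nat.card V ∧ 2 ^ r ≤ Nat.card V

end defs

section kit
variable {H V : Type u} [Group H] [CommGroup V] [MulDistribMulAction H V]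

theorem mem_cv {S : Set H} {v : V} : v ∈ cv V S ↔ ∀ s ∈ S, s • v = v := Iff.rfl

theorem mem_cv_one {s : H} {v : V} : v ∈ cv V {s} ↔ s • v = v := by simp [mem_cv]

theorem smul_mem_cv (g : H) {S : Set H} {v : V} (h : v ∈ cv V S) :
    g • v ∈ cv V ((fun s => g * s * g⁻¹) '' S) := by
  rintro _ ⟨s, hs, rfl⟩
  rw [mul_smul, mul_smul, inv_smul_smul, h s hs]

theorem card_cv_conj (g : H) (S : Set H) :
    Nat.card (cv V ((fun s => g * s * g⁻¹) '' S)) = Nat.card (cv V S) := by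
  refine Nat.card_congr ⟨fun v => ⟨g⁻¹ • v.1, fun s hs => ?_⟩, fun v => ⟨g • v.1, smul_mem_cv g v.2⟩,
    fun v => Subtype.ext (smul_inv_smul _ _), fun v => Subtype.ext (inv_smul_smul _ _)⟩
  have := v.2 _ ⟨s, hs, rfl⟩
  rw [mul_smul, mul_smul] at this
  exact (eq_inv_smul_iff.2 this)

theorem Fpf.conj {h : H} (hh : Fpf V h) (g : H) : Fpf V (g * h * g⁻¹) := fun v hv => by
  rw [mul_smul, mul_smul, smul_eq_iff_eq_inv_smul] at hv
  rw [← smul_inv_smul g v, hh _ hv, smul_one]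

theorem Fpf.of_pow {h : H} {k : ℕ} (hh : Fpf V (h ^ k)) : Fpf V h := fun v hv =>
  hh v (pow_mem (MulAction.mem_stabilizer_iff.2 hv) k)

theorem Fpf.of_mem_zpowers {h g : H} (hh : Fpf V h) (hg : h ∈ zpowers g) : Fpf V g := fun v hv =>
  hh v ((zpowers_le.2 (MulAction.mem_stabilizer_iff.2 hv)) hg)

/-- A non-trivial normal subgroup fixes no vector. -/
theorem cv_normal {R : Subgroup H} (S : St V R) (I : Irr H V) (L : Subgroup H) [hL : L.Normal]
    (h : L ≠ ⊥) : cv V (L : Set H) = ⊥ := by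
  refine (I (cv V (L : Set H)) fun g w hw s hs => ?_).resolve_right fun e => h ?_
  · have := hw _ (hL.conj_mem s hs g⁻¹)
    rw [inv_inv, mul_smul, mul_smul, inv_smul_eq_iff] at this
    exact this
  · rw [eq_bot_iff]
    exact fun s hs => S.faith s fun v => (e ▸ mem_top v : v ∈ cv V (L : Set H)) s hs

variable [Finite H] [Finite V]

/-- The basic count: the orbit of `v ≠ 1` is the union of `|H : R|` orbits of `R`. -/
theorem cnt {R : Subgroup H} (S : St V R) {M : Subgroup H} (hM : M ≤ R) {v : V} (hv : v ≠ 1)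
    {X : Set V} (hX : ∀ g : H, g • v ∈ X) :
    R.index * (MulAction.stabilizer H v).relIndex M ≤ X.ncard := by
  have h1 : MulAction.stabilizer H v ≤ R := fun g hg => by_contra fun c => hv (S.out g c v hg)
  have h2 : (MulAction.stabilizer H v).relIndex M ≤ (MulAction.stabilizer H v).relIndex R :=
    relIndex_le_of_le_right hM (by simp [relIndex, index_ne_zero_of_finite])
  calc _ ≤ R.index * (MulAction.stabilizer H v).relIndex R := Nat.mul_le_mul_left _ h2
    _ = (MulAction.orbit H v).ncard := by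
      rw [mul_comm, relIndex_mul_index h1, MulAction.index_stabilizer]
    _ ≤ _ := Set.ncard_le_ncard (by rintro _ ⟨g, rfl⟩; exact hX g)

/-- The orbit of a vector fixed by `S` is covered by the fixed spaces of the conjugates of `S`;
`T` is a finite set of labels for these conjugates. -/
theorem cnt_cover {R : Subgroup H} (S : St V R) {M : Subgroup H} (hM : M ≤ R) {v : V} (hv : v ≠ 1)
    {A : Set H} (hA : v ∈ cv V A) {ι : Type*} (T : Finset ι) (f : ι → Set H)
    (hT : ∀ g : H, ∃ t ∈ T, f t = (fun s => g * s * g⁻¹) '' A) :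
    R.index * (MulAction.stabilizer H v).relIndex M ≤ T.card * (Nat.card (cv V A) - 1) := by
  classical
  let T' := T.filter fun t => ∃ g : H, f t = (fun s => g * s * g⁻¹) '' A
  let F : ι → Finset V := fun t => (Set.toFinite ((cv V (f t) : Set V) \ {1})).toFinset
  refine (cnt S hM hv (X := ↑(T'.biUnion F)) fun g => ?_).trans ?_
  · obtain ⟨t, ht, e⟩ := hT g
    refine Finset.mem_coe.2 (Finset.mem_biUnion.2 ⟨t, Finset.mem_filter.2 ⟨ht, g, e⟩, ?_⟩)
    rw [Set.Finite.mem_toFinset, e]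
    exact ⟨smul_mem_cv g hA, fun c => hv (by
      rw [← inv_smul_smul g v, Set.mem_singleton_iff.1 c, smul_one])⟩
  · rw [Set.ncard_coe_finset]
    refine (Finset.card_biUnion_le_card_mul _ _ _ fun t ht => ?_).trans
      (Nat.mul_le_mul_right _ (Finset.card_filter_le _ _))
    obtain ⟨g, e⟩ := (Finset.mem_filter.1 ht).2
    rw [← Set.ncard_eq_toFinset_card _ _, Set.ncard_sdiff_singleton_of_mem (one_mem _), e,
      ← card_cv_conj g A]
    exact le_of_eq rfl

/-- Two conjugate fixed spaces with trivial intersection and few conjugates. -/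
theorem half {R : Subgroup H} (S : St V R) {M : Subgroup H} (hM : M ≤ R) {v : V} (hv : v ≠ 1)
    {x g : H} (hx : x • v = v) (hg : ∀ u : V, x • u = u → (g * x * g⁻¹) • u = u → u = 1)
    (T : Finset H) (hT : ∀ g : H, g * x * g⁻¹ ∈ T)
    (hc : T.card ≤ (MulAction.stabilizer H v).relIndex M) : Good V R := by
  have h1 := cnt_cover S hM hv (mem_cv_one.2 hx) T (fun t => {t}) fun g => ⟨_, hT g, by simp⟩
  have h0 : 0 < (MulAction.stabilizer H v).relIndex M :=
    Nat.pos_of_ne_zero (by simp [relIndex, index_ne_zero_of_finite])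
  have h2 : R.index ≤ Nat.card (cv V ({x} : Set H)) - 1 :=
    Nat.le_of_mul_le_mul_right (h1.trans ((Nat.mul_le_mul_right _ hc).trans_eq (mul_comm _ _))) h0
  have h3 : 0 < Nat.card (cv V ({x} : Set H)) := Nat.card_pos
  have h4 : Nat.card (cv V ({x} : Set H)) * Nat.card (cv V ({g * x * g⁻¹} : Set H)) ≤ Nat.card V := by
    rw [← Nat.card_prod]
    refine Nat.card_le_card_of_injective (fun p => p.1.1 * p.2.1) fun p p' e => ?_
    have e1 : p'.1.1⁻¹ * p.1.1 = p'.2.1 * p.2.1⁻¹ := by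
      rw [inv_mul_eq_iff_eq_mul, ← mul_assoc, eq_mul_inv_iff_mul_eq]; exact e
    have e2 := hg _ (mem_cv_one.1 (mul_mem (inv_mem p'.1.2) p.1.2))
      (mem_cv_one.1 (e1 ▸ mul_mem p'.2.2 (inv_mem p.2.2)))
    exact Prod.ext (Subtype.ext (inv_mul_eq_one.1 e2).symm)
      (Subtype.ext (mul_inv_eq_one.1 (e1 ▸ e2)).symm)
  have h5 := card_cv_conj (V := V) g {x}
  rw [Set.image_singleton] at h5
  rw [h5, ← sq] at h4
  exact (Nat.pow_le_pow_left (by omega) 2).trans h4

end kit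

/-! ### The jobs -/

def JobRed : Prop := ∀ (H V : Type u) [Group H] [Finite H] [CommGroup V] [Finite V]
  [MulDistribMulAction H V] (R : Subgroup H), St V R → ¬ Irr H V → Good V R

def JobInd : Prop := ∀ (H V : Type u) [Group H] [Finite H] [CommGroup V] [Finite V]
  [MulDistribMulAction H V] (ι : Type u) [Fintype ι] (B : ι → Subgroup H),
  (∀ i, (Nat.card (B i)).Coprime (Nat.card V)) →
  (∀ i j, i ≠ j → ∀ a ∈ B i, ∀ b ∈ B j, Commute a b) →
  (∀ i j, i ≠ j → ∀ v : V, v ∈ cv V (B i : Set H) → v ∈ cv V (B j : Set H) → v = 1) →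
  ∏ i, Nat.card (cv V (B i : Set H)) ≤ Nat.card V

def JobAb : Prop := ∀ (H V : Type u) [Group H] [Finite H] [CommGroup V] [Finite V]
  [MulDistribMulAction H V] (R E : Subgroup H), St V R → Irr H V → E.Normal → E ≤ R →
  (∀ a ∈ E, ∀ b ∈ E, Commute a b) → (Nat.card E).Coprime (Nat.card V) →
  (∀ e ∈ E, e ≠ 1 → Fpf V e) ∨ Good V R

def JobFpf : Prop := ∀ (H V : Type u) [Group H] [Finite H] [CommGroup V] [Finite V]
  [MulDistribMulAction H V] (q : ℕ) (a b : H) (W : Subgroup V), q.Prime →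
  q.Coprime (Nat.card V) → Commute a b → a ^ q = 1 → b ^ q = 1 → Fpf V a → W ≠ ⊥ →
  (∀ w ∈ W, a • w ∈ W) → (∀ w ∈ W, b • w ∈ W) →
  ∃ i : ℕ, ∃ w ∈ W, w ≠ 1 ∧ (b * a ^ i) • w = w

def JobPair : Prop := ∀ (H : Type u) [Group H] [Finite H] (M B : Subgroup H) (z : H),
  (orderOf z).Prime → B ≤ M → (∀ g ∈ M, Commute g z) →
  (∀ g ∈ M, ∀ y ∈ M, ⁅g, y⁆ ∈ zpowers z) → (∀ b ∈ B, (∀ g ∈ M, Commute b g) → b = 1) →
  Nat.card B ≤ (centralizer (B : Set H)).relIndex M

def JobCl2 : Prop := ∀ (H V : Type u) [Group H] [Finite H] [CommGroup V] [Finite V]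
  [MulDistribMulAction H V] (R M : Subgroup H) (q : ℕ) (z : H), St V R → M.Normal → M ≤ R →
  q.Prime → q.Coprime (Nat.card V) → z ∈ M → orderOf z = q → (∀ g ∈ M, Commute g z) →
  (∀ g ∈ M, ∀ y ∈ M, ⁅g, y⁆ ∈ zpowers z) → (∀ g ∈ M, g ^ q ∈ zpowers z) →
  (∀ c ∈ M, (∀ g ∈ M, Commute c g) → c ≠ 1 → Fpf V c) →
  (∀ x ∈ M, x ≠ 1 → Fpf V x) ∨ Concl V R

def JobCore : Prop := ∀ (H V : Type u) [Group H] [Finite H] [CommGroup V] [Finite V]
  [MulDistribMulAction H V] (R Q : Subgroup H) (q : ℕ), St V R → Irr H V → Q.Normal → Q ≤ R →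
  q.Prime → IsPGroup q Q → (∃ x ∈ Q, x ≠ 1 ∧ ¬ Fpf V x) → Concl V R

def JobMain : Prop := ∀ (H V : Type u) [Group H] [Finite H] [CommGroup V] [Finite V]
  [MulDistribMulAction H V] (R : Subgroup H), St V R → (∃ x : H, x ≠ 1 ∧ ¬ Fpf V x) → Concl V R

def JobAs : Prop := ∃ N : ℕ, ∀ m n r w : ℕ, N ≤ n → m ≤ r ^ 10 * w → w ^ 3 ≤ n → 2 ^ r ≤ n →
  (m + 1) ^ 2 ≤ n

/-- The affine case of the statement. -/
def JobAff : Prop := ∀ (G : Type u) (Ω : Type v) [Group G] [Finite G] [MulAction G Ω]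
  [FaithfulSMul G Ω] [Finite Ω] (N : Subgroup G), MulAction.IsPreprimitive G Ω → N.Normal →
  IsMulCommutative N → N ≠ ⊥ → (∃ g : G, g ≠ 1 ∧ ∃ a b : Ω, a ≠ b ∧ g • a = a ∧ g • b = b) →
  ((closure {g : G | ∀ ω : Ω, g • ω ≠ ω}).index + 1) ^ 2 ≤ Nat.card Ω ∨
  ∃ r w : ℕ, (closure {g : G | ∀ ω : Ω, g • ω ≠ ω}).index ≤ r ^ 10 * w ∧ w ^ 3 ≤ Nat.card Ω ∧
    2 ^ r ≤ Nat.card Ω

end H56.DG
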