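/- Tower E8F (S5920), slot LA: self-dual modules of `S₄` in characteristic three. -/
import Cfsg.Agent.H40.E8FSpec

set_option autoImplicit false

namespace H56.E8LA

open Module H40.E8F

variable {k V W : Type} [Field k] [AddCommGroup V] [Module k V] [AddCommGroup W] [Module k W]

theorem rank_null [FiniteDimensional k V] (f : V →ₗ[k] W) (p : Submodule k V) :
    finrank k (p.map f) + finrank k ↥(p ⊓ LinearMap.ker f) = finrank k p := by
  rw [← LinearMap.finrank_range_add_finrank_ker (f.domRestrict p), LinearMap.range_domRestrict,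
    LinearMap.ker_domRestrict, ← Submodule.finrank_map_subtype_eq p, Submodule.map_comap_subtype]

theorem mem_fx {f : End k V} {v : V} : v ∈ fx f ↔ f v = v := by
  rw [End.mem_eigenspace_iff, one_smul]

theorem jobLA : JobLA := by
  intro k V _ _ _ _ _ β a b t s hβ hI aa bb ss ttt ab ta tb sa st
  have h3 : (3 : k) = 0 := CharP.cast_eq_zero k 3
  have ia := hI a (by simp)
  have ib := hI b (by simp)
  have it := hI t (by simp)
  have is := hI s (by simp)
  replace aa : ∀ v, a (a v) = v := fun v => LinearMap.congr_fun aa v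
  replace bb : ∀ v, b (b v) = v := fun v => LinearMap.congr_fun bb v
  replace ss : ∀ v, s (s v) = v := fun v => LinearMap.congr_fun ss v
  replace ttt : ∀ v, t (t (t v)) = v := fun v => LinearMap.congr_fun ttt v
  replace ab : ∀ v, a (b v) = b (a v) := fun v => LinearMap.congr_fun ab v
  replace ta : ∀ v, t (a v) = b (t v) := fun v => LinearMap.congr_fun ta v
  replace tb : ∀ v, t (b v) = a (b (t v)) := fun v => LinearMap.congr_fun tb v
  replace sa : ∀ v, s (a v) = b (s v) := fun v => LinearMap.congr_fun sa v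
  replace st : ∀ v, s (t v) = t (t (s v)) := fun v => LinearMap.congr_fun st v
  have sb : ∀ v, s (b v) = a (s v) := fun v => by rw [← ss (a (s v)), sa, ss]
  set U := fx a ⊓ fx b
  have mU : ∀ v, v ∈ U ↔ a v = v ∧ b v = v := fun v => by rw [Submodule.mem_inf, mem_fx, mem_fx]
  have Ut : ∀ v ∈ U, t v ∈ U := fun v hv => by
    obtain ⟨h1, h2⟩ := (mU v).1 hv
    have h4 : b (t v) = t v := by rw [← ta, h1]
    exact (mU _).2 ⟨by rw [← h4, ← tb, h2, h4], h4⟩
  have Us : ∀ v ∈ U, s v ∈ U := fun v hv => by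
    obtain ⟨h1, h2⟩ := (mU v).1 hv
    exact (mU _).2 ⟨by rw [← sb, h2], by rw [← sa, h1]⟩
  let y : End k V := t - t * t
  have ya : ∀ v, y v = t v - t (t v) := fun _ => rfl
  have Uy : ∀ v ∈ U, y v ∈ U := fun v hv => U.sub_mem (Ut v hv) (Ut _ (Ut v hv))
  have sy : ∀ v, s (y v) = -y (s v) := fun v => by simp only [ya, map_sub, st, ttt, neg_sub]
  have y3 : ∀ v, y (y (y v)) = 0 := fun v => by
    simp only [ya, map_sub, ttt]
    rw [← zero_smul k (t (t v) - t v), ← h3]; module
  have yt : ∀ v, y v = 0 → t v = v := fun v hv => by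
    have h1 := congrArg (fun x => t (t x)) (sub_eq_zero.1 ((ya v).symm.trans hv))
    simp only [ttt] at h1
    exact h1.symm
  have yβ : ∀ v w, β (y v) w = -β v (y w) := fun v w => by
    have h1 : β (t v) w = β v (t (t w)) := by rw [← it v, ttt]
    have h2 : β (t (t v)) w = β v (t w) := by rw [← it _ w, ttt]
    simp only [ya, map_sub, LinearMap.sub_apply, h1, h2, neg_sub]
  let N := U ⊓ s.eigenspace (-1)
  have mN : ∀ v, v ∈ N ↔ v ∈ U ∧ s v = -v := fun v => by
    rw [Submodule.mem_inf, End.mem_eigenspace_iff, neg_one_smul]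
  set P := U ⊓ fx s
  have mP : ∀ v, v ∈ P ↔ v ∈ U ∧ s v = v := fun v => by rw [Submodule.mem_inf, mem_fx]
  have PN : ∀ v ∈ P, y v ∈ N := fun v hv => (mN _).2 ⟨Uy v hv.1, by rw [sy, ((mP v).1 hv).2]⟩
  have NP : ∀ v ∈ N, y v ∈ P := fun v hv =>
    (mP _).2 ⟨Uy v hv.1, by rw [sy, ((mN v).1 hv).2, map_neg, neg_neg]⟩
  have nd : ∀ x ∈ N, (∀ w ∈ N, β x w = 0) → x = 0 := fun x hx h => hβ x fun w => by
    obtain ⟨h1, h2⟩ := (mN x).1 hx
    obtain ⟨h4, h5⟩ := (mU x).1 h1
    have e1 : ∀ w, β x (a w) = β x w := fun w => by rw [← ia, aa, h4]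
    have e2 : ∀ w, β x (b w) = β x w := fun w => by rw [← ib, bb, h5]
    have e3 : ∀ w, β x (s w) = -β x w := fun w => by rw [← is, ss, h2, map_neg, LinearMap.neg_apply]
    have h6 : w + b w + a (w + b w) ∈ U := (mU _).2 ⟨by rw [map_add a (w + b w), aa, add_comm], by
      simp only [map_add, ← ab, bb]; abel⟩
    have := h _ ((mN (_ - s _)).2 ⟨U.sub_mem h6 (Us _ h6), by rw [map_sub, ss, neg_sub]⟩)
    rw [map_sub, e3, map_add, e1, map_add, e2] at this
    linear_combination -this + 3 * β x w * h3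
  let I := N.map y
  have IP : I ≤ P := by rintro _ ⟨v, hv, rfl⟩; exact NP v hv
  have d1 := rank_null y N
  have d2 := rank_null y I
  have d3 : finrank k (I.map y) ≤ finrank k ↥(N ⊓ LinearMap.ker y) := Submodule.finrank_mono (by
    rintro _ ⟨_, ⟨v, hv, rfl⟩, rfl⟩
    exact ⟨PN _ (NP v hv), y3 v⟩)
  have d4 : finrank k ↥(I ⊓ LinearMap.ker y) ≤ finrank k ↥(P ⊓ fx t) :=
    Submodule.finrank_mono fun v hv => ⟨IP hv.1, mem_fx.2 (yt v hv.2)⟩
  have d5 := rank_null (β.compl₂ I.subtype) P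
  have d6 : finrank k (P.map (β.compl₂ I.subtype)) ≤ finrank k I :=
    (Submodule.finrank_le _).trans (Subspace.dual_finrank_eq).le
  have d7 : finrank k ↥(P ⊓ LinearMap.ker (β.compl₂ I.subtype)) ≤ finrank k ↥(P ⊓ fx t) :=
    Submodule.finrank_mono fun v hv => ⟨hv.1, mem_fx.2 (yt v (nd _ (PN v hv.1) fun w hw => by
      rw [yβ, neg_eq_zero]
      exact LinearMap.congr_fun hv.2 ⟨y w, w, hw, rfl⟩))⟩
  have d8 := Submodule.finrank_sup_add_finrank_inf_eq P N
  have d9 : finrank k ↥(P ⊔ N) ≤ finrank k U := Submodule.finrank_mono (sup_le inf_le_left inf_le_left)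
  have d10 : P ⊓ N = ⊥ := eq_bot_iff.2 fun v hv => by
    have h1 : v = -v := ((mP v).1 hv.1).2.symm.trans ((mN v).1 hv.2).2
    have h2 : v = (3 : k) • v - (v - -v) := by module
    rw [← h1, h3] at h2
    simpa using h2
  rw [d10, finrank_bot] at d8
  change finrank k I + _ = _ at d1
  omega

end H56.E8LA
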