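/- Fixed spaces of 2-groups, and the Gelfand trick in arbitrary characteristic. -/
import Cfsg.Agent.H14.E8Tau

set_option autoImplicit false

namespace H56.X

open Module Polynomial H14.E8

universe u

variable {k : Type*} [Field k]

theorem sum_tau_eq_aux (h2 : (2 : k) ≠ 0) {K : Type*} [Group K] [Fintype K] (hK : IsPGroup 2 K)
    (n : ℕ) : ∀ {V : Type u} [AddCommGroup V] [Module k V] [FiniteDimensional k V]
      (ρ : Representation k K V), finrank k V = n →
      ∑ g, tau (ρ g) = Fintype.card K * finrank k ρ.invariants := by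
  induction n using Nat.strong_induction_on with
  | _ n ih =>
  intro V _ _ _ ρ hn
  by_cases h1 : ∀ g, ρ g = 1
  · have : ρ.invariants = ⊤ := eq_top_iff.2 fun v _ g => by rw [h1]; rfl
    rw [this, finrank_top]
    simp [h1, tau_one h2]
  have hQ : IsPGroup 2 (K ⧸ ρ.ker) := hK.to_quotient _
  have : Nontrivial (K ⧸ ρ.ker) := by
    rw [QuotientGroup.nontrivial_iff]
    exact fun e => h1 fun g => MonoidHom.mem_ker.1 (e ▸ Subgroup.mem_top g)
  have := hQ.center_nontrivial
  obtain ⟨m, hm0, hm⟩ := (hQ.to_subgroup (Subgroup.center _)).nontrivial_iff_card.1 this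
  obtain ⟨⟨q, hq⟩, ho⟩ := exists_prime_orderOf_dvd_card' (G := Subgroup.center (K ⧸ ρ.ker)) 2
    (hm ▸ dvd_pow_self 2 hm0.ne')
  obtain ⟨z, rfl⟩ := QuotientGroup.mk_surjective q
  have key : ∀ a b : K, (a : K ⧸ ρ.ker) = b → ρ a = ρ b := fun a b e => by
    have := MonoidHom.mem_ker.1 (QuotientGroup.eq.1 e)
    rw [← mul_inv_cancel_left a b, map_mul, this, mul_one]
  have hc : ∀ g, Commute (ρ g) (ρ z) := fun g => by
    rw [Commute, SemiconjBy, ← map_mul, ← map_mul]
    exact key _ _ (Subgroup.mem_center_iff.1 hq g)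
  rw [← Subgroup.orderOf_coe] at ho
  have hz : ρ z * ρ z = 1 := by
    rw [← map_mul, ← map_one ρ]
    refine key _ _ ?_
    have := pow_orderOf_eq_one (z : K ⧸ ρ.ker)
    rwa [ho, sq] at this
  have hz1 : ρ z ≠ 1 := fun e => by
    have : (z : K ⧸ ρ.ker) = 1 := (QuotientGroup.eq_one_iff _).2 e
    simp [this] at ho
  set W := LinearMap.ker (ρ z - 1)
  have he : ∀ g, W ≤ W.comap (ρ g) := fun g v hv => by
    have h3 : ρ z v = v := by simpa [W, sub_eq_zero] using hv
    have := congrArg (fun f : End k V => f v) (hc g).eq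
    simp only [End.mul_apply, h3] at this
    simp [W, ← this]
  have hd := ih _ (hn ▸ Submodule.finrank_lt (s := W) fun e => hz1
    (sub_eq_zero.1 (LinearMap.ker_eq_top.1 e))) (ρ.subrepresentation W he) rfl
  have h5 : (ρ.subrepresentation W he).invariants.map W.subtype = ρ.invariants := by
    ext v
    constructor
    · rintro ⟨w, hw, rfl⟩ g
      exact congrArg Subtype.val (hw g)
    · intro hv
      exact ⟨⟨v, by simp [W, hv z]⟩, fun g => Subtype.ext (hv g), rfl⟩
  rw [← h5, Submodule.finrank_map_subtype_eq]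
  have h3 : ∑ g, tau (ρ (g * z)) = ∑ g, tau (ρ g) :=
    Fintype.sum_equiv (Equiv.mulRight z) _ _ fun _ => rfl
  have h4 : ∑ g, (tau (ρ g) + tau (ρ (g * z))) = ∑ g, 2 * tau (ρ.subrepresentation W he g) :=
    Finset.sum_congr rfl fun g _ => by rw [map_mul, tau_add_mul (hc g) hz (he g)]; rfl
  rw [Finset.sum_add_distrib, h3, ← Finset.mul_sum, hd] at h4
  omega

variable {V : Type*} [AddCommGroup V] [Module k V] [FiniteDimensional k V]

/-- The dimension of the fixed space of a 2-group. -/
theorem sum_tau_eq (h2 : (2 : k) ≠ 0) {K : Type*} [Group K] [Fintype K] (hK : IsPGroup 2 K)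
    (ρ : Representation k K V) : ∑ g, tau (ρ g) = Fintype.card K * finrank k ρ.invariants :=
  sum_tau_eq_aux h2 hK _ ρ rfl

open Classical in
theorem count_roots {f : End k V} {n : ℕ} (hn : (n : k) ≠ 0) (hf : f ^ n = 1) (μ : k) :
    f.charpoly.roots.count μ = finrank k (f.eigenspace μ) := by
  have : f.IsSemisimple := End.isSemisimple_of_squarefree_aeval_eq_zero
    (X_pow_sub_one_separable_iff.2 hn).squarefree (by simp [hf])
  rw [Polynomial.count_roots, ← LinearMap.finrank_maxGenEigenspace_eq,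
    this.isFinitelySemisimple.maxGenEigenspace_eq_eigenspace]

theorem finrank_le_mul_ker {f : End k V} {n : ℕ} (hf : f ^ n = 0) :
    finrank k V ≤ n * finrank k (LinearMap.ker f) := by
  have : ∀ m, finrank k (LinearMap.ker (f ^ m)) ≤ m * finrank k (LinearMap.ker f) := fun m => by
    induction m with
    | zero => simp [End.one_eq_id]
    | succ m ih =>
      have h1 := (f.domRestrict (LinearMap.ker (f ^ (m + 1)))).finrank_range_add_finrank_ker
      have h2 : finrank k (LinearMap.range (f.domRestrict (LinearMap.ker (f ^ (m + 1))))) ≤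
          finrank k (LinearMap.ker (f ^ m)) := Submodule.finrank_mono (by
        rintro _ ⟨v, rfl⟩
        obtain ⟨v, hv⟩ := v
        rwa [LinearMap.mem_ker, pow_succ, End.mul_apply] at hv)
      have h3 : finrank k (LinearMap.ker (f.domRestrict (LinearMap.ker (f ^ (m + 1))))) ≤
          finrank k (LinearMap.ker f) := by
        rw [← Submodule.finrank_map_subtype_eq]
        refine Submodule.finrank_mono ?_
        rintro _ ⟨v, hv, rfl⟩
        exact hv
      rw [add_mul]; omega
  have h := this n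
  rwa [hf, LinearMap.ker_zero, finrank_top] at h

/-- Two subspaces meet in large dimension. -/
theorem finrank_add_le {A B C : Submodule k V} (h : A ⊓ B ≤ C) :
    finrank k A + finrank k B ≤ finrank k V + finrank k C := by
  have := Submodule.finrank_sup_add_finrank_inf_eq A B
  have := Submodule.finrank_le (A ⊔ B)
  have := Submodule.finrank_mono h
  omega

variable {G : Type*} [Group G]

/-- Gelfand's trick: if every double coset of `⟨κ⟩` is closed under inversion then `κ` fixes at
most a line in every simple module. -/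
theorem gelfand [IsAlgClosed k] (ρ : Representation k G V)
    (hs : ∀ W : Submodule k V, (∀ g, W ≤ W.comap (ρ g)) → W = ⊥ ∨ W = ⊤) (κ : G)
    (hκ : ∀ g : G, ∃ i j : ℕ, g⁻¹ = κ ^ i * g * κ ^ j) :
    finrank k (End.eigenspace (ρ κ) 1) ≤ 1 := by
  by_cases h0 : End.eigenspace (ρ κ) 1 = ⊥
  · rw [h0]; simp
  obtain ⟨v, hv, hv0⟩ := Submodule.exists_mem_ne_zero_of_ne_bot h0
  have : Nontrivial V := nontrivial_of_ne v 0 hv0
  have fix : ∀ u ∈ End.eigenspace (ρ κ) 1, ∀ j : ℕ, ρ (κ ^ j) u = u := fun u hu j => by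
    have : ρ κ u = u := by simpa using End.mem_eigenspace_iff.1 hu
    induction j with
    | zero => simp
    | succ j ih => rw [pow_succ, map_mul, End.mul_apply, this, ih]
  have hr : LinearMap.range (ρ κ - 1) < ⊤ := lt_top_iff_ne_top.2 fun e => hv0 (by
    have := LinearMap.injective_iff_surjective.2 (LinearMap.range_eq_top.1 e)
    exact this (by simp [sub_eq_zero, (by simpa using fix v hv 1 : ρ κ v = v)]))
  obtain ⟨l, hl, hl'⟩ := Submodule.exists_dual_map_eq_bot_of_lt_top hr inferInstance
  have l1 : ∀ u, l (ρ κ u) = l u := fun u => by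
    have : l ((ρ κ - 1) u) ∈ (LinearMap.range (ρ κ - 1)).map l := ⟨_, ⟨u, rfl⟩, rfl⟩
    rw [hl', Submodule.mem_bot] at this
    simpa [sub_eq_zero] using this
  have l2 : ∀ (j : ℕ) u, l (ρ (κ ^ j) u) = l u := fun j u => by
    induction j with
    | zero => simp
    | succ j ih => rw [pow_succ', map_mul, End.mul_apply, l1, ih]
  have sep : ∀ u, (∀ g, l (ρ g u) = 0) → u = 0 := fun u hu => by
    have := (hs (⨅ g, LinearMap.ker (l ∘ₗ ρ g)) fun g w hw => by
      simp only [Submodule.mem_iInf, LinearMap.mem_ker, LinearMap.comp_apply,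
        Submodule.mem_comap] at hw ⊢
      intro g'
      rw [← End.mul_apply, ← map_mul, hw]).resolve_right fun e => hl (LinearMap.ext fun w => by
        have : w ∈ ⨅ g, LinearMap.ker (l ∘ₗ ρ g) := e ▸ trivial
        simpa using (Submodule.mem_iInf _).1 this 1)
    rw [← Submodule.mem_bot k, ← this]
    simpa using hu
  let π : V → (G →₀ k) →ₗ[k] V := fun u => Finsupp.linearCombination k fun g => ρ g u
  let Ψ : (G →₀ k) →ₗ[k] Dual k V := Finsupp.linearCombination k fun g => l ∘ₗ ρ g⁻¹
  have surj : ∀ u, u ≠ 0 → LinearMap.range (π u) = ⊤ := fun u hu => by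
    rw [Finsupp.range_linearCombination]
    refine (hs _ fun g => Submodule.span_le.2 ?_).resolve_left fun e => hu ?_
    · rintro _ ⟨g', rfl⟩
      exact Submodule.subset_span ⟨g * g', by simp⟩
    · have : u ∈ Submodule.span k (Set.range fun g => ρ g u) := Submodule.subset_span ⟨1, by simp⟩
      rwa [e] at this
  have sym : ∀ u ∈ End.eigenspace (ρ κ) 1, ∀ a g, l (ρ g (π u a)) = Ψ a (ρ g⁻¹ u) := by
    intro u hu a g
    simp only [π, Ψ, Finsupp.linearCombination_apply, Finsupp.sum, map_sum, map_smul,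
      LinearMap.sum_apply, LinearMap.smul_apply, LinearMap.comp_apply]
    refine Finset.sum_congr rfl fun h _ => ?_
    obtain ⟨i, j, e⟩ := hκ (g * h)
    have e1 : ∀ a b w, ρ a (ρ b w) = ρ (a * b) w := fun a b w => by rw [map_mul]; rfl
    rw [e1, e1, ← mul_inv_rev, e, ← e1 _ (κ ^ j), ← e1 (κ ^ i), fix u hu, l2]
  have ker : ∀ u ∈ End.eigenspace (ρ κ) 1, u ≠ 0 → LinearMap.ker (π u) = LinearMap.ker Ψ := by
    intro u hu hu0
    ext a
    simp only [LinearMap.mem_ker]
    refine ⟨fun h => LinearMap.ext fun w => ?_, fun h => sep _ fun g => by simp [sym u hu, h]⟩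
    obtain ⟨b, rfl⟩ := LinearMap.range_eq_top.1 (surj u hu0) w
    simp only [π, Finsupp.linearCombination_apply, Finsupp.sum, map_sum, map_smul]
    refine Finset.sum_congr rfl fun g _ => ?_
    rw [← inv_inv g, ← sym u hu, h]
    simp
  rw [finrank_le_one_iff]
  refine ⟨⟨v, hv⟩, fun ⟨u, hu⟩ => ?_⟩
  by_cases hu0 : u = 0
  · exact ⟨0, Subtype.ext (by simp [hu0])⟩
  let e := (π v).quotKerEquivOfSurjective (LinearMap.range_eq_top.1 (surj v hv0))
  let T : End k V := (LinearMap.ker (π v)).liftQ (π u) (by rw [ker v hv hv0, ker u hu hu0]) ∘ₗ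
    e.symm.toLinearMap
  have hT : ∀ a, T (π v a) = π u a := fun a => by
    have : e.symm (π v a) = Submodule.Quotient.mk a := e.symm_apply_eq.2 rfl
    simp only [T, LinearMap.comp_apply, LinearEquiv.coe_coe, this, Submodule.liftQ_apply]
  obtain ⟨c, hc⟩ := End.exists_eigenvalue T
  obtain ⟨w, hw⟩ := hc.exists_hasEigenvector
  obtain ⟨a, rfl⟩ := LinearMap.range_eq_top.1 (surj v hv0) w
  refine ⟨c, Subtype.ext ?_⟩
  by_contra hne
  have h1 : c • v - u ∈ End.eigenspace (ρ κ) 1 := sub_mem (Submodule.smul_mem _ _ hv) hu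
  have h2 : π (c • v - u) a = c • π v a - π u a := by
    simp only [π, Finsupp.linearCombination_apply, Finsupp.sum, map_sub, map_smul, smul_sub,
      Finset.sum_sub_distrib, Finset.smul_sum, smul_comm c]
  have h3 : a ∈ LinearMap.ker (π (c • v - u)) := by
    rw [LinearMap.mem_ker, h2, ← hT, hw.apply_eq_smul, sub_self]
  rw [ker _ h1 (sub_ne_zero.2 hne), ← ker v hv hv0] at h3
  exact hw.2 h3

end H56.X
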