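/- Modules of `SL₂(32)` in characteristic three without fixed points of the unipotent subgroup. -/
import Cfsg.Agent.H56.X1
import Cfsg.Agent.H33.GL2Torus

set_option autoImplicit false

namespace H56.X

open Module Polynomial Matrix H14.E8 H56.SL2M
open scoped MatrixGroups

universe u

variable {F : Type*} [Field F] [Fintype F] [CharP F 2]

theorem exists_sq (a : F) : ∃ r : F, r * r = a := by
  obtain ⟨r, hr⟩ := (Finite.injective_iff_surjective.1 (frobenius F 2).injective) a
  exact ⟨r, by rw [← hr, frobenius_def, sq]⟩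

theorem exists_kappa : ∃ κ : SL(2, F), orderOf κ = Fintype.card F + 1 ∧
    ∀ g : SL(2, F), ∃ i j : ℕ, g⁻¹ = κ ^ i * g * κ ^ j := by
  obtain ⟨e, he⟩ := H33.exists_isEll (F := F)
  obtain ⟨κ, hκ⟩ := he.isCyclic_torS.exists_monoid_generator
  refine ⟨κ, ?_, fun g => ?_⟩
  · rw [Subgroup.orderOf_coe, ← he.card_torS]
    exact orderOf_eq_card_of_forall_mem_powers hκ
  obtain ⟨a, b, hab, ht⟩ : ∃ a b : F, ¬ (a = 0 ∧ b = 0) ∧
      a * g.1.trace + b * (g.1 * e.1).trace = 0 := by
    by_cases h : g.1.trace = 0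
    · exact ⟨1, 0, by simp, by simp [h]⟩
    · exact ⟨(g.1 * e.1).trace, -g.1.trace, by simp [h], by ring⟩
  obtain ⟨r, hr⟩ := exists_sq (a • (1 : H33.M2 F) + b • e.1).det
  have hr0 : r ≠ 0 := fun h => hab (he.eq_zero_of_det (by rw [← hr, h, mul_zero]))
  let t : SL(2, F) := ⟨r⁻¹ • (a • (1 : H33.M2 F) + b • e.1), by
    rw [det_smul, ← hr, Fintype.card_fin]; field_simp⟩
  have ht1 : t ∈ H33.TorS e := (H33.mem_centralizer_iff_comb he.not_isSc).2
    ⟨r⁻¹ * a, r⁻¹ * b, by rw [mul_smul, mul_smul, ← smul_add]; rfl⟩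
  obtain ⟨i, hi⟩ := hκ ⟨t, ht1⟩
  have hi' : (κ : SL(2, F)) ^ i = t := congrArg Subtype.val hi
  refine ⟨i, i, ?_⟩
  rw [hi']
  have h1 : (g * t).1.trace = 0 := by
    change (g.1 * (r⁻¹ • (a • (1 : H33.M2 F) + b • e.1))).trace = 0
    rw [mul_smul_comm, mul_add, mul_smul_comm, mul_smul_comm, mul_one, trace_smul, trace_add,
      trace_smul, trace_smul, smul_eq_mul, smul_eq_mul, smul_eq_mul, ht, mul_zero]
  have h2 : g * t * (g * t) = 1 := by
    generalize g * t = x at h1
    have h3 := x.2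
    rw [det_fin_two] at h3
    rw [trace_fin_two] at h1
    have h4 : (2 : F) = 0 := CharTwo.two_eq_zero
    ext i j
    fin_cases i <;> fin_cases j <;> simp [Matrix.mul_apply, Fin.sum_univ_two]
    · linear_combination x.1 0 0 * h1 - h3 - h4
    · linear_combination x.1 0 1 * h1
    · linear_combination x.1 1 0 * h1
    · linear_combination x.1 1 1 * h1 - h3 - h4
  rw [eq_comm, ← mul_eq_one_iff_eq_inv', ← h2]
  group

theorem xx_conj {t : F} (ht : t ≠ 0) : ∃ s : Fˣ, xx t = hh s * xx 1 * (hh s)⁻¹ := by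
  obtain ⟨r, hr⟩ := exists_sq t
  have h0 : r ≠ 0 := fun h => ht (by rw [← hr, h, mul_zero])
  exact ⟨Units.mk0 r h0, by rw [hh_xx, mul_inv_cancel_right]; simp [hr]⟩

/-- The unipotent subgroup. -/
def xxHom (F : Type*) [Field F] : Multiplicative F →* SL(2, F) where
  toFun t := xx t.toAdd
  map_one' := xx_zero
  map_mul' _ _ := xx_add _ _

variable {k : Type*} [Field k]

theorem sum_tau_xx (h2 : (2 : k) ≠ 0) {V : Type*} [AddCommGroup V] [Module k V]
    [FiniteDimensional k V] (ρ : Representation k SL(2, F) V) :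
    finrank k V + (Fintype.card F - 1) * tau (ρ (xx 1)) =
      Fintype.card F * finrank k (Representation.invariants (ρ.comp (xxHom F))) := by
  classical
  have hK : IsPGroup 2 (Multiplicative F) := fun t => ⟨1, by
    rw [pow_one, sq, ← ofAdd_toAdd t, ← ofAdd_add, CharTwo.add_self_eq_zero]; rfl⟩
  have h := sum_tau_eq h2 hK (ρ.comp (xxHom F))
  rw [← Finset.add_sum_erase _ _ (Finset.mem_univ 1), map_one, tau_one h2,
    Finset.sum_congr rfl (g := fun _ => tau (ρ (xx 1))) fun t ht => ?_] at h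
  · rw [Finset.sum_const, Finset.card_erase_of_mem (Finset.mem_univ _), nsmul_eq_mul,
      Finset.card_univ, Fintype.card_multiplicative,
      Nat.cast_sub Fintype.one_lt_card.le, Nat.cast_one] at h
    exact h
  · obtain ⟨s, hs⟩ := xx_conj (t := t.toAdd) (Finset.ne_of_mem_erase ht)
    change tau (ρ (xx t.toAdd)) = _
    rw [hs, map_mul, map_mul, tau_conj _ _ _ (by rw [← map_mul, mul_inv_cancel, map_one])]

theorem invariants_eq_bot_iff (h2 : (2 : k) ≠ 0) {V : Type*} [AddCommGroup V] [Module k V]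
    (ρ : Representation k SL(2, F) V) :
    Representation.invariants (ρ.comp (xxHom F)) = ⊥ ↔ ∀ v, ∑ t : F, ρ (xx t) v = 0 := by
  refine ⟨fun h v => ?_, fun h => eq_bot_iff.2 fun v hv => ?_⟩
  · rw [← Submodule.mem_bot k, ← h]
    intro u
    rw [map_sum]
    exact Fintype.sum_equiv (Equiv.addLeft u.toAdd) _ _ fun t => by
      rw [Equiv.coe_addLeft, xx_add, map_mul]; rfl
  · have h1 := h v
    have h3 : ∀ t : F, ρ (xx t) v = v := fun t => hv (Multiplicative.ofAdd t)
    rw [Finset.sum_congr rfl fun t _ => h3 t, Finset.sum_const, Finset.card_univ, ← Nat.cast_smul_eq_nsmul k, smul_eq_zero] at h1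
    obtain ⟨n, -, hn⟩ := FiniteField.card F 2
    refine h1.resolve_left ?_
    rw [hn]
    exact_mod_cast pow_ne_zero _ h2

open Classical in
theorem bound32 [IsAlgClosed k] [CharP k 3] (hF : Fintype.card F = 32) {κ : SL(2, F)}
    (ho : κ ^ 33 = 1) (hκ : ∀ g : SL(2, F), ∃ i j : ℕ, g⁻¹ = κ ^ i * g * κ ^ j) (n : ℕ) :
    ∀ {V : Type u} [AddCommGroup V] [Module k V] [FiniteDimensional k V]
      (ρ : Representation k SL(2, F) V), finrank k V = n → (∀ v, ∑ t : F, ρ (xx t) v = 0) →
      31 * (ρ (κ ^ 3)).charpoly.roots.count 1 ≤ 3 * n := by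
  have h2 : (2 : k) ≠ 0 := by
    have := (CharP.cast_eq_zero_iff k 3 2).not.2 (by norm_num)
    exact_mod_cast this
  induction n using Nat.strong_induction_on with | _ n ih =>
  intro V _ _ _ ρ hn hU
  by_cases hs : ∀ W : Submodule k V, (∀ g, W ≤ W.comap (ρ g)) → W = ⊥ ∨ W = ⊤
  · have h1 := sum_tau_xx h2 ρ
    rw [(invariants_eq_bot_iff h2 ρ).2 hU, finrank_bot, hF, hn] at h1
    rw [count_roots (n := 11) ((CharP.cast_eq_zero_iff k 3 11).not.2 (by norm_num))
      (by rw [← map_pow, ← pow_mul, ho, map_one])]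
    set E := End.eigenspace (ρ (κ ^ 3)) 1
    have hE : ∀ v, v ∈ E ↔ ρ (κ ^ 3) v = v := fun v => by simp [E]
    have h3 : ∀ v ∈ E, (ρ κ - 1) v ∈ E := fun v hv => sub_mem ((hE _).2 (by
      rw [← End.mul_apply, ← map_mul, ← pow_succ, pow_succ', map_mul, End.mul_apply,
        (hE v).1 hv])) hv
    have h4 : finrank k E ≤ 3 * finrank k (LinearMap.ker ((ρ κ - 1).restrict h3)) := by
      refine finrank_le_mul_ker (LinearMap.ext fun v => Subtype.ext ?_)
      rcases subsingleton_or_nontrivial V with hV | hV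
      · exact Subsingleton.elim _ _
      have : CharP (End k V) 3 := charP_of_injective_algebraMap (algebraMap k (End k V)).injective 3
      rw [End.pow_restrict, LinearMap.coe_restrict_apply,
        sub_pow_char_of_commute 3 (Commute.one_right _), ← map_pow, one_pow, LinearMap.sub_apply,
        (hE v).1 v.2]
      simp
    have h5 : finrank k (LinearMap.ker ((ρ κ - 1).restrict h3)) ≤ 1 := by
      refine le_trans ?_ (gelfand ρ hs κ hκ)
      rw [← Submodule.finrank_map_subtype_eq]
      refine Submodule.finrank_mono ?_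
      rintro _ ⟨v, hv, rfl⟩
      have := congrArg Subtype.val (LinearMap.mem_ker.1 hv)
      simpa [End.mem_eigenspace_iff, sub_eq_zero] using this
    have h6 := Submodule.finrank_le E
    omega
  push Not at hs
  obtain ⟨W, hW, h1, h2⟩ := hs
  have h3 := W.finrank_quotient_add_finrank
  have h4 := Submodule.finrank_lt h2
  have h5 : finrank k W ≠ 0 := fun e => h1 (Submodule.finrank_eq_zero.1 e)
  have e₁ := ih _ (hn ▸ h4) (ρ.subrepresentation W hW) rfl fun v => Subtype.ext (by
    rw [Submodule.coe_sum]; exact hU v)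
  have e₂ := ih _ (show finrank k (V ⧸ W) < n by omega) (ρ.quotient W hW) rfl fun v => by
    obtain ⟨v, rfl⟩ := W.mkQ_surjective v
    have := congrArg W.mkQ (hU v)
    rwa [map_sum, map_zero] at this
  rw [charpoly_sub_quot W _ (hW _), roots_mul (mul_ne_zero (LinearMap.charpoly_monic _).ne_zero
    (LinearMap.charpoly_monic _).ne_zero), Multiset.count_add]
  change 31 * ((ρ.subrepresentation W hW (κ ^ 3)).charpoly.roots.count 1 +
    (ρ.quotient W hW (κ ^ 3)).charpoly.roots.count 1) ≤ _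
  omega

end H56.X
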