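/- `E₈(3)` has no subgroup `L₂(32)`. -/
import Cfsg.Agent.H56.X2
import Cfsg.Agent.H14.E8Val

set_option autoImplicit false

namespace H56.X

open Module Polynomial Matrix H14.E8 H56.SL2M Cfsg.Lie
open scoped MatrixGroups

theorem tau_invol {k V : Type*} [Field k] [AddCommGroup V] [Module k V] [FiniteDimensional k V]
    (h2 : (2 : k) ≠ 0) {x : End k V} (hx : x * x = 1) :
    finrank k V + tau x = 2 * finrank k (x.eigenspace 1) := by
  have h := tau_add_mul (x := 1) (z := x) (Commute.one_left _) hx fun _ hv => hv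
  rw [one_mul, tau_one h2] at h
  rw [h, End.eigenspace_def, one_smul, ← tau_one h2]
  rfl

theorem exists_inj {F : Type*} [Field F] [CharP F 2] {G : Type*} [Group G] (H : Subgroup G)
    (e : ↥H ≃* PSL(2, F)) : ∃ ψ : SL(2, F) →* G, Function.Injective ψ := by
  refine ⟨H.subtype.comp (e.symm.toMonoidHom.comp (QuotientGroup.mk' _)),
    (injective_iff_map_eq_one _).2 fun a ha => ?_⟩
  have h : (QuotientGroup.mk a : PSL(2, F)) = 1 := by simpa using ha
  obtain ⟨r, h1, h2⟩ := Matrix.SpecialLinearGroup.mem_center_iff.1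
    ((QuotientGroup.eq_one_iff _).1 h)
  have h3 : r = 1 := by
    have h4 : (2 : F) = 0 := CharTwo.two_eq_zero
    rw [Fintype.card_fin] at h1
    exact sub_eq_zero.1 (pow_eq_zero_iff two_ne_zero |>.1 (by
      linear_combination h1 + (1 - r) * h4))
  exact Subtype.ext (by rw [← h2, h3, map_one]; rfl)

theorem no_l232 {F : Type*} [Field F] [Fintype F] (h : Fintype.card F = 32)
    (H : Subgroup ↥(chevE8.group (ZMod 3))) : IsEmpty (↥H ≃* PSL(2, F)) := ⟨fun e => by
  classical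
  have : CharP F 2 := by
    obtain ⟨p, hp⟩ := CharP.exists F
    obtain ⟨m, hp', hm⟩ := FiniteField.card F p
    have : p ∣ 2 ^ 5 := (dvd_pow_self p m.ne_zero).trans (hm.symm.trans h).dvd
    rwa [(Nat.prime_dvd_prime_iff_eq hp' Nat.prime_two).1 (hp'.dvd_of_dvd_pow this)] at hp
  have h4 : (2 : F) = 0 := CharTwo.two_eq_zero
  obtain ⟨ψ, hψ⟩ := exists_inj H e
  let ρ : Representation K3 SL(2, F) (chevE8.Idx → K3) := ad.comp ψ
  obtain ⟨r, hr⟩ := IsCyclic.exists_ofOrder_eq_natCard (α := Fˣ)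
  rw [Nat.card_units, Nat.card_eq_fintype_card, h] at hr
  replace hr : orderOf r = 31 := hr
  have hx : xx (1 : F) * xx 1 = 1 := by rw [← xx_add, one_add_one_eq_two, h4, xx_zero]
  have o2 : orderOf (ψ (xx 1)) = 2 := by
    rw [orderOf_injective _ hψ]
    refine orderOf_eq_prime (by rw [sq, hx]) fun e => ?_
    simpa [xx_coe] using congrArg (fun g : SL(2, F) => g.1 0 1) e
  have o31 : orderOf (ψ (hh (r * r))) = 31 := by
    have : Fact (Nat.Prime 31) := ⟨by norm_num⟩
    rw [orderOf_injective _ hψ]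
    refine orderOf_eq_prime (by
      rw [hh_pow, mul_pow, ← hr, pow_orderOf_eq_one, mul_one, hh_one]) fun e => ?_
    have h1 : r ^ 2 = 1 := Units.ext (by
      simpa [hh_coe, sq] using congrArg (fun g : SL(2, F) => g.1 0 0) e)
    have := orderOf_dvd_of_pow_eq_one h1
    rw [hr] at this
    omega
  have conj : ∀ g : SL(2, F), finrank K3 (chevE8.Idx → K3) + tau (ρ (xx 1)) =
      2 * finrank K3 (End.eigenspace (ρ (g * xx 1 * g⁻¹)) 1) := fun g => by
    rw [← tau_invol two_ne (by rw [← map_mul, conj_mul, hx, mul_one, mul_inv_cancel, map_one]),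
      map_mul, map_mul, tau_conj _ _ _ (by rw [← map_mul, mul_inv_cancel, map_one])]
  have h5 : yy 1 * xx 1 * (yy 1)⁻¹ * (((hh r)⁻¹ * yy 1) * xx 1 * ((hh r)⁻¹ * yy 1)⁻¹) =
      hh (r * r) := by
    have h6 : yy 1 * xx 1 * (yy 1)⁻¹ * (hh r)⁻¹ = hh r * (yy 1 * xx 1 * (yy (1 : F))⁻¹) := by
      rw [mul_inv_eq_iff_eq_mul]
      ext i j
      fin_cases i <;> fin_cases j <;>
        simp [hh_coe, xx_coe, yy_coe, Matrix.mul_apply, Fin.sum_univ_two, CharTwo.neg_eq,
          Matrix.SpecialLinearGroup.coe_inv, adjugate_fin_two, CharTwo.add_self_eq_zero]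
    calc _ = (yy 1 * xx 1 * (yy 1)⁻¹ * (hh r)⁻¹) * yy 1 * xx 1 * (yy 1)⁻¹ * hh r := by group
      _ = hh r * yy 1 * (xx 1 * xx 1) * (yy 1)⁻¹ * hh r := by rw [h6]; group
      _ = _ := by rw [hx, hh_mul]; group
  have h6 := finrank_add_le (A := End.eigenspace (ρ (yy 1 * xx 1 * (yy 1)⁻¹)) 1)
    (B := End.eigenspace (ρ (((hh r)⁻¹ * yy 1) * xx 1 * ((hh r)⁻¹ * yy 1)⁻¹)) 1)
    (C := End.eigenspace (ρ (hh (r * r))) 1) fun v hv => by
      have h7 := End.mem_eigenspace_iff.1 hv.1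
      have h8 := End.mem_eigenspace_iff.1 hv.2
      rw [one_smul] at h7 h8
      rw [End.mem_eigenspace_iff, ← h5, map_mul, End.mul_apply, h8, h7, one_smul]
  have c31 := count31 o31
  rw [count_roots (n := 31) ((CharP.cast_eq_zero_iff K3 3 31).not.2 (by norm_num))
    (by rw [← map_pow, ← o31, pow_orderOf_eq_one, map_one])] at c31
  have c1 := conj (yy 1)
  have c2 := conj ((hh r)⁻¹ * yy 1)
  have t2 : tau (ρ (xx 1)) = 24 ∨ tau (ρ (xx 1)) = -8 := tau2 _ o2
  have c3 : finrank K3 (End.eigenspace (ρ (hh (r * r))) 1) = 8 := c31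
  have h7 := sum_tau_xx two_ne ρ
  rw [finrank_ad] at c1 c2 h6 h7
  rw [h] at h7
  have h8 : finrank K3 (Representation.invariants (ρ.comp (xxHom F))) = 0 := by omega
  obtain ⟨κ, ho, hκ⟩ := exists_kappa (F := F)
  replace ho : orderOf κ = 33 := by rw [ho, h]
  have h9 := bound32 h (κ := κ) (by rw [← ho, pow_orderOf_eq_one]) hκ _ ρ finrank_ad
    ((invariants_eq_bot_iff two_ne ρ).1 (Submodule.finrank_eq_zero.1 h8))
  have c11 : (ρ (κ ^ 3)).charpoly.roots.count 1 = 28 := count11 (by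
    rw [orderOf_injective _ hψ, orderOf_pow, ho]; rfl)
  omega⟩

end H56.X
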