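import Cfsg.Agent.H32.CKSpec
import Cfsg.Agent.H26.MinS8

/-! CKS (S2193), linear and symplectic groups: the linear model, the counting lemma, the slots.
Notes: `blueprints/CKL.md`. -/

set_option autoImplicit false

namespace H56.CK

open Module MulAction H54 H26.ML

section Defs

variable {F V : Type} [Field F] [AddCommGroup V] [Module F V] (L : Subgroup (V ≃ₗ[F] V)) (Ω : Type)
  [MulAction L Ω]

/-- A doubly transitive action of a linear group whose kernel consists of scalars. -/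
structure LM : Prop where
  two : ∀ a b c d : Ω, a ≠ b → c ≠ d → ∃ g : L, g • a = c ∧ g • b = d
  nt : Nontrivial Ω
  ker : ∀ g : L, (∀ ω : Ω, g • ω = ω) → ∀ v, g.1 v ∈ F ∙ v

/-- No transvection fixes a point. -/
def NoTv : Prop := ∀ (g : L) (φ : Dual F V) (u : V), φ u = 0 → (∀ v, g.1 v = v + φ v • u) →
  ∀ ω : Ω, g • ω = ω → g = 1

/-- The stabilisers of vectors are transitive. -/
def VT : Prop := ∀ (x : V) (a b : Ω), ∃ g : L, g.1 x = x ∧ g • a = b

end Defs

/-- Counting the members of an invariant family that move `a` to `b`. -/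
theorem count {Γ Ω X : Type*} [Group Γ] [MulAction Γ Ω] [Finite Ω] [Finite X]
    (two : ∀ a b c d : Ω, a ≠ b → c ≠ d → ∃ g : Γ, g • a = c ∧ g • b = d) (t : X → Γ)
    (ht : ∀ g : Γ, ∃ e : X → X, Function.Injective e ∧ ∀ x, t (e x) = g * t x * g⁻¹) (a : Ω) :
    ∃ r, (∀ b, b ≠ a → Nat.card {x // t x • a = b} = r) ∧
      Nat.card X = Nat.card {x // t x • a = a} + r * (Nat.card Ω - 1) := by
  classical
  let _ := Fintype.ofFinite Ω
  let _ := Fintype.ofFinite X
  have key : ∀ b c, b ≠ a → c ≠ a → Nat.card {x // t x • a = b} ≤ Nat.card {x // t x • a = c} := by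
    intro b c hb hc
    obtain ⟨g, h1, h2⟩ := two a b a c hb.symm hc.symm
    obtain ⟨e, he, h3⟩ := ht g
    refine Nat.card_le_card_of_injective (fun x => ⟨e x.1, ?_⟩) fun x y h =>
      Subtype.ext (he (congrArg Subtype.val h))
    rw [h3, mul_smul, mul_smul, inv_smul_eq_iff.2 h1.symm, x.2, h2]
  have hs : Nat.card X = Nat.card {x // t x • a = a} +
      ∑ b ∈ Finset.univ.erase a, Nat.card {x // t x • a = b} := by
    rw [Finset.add_sum_erase _ (fun b => Nat.card {x // t x • a = b}) (Finset.mem_univ a),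
      ← Nat.card_sigma]
    exact (Nat.card_congr (Equiv.sigmaFiberEquiv fun x => t x • a)).symm
  by_cases h : ∃ b, b ≠ a
  · obtain ⟨b, hb⟩ := h
    have h1 : ∀ c, c ≠ a → Nat.card {x // t x • a = c} = Nat.card {x // t x • a = b} :=
      fun c hc => le_antisymm (key c b hc hb) (key b c hb hc)
    refine ⟨_, h1, ?_⟩
    rw [hs, Finset.sum_congr rfl fun c hc => h1 c (Finset.ne_of_mem_erase hc), Finset.sum_const,
      Finset.card_erase_of_mem (Finset.mem_univ a), Finset.card_univ, Nat.card_eq_fintype_card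
        (α := Ω), smul_eq_mul, mul_comm]
  · refine ⟨0, fun b hb => absurd ⟨b, hb⟩ h, ?_⟩
    rw [hs, Finset.sum_eq_zero fun c hc => absurd ⟨c, Finset.ne_of_mem_erase hc⟩ h, zero_mul]

/-- `SL₃(q)`, `q` odd: a polarity without absolute points. -/
def JobFr : Prop := ∀ (F V Ω : Type) [Field F] [Fintype F] [AddCommGroup V] [Module F V]
  [FiniteDimensional F V] [MulAction (SLg F V) Ω] [Finite Ω], finrank F V = 3 → (2 : F) ≠ 0 →
  NoTv (SLg F V) Ω → VT (SLg F V) Ω → ¬ Odd (Nat.card Ω)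

/-- `SL_(d+1)(q)` on `q^(d+1)` points: `SL_d(q)` has a subgroup of index `q`. -/
def JobQuo : Prop := ∀ (F V Ω : Type) [Field F] [Fintype F] [AddCommGroup V] [Module F V]
  [FiniteDimensional F V] [MulAction (SLg F V) Ω] [Finite Ω] (d : ℕ), finrank F V = d + 1 → 2 ≤ d →
  NoTv (SLg F V) Ω → VT (SLg F V) Ω → Nat.card Ω = Fintype.card F ^ (d + 1) →
  d = 2 ∧ (Fintype.card F = 2 ∨ (2 : F) ≠ 0)

/-- `Sp_2m(q)` on `q^(2m)` points. -/
def JobSK : Prop := ∀ (F Ω : Type) [Field F] [Fintype F] (m : ℕ)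
  [MulAction (Isom (spB (Fin m) F)) Ω] [Finite Ω], 1 ≤ m → LM (Isom (spB (Fin m) F)) Ω →
  NoTv (Isom (spB (Fin m) F)) Ω → Nat.card Ω ≠ Fintype.card F ^ (2 * m)

/-- `Sp_2m(2)` with a point stabiliser that is intransitive on the non-zero vectors. -/
def JobFou : Prop := ∀ (F V Ω : Type) [Field F] [Fintype F] [AddCommGroup V] [Module F V]
  [FiniteDimensional F V] (B : LinearMap.BilinForm F V) [MulAction (Isom B) Ω] [Finite Ω] (D : ℕ),
  Fintype.card F = 2 → B.IsAlt → B.Nondegenerate → Nat.card V = D ^ 2 → 2 < D → LM (Isom B) Ω →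
  ∀ (a : Ω) (v w : V), v ≠ 0 → w ≠ 0 → (∀ g : Isom B, g • a = a → g.1 v ≠ w) →
  2 * Nat.card Ω = D ^ 2 + D ∨ 2 * Nat.card Ω + D = D ^ 2

end H56.CK
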