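import Cfsg.Agent.H42.SimXBSpec

/-! Tower SIM, slot FK: a commutative ring of matrices whose nonzero elements are units is a
field. -/

set_option autoImplicit false

namespace H56.SimFK

open H42.SX H0.Sim

theorem jobFK : JobFK := by
  classical
  intro n F _ _ u q A r hu
  let S : Subalgebra F (Mt n F) := A.toSubalgebra r.one fun a b ha hb => r.mul a ha b hb
  obtain ⟨m, hm, hns⟩ := r.ns
  have h10 : (1 : S) ≠ 0 := by
    intro h
    have h1 : (1 : Mt n F) = 0 := congrArg Subtype.val h
    apply hns 0
    rw [map_zero, ← mul_one m, h1, mul_zero]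
  haveI : Nontrivial S := ⟨1, 0, h10⟩
  have hF : IsField S := by
    refine ⟨⟨1, 0, h10⟩, fun a b => Subtype.ext (r.comm a a.2 b b.2), fun {a} ha => ?_⟩
    have h1 : IsUnit (a : Mt n F) := hu a a.2 fun h => ha (Subtype.ext h)
    have h2 : Function.Injective fun b : S => a * b := fun b c h =>
      Subtype.ext (h1.mul_left_cancel (congrArg Subtype.val h))
    exact Finite.surjective_of_injective h2 1
  letI : Fintype S := Fintype.ofFinite S
  have hc : Fintype.card F ^ 2 ≤ Fintype.card S := by
    rw [Module.card_eq_pow_finrank (K := F) (V := S)]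
    apply Nat.pow_le_pow_right Fintype.card_pos
    by_contra h
    have h1 : 0 < Module.finrank F S := Module.finrank_pos
    have h2 : Module.finrank F S = 1 := by omega
    obtain ⟨c, hc⟩ := (finrank_eq_one_iff_of_nonzero' (1 : S) h10).1 h2 ⟨m, hm⟩
    apply hns c
    have h3 : c • (1 : Mt n F) = m := congrArg Subtype.val hc
    rw [← h3, Matrix.scalar_apply, Matrix.smul_one_eq_diagonal]
  refine ⟨S, hF.toField, inferInstance, S.algebra, S.val, ?_, hc⟩
  ext x
  exact ⟨fun ⟨y, hy⟩ => hy ▸ y.2, fun hx => ⟨⟨x, hx⟩, rfl⟩⟩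

end H56.SimFK
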