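/- ORE tower, chapter 1: basic lemmas. -/
import Cfsg.Agent.H56.OreSpec

set_option autoImplicit false
set_option linter.unusedSectionVars false

namespace H56.Ore

open Module QuadraticMap Polynomial

variable {F V : Type*} [Field F] [AddCommGroup V] [Module F V] {Q : QuadraticForm F V}

/-- The substitution `X ↦ -X`. -/
noncomputable def bar : F[X] →ₐ[F] F[X] := aeval (-X)

@[simp] theorem bar_X : bar (X : F[X]) = -X := aeval_X _

@[simp] theorem bar_C (a : F) : bar (C a) = C a := aeval_C _ _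

@[simp] theorem bar_bar (p : F[X]) : bar (bar p) = p :=
  DFunLike.congr_fun (show bar.comp bar = AlgHom.id F F[X] from algHom_ext (by simp)) p

@[simp] theorem bar_expand (p : F[X]) : bar (expand F 2 p) = expand F 2 p :=
  DFunLike.congr_fun (show bar.comp (expand F 2) = expand F 2 from algHom_ext (by simp)) p

theorem aeval_bar (N : End F V) (p : F[X]) : aeval N (bar p) = aeval (-N) p :=
  DFunLike.congr_fun (show (aeval N).comp bar = aeval (-N) from algHom_ext (by simp)) p

theorem aeval_expand (N : End F V) (p : F[X]) : aeval N (expand F 2 p) = aeval (N ^ 2) p :=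
  expand_aeval 2 p N

theorem X_dvd_bar_sub (p : F[X]) : X ∣ bar p - p := by
  obtain ⟨q, hq⟩ := X_dvd_sub_C (p := p)
  rw [sub_eq_iff_eq_add.1 hq, map_add, map_mul, bar_X, bar_C]
  exact ⟨-bar q - q, by ring⟩

theorem exists_even_odd (p : F[X]) : ∃ a b, p = expand F 2 a + X * expand F 2 b := by
  induction p using Polynomial.induction_on with
  | C a => exact ⟨C a, 0, by simp⟩
  | add p q hp hq =>
    obtain ⟨a, b, rfl⟩ := hp
    obtain ⟨c, d, rfl⟩ := hq
    exact ⟨a + c, b + d, by simp only [map_add]; ring⟩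
  | monomial n c h =>
    obtain ⟨a, b, e⟩ := h
    exact ⟨X * b, a, by rw [pow_succ, ← mul_assoc, e, map_mul, expand_X]; ring⟩

theorem Skew.aeval {N : End F V} (hN : Skew Q N) (p : F[X]) (x y : V) :
    polar Q (aeval N p x) y = polar Q x (aeval N (bar p) y) := by
  induction p using Polynomial.induction_on generalizing x y with
  | C a => simp [algebraMap_end_apply]
  | add p q hp hq => simp [hp, hq]
  | monomial n c h =>
    rw [pow_succ, ← mul_assoc, map_mul, End.mul_apply, h, aeval_X, hN, mul_comm (C c * X ^ n) X,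
      map_mul bar X, map_mul (Polynomial.aeval N)]
    simp

theorem Anti.aeval {N : End F V} {s : O Q} (h : Anti N s) (p : F[X]) (x : V) :
    s (aeval N p x) = aeval N (bar p) (s x) := by
  induction p using Polynomial.induction_on generalizing x with
  | C a => simp [algebraMap_end_apply]
  | add p q hp hq => simp [hp, hq]
  | monomial n c h' =>
    rw [pow_succ, ← mul_assoc, map_mul, End.mul_apply, h', aeval_X, h.2, map_mul bar _ X, map_mul]
    simp

theorem apply_apply {s : O Q} (hs : s * s = 1) (x : V) : s (s x) = x := by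
  rw [← O.mul_apply, hs, O.one_apply]

theorem polar_invol {s : O Q} (hs : s * s = 1) (x y : V) : polar Q (s x) y = polar Q x (s y) := by
  rw [← s.map_polar x, apply_apply hs]

/-- An involution of a parametrising space which keeps the form induces an involution. -/
theorem exists_bar (hQ : Q.polarBilin.Nondegenerate) (h2 : (2 : F) ≠ 0) {X : Type*}
    [AddCommGroup X] [Module F X] (φ : X →ₗ[F] V) (σ : X →ₗ[F] X) (hφ : Function.Surjective φ)
    (hσ : ∀ a, σ (σ a) = a) (h : ∀ a b, polar Q (φ (σ a)) (φ (σ b)) = polar Q (φ a) (φ b)) :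
    ∃ s : O Q, s * s = 1 ∧ ∀ a, s (φ a) = φ (σ a) := by
  obtain ⟨ψ, hψ⟩ := φ.exists_rightInverse_of_surjective (LinearMap.range_eq_top.2 hφ)
  have h0 : ∀ x, φ (ψ x) = x := fun x => LinearMap.congr_fun hψ x
  have h1 : ∀ a, φ (σ (ψ (φ a))) = φ (σ a) := fun a => sub_eq_zero.1 (eq_zero_of_polar hQ fun y => by
    obtain ⟨b, rfl⟩ := hφ y
    rw [← hσ b, polar_sub_left, h, h, h0, sub_self])
  have h3 : ∀ x, (φ ∘ₗ σ ∘ₗ ψ) ((φ ∘ₗ σ ∘ₗ ψ) x) = x := fun x => by simp [h1, hσ, h0]
  exact ⟨O.ofInv _ _ (fun x => mul_left_cancel₀ h2 (by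
    rw [← polar_self', ← polar_self']; simp only [LinearMap.comp_apply, h, h0])) h3 h3,
    O.ext h3, h1⟩

theorem perp_range {T T' : End F V} (hQ : Q.polarBilin.Nondegenerate)
    (h : ∀ x y, polar Q (T x) y = polar Q x (T' y)) :
    perp Q (LinearMap.range T) = LinearMap.ker T' := by
  ext y
  rw [mem_perp, LinearMap.mem_ker]
  refine ⟨fun hy => eq_zero_of_polar hQ fun x => ?_, ?_⟩
  · rw [polar_comm, ← h]; exact hy _ ⟨x, rfl⟩
  · rintro hy _ ⟨x, rfl⟩; rw [h, hy, polar_zero_right]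

theorem nondeg_res {W : Submodule F V} (hW : Disjoint W (perp Q W)) :
    (Q.restrict W).polarBilin.Nondegenerate := nondegenerate_of_polar fun x hx =>
  Subtype.ext (Submodule.disjoint_def.1 hW x x.2 (mem_perp'.2 fun w hw => by
    simpa [H58.polar_restrict] using hx ⟨w, hw⟩))

theorem mem_fix_neg {s : O Q} {x : V} : x ∈ (O.negOne Q * s).fix ↔ s x = -x := by
  rw [O.mem_fix, O.mul_apply, O.negOne_apply, neg_eq_iff_eq_neg]

theorem neg_mul_neg (s t : O Q) : O.negOne Q * s * (O.negOne Q * t) = s * t :=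
  O.ext fun x => by simp

theorem polar_eigen (h2 : (2 : F) ≠ 0) {s : O Q} {x y : V} (hx : s x = x) (hy : s y = -y) :
    polar Q x y = 0 := by
  have := s.map_polar x y
  rw [hx, hy, polar_neg_right] at this
  exact mul_left_cancel₀ h2 (by linear_combination -this)

theorem mov_eq (h2 : (2 : F) ≠ 0) {s : O Q} (hs : s * s = 1) : s.mov = (O.negOne Q * s).fix := by
  ext x
  rw [O.mem_mov, mem_fix_neg]
  refine ⟨by rintro ⟨y, rfl⟩; simp [apply_apply hs], fun h => ⟨-(2 : F)⁻¹ • x, ?_⟩⟩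
  rw [map_smul, h]
  match_scalars
  field_simp
  ring

theorem isCompl_fix (h2 : (2 : F) ≠ 0) {s : O Q} (hs : s * s = 1) :
    IsCompl s.fix (O.negOne Q * s).fix := by
  refine ⟨Submodule.disjoint_def.2 fun x h h' => ?_, codisjoint_iff.2 (eq_top_iff.2 fun x _ => ?_)⟩
  · rw [mem_fix_neg, O.mem_fix.1 h, eq_neg_iff_add_eq_zero, ← two_smul F] at h'
    exact (smul_eq_zero.1 h').resolve_left h2
  · refine Submodule.mem_sup.2 ⟨(2 : F)⁻¹ • (x + s x), ?_, (2 : F)⁻¹ • (x - s x), ?_, ?_⟩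
    · simp [O.mem_fix, apply_apply hs, add_comm]
    · rw [mem_fix_neg, map_smul, map_sub, apply_apply hs, ← smul_neg, neg_sub]
    · match_scalars
      · field_simp; ring
      · ring

/-- The quadratic form `v ↦ B(v, A v)`. -/
noncomputable def qf (Q : QuadraticForm F V) (A : End F V) : QuadraticForm F V :=
  LinearMap.BilinMap.toQuadraticMap (Q.polarBilin.compl₂ A)

theorem qf_apply (A : End F V) (v : V) : qf Q A v = polar Q v (A v) := rfl

theorem ker_pencil (hQ : Q.polarBilin.Nondegenerate) {A : End F V}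
    (hA : ∀ x y, polar Q (A x) y = polar Q x (A y)) (μ : F) :
    LinearMap.ker (qf Q A - μ • Q).polarBilin = LinearMap.ker ((2 : F) • A - μ • 1) := by
  have h : ∀ x y, polar (qf Q A - μ • Q) x y = polar Q (((2 : F) • A - μ • (1 : End F V)) x) y :=
    fun x y => by
      have := hA x y
      simp only [polar, QuadraticMap.sub_apply, QuadraticMap.smul_apply, qf_apply] 
      simp only [map_add, polar_add_left, polar_add_right, LinearMap.sub_apply,
        LinearMap.smul_apply, End.one_apply, polar_sub_left, polar_smul_left, smul_eq_mul, Q_add,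
        polar_comm Q y (A x)]
      linear_combination -this
  ext x
  simp only [LinearMap.mem_ker]
  exact ⟨fun hx => eq_zero_of_polar hQ fun y => by rw [← h]; exact LinearMap.congr_fun hx y,
    fun hx => LinearMap.ext fun y => by rw [polarBilin_apply_apply, h, hx]; simp⟩

theorem rd_eq_zero (hQ : Q.polarBilin.Nondegenerate) : rd Q = 0 := by
  rw [rd, show LinearMap.ker Q.polarBilin = ⊥ from eq_bot_iff.2 fun x hx =>
    eq_zero_of_polar hQ fun y => LinearMap.congr_fun hx y, finrank_bot]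

variable [FiniteDimensional F V] (hQ : Q.polarBilin.Nondegenerate)
include hQ

theorem isCompl_perp {W : Submodule F V} (hW : Disjoint W (perp Q W)) : IsCompl W (perp Q W) :=
  ⟨hW, codisjoint_iff.2 (Submodule.eq_top_of_disjoint _ _ (by
    rw [add_comm, finrank_perp hQ]) hW)⟩

theorem disjoint_perp_perp {W : Submodule F V} (hW : Disjoint W (perp Q W)) :
    Disjoint (perp Q W) (perp Q (perp Q W)) := by
  rw [perp_perp hQ]; exact hW.symm

theorem disjoint_fix_perp (h2 : (2 : F) ≠ 0) {s : O Q} (hs : s * s = 1) :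
    Disjoint s.fix (perp Q s.fix) := by
  rw [O.perp_fix hQ, mov_eq h2 hs]; exact (isCompl_fix h2 hs).1

omit hQ in
theorem rk_eq (h2 : (2 : F) ≠ 0) {s : O Q} (hs : s * s = 1) :
    s.rk = finrank F (O.negOne Q * s).fix := by rw [O.rk, mov_eq h2 hs]

omit hQ in
theorem rk_neg (h2 : (2 : F) ≠ 0) {s : O Q} (hs : s * s = 1) :
    (O.negOne Q * s).rk + s.rk = finrank F V := by
  rw [rk_eq h2 hs, O.rk_add_finrank_fix]

omit hQ in
theorem rk_eq_of_conj {s t : O Q} {u : End F V} (hu : IsUnit u) (h : ∀ x, t (u x) = u (s x)) :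
    s.rk = t.rk := by
  have hb := (End.isUnit_iff u).1 hu
  rw [O.rk, O.rk, (Submodule.equivMapOfInjective u hb.1 s.mov).finrank_eq]
  suffices e : s.mov.map u = t.mov by rw [e]
  ext x
  simp only [Submodule.mem_map, O.mem_mov]
  refine ⟨by rintro ⟨_, ⟨y, rfl⟩, rfl⟩; exact ⟨u y, by rw [h, map_sub]⟩, ?_⟩
  rintro ⟨y, rfl⟩
  obtain ⟨y, rfl⟩ := hb.2 y
  exact ⟨_, ⟨y, rfl⟩, by rw [h, map_sub]⟩

omit hQ in
/-- `N` exchanges the two eigenspaces of `s`. -/
theorem rk_bound (h2 : (2 : F) ≠ 0) {N : End F V} {s : O Q} (h : Anti N s) {d : ℕ}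
    (h1 : finrank F ↥(LinearMap.ker N ⊓ s.fix) ≤ d)
    (h3 : finrank F ↥(LinearMap.ker N ⊓ (O.negOne Q * s).fix) ≤ d) :
    2 * s.rk ≤ finrank F V + d ∧ finrank F V ≤ 2 * s.rk + d := by
  have key : ∀ A B : Submodule F V, (∀ x ∈ A, N x ∈ B) →
      finrank F A ≤ finrank F B + finrank F ↥(LinearMap.ker N ⊓ A) := fun A B hAB => by
    rw [← (N.domRestrict A).finrank_range_add_finrank_ker,
      ← Submodule.finrank_map_subtype_eq A (LinearMap.ker _)]
    refine add_le_add (Submodule.finrank_mono ?_) (Submodule.finrank_mono ?_)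
    · rintro _ ⟨x, rfl⟩; exact hAB x x.2
    · rintro _ ⟨x, hx, rfl⟩; exact ⟨hx, x.2⟩
  have a1 := key s.fix (O.negOne Q * s).fix fun x hx => by
    rw [mem_fix_neg, h.2, O.mem_fix.1 hx]
  have a2 := key (O.negOne Q * s).fix s.fix fun x hx => by
    rw [O.mem_fix, h.2, mem_fix_neg.1 hx, map_neg, neg_neg]
  have a3 := s.rk_add_finrank_fix
  rw [← rk_eq h2 h.1] at a1 a2
  omega

section congr
variable {W : Type*} [AddCommGroup W] [Module F W] [FiniteDimensional F W]
  {Q' : QuadraticForm F W} (hQ' : Q'.polarBilin.Nondegenerate)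
include hQ'

theorem spinor_congr (h2 : (2 : F) ≠ 0) (e : V ≃ₗ[F] W) (h : ∀ v, Q' (e v) = Q v) (g : O Q) :
    spinor hQ' (O.congr e h g) = spinor hQ g := by
  induction g using O.refl_induction hQ (not_isExc_of_two_ne h2) with
  | h1 => simp
  | hmul v _ g ih => rw [map_mul, map_mul, map_mul, ih, O.congr_refl, spinor_refl, spinor_refl, h]

omit hQ hQ' in
theorem rk_congr (e : V ≃ₗ[F] W) (h : ∀ v, Q' (e v) = Q v) (g : O Q) :
    (O.congr e h g).rk = g.rk := by
  rw [O.rk, O.rk, ← e.finrank_map_eq g.mov]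
  suffices e : (O.congr e h g).mov = g.mov.map e.toLinearMap by rw [e]
  ext x
  simp only [Submodule.mem_map, O.mem_mov, O.congr_apply]
  refine ⟨by rintro ⟨y, rfl⟩; exact ⟨_, ⟨e.symm y, rfl⟩, by simp⟩, ?_⟩
  rintro ⟨_, ⟨y, rfl⟩, rfl⟩
  exact ⟨e y, by simp⟩

theorem spinor_prodHom (h2 : (2 : F) ≠ 0) (g : O Q) (g' : O Q') :
    spinor (nondegenerate_prod hQ hQ') (O.prodHom Q Q' (g, g')) = spinor hQ g * spinor hQ' g' := by
  have e : (g, g') = (g, 1) * (1, g') := by simp
  rw [e, map_mul, map_mul]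
  congr 1
  · clear e
    induction g using O.refl_induction hQ (not_isExc_of_two_ne h2) with
    | h1 => exact (congrArg _ (map_one _)).trans (by simp)
    | hmul v _ g ih =>
      have e1 : O.prodHom Q Q' (refl Q v * g, 1) = refl (Q.prod Q') (v, 0) * O.prodHom Q Q' (g, 1) :=
        O.ext fun x => by simp [refl_apply]
      rw [e1, map_mul, map_mul, ih, spinor_refl, spinor_refl]; simp
  · clear e
    induction g' using O.refl_induction hQ' (not_isExc_of_two_ne h2) with
    | h1 => exact (congrArg _ (map_one _)).trans (by simp)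
    | hmul v _ g ih =>
      have e1 : O.prodHom Q Q' (1, refl Q' v * g) = refl (Q.prod Q') (0, v) * O.prodHom Q Q' (1, g) :=
        O.ext fun x => by simp [refl_apply]
      rw [e1, map_mul, map_mul, ih, spinor_refl, spinor_refl]; simp

variable {hQ hQ'}

theorem Pr.congr (h2 : (2 : F) ≠ 0) (e : V ≃ₗ[F] W) (h : ∀ v, Q' (e v) = Q v) {g : O Q} {a b : ℕ}
    {θ : SqCl F} (hg : Pr hQ g a b θ) : Pr hQ' (O.congr e h g) a b θ := by
  obtain ⟨s, h1, h3, rfl, rfl, rfl⟩ := hg
  exact ⟨O.congr e h s, by rw [← map_mul, h1, map_one], by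
    rw [← map_mul, ← map_mul, h3, map_one], rk_congr .., by rw [← map_mul, rk_congr],
    spinor_congr hQ hQ' h2 ..⟩

theorem Pr.prod (h2 : (2 : F) ≠ 0) {g : O Q} {g' : O Q'} {a b a' b' : ℕ} {θ θ' : SqCl F}
    (hg : Pr hQ g a b θ) (hg' : Pr hQ' g' a' b' θ') :
    Pr (nondegenerate_prod hQ hQ') (O.prodHom Q Q' (g, g')) (a + a') (b + b') (θ * θ') := by
  obtain ⟨s, h1, h3, rfl, rfl, rfl⟩ := hg
  obtain ⟨s', h1', h3', rfl, rfl, rfl⟩ := hg'
  refine ⟨O.prodHom Q Q' (s, s'), ?_, ?_, O.rk_prodHom _, ?_, spinor_prodHom hQ hQ' h2 ..⟩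
  · rw [← map_mul, Prod.mk_mul_mk, h1, h1']; exact map_one _
  · rw [← map_mul, ← map_mul, Prod.mk_mul_mk, Prod.mk_mul_mk, h3, h3']; exact map_one _
  · rw [← map_mul, O.rk_prodHom]; rfl

end congr

variable {hQ}

theorem Pr.neg (h2 : (2 : F) ≠ 0) {g : O Q} {a b : ℕ} {θ : SqCl F} (hg : Pr hQ g a b θ) :
    a ≤ finrank F V ∧ b ≤ finrank F V ∧
      Pr hQ g (finrank F V - a) (finrank F V - b) (spinor hQ (O.negOne Q) * θ) := by
  obtain ⟨s, h1, h3, rfl, rfl, rfl⟩ := hg
  have a1 := rk_neg h2 h1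
  have a2 := rk_neg h2 h3
  exact ⟨by omega, by omega, O.negOne Q * s, by rw [neg_mul_neg, h1], by
    rw [mul_assoc _ s, neg_mul_neg, h3], by omega, by rw [mul_assoc]; omega, map_mul ..⟩

theorem Pr.dickson {g : O Q} {a b : ℕ} {θ : SqCl F} (hg : Pr hQ g a b θ) :
    dickson hQ g = (-1) ^ (a + b) := by
  obtain ⟨s, h1, -, rfl, rfl, -⟩ := hg
  rw [pow_add, ← dickson_apply hQ, ← dickson_apply hQ, ← map_mul, ← mul_assoc, h1, one_mul]

variable (hQ)

/-- Splitting along an invariant non-degenerate subspace. -/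
theorem exists_split (g : O Q) {W : Submodule F V} (hW : Disjoint W (perp Q W))
    (hg : ∀ x ∈ W, g x ∈ W) : ∃ (g₁ : O (Q.restrict W)) (g₂ : O (Q.restrict (perp Q W)))
      (e : (W × perp Q W) ≃ₗ[F] V) (he : ∀ v, Q (e v) = (Q.restrict W).prod (Q.restrict _) v),
      (∀ v, e v = v.1 + v.2) ∧ (∀ x, (g₁ x : V) = g x) ∧ (∀ x, (g₂ x : V) = g x) ∧
        g = O.congr e he (O.prodHom _ _ (g₁, g₂)) := by
  have hi : Function.Injective (g.lin.restrict hg) := fun x y h =>
    Subtype.ext (g.injective (congrArg Subtype.val h))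
  have hg' : ∀ x ∈ perp Q W, g x ∈ perp Q W := fun x hx => mem_perp.2 fun w hw => by
    obtain ⟨y, hy⟩ := LinearMap.injective_iff_surjective.1 hi ⟨w, hw⟩
    rw [show w = g y from (congrArg Subtype.val hy).symm, g.map_polar]
    exact mem_perp.1 hx _ y.2
  let e := Submodule.prodEquivOfIsCompl _ _ (isCompl_perp hQ hW)
  have he : ∀ v, Q (e v) = (Q.restrict W).prod (Q.restrict (perp Q W)) v := fun v => by
    change Q (v.1 + v.2) = Q v.1 + Q v.2
    rw [Q_add, mem_perp.1 v.2.2 _ v.1.2, add_zero]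
  refine ⟨O.ofInj (g.lin.restrict hg) (fun x => g.map_Q x) hi, O.ofInj (g.lin.restrict hg')
    (fun x => g.map_Q x) fun x y h => Subtype.ext (g.injective (congrArg Subtype.val h)), e, he,
    fun _ => rfl, fun _ => rfl, fun _ => rfl, O.ext fun x => ?_⟩
  obtain ⟨v, rfl⟩ := e.surjective x
  rw [O.congr_apply, e.symm_apply_apply]
  exact map_add g _ _

end H56.Ore
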