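/- C3 tower (row S5227): the dual configuration and the stabilizer of the hyperplane. -/
import Cfsg.Agent.H20.C3Spec

set_option autoImplicit false
set_option linter.unusedSectionVars false

open Subgroup Matrix H20.C3

namespace H56.C3Du

theorem uM_mul : ∀ a b d A B D : F3, uM a b d * uM A B D = uM (a + A) (b + B) (d + D + a * B) := by
  decide +kernel

theorem uM_zero : uM 0 0 0 = 1 := by decide +kernel

theorem uM5_eq_one : ∀ a b d : F3, uM5 a b d = 1 → a = 0 ∧ b = 0 ∧ d = 0 := by decide +kernel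

theorem uM_inj : ∀ a b d A B D : F3, uM a b d = uM A B D → a = A ∧ b = B ∧ d = D :=
  fun a b d A B D h => ⟨by simpa [uM] using congrFun (congrFun h 2) 1,
    by simpa [uM] using congrFun (congrFun h 1) 0, by simpa [uM] using congrFun (congrFun h 2) 0⟩

/-- the duality -/
def J : Matrix (Fin 6) (Fin 6) F3 :=
  !![0,0,0,0,0,1; 0,0,0,0,1,0; 0,0,-1,0,0,0; 0,0,0,1,0,0; 0,1,0,0,0,0; 1,0,0,0,0,0]

theorem J_mul_J : J * J = 1 := by decide +kernel

theorem J_uM : ∀ a b d : F3, J * (uM (-b) (-a) d)ᵀ * J = uM a b d := by decide +kernel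

variable {X : Type} [Group X] {ρ : X →* Matrix (Fin 6) (Fin 6) F3} {j : F3 → F3 → F3 → X}
  {H : Subgroup X}

theorem j_mul (S : SEm uM ρ j H) (a b d A B D : F3) :
    j a b d * j A B D = j (a + A) (b + B) (d + D + a * B) :=
  S.inj (by rw [map_mul, S.rj, S.rj, S.rj, uM_mul])

theorem j_zero (S : SEm uM ρ j H) : j 0 0 0 = 1 := S.inj (by rw [S.rj, uM_zero, map_one])

theorem j_inv (S : SEm uM ρ j H) (a b d : F3) : (j a b d)⁻¹ = j (-a) (-b) (-d + a * b) := by
  rw [inv_eq_iff_mul_eq_one, j_mul S, ← j_zero S]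
  congr 1 <;> ring

/-- the dual representation -/
def dual (ρ : X →* Matrix (Fin 6) (Fin 6) F3) : X →* Matrix (Fin 6) (Fin 6) F3 where
  toFun g := J * (ρ g⁻¹)ᵀ * J
  map_one' := by rw [inv_one, map_one, transpose_one, mul_one, J_mul_J]
  map_mul' g h := by
    rw [_root_.mul_inv_rev, map_mul, transpose_mul]
    simp only [mul_assoc]
    rw [← mul_assoc J J, J_mul_J, one_mul]

theorem dual_apply (g : X) : dual ρ g = J * (ρ g⁻¹)ᵀ * J := rfl

theorem jobDu : JobDu := by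
  intro X _ _ ρ j H S
  refine ⟨dual ρ, ⟨fun g h e => ?_, fun a b d => ?_, S.syl, S.ne, fun a b d => S.le _ _ _,
    fun g hg a b d h => ?_⟩, fun g hg w hw => ?_⟩
  · have e1 := congrArg (fun M => (J * M * J)ᵀ) e
    simp only [dual_apply, ← mul_assoc, J_mul_J, one_mul] at e1
    simp only [mul_assoc, J_mul_J, mul_one, transpose_transpose] at e1
    exact inv_injective (S.inj e1)
  · rw [dual_apply, j_inv S, S.rj, ← J_uM a b d]
    congr 4; ring
  · obtain ⟨h1, h2, h3⟩ := S.ti g hg _ _ _ h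
    exact ⟨h2, h1, by rw [h1, mul_zero, zero_sub, neg_eq_zero] at h3; exact h3⟩
  · have h1 : ρ g⁻¹ *ᵥ (ρ g *ᵥ vz) = vz := by
      rw [mulVec_mulVec, ← map_mul, inv_mul_cancel, map_one, one_mulVec]
    have h2 : ∀ k : Fin 6, k ≠ 5 → ρ g⁻¹ k 5 = 0 := fun k hk => by
      have h3 : (ρ g⁻¹ *ᵥ vz) k = ρ g⁻¹ k 5 := by simp [mulVec, dotProduct, Fin.sum_univ_six, vz]
      have h4 : vz k = 0 := by fin_cases k <;> simp_all [vz]
      rcases hg with hg | hg
      · rw [hg] at h1; rw [← h3, h1, h4]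
      · rw [hg, mulVec_neg, neg_eq_iff_eq_neg] at h1
        rw [← h3, h1, Pi.neg_apply, h4, neg_zero]
    rw [dual_apply, ← mulVec_mulVec, ← mulVec_mulVec]
    have h5 : (J *ᵥ w) 5 = 0 := by simp [J, mulVec, dotProduct, Fin.sum_univ_six, hw]
    generalize J *ᵥ w = v at h5
    have h6 : ∀ y : Fin 6 → F3, (J *ᵥ y) 0 = y 5 := fun y => by
      simp [J, mulVec, dotProduct, Fin.sum_univ_six]
    rw [h6]
    simp [mulVec, dotProduct, Fin.sum_univ_six, h5, h2]

/-- the subgroup `U` -/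
def UU (S : SEm uM ρ j H) : Subgroup X where
  carrier := {x | ∃ a b d, x = j a b d}
  one_mem' := ⟨0, 0, 0, (j_zero S).symm⟩
  mul_mem' := by
    rintro _ _ ⟨a, b, d, rfl⟩ ⟨A, B, D, rfl⟩
    exact ⟨_, _, _, j_mul S a b d A B D⟩
  inv_mem' := by
    rintro _ ⟨a, b, d, rfl⟩
    exact ⟨_, _, _, j_inv S a b d⟩

theorem card_UU (S : SEm uM ρ j H) : Nat.card (UU S) = 27 := by
  have : Nat.card (F3 × F3 × F3) = Nat.card (UU S) := Nat.card_eq_of_bijective
    (fun p => ⟨j p.1 p.2.1 p.2.2, _, _, _, rfl⟩) ⟨fun p q e => by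
      have e1 := congrArg (fun x : UU S => ρ x.1) e
      simp only [S.rj] at e1
      obtain ⟨h1, h2, h3⟩ := uM_inj _ _ _ _ _ _ e1
      exact Prod.ext h1 (Prod.ext h2 h3), by
      rintro ⟨_, a, b, d, rfl⟩
      exact ⟨(a, b, d), rfl⟩⟩
  rw [← this]; simp [F3]

/-- a `3`-subgroup that contains `U` is `U` -/
theorem eq_UU [Finite X] (S : SEm uM ρ j H) {P : Subgroup X} (hP : IsPGroup 3 P) (h : UU S ≤ P) :
    P = UU S := by
  have : Fact (Nat.Prime 3) := ⟨by decide⟩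
  obtain ⟨k, hk⟩ := IsPGroup.iff_card.1 hP
  have h1 : k ≤ 3 := by
    by_contra h2
    exact S.syl ((Nat.pow_dvd_pow 3 (show 4 ≤ k by omega)).trans (hk ▸ P.card_subgroup_dvd_card))
  refine (eq_of_le_of_card_ge h ?_).symm
  rw [card_UU, hk]
  exact Nat.pow_le_pow_right (by decide) h1

/-- the elements that act trivially on the top factor -/
def XX (ρ : X →* Matrix (Fin 6) (Fin 6) F3) : Subgroup X where
  carrier := {x | ∀ w, (ρ x *ᵥ w) 0 = w 0}
  one_mem' := fun w => by rw [map_one, one_mulVec]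
  mul_mem' := fun {x y} hx hy w => by rw [map_mul, ← mulVec_mulVec, hx, hy]
  inv_mem' := fun {x} hx w => by
    rw [← hx (ρ x⁻¹ *ᵥ w), mulVec_mulVec, ← map_mul, mul_inv_cancel, map_one, one_mulVec]

theorem XX_row {x : X} (hx : x ∈ XX ρ) (k : Fin 6) : ρ x 0 k = if k = 0 then 1 else 0 := by
  have := hx (Pi.single k 1)
  simpa [Pi.single_apply, eq_comm] using this

/-- the action on the hyperplane -/
def blk (ρ : X →* Matrix (Fin 6) (Fin 6) F3) : XX ρ →* Matrix (Fin 5) (Fin 5) F3 where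
  toFun x := (ρ x.1).submatrix Fin.succ Fin.succ
  map_one' := by
    rw [OneMemClass.coe_one, map_one]; exact submatrix_one _ (Fin.succ_injective _)
  map_mul' x y := by
    ext a b
    rw [coe_mul, map_mul, submatrix_apply, mul_apply, mul_apply, Fin.sum_univ_succ, XX_row y.2,
      if_neg (Fin.succ_ne_zero b), mul_zero, zero_add]
    rfl

theorem j_XX (S : SEm uM ρ j H) (a b d : F3) : j a b d ∈ XX ρ := fun w => by
  rw [S.rj]; simp [uM, mulVec, dotProduct, Fin.sum_univ_six]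

theorem blk_j (S : SEm uM ρ j H) (a b d : F3) : blk ρ ⟨j a b d, j_XX S a b d⟩ = uM5 a b d := by
  change (ρ (j a b d)).submatrix _ _ = _
  rw [S.rj]
  ext i k
  fin_cases i <;> fin_cases k <;> rfl

theorem ker_cube (S : SEm uM ρ j H) {x : XX ρ} (h : blk ρ x = 1) : x ^ 3 = 1 := by
  have h0 := XX_row x.2
  have h1 : ∀ a b : Fin 5, ρ x.1 a.succ b.succ = (1 : Matrix (Fin 5) (Fin 5) F3) a b :=
    fun a b => congrFun (congrFun h a) b
  obtain ⟨N, hN⟩ : ∃ N, ρ x.1 = 1 + N := ⟨ρ x.1 - 1, by abel⟩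
  have n0 : ∀ k, N 0 k = 0 := fun k => by
    have := h0 k
    rw [hN, Matrix.add_apply, one_apply] at this
    simpa [eq_comm] using this
  have n1 : ∀ (i : Fin 6) (b : Fin 5), N i b.succ = 0 := fun i b => by
    refine Fin.cases (n0 _) (fun a => ?_) i
    have := h1 a b
    rw [hN, Matrix.add_apply, one_apply, one_apply] at this
    simpa using this
  have n2 : N * N = 0 := by
    ext i k
    rw [mul_apply, Fin.sum_univ_succ, n0]
    simp [n1]
  have n3 : N + N + N = 0 := by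
    ext i k
    simp only [Matrix.add_apply, Matrix.zero_apply]
    generalize N i k = c
    revert c; decide
  refine Subtype.ext (S.inj ?_)
  rw [coe_pow, map_pow, hN, OneMemClass.coe_one, map_one, pow_three]
  simp only [add_mul, mul_add, one_mul, mul_one, n2, add_zero, add_assoc, add_eq_left]
  rw [← add_assoc, n3]

theorem blk_inj [Finite X] (S : SEm uM ρ j H) : Function.Injective (blk ρ) := by
  have : Fact (Nat.Prime 3) := ⟨by decide⟩
  rw [← MonoidHom.ker_eq_bot_iff, eq_bot_iff]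
  intro x hx
  have hU : IsPGroup 3 (UU S) := IsPGroup.iff_card.2 ⟨3, card_UU S⟩
  have hN : IsPGroup 3 (blk ρ).ker := fun y => ⟨1, Subtype.ext (ker_cube S y.2)⟩
  have h1 : IsPGroup 3 (((blk ρ).ker ⊔ (UU S).subgroupOf (XX ρ) : Subgroup (XX ρ))) :=
    IsPGroup.to_sup_of_normal_left hN hU.comap_subtype
  have h2 := eq_UU S (h1.map (XX ρ).subtype) (by
    rintro _ ⟨a, b, d, rfl⟩
    exact ⟨⟨_, j_XX S a b d⟩, mem_sup_right ⟨a, b, d, rfl⟩, rfl⟩)
  obtain ⟨a, b, d, h3⟩ : x.1 ∈ UU S := h2 ▸ ⟨x, mem_sup_left hx, rfl⟩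
  have h4 : x = ⟨j a b d, j_XX S a b d⟩ := Subtype.ext h3
  obtain ⟨rfl, rfl, rfl⟩ := uM5_eq_one a b d (by rw [← blk_j S, ← h4]; exact hx)
  exact mem_bot.2 (Subtype.ext (h3.trans (j_zero S)))

theorem jobHp : JobHp := by
  intro h5 X _ _ ρ j H S g hg
  by_contra h1
  by_cases h2 : XX ρ ≤ H
  · refine one_ne_zero (S.ti g h1 1 0 0 (h2 fun w => ?_)).1
    have h3 := hg (ρ (j 1 0 0) *ᵥ (ρ g⁻¹ *ᵥ w) - ρ g⁻¹ *ᵥ w) (by
      rw [Pi.sub_apply, j_XX S, sub_self])
    rw [mulVec_sub, Pi.sub_apply, sub_eq_zero, mulVec_mulVec, mulVec_mulVec, mulVec_mulVec,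
      ← map_mul, ← map_mul, ← map_mul, mul_inv_cancel, map_one, one_mulVec] at h3
    exact h3
  · exact h5 (XX ρ) (blk ρ) (fun a b d => ⟨j a b d, j_XX S a b d⟩) (H.subgroupOf (XX ρ))
      ⟨blk_inj S, blk_j S, fun h => S.syl (h.trans (XX ρ).card_subgroup_dvd_card),
        fun h => h2 (subgroupOf_eq_top.1 h), fun a b d => S.le a b d,
        fun x hx a b d h => S.ti x.1 hx a b d h⟩

end H56.C3Du
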