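import Cfsg.Agent.H9.CKASpec

/-! CKS (S2193): condition (C) for the linear, symplectic and hyperbolic orthogonal groups. -/

set_option autoImplicit false

namespace H56.CK

open Cfsg H54 H64 H9.CK Matrix Subgroup
open scoped commutatorElement

theorem wt_ray {m : ℕ} (w : Fin m ⊕ Fin m → Fin m → ℤ) (wl : ∀ j, w (.inl j) = Pi.single j 1)
    (wr : ∀ j, w (.inr j) = -Pi.single j 1) {n : ℤ} (hn : 0 < n) {i j : Fin m ⊕ Fin m} {k : Fin m}
    (e : w i - w j = n • Pi.single k 1) : i = .inl k ∧ j = .inr k := by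
  have e1 := congrFun e k
  have h1 : ∀ i, w i k ≤ 0 ∨ i = .inl k := by
    rintro (i | i) <;> by_cases h : k = i <;> simp [wl, wr, h]
  have h2 : ∀ i, 0 ≤ w i k ∨ i = .inr k := by
    rintro (i | i) <;> by_cases h : k = i <;> simp [wl, wr, h]
  have h3 : ∀ i, (∀ x, x ≠ k → w i x = 0) → i = .inl k ∨ i = .inr k := by
    rintro (i | i) h <;> by_cases c : i = k <;> simp [c] <;> simpa [wl, wr] using h i c
  have h4 : ∀ x, x ≠ k → w i x = w j x := fun x h => by simpa [h, sub_eq_zero] using congrFun e x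
  simp only [Pi.sub_apply, Pi.smul_apply, Pi.single_eq_same, smul_eq_mul, mul_one] at e1
  rcases h1 i with a | rfl
  · obtain rfl := (h2 j).resolve_left (by omega)
    refine ⟨(h3 i fun x h => by simp [h4 x h, wr, h]).resolve_right ?_, rfl⟩
    rintro rfl
    omega
  · refine ⟨rfl, (h3 j fun x h => by simp [← h4 x h, wl, h]).resolve_left ?_⟩
    rintro rfl
    omega

theorem sp_long {F : Type} [Field F] [Finite F] {m : ℕ} {t : F} (h0 : t ≠ 0) (h1 : t ≠ 1)
    {k l : Fin m} (h : k < l) :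
    (cdSp F m).US (ray (Pi.single k 1)) ≤ ⁅(htSp F m).grd.U, (htSp F m).grd.U⁆ := by
  have hP : (htSp F m).ht = htFin m 0 := congrArg (htFin m) (if_pos (cdSp_short F m))
  have wl : ∀ j, (cdSp F m).wt (.inl j) = Pi.single j 1 := fun _ => rfl
  have wr : ∀ j, (cdSp F m).wt (.inr j) = -Pi.single j 1 := fun _ => rfl
  have hx : ∀ s : F, ∃ u ∈ (htSp F m).grd.U,
      u • (Pi.single (.inl l) 1 : Fin m ⊕ Fin m → F) = Pi.single (.inl l) 1 + s • Pi.single (.inl k) 1 :=
    fun s => by
      obtain ⟨u, h2, h3⟩ := (cdSp F m).eich (.inl l) (Pi.single (.inl l) 1 + s • Pi.single (.inl k) 1)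
        (cdSp_wt_ne F m _) trivial (by simp [h.ne'])
      refine ⟨u, (htSp F m).grd_U ▸ h3 _ fun j hj hw => ?_, h2⟩
      obtain rfl : j = .inl k := by
        by_contra hc
        simp [hj, hc] at hw
      simp only [mem_posS, hP, wl, map_sub, htFin_single]
      omega
  have hy : ∀ s : F, tv (Pi.single (.inl l) 1) s ∈ (htSp F m).grd.U := fun s => by
    rw [(htSp F m).grd_U]
    intro i j hij
    replace hij : ((tvMat (Pi.single (.inl l) 1) s - 1) *ᵥ Pi.single j 1) i ≠ 0 := by
      simpa using (show (tvMat (Pi.single (.inl l) 1) s - 1) i j ≠ 0 from hij)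
    rw [sub_mulVec, one_mulVec, tvMat_mulVec, add_sub_cancel_left, spB_single_inl_right] at hij
    obtain rfl : i = .inl l := by
      by_contra hc
      simp [hc] at hij
    obtain rfl : j = .inr l := by
      by_contra hc
      simp [Ne.symm hc] at hij
    simp only [SetLike.mem_coe, mem_posS, hP, wl, wr, map_sub, map_neg, htFin_single]
    omega
  have hc : ∀ s u : F, tv (Pi.single (.inl l) 1 + s • Pi.single (.inl k) 1) u *
      tv (Pi.single (.inl l) 1) (-u) ∈ ⁅(htSp F m).grd.U, (htSp F m).grd.U⁆ := fun s u => by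
    obtain ⟨x, h2, h3⟩ := hx s
    rw [← h3, ← tv_conj, ← tv_inv]
    exact commutator_mem_commutator h2 (hy u)
  intro g hg
  have key : ∀ i j, (g.1 - 1) i j ≠ 0 → i = .inl k ∧ j = .inr k := fun i j hij => by
    obtain ⟨n, hn, e⟩ := hg i j hij
    exact wt_ray _ wl wr hn e
  obtain ⟨u, hu⟩ : ∃ u, (t ^ 2 - t) * u = (g.1 - 1) (.inl k) (.inr k) :=
    ⟨_, mul_div_cancel₀ _ (by rw [pow_two, ← mul_sub_one]; exact mul_ne_zero h0 (sub_ne_zero.2 h1))⟩
  have e : g * (tv (Pi.single (.inl l) 1 + (1 : F) • Pi.single (.inl k) 1) (t * u) *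
      tv (Pi.single (.inl l) 1) (-(t * u))) =
      tv (Pi.single (.inl l) 1 + t • Pi.single (.inl k) 1) u * tv (Pi.single (.inl l) 1) (-u) := by
    have e1 : g = tv (Pi.single (.inl k) 1) ((t ^ 2 - t) * u) := sp_ext fun v => by
      rw [tv_smul, spB_single_inl_right, hu, sp_smul_def, ← sub_eq_iff_eq_add',
        show g.1 *ᵥ v - v = (g.1 - 1) *ᵥ v by rw [sub_mulVec, one_mulVec]]
      funext i
      rw [mulVec, dotProduct, Finset.sum_eq_single (.inr k) (fun j _ hj => by
        rw [not_not.1 fun h => hj (key i j h).2, zero_mul]) (by simp)]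
      by_cases hi : i = .inl k
      · simp [hi]
      · simp [hi, not_not.1 fun h => hi (key i _ h).1]
    rw [e1]
    refine sp_ext fun v => ?_
    simp only [mul_smul, tv_smul, map_add, map_smul, LinearMap.add_apply, LinearMap.smul_apply,
      spB_single_inl_right, smul_eq_mul, one_mul, ne_eq, reduceCtorEq, not_false_eq_true,
      Pi.single_eq_of_ne, mul_zero, add_zero]
    module
  rw [eq_mul_inv_of_mul_eq e]
  exact mul_mem (hc t u) (inv_mem (hc 1 _))

theorem jobC1 (cd : JobCD) : JobC1 := by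
  intro p _ F _ _ _
  refine ⟨fun n => HasC.quot ⟨lieSL F n p, cd F _ _ n (cdSL F n) (htSL F n) 1
    (fun a => .inr ⟨a, .inl rfl⟩) (fun k => ⟨k, rfl⟩) rfl (fun h => h.elim) (fun _ => rfl)
    fun h => h.elim⟩, fun m hq => ?_, fun m hm => ?_⟩
  · obtain ⟨t, ht⟩ := ENat.exists_ne_ne_of_three_le (α := F)
      (by rw [ENat.card_eq_coe_fintype_card]; exact_mod_cast hq) 0 1
    exact HasC.quot ⟨lieSp F m p, cd F _ _ m (cdSp F m) (htSp F m) 0 (fdSp F m).wt_std
      (fdSp F m).wt_up (congrArg (htFin m) (if_pos (cdSp_short F m))) (fun _ => rfl)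
      (fun h => absurd (cdSp_short F m) h) fun _ k l h _ => .inr (sp_long ht.1 ht.2 (l := l) (by omega))⟩
  · have hE : ¬ H56.IsExc (H58.qPlus m F) := H56.not_isExc_of_finrank (by simp; omega)
    have hs : ¬ (cdPlus F m hE).short := fun h =>
      h.elim (fun h => h rfl) fun ⟨k, h⟩ => cdPlus_wt_ne F m k h
    exact HasC.quot ⟨lieOmegaPlus F m hE p, cd F _ _ m (cdPlus F m hE) _ 1 (fdPlus F m).wt_std
      (fdPlus F m).wt_up (congrArg (htFin m) (if_neg hs)) (fun h => absurd h hs) (fun _ => rfl)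
      fun h => absurd h hs⟩

end H56.CK
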