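import Cfsg.Agent.H56.CkSpec
import Cfsg.Agent.H32.CKKit

/-! CKS (S2193), linear and symplectic groups: generic lemmas. -/

set_option autoImplicit false
set_option linter.unusedSectionVars false

namespace H56.CK

open Module MulAction Subgroup H32.CK

/-- The Sylow `p`-normalisers are transitive. -/
def BT (p : ℕ) (Γ Ω : Type) [Group Γ] [MulAction Γ Ω] : Prop :=
  ∀ (U : Sylow p Γ) (a b : Ω), ∃ g ∈ normalizer ((U : Subgroup Γ) : Set Γ), g • a = b

/-- The Sylow `p`-subgroups are transitive. -/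
def ST (p : ℕ) (Γ Ω : Type) [Group Γ] [MulAction Γ Ω] : Prop :=
  ∀ (U : Sylow p Γ) (a b : Ω), ∃ g ∈ (U : Subgroup Γ), g • a = b

section Tr

variable {p : ℕ} [Fact p.Prime] {Γ G Ω : Type} [Group Γ] [Finite Γ] [Group G] [Finite G]
  [MulAction G Ω] [MulAction Γ Ω] [Finite Ω] {f : Γ →* G} (hs : Function.Surjective f)
  (hf : ∀ (g : Γ) (ω : Ω), g • ω = f g • ω)
include hs hf

theorem bt_of (hk : f.ker ≤ center Γ) (h : CB p G Ω) : BT p Γ Ω := by
  intro U a b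
  obtain ⟨g, hg, hab⟩ := h.bt (U.mapSurjective hs) a b
  obtain ⟨g, rfl⟩ := hs g
  refine ⟨g, mem_normalizer_fintype fun u hu => ?_, (hf _ _).trans hab⟩
  obtain ⟨u', hu', he⟩ : f (g * u * g⁻¹) ∈ (U : Subgroup Γ).map f := by
    rw [map_mul, map_mul, map_inv]
    exact (mem_normalizer_iff.1 hg _).1 ⟨u, hu, rfl⟩
  have hz : u'⁻¹ * (g * u * g⁻¹) ∈ center Γ := hk (by
    rw [MonoidHom.mem_ker, map_mul, map_inv, he, inv_mul_cancel])
  have h1 : g * u * g⁻¹ ∈ normalizer ((U : Subgroup Γ) : Set Γ) := by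
    rw [← mul_inv_cancel_left u' (g * u * g⁻¹)]
    exact mul_mem (le_normalizer hu') (center_le_normalizer _ hz)
  have h2 := (g • U).isPGroup'.inf_normalizer_sylow U
  exact (h2.le ⟨(Sylow.smul_def (P := U) (g := g)) ▸ ⟨u, hu, rfl⟩, h1⟩).2

theorem st_of (h : Act G Ω) {k : ℕ} (hn : Nat.card Ω = p ^ k) : ST p Γ Ω := by
  intro U a b
  obtain ⟨_, ⟨g, hg, rfl⟩, hab⟩ := h.ppow_trans hn (U.mapSurjective hs) a b
  exact ⟨g, hg, (hf _ _).trans hab⟩

end Tr

theorem lm_of {F V G Ω : Type} [Field F] [AddCommGroup V] [Module F V] {L : Subgroup (V ≃ₗ[F] V)}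
    [Group G] [Finite G] [MulAction G Ω] [MulAction L Ω] [Finite Ω] {f : L →* G}
    (hs : Function.Surjective f) (hf : ∀ (g : L) (ω : Ω), g • ω = f g • ω)
    (hk : ∀ g, f g = 1 → ∀ v, g.1 v ∈ F ∙ v) (h : Act G Ω) : LM L Ω := by
  refine ⟨fun a b c d h1 h2 => ?_, h.nontrivial, fun g hg => hk g (h.eq_one fun a => ?_)⟩
  · obtain ⟨g, hg⟩ := h.ex h1 h2
    obtain ⟨g, rfl⟩ := hs g
    exact ⟨g, by rwa [hf, hf]⟩
  · rw [← hf, hg]

theorem card_prod {A B : Type*} [Finite A] [Finite B] (P : A → Prop) (Q : A → B → Prop) {k : ℕ}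
    (h : ∀ a, P a → Nat.card {b // Q a b} = k) :
    Nat.card {x : A × B // P x.1 ∧ Q x.1 x.2} = Nat.card {a // P a} * k := by
  let _ := Fintype.ofFinite {a // P a}
  have e : {x : A × B // P x.1 ∧ Q x.1 x.2} ≃ Σ a : {a // P a}, {b // Q a.1 b} :=
    ⟨fun x => ⟨⟨x.1.1, x.2.1⟩, x.1.2, x.2.2⟩, fun x => ⟨(x.1.1, x.2.1), x.1.2, x.2.2⟩,
      fun _ => rfl, fun _ => rfl⟩
  rw [Nat.card_congr e, Nat.card_sigma, Finset.sum_congr rfl fun a _ => h a.1 a.2, Finset.sum_const,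
    Finset.card_univ, Nat.card_eq_fintype_card, smul_eq_mul]

theorem card_ne_zero {A : Type*} [AddGroup A] [Finite A] (Y : AddSubgroup A) :
    Nat.card {a // a ≠ 0 ∧ a ∈ Y} = Nat.card Y - 1 := by
  classical
  have e : {a // a ≠ 0 ∧ a ∈ Y} ≃ {y : Y // ¬ y = 0} :=
    ⟨fun x => ⟨⟨x.1, x.2.2⟩, fun h => x.2.1 (congrArg Subtype.val h)⟩,
      fun x => ⟨x.1.1, fun h => x.2 (Subtype.ext h), x.1.2⟩, fun _ => rfl, fun _ => rfl⟩
  let _ := Fintype.ofFinite Y
  rw [Nat.card_congr e, Nat.card_eq_fintype_card, Fintype.card_subtype_compl,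
    Fintype.card_subtype_eq, Nat.card_eq_fintype_card]

section Lin

variable {p : ℕ} [hp : Fact p.Prime] {F V : Type} [Field F] [Fintype F] [CharP F p] [AddCommGroup V]
  [Module F V] [FiniteDimensional F V]

theorem dvd_q : p ∣ Fintype.card F := by
  obtain ⟨n, -, h⟩ := FiniteField.card F p
  exact h ▸ dvd_pow_self p n.ne_zero

variable (F) in
include F in
theorem card_add (Y : AddSubgroup V) : ∃ k, Nat.card Y = p ^ k := by
  have : Finite V := Module.finite_of_finite F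
  obtain ⟨n, -, h⟩ := FiniteField.card F p
  have h1 := Y.card_addSubgroup_dvd_card
  rw [H26.ML.card_V' (F := F) (V := V), h, ← pow_mul] at h1
  exact let ⟨k, _, hk⟩ := (Nat.dvd_prime_pow hp.out).1 h1; ⟨k, hk⟩

/-- A `p`-group whose fixed vectors lie on a line fixes the line; its normaliser stabilises it. -/
theorem fix_line {Γ : Type} [Group Γ] (ρ : Γ →* (V ≃ₗ[F] V)) {S : Subgroup Γ} (hS : IsPGroup p S)
    {x : V} (hx : x ≠ 0) (h : ∀ w, (∀ s ∈ S, ρ s w = w) → w ∈ F ∙ x) :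
    (∀ s ∈ S, ρ s x = x) ∧ ∀ g ∈ normalizer (S : Set Γ), ∃ c : F, c ≠ 0 ∧ ρ g x = c • x := by
  have : Finite V := Module.finite_of_finite F
  have : Nontrivial V := ⟨x, 0, hx⟩
  let _ : MulAction S V := MulAction.compHom V (ρ.comp S.subtype)
  obtain ⟨b, hb, hb0⟩ := hS.exists_fixed_point_of_prime_dvd_card_of_fixed_point V (by
    rw [H26.ML.card_V' (F := F)]
    exact (dvd_q (F := F)).trans (dvd_pow_self _ finrank_pos.ne')) (a := 0)
    fun s => map_zero (ρ s)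
  obtain ⟨c, rfl⟩ := Submodule.mem_span_singleton.1 (h b fun s hs => hb ⟨s, hs⟩)
  have h1 : ∀ s ∈ S, ρ s x = x := fun s hs =>
    smul_right_injective V (r := c) (by rintro rfl; simp at hb0) ((map_smul _ _ _).symm.trans (hb ⟨s, hs⟩))
  refine ⟨h1, fun g hg => ?_⟩
  obtain ⟨d, hd⟩ := Submodule.mem_span_singleton.1 (h (ρ g x) fun s hs => by
    have := h1 _ ((mem_normalizer_iff.1 (inv_mem hg) s).1 hs)
    rw [← LinearEquiv.mul_apply, ← map_mul, show s * g = g * (g⁻¹ * s * g⁻¹⁻¹) by group, map_mul,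
      LinearEquiv.mul_apply, this])
  exact ⟨d, by rintro rfl; exact hx ((ρ g).injective (by simpa using hd.symm)), hd.symm⟩

/-- The elements of `L` that act trivially on the factors of `0 ≤ F x ≤ ker φ ≤ V`. -/
def Eg (L : Subgroup (V ≃ₗ[F] V)) (x : V) (φ : Dual F V) : Subgroup L where
  carrier := {g | (∀ v, φ (g.1 v) = φ v) ∧ (∀ v, φ v = 0 → g.1 v - v ∈ F ∙ x) ∧ g.1 x = x}
  one_mem' := ⟨fun _ => rfl, fun v _ => by simp, rfl⟩
  mul_mem' := by
    rintro a b ⟨h1, h2, h3⟩ ⟨h4, h5, h6⟩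
    refine ⟨fun v => (h1 _).trans (h4 v), fun v hv => ?_, (congrArg a.1 h6).trans h3⟩
    simpa using add_mem (h2 _ ((h4 v).trans hv)) (h5 v hv)
  inv_mem' := by
    rintro a ⟨h1, h2, h3⟩
    have h4 : ∀ v, φ (a.1.symm v) = φ v := fun v => by rw [← h1, a.1.apply_symm_apply]
    refine ⟨h4, fun v hv => ?_, a.1.symm_apply_eq.2 h3.symm⟩
    simpa using neg_mem (h2 _ ((h4 v).trans hv))

theorem Eg_pgroup (L : Subgroup (V ≃ₗ[F] V)) {x : V} (hx : x ≠ 0) (φ : Dual F V) :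
    IsPGroup p (Eg L x φ) := by
  rintro ⟨g, h1, h2, h3⟩
  have : Nontrivial V := ⟨x, 0, hx⟩
  have : CharP (End F V) p := charP_of_injective_algebraMap (algebraMap F _).injective p
  have h4 : ((g.1 : End F V) - 1) ^ 3 = 0 := by
    ext v
    obtain ⟨c, hc⟩ := Submodule.mem_span_singleton.1 (h2 (g.1 v - v) (by simp [h1]))
    have : (((g.1 : End F V) - 1 : End F V) ^ 3 : End F V) v =
      ((g.1 : End F V) - 1 : End F V) (g.1 (g.1 v - v) - (g.1 v - v)) := rfl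
    rw [this, ← hc]
    simp [h3]
  have h5 : (g.1 : End F V) ^ p ^ 2 = 1 := by
    rw [← sub_eq_zero, ← one_pow (p ^ 2), ← sub_pow_char_pow_of_commute _ _ (Commute.one_right _)]
    exact pow_eq_zero_of_le (by nlinarith [hp.out.two_le]) h4
  refine ⟨2, Subtype.ext (Subtype.ext (LinearEquiv.toLinearMap_injective ?_))⟩
  exact (map_pow (LinearEquiv.automorphismGroup.toLinearMapMonoidHom) g.1 _).trans h5

end Lin

end H56.CK
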