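import Cfsg.Agent.H56.CkGen

/-! CKS (S2193), special linear groups: no transvection fixes a point; the two possible degrees. -/

set_option autoImplicit false
set_option linter.unusedSectionVars false

namespace H56.CK

open Module MulAction Subgroup H32.CK H26.ML

variable {p : ℕ} [hp : Fact p.Prime] {F V Ω : Type} [Field F] [Fintype F] [CharP F p] [AddCommGroup V]
  [Module F V] [FiniteDimensional F V]

open Classical in
/-- The transvection `v ↦ v + φ v • u`. -/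
noncomputable def tv (φ : Dual F V) (u : V) : SLg F V :=
  if h : φ u = 0 then ⟨LinearEquiv.transvection h, mem_SLg_of_tv h (LinearEquiv.transvection.apply h)⟩
  else 1

theorem tv_apply {φ : Dual F V} {u : V} (h : φ u = 0) (v : V) : (tv φ u).1 v = v + φ v • u := by
  rw [tv, dif_pos h]; exact LinearEquiv.transvection.apply h v

theorem tv_eq {φ : Dual F V} {u : V} (h : φ u = 0) {g : SLg F V} (hg : ∀ v, g.1 v = v + φ v • u) :
    g = tv φ u := Subtype.ext (LinearEquiv.ext fun v => by rw [hg, tv_apply h])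

theorem tv_add {φ : Dual F V} {u w : V} (h : φ u = 0) (h' : φ w = 0) :
    tv φ (u + w) = tv φ u * tv φ w := (tv_eq (by simp [h, h']) fun v => by
  change (tv φ u).1 ((tv φ w).1 v) = _
  simp only [tv_apply h, tv_apply h', map_add, map_smul, h', smul_zero, add_zero]
  module).symm

theorem tv_conj {φ φ' : Dual F V} {u u' : V} (h : φ u = 0) {g : SLg F V} {c c' : F}
    (h1 : g.1 u = c • u') (h2 : ∀ v, φ (g.1.symm v) = c' * φ' v) (h3 : φ' ((c' * c) • u') = 0) :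
    g * tv φ u * g⁻¹ = tv φ' ((c' * c) • u') := tv_eq h3 fun v => by
  change g.1 ((tv φ u).1 (g.1.symm v)) = _
  rw [tv_apply h, map_add, map_smul, g.1.apply_symm_apply, h1, h2]
  module

theorem eq_zero_of_tv {φ : Dual F V} {u : V} (h : φ u = 0) (h0 : φ ≠ 0)
    (h1 : ∀ v, (tv φ u).1 v ∈ F ∙ v) : u = 0 := by
  obtain ⟨w, hw⟩ : ∃ w, φ w ≠ 0 := by
    by_contra hc
    exact h0 (LinearMap.ext fun w => not_not.1 fun hw => hc ⟨w, hw⟩)
  obtain ⟨c, hc⟩ := Submodule.mem_span_singleton.1 (h1 w)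
  rw [tv_apply h] at hc
  have h2 := congrArg φ hc
  simp only [map_smul, map_add, h, smul_eq_mul, mul_zero, add_zero] at h2
  rw [(mul_eq_right₀ hw).1 h2, one_smul, left_eq_add] at hc
  exact (smul_eq_zero.1 hc).resolve_left hw

theorem card_ker {φ : Dual F V} (h0 : φ ≠ 0) {d : ℕ} (hd : finrank F V = d + 1) :
    Nat.card (LinearMap.ker φ) = Fintype.card F ^ d := by
  have := Module.Dual.finrank_ker_add_one_of_ne_zero h0
  rw [card_V' (F := F)]
  congr 1
  omega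

/-- A Sylow subgroup that fixes the flag, with a normaliser that stabilises it. -/
theorem exists_sylow {φ : Dual F V} {x : V} (h : φ x = 0) (h0 : φ ≠ 0) (hx : x ≠ 0) :
    ∃ S : Sylow p (SLg F V), (∀ s ∈ (S : Subgroup (SLg F V)), s.1 x = x) ∧
      ∀ g ∈ normalizer ((S : Subgroup (SLg F V)) : Set (SLg F V)),
        (∃ c : F, c ≠ 0 ∧ g.1 x = c • x) ∧ ∃ c : F, c ≠ 0 ∧ ∀ v, φ (g.1.symm v) = c * φ v := by
  have := H59.finite_linearEquiv (F := F) (V := V)
  obtain ⟨S, hS⟩ := (Eg_pgroup (p := p) (SLg F V) hx φ).exists_le_sylow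
  obtain ⟨h1, h2⟩ := fix_line (SLg F V).subtype S.isPGroup' hx fun w hw => by
    by_contra hn
    obtain ⟨ψ, h1, h2⟩ := H62.exists_dual_eq_one hn
    have h3 := h2 x (Submodule.mem_span_singleton_self x)
    have h4 := hw (tv ψ x) (hS ⟨fun v => by simp [tv_apply h3, h], fun v _ => by
      simp [tv_apply h3, Submodule.smul_mem, Submodule.mem_span_singleton_self], by simp [tv_apply h3, h3]⟩)
    simp [tv_apply h3, h1, hx] at h4
  obtain ⟨-, h3⟩ := fix_line ((dualHom F V).comp (SLg F V).subtype) S.isPGroup' h0 fun ψ hw => by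
    obtain ⟨c, hc⟩ := H62.exists_smul_of_ker_le (φ := φ) (ψ := ψ) fun u hu => by
      obtain ⟨w, hw'⟩ : ∃ w, φ w ≠ 0 := by
        by_contra hc
        exact h0 (LinearMap.ext fun w => not_not.1 fun hw => hc ⟨w, hw⟩)
      have h4 := hw (tv φ u)⁻¹ (inv_mem (hS ⟨fun v => by simp [tv_apply hu, hu], fun v hv => by
        simp [tv_apply hu, hv], by simp [tv_apply hu, h]⟩))
      have h5 : ψ ((tv φ u).1 w) = ψ w := LinearMap.congr_fun h4 w
      simpa [tv_apply hu, hw'] using h5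
    exact Submodule.mem_span_singleton.2 ⟨c, hc.symm⟩
  refine ⟨S, h1, fun g hg => ⟨h2 g hg, ?_⟩⟩
  obtain ⟨c, h4, h5⟩ := h3 g hg
  exact ⟨c, h4, fun v => LinearMap.congr_fun h5 v⟩

variable [MulAction (SLg F V) Ω] [Finite Ω]

theorem vt_of (h2 : 2 ≤ finrank F V) (h : ST p (SLg F V) Ω) :
    VT (SLg F V) Ω := by
  intro x a b
  obtain ⟨y, hy, hxy⟩ : ∃ y : V, y ≠ 0 ∧ ∀ g : SLg F V, g.1 y = y → g.1 x = x := by
    by_cases hx : x = 0
    · have : Nontrivial V := finrank_pos_iff.1 (by omega : 0 < finrank F V)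
      obtain ⟨y, hy⟩ := exists_ne (0 : V)
      exact ⟨y, hy, fun g _ => by simp [hx]⟩
    · exact ⟨x, hx, fun _ h => h⟩
  obtain ⟨w, -, hw, -⟩ := H62.exists_mem_notMem_ker [] (W := ⊤) (Z := F ∙ y)
    (by rw [finrank_top, finrank_span_singleton hy, List.length_nil]; omega)
  obtain ⟨φ, h3, h4⟩ := H62.exists_dual_eq_one hw
  obtain ⟨S, h5, -⟩ := exists_sylow (p := p) (h4 y (Submodule.mem_span_singleton_self y))
    (by rintro rfl; simp at h3) hy
  obtain ⟨g, hg, h6⟩ := h S a b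
  exact ⟨g, hxy g (h5 g hg), h6⟩

/-- The transvections with axis `φ` that fix `ω`. -/
def Yp (φ : Dual F V) (ω : Ω) : AddSubgroup V where
  carrier := {u | φ u = 0 ∧ tv φ u • ω = ω}
  zero_mem' := ⟨map_zero _, by rw [← tv_eq (map_zero φ) (g := 1) (by simp), one_smul]⟩
  add_mem' := fun h h' => ⟨by simp [h.1, h'.1], by rw [tv_add h.1 h'.1, mul_smul, h'.2, h.2]⟩
  neg_mem' := fun {u} h => ⟨by simp [h.1], by
    conv_lhs => rw [← h.2, ← mul_smul, ← tv_add (by simp [h.1]) h.1, neg_add_cancel,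
      ← tv_eq (map_zero φ) (g := 1) (by simp), one_smul]⟩

/-- The part of `Yp` on the line through `u`. -/
def Rp (φ : Dual F V) (u : V) (ω : Ω) : AddSubgroup F :=
  (Yp φ ω).comap (LinearMap.toSpanSingleton F V u).toAddMonoidHom

theorem mem_Rp {φ : Dual F V} {u : V} {ω : Ω} {c : F} : c ∈ Rp φ u ω ↔ c • u ∈ Yp φ ω := Iff.rfl

theorem card_Rp {φ : Dual F V} {u u' : V} (h : φ u = 0) (h' : φ u' = 0) {g : SLg F V} {c c' : F}
    (hc : c ≠ 0) (hc' : c' ≠ 0) (h1 : g.1 u = c • u') (h2 : ∀ v, φ (g.1.symm v) = c' * φ v) (ω : Ω) :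
    Nat.card (Rp φ u ω) = Nat.card (Rp φ u' (g • ω)) := by
  refine Nat.card_congr ((Equiv.mulLeft₀ (c' * c) (mul_ne_zero hc' hc)).subtypeEquiv fun a => ?_)
  have h3 : g * tv φ (a • u) * g⁻¹ = tv φ ((c' * (a * c)) • u') :=
    tv_conj (by simp [h]) (by rw [map_smul, h1, smul_smul]) h2 (by simp [h'])
  change a • u ∈ Yp φ ω ↔ (c' * c * a) • u' ∈ Yp φ (g • ω)
  rw [show c' * c * a = c' * (a * c) by ring]
  refine and_congr (by simp [h, h']) ?_
  rw [← h3, mul_smul, mul_smul, inv_smul_smul, smul_left_cancel_iff]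

theorem lines_num {p f d j k : ℕ} (hp : p.Prime) (h0 : 0 < j) (hj : j < f) (hd : 2 ≤ d) :
    ((p ^ f) ^ d - 1) * (p ^ j - 1) ≠ (p ^ f - 1) * (p ^ k - 1) := by
  intro h
  have h1 : 1 < p ^ j := Nat.one_lt_pow h0.ne' hp.one_lt
  have h2 : p ^ j < p ^ f := Nat.pow_lt_pow_right hp.one_lt hj
  have h3 : (p ^ f) ^ 1 < (p ^ f) ^ d := Nat.pow_lt_pow_right (by omega) hd
  have h4 : 0 < p ^ k := pow_pos hp.pos k
  rw [pow_one] at h3
  rcases le_or_gt k j with hk | hk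
  · have h5 : p ^ k ≤ p ^ j := Nat.pow_le_pow_right hp.pos hk
    exact (Nat.mul_lt_mul_of_lt_of_le (by omega) (by omega) (by omega)).ne' h
  · have h5 : ((p : ℤ) ^ (j + 1)) ∣ p ^ f := pow_dvd_pow _ hj
    have h6 : ((p : ℤ) ^ (j + 1)) ∣ (p ^ f) ^ d := h5.trans (dvd_pow_self _ (by omega))
    zify [h1.le, h2.le.trans' h1.le, h4, (by omega : 1 ≤ (p ^ f) ^ d)] at h
    have h7 : ((p : ℤ) ^ (j + 1)) ∣ p ^ j := by
      rw [show (p : ℤ) ^ j = p ^ k + (p ^ f) ^ d * (p ^ j - 1) - p ^ f * (p ^ k - 1) by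
        linear_combination -h]
      exact ((pow_dvd_pow _ hk).add (h6.mul_right _)).sub (h5.mul_right _)
    have := (pow_dvd_pow_iff (by exact_mod_cast hp.ne_zero) (Nat.prime_iff_prime_int.1 hp).not_isUnit).1 h7
    omega

theorem noTv {d : ℕ} (hd : finrank F V = d + 1) (h2 : 2 ≤ d) (hm : LM (SLg F V) Ω)
    (hb : BT p (SLg F V) Ω) : NoTv (SLg F V) Ω := by
  have : Finite V := Module.finite_of_finite F
  intro g φ x hx hg ω hω
  obtain rfl := tv_eq hx hg
  by_contra hne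
  have h0 : φ ≠ 0 := by rintro rfl; exact hne (tv_eq hx (by simp)).symm
  have hx0 : x ≠ 0 := by rintro rfl; exact hne (tv_eq hx (by simp)).symm
  obtain ⟨S, -, hS⟩ := exists_sylow (p := p) hx h0 hx0
  have k1 : ∀ a, Nat.card (Rp φ x a) = Nat.card (Rp φ x ω) := fun a => by
    obtain ⟨g, hg, rfl⟩ := hb S ω a
    obtain ⟨⟨c, h3, h4⟩, c', h5, h6⟩ := hS g hg
    exact (card_Rp hx hx h3 h5 h4 h6 ω).symm
  have k2 : ∀ u, u ≠ 0 ∧ φ u = 0 → Nat.card (Rp φ u ω) = Nat.card (Rp φ x ω) := fun u ⟨h3, hu⟩ => by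
    by_cases h4 : u ∈ F ∙ (x - u)
    · obtain ⟨c, hc⟩ := Submodule.mem_span_singleton.1 h4
      have h5 : c ≠ 0 := by rintro rfl; exact h3 (by simpa using hc.symm)
      have h6 : x = (c⁻¹ + 1) • u := by
        rw [add_smul, one_smul, ← sub_eq_iff_eq_add, eq_inv_smul_iff₀ h5, hc]
      have h7 : c⁻¹ + 1 ≠ 0 := fun h => hx0 (by rw [h6, h, zero_smul])
      simpa using (card_Rp hx hu (g := 1) h7 one_ne_zero h6 (fun _ => (one_mul _).symm) ω).symm
    · obtain ⟨θ, h5, h6⟩ := H62.exists_dual_eq_one h4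
      have h7 := h6 _ (Submodule.mem_span_singleton_self _)
      rw [card_Rp hu hx (g := tv θ (x - u)) one_ne_zero one_ne_zero (by simp [tv_apply h7, h5])
        (fun v => by
          obtain ⟨v, rfl⟩ := (tv θ (x - u)).1.surjective v
          rw [LinearEquiv.symm_apply_apply]
          simp [tv_apply h7 v, hx, hu]) ω, k1]
  obtain ⟨j, hj⟩ := card_add (p := p) F (V := F) (Rp φ x ω)
  obtain ⟨k, hk⟩ := card_add (p := p) F (Yp φ ω)
  obtain ⟨f, -, hq⟩ := FiniteField.card F p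
  have c1 := card_prod (fun u : V => u ≠ 0 ∧ φ u = 0) (fun u (c : F) => c ≠ 0 ∧ c ∈ Rp φ u ω)
    fun u hu => by rw [card_ne_zero, k2 u hu]
  have c2 := card_prod (fun c : F => c ≠ 0 ∧ c ∈ (⊤ : AddSubgroup F))
    (fun _ (w : V) => w ≠ 0 ∧ w ∈ Yp φ ω) fun _ _ => card_ne_zero _
  have c3 := card_ne_zero (LinearMap.ker φ).toAddSubgroup
  rw [Nat.card_congr (β := {x : F × V // (x.1 ≠ 0 ∧ x.1 ∈ (⊤ : AddSubgroup F)) ∧ x.2 ≠ 0 ∧ x.2 ∈ Yp φ ω})
    ⟨fun y => ⟨(y.1.2, y.1.2 • y.1.1), ⟨y.2.2.1, trivial⟩,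
      smul_ne_zero y.2.2.1 y.2.1.1, y.2.2.2⟩,
    fun y => ⟨(y.1.1⁻¹ • y.1.2, y.1.1), ⟨smul_ne_zero (inv_ne_zero y.2.1.1) y.2.2.1, by
      simp [y.2.2.2.1]⟩, y.2.1.1, by rw [mem_Rp, smul_inv_smul₀ y.2.1.1]; exact y.2.2.2⟩,
    fun y => Subtype.ext (Prod.ext (inv_smul_smul₀ y.2.2.1 _) rfl),
    fun y => Subtype.ext (Prod.ext rfl (smul_inv_smul₀ y.2.1.1 _))⟩, c2, card_ne_zero,
    (show Nat.card {u : V // u ≠ 0 ∧ φ u = 0} = _ from c3), (show Nat.card
      (LinearMap.ker φ).toAddSubgroup = _ from card_ker h0 hd), hj, hk, AddSubgroup.card_top,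
    Nat.card_eq_fintype_card, hq] at c1
  have h1 : (1 : F) ∈ Rp φ x ω := by rw [mem_Rp, one_smul]; exact ⟨hx, hω⟩
  refine lines_num hp.out (Nat.pos_of_ne_zero ?_) ?_ h2 c1.symm
  · rintro rfl
    rw [pow_zero, AddSubgroup.card_eq_one] at hj
    exact one_ne_zero (AddSubgroup.mem_bot.1 (hj ▸ h1))
  · by_contra hn
    refine hx0 (eq_zero_of_tv hx h0 (hm.ker _ fun a => ?_))
    have h3 : Rp φ x a = ⊤ := AddSubgroup.eq_top_of_le_card _ (by
      rw [k1, hj, Nat.card_eq_fintype_card, hq]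
      exact Nat.pow_le_pow_right hp.out.pos (not_lt.1 hn))
    have h4 : (1 : F) • x ∈ Yp φ a := mem_Rp.1 (h3 ▸ AddSubgroup.mem_top (1 : F))
    rw [one_smul] at h4
    exact h4.2

theorem deg_num {q d n r : ℕ} (hq : 2 ≤ q) (hd : 1 ≤ d) (hn : 2 ≤ n) (h1 : q ^ d ∣ n)
    (h2 : (q ^ (d + 1) - 1) * (q ^ d - 1) = r * (n - 1)) : n = q ^ d ∨ n = q ^ (d + 1) := by
  obtain ⟨k, rfl⟩ := h1
  have hQ : q ≤ q ^ d := Nat.le_self_pow (by omega) q
  rw [pow_succ] at h2 ⊢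
  generalize q ^ d = Q at *
  have hk : 1 ≤ k := Nat.pos_of_ne_zero (by rintro rfl; omega)
  have h3 : 1 ≤ Q * q := Nat.mul_pos (by omega) (by omega)
  zify [h3, (by omega : 1 ≤ Q), (by omega : 1 ≤ Q * k)] at h2
  obtain ⟨s, hs⟩ : ∃ s : ℤ, (r : ℤ) + 1 = Q * s :=
    ⟨r * k + q + 1 - Q * q, by linear_combination h2⟩
  have h4 : (s * k - q) * (Q : ℤ) = s + k - q - 1 := mul_left_cancel₀ (a := (Q : ℤ))
    (by omega) (by linear_combination -h2 - (Q * k - 1) * hs)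
  have h5 : 1 ≤ s := by
    by_contra h
    nlinarith [mul_nonneg (by omega : (0 : ℤ) ≤ Q) (by omega : 0 ≤ -s)]
  have h6 : 0 ≤ (s - 1) * (k - 1) := mul_nonneg (by omega) (by omega)
  have h7 : s * k = q := by
    rcases lt_trichotomy (s * k) q with h | h | h
    · nlinarith [mul_nonneg (by omega : (0 : ℤ) ≤ q - s * k - 1) (by omega : (0 : ℤ) ≤ Q)]
    · exact h
    · nlinarith [mul_nonneg (by omega : (0 : ℤ) ≤ s * k - q - 1) (by omega : (0 : ℤ) ≤ Q - 2)]
  have h8 : (s - 1) * (k - 1) = 0 := by linear_combination h7 + h4 - (Q : ℤ) * h7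
  rcases mul_eq_zero.1 h8 with h | h
  · right
    have : (k : ℤ) = q := by linear_combination h7 - k * h
    rw [Nat.cast_inj.1 this]
  · left
    rw [show k = 1 by omega, mul_one]

theorem deg {d : ℕ} (hd : finrank F V = d + 1) (h1 : 1 ≤ d) (hm : LM (SLg F V) Ω)
    (hn : NoTv (SLg F V) Ω) :
    Nat.card Ω = Fintype.card F ^ d ∨ Nat.card Ω = Fintype.card F ^ (d + 1) := by
  have : Finite V := Module.finite_of_finite F
  have : Finite (Dual F V) := Module.finite_of_finite F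
  have := H59.finite_linearEquiv (F := F) (V := V)
  have := hm.nt
  have key : ∀ (φ : Dual F V) u (ω : Ω), φ ≠ 0 → φ u = 0 → tv φ u • ω = ω → u = 0 :=
    fun φ u ω h0 h h' => eq_zero_of_tv h h0 fun v => by
      rw [hn _ φ u h (tv_apply h) ω h']; exact Submodule.mem_span_singleton_self v
  obtain ⟨a⟩ : Nonempty Ω := inferInstance
  obtain ⟨r, -, hr⟩ := count hm.two
    (fun x : {x : Dual F V × V // x.1 ≠ 0 ∧ x.2 ≠ 0 ∧ x.1 x.2 = 0} => tv x.1.1 x.1.2) (fun g =>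
      ⟨fun x => ⟨(dualHom F V g.1 x.1.1, g.1 x.1.2), (map_ne_zero_iff _ (LinearEquiv.injective _)).2
        x.2.1, (map_ne_zero_iff _ g.1.injective).2 x.2.2.1,
        (congrArg x.1.1 (g.1.symm_apply_apply _)).trans x.2.2.2⟩,
      fun x y h => Subtype.ext (Prod.ext
        ((dualHom F V g.1).injective (congrArg (fun z => z.1.1) h))
        (g.1.injective (congrArg (fun z => z.1.2) h))), fun x => by
        have h3 : dualHom F V g.1 x.1.1 (g.1 x.1.2) = 0 :=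
          (congrArg x.1.1 (g.1.symm_apply_apply _)).trans x.2.2.2
        rw [tv_conj x.2.2.2 (c := 1) (c' := 1) (φ' := dualHom F V g.1 x.1.1) (one_smul _ _).symm
          (fun _ => (one_mul _).symm) (by simpa using h3), mul_one, one_smul]⟩) a
  have he : IsEmpty {x : {x : Dual F V × V // x.1 ≠ 0 ∧ x.2 ≠ 0 ∧ x.1 x.2 = 0} //
      tv x.1.1 x.1.2 • a = a} := ⟨fun x => x.1.2.2.1 (key _ _ a x.1.2.1 x.1.2.2.2 x.2)⟩
  have c1 := card_ne_zero (⊤ : AddSubgroup (Dual F V))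
  rw [AddSubgroup.card_top, card_V' (F := F) (V := Dual F V), Subspace.dual_finrank_eq, hd] at c1
  rw [card_prod (fun φ : Dual F V => φ ≠ 0) (fun φ u => u ≠ 0 ∧ φ u = 0)
    (k := Fintype.card F ^ d - 1) fun φ h => by
      rw [← card_ker h hd]; exact card_ne_zero (LinearMap.ker φ).toAddSubgroup,
    @Nat.card_of_isEmpty _ he, zero_add, Nat.card_congr (Equiv.subtypeEquivRight fun φ =>
      (and_iff_left (AddSubgroup.mem_top φ)).symm), c1] at hr
  refine deg_num Fintype.one_lt_card h1 Finite.one_lt_card ?_ hr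
  obtain ⟨φ, h0⟩ : ∃ φ : Dual F V, φ ≠ 0 := by
    have : Nontrivial (Dual F V) := finrank_pos_iff.1 (by
      rw [Subspace.dual_finrank_eq]; omega : 0 < finrank F _)
    exact exists_ne 0
  let τ : Multiplicative (LinearMap.ker φ) →* SLg F V :=
    MonoidHom.mk' (fun u => tv φ u.toAdd.1) fun u w => tv_add u.toAdd.2 w.toAdd.2
  refine mod_dvd τ.range fun ω => ?_
  rw [← index_comap, (eq_bot_iff.2 fun u hu => Subtype.ext (key φ _ ω h0 u.toAdd.2 hu) :
    (stabilizer _ ω).comap τ = ⊥), index_bot, ← card_ker h0 hd]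
  rfl

end H56.CK
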