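/- CKS (S2193), slot PL: the end nodes of `PSL_n`. -/
import Cfsg.Agent.H54.CKTD

set_option autoImplicit false
set_option linter.unusedSectionVars false

namespace H56.CK

open Cfsg H54 H64 H9.CK Matrix
open scoped LinearAlgebra.Projectivization

section gen

variable {F J κ G : Type*} [Field F] [Fintype J] [DecidableEq J] [Fintype κ] [Group G] [Finite G]
  {D : CD F J κ G} (P : D.Ht)

/-- The maximal parabolic subgroup as a group of block triangular matrices. -/
theorem PJ_eq_PS (top : P.grd.Gp = ⊤) (i : P.Sim) (ω : (κ → ℤ) →+ ℤ)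
    (h0 : ∀ r, D.IsRoot r → P.ht r = 1 → ω r = 0 ∨ r = i.1.1) (hi : 0 < ω i.1.1)
    (hm : ∀ a b, 0 ≤ P.ht (D.wt a - D.wt b) → 0 ≤ ω (D.wt a - D.wt b)) :
    P.grd.PJ {i}ᶜ = D.PS (nonnegS ω) := by
  have hB : P.grd.B ≤ D.PS (nonnegS ω) := by
    rw [P.grd_B]
    exact fun g hg a b h => hm a b (hg.1 a b h)
  rw [P.grd.eq_PJ_of_B_le hB (by rw [top]; exact le_top)]
  congr 1
  ext j
  simp only [Set.mem_compl_iff, Set.mem_singleton_iff, Set.mem_ofPred_eq]
  constructor
  · intro hj
    have e : ω j.1.1 = 0 :=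
      (h0 _ j.1.2 j.2).resolve_right fun e => hj (Subtype.ext (Subtype.ext e))
    refine D.US_le_PS ?_
    rintro _ ⟨t, -, rfl⟩
    change 0 ≤ ω (t • -j.1.1)
    rw [map_zsmul, map_neg, e, neg_zero, smul_zero]
  · rintro h rfl
    obtain ⟨x, hx, h1⟩ := (j.1.2.neg).exists_ne_one
    refine h1 (CD.eq_one_of_pos_neg (h hx) (D.US_mono ?_ hx))
    rintro _ ⟨t, ht, rfl⟩
    change 0 < -ω (t • -j.1.1)
    rw [map_zsmul, map_neg, smul_eq_mul, mul_neg, neg_neg]
    exact mul_pos ht hi

end gen

section SL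

variable {F : Type} [Field F] [Fintype F] {n : ℕ}

theorem index_col (k : Fin n) (M : Subgroup (SpecialLinearGroup (Fin n) F))
    (hM : ∀ g, g ∈ M ↔ ∀ i, i ≠ k → g.1 i k = 0) :
    M.index * (Fintype.card F - 1) = Fintype.card F ^ n - 1 := by
  have hv : (Pi.single k 1 : Fin n → F) ≠ 0 := by simp
  have e : M = MulAction.stabilizer _ (Projectivization.mk F _ hv) := by
    ext g
    rw [hM, MulAction.mem_stabilizer_iff, Projectivization.smul_mk,
      Projectivization.mk_eq_mk_iff']
    have hg : ∀ i, (g • (Pi.single k 1 : Fin n → F)) i = g.1 i k := fun i => by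
      change (g.1 *ᵥ Pi.single k 1) i = _
      simp
    constructor
    · intro h
      refine ⟨g.1 k k, funext fun i => ?_⟩
      rw [hg]
      by_cases c : i = k
      · simp [c]
      · simp [c, h i c]
    · rintro ⟨a, ha⟩ i c
      rw [← hg, ← ha]
      simp [c]
  have := Projectivization.card F (Fin n → F)
  rw [e, MulAction.index_stabilizer_of_transitive, ← Nat.card_eq_fintype_card, ← this]
  simp

theorem index_row (k : Fin n) (M : Subgroup (SpecialLinearGroup (Fin n) F))
    (hM : ∀ g, g ∈ M ↔ ∀ j, j ≠ k → g.1 k j = 0) :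
    M.index * (Fintype.card F - 1) = Fintype.card F ^ n - 1 := by
  let M' : Subgroup (SpecialLinearGroup (Fin n) F) :=
    { carrier := {g | g.transpose ∈ M}
      one_mem' := by
        have : (1 : SpecialLinearGroup (Fin n) F).transpose = 1 := Subtype.ext transpose_one
        rw [Set.mem_ofPred_eq, this]; exact one_mem _
      mul_mem' := fun {a b} ha hb => by
        have : (a * b).transpose = b.transpose * a.transpose := Subtype.ext (transpose_mul _ _)
        rw [Set.mem_ofPred_eq, this]; exact mul_mem hb ha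
      inv_mem' := fun {a} ha => by
        have : a⁻¹.transpose = a.transpose⁻¹ := by
          rw [eq_inv_iff_mul_eq_one]
          refine Subtype.ext ?_
          have h : a.1 * (a⁻¹).1 = 1 := congrArg Subtype.val (mul_inv_cancel a)
          change (a⁻¹).1ᵀ * a.1ᵀ = 1
          rw [← transpose_mul, h]
          exact transpose_one
        rw [Set.mem_ofPred_eq, this]; exact inv_mem ha }
  have hc : Nat.card M' = Nat.card M := Nat.card_congr
    ⟨fun g => ⟨g.1.transpose, g.2⟩, fun g => ⟨g.1.transpose, g.2⟩, fun _ => rfl, fun _ => rfl⟩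
  have h1 := M.index_mul_card
  have h2 := M'.index_mul_card
  rw [hc, ← h1] at h2
  rw [← Nat.eq_of_mul_eq_mul_right Nat.card_pos h2]
  exact index_col k M' fun g => hM g.transpose

end SL

theorem index_quot {p : ℕ} {G : Type} [Group G] [Finite G] (Λ : LieS p G) (J : Set Λ.ι)
    (h : Subgroup.center G ≤ Λ.T.PJ J) : (Λ.quotCenter.T.PJ J).index = (Λ.T.PJ J).index := by
  have := Λ.finΦ
  have e1 : Λ.quotCenter.T.PJ J = (Λ.T.PJ J).map (QuotientGroup.mk' _) :=
    GRD.map_PJ _ _ (fun g hg e => Λ.T.mem_H_of_comm (by rw [Λ.top]; trivial)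
      fun _ x _ => (Subgroup.mem_center_iff.1 ((QuotientGroup.eq_one_iff g).1 e) x).symm) _
  rw [e1]
  exact Subgroup.index_map_eq _ (QuotientGroup.mk'_surjective _) (by rwa [QuotientGroup.ker_mk'])

theorem jobPL : JobPL := by
  intro p _ F _ _ _ n hn i hi
  have hwt : ∀ a, IsStdWt ((cdSL F n).wt a) := fun a => Or.inr ⟨a, Or.inl rfl⟩
  have hup : ∀ k, ∃ a, (cdSL F n).wt a = Pi.single k 1 := fun k => ⟨k, rfl⟩
  have sim : ∀ r, (cdSL F n).IsRoot r → (htSL F n).ht r = 1 →
      ∃ k l : Fin n, k.1 + 1 = l.1 ∧ r = Pi.single k 1 - Pi.single l 1 := by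
    intro r hr h
    have h' : htFin n 1 r = 1 := h
    rcases hr.std_cases hwt with ⟨k, l, -, rfl⟩ | ⟨⟨a, k, e⟩, -⟩ | ⟨s, -⟩
    · simp only [map_sub, htFin_single] at h'
      exact ⟨k, l, by omega, rfl⟩
    · exact absurd e (single_ne_neg_single a k)
    · exact s.elim
  change (htSL F n).Sim at i
  obtain ⟨k, l, e, ei⟩ := sim _ i.1.2 i.2
  let ω : (Fin n → ℤ) →+ ℤ := dotH fun j => if j.1 ≤ k.1 then 1 else 0
  have hω : ∀ a b : Fin n, ω (Pi.single a 1 - Pi.single b 1) =
      (if a.1 ≤ k.1 then 1 else 0) - if b.1 ≤ k.1 then 1 else 0 := fun a b => by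
    simp only [ω, map_sub, H54.CK.dotH_single]
  have h0 : ∀ r, (cdSL F n).IsRoot r → (htSL F n).ht r = 1 → ω r = 0 ∨ r = i.1.1 := by
    intro r hr h
    obtain ⟨k', l', f, rfl⟩ := sim r hr h
    by_cases c' : k' = k
    · exact Or.inr (by rw [ei, c', show l' = l from Fin.ext (by omega)])
    · have := Fin.val_ne_of_ne c'
      rw [hω]
      left; split_ifs <;> omega
  have h1 : 0 < ω i.1.1 := by rw [ei, hω]; split_ifs <;> omega
  have hP := PJ_eq_PS (htSL F n) (htSL_top F n) i ω h0 h1 fun a b h => by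
    have h' : 0 ≤ htFin n 1 (Pi.single a 1 - Pi.single b 1) := h
    change 0 ≤ ω (Pi.single a 1 - Pi.single b 1)
    simp only [map_sub, htFin_single] at h'
    rw [hω]; split_ifs <;> omega
  have hmem : ∀ g : SpecialLinearGroup (Fin n) F, g ∈ (htSL F n).grd.PJ {i}ᶜ ↔
      ∀ a b : Fin n, k.1 < a.1 → b.1 ≤ k.1 → g.1 a b = 0 := by
    intro g
    rw [hP]
    change (∀ a b, g.1 a b ≠ 0 → 0 ≤ ω (Pi.single a 1 - Pi.single b 1)) ↔ _
    simp only [hω]
    refine ⟨fun h a b ha hb => by_contra fun c => ?_, fun h a b c => ?_⟩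
    · have := h a b c
      split_ifs at this <;> omega
    · by_contra c'
      refine c (h a b ?_ ?_) <;> split_ifs at c' <;> omega
  have hZ : Subgroup.center _ ≤ (htSL F n).grd.PJ {i}ᶜ := by
    intro g hg
    obtain ⟨r, -, hr⟩ := Matrix.SpecialLinearGroup.mem_center_iff.1 hg
    rw [hmem]
    intro a b ha hb
    have : a ≠ b := fun c => by rw [c] at ha; omega
    rw [← hr]
    simp [this]
  refine (congrArg (· * _) (index_quot (lieSL F n p) _ hZ)).trans ?_
  change ((htSL F n).grd.PJ {i}ᶜ).index * _ = _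
  have hl := l.2
  by_cases c0 : k.1 = 0
  · refine index_col k _ fun g => (hmem g).trans ⟨fun h a ha => h a k ?_ le_rfl,
      fun h a b ha hb => ?_⟩
    · have := Fin.val_ne_of_ne ha; omega
    · rw [show b = k from Fin.ext (by omega)]
      exact h a fun c => by rw [c] at ha; omega
  by_cases c1 : l.1 + 1 = n
  · refine index_row l _ fun g => (hmem g).trans ⟨fun h b hb => h l b (by omega) ?_,
      fun h a b ha hb => ?_⟩
    · have := Fin.val_ne_of_ne hb; have := b.2; omega
    · have := a.2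
      rw [show a = l from Fin.ext (by omega)]
      exact h b fun c => by rw [c] at hb; omega
  · exfalso
    have n1 : k ≠ l := fun c => by rw [c] at e; omega
    have n2 : (⟨k.1 - 1, by omega⟩ : Fin n) ≠ ⟨l.1 + 1, by omega⟩ := fun c => by
      have := congrArg Fin.val c
      dsimp only at this
      omega
    refine H54.CK.not_two (htSL F n) i ω h0 h1.le (CD.isRoot_sub hup n1) (CD.isRoot_sub hup n2)
      ?_ ?_ ?_ hi
    · simp only [sub_dotProduct, dotProduct_sub, single_dotProduct, one_mul, Pi.single_apply,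
        Fin.ext_iff]
      split_ifs <;> omega
    · rw [hω]; split_ifs <;> omega
    · rw [hω]; dsimp only; split_ifs <;> omega

end H56.CK
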