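import Cfsg.Agent.H56.CkGen

/-! CKS (S2193), symplectic groups: a point stabiliser that is transitive on the projective points
forces the degree `q^(2m)`. -/

set_option autoImplicit false
set_option linter.unusedSectionVars false

namespace H56.CK

open Module MulAction Subgroup H32.CK H54 H26.MS
open scoped LinearAlgebra.Projectivization

theorem sp_num {p i j N n r : ℕ} (hp : p.Prime) (hi : 0 < i) (hN : 0 < N) (hn : 1 ≤ n)
    (h1 : ((p ^ j * p ^ i : ℕ) : ℤ) ∣ N - 1) (h2 : N * (p ^ j * p ^ i) = N * p ^ j + r * (n - 1))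
    (h3 : p ^ i ∣ n) (h4 : N * (p ^ j * p ^ i - 1) < (p ^ j * p ^ i + 1) * (n - 1))
    (h5 : j = 0 ∨ p ^ (i + 1) ∣ n) : j = 0 ∧ n = N * (p ^ j * p ^ i - 1) + 1 := by
  have hM : 1 < p ^ i := Nat.one_lt_pow hi.ne' hp.one_lt
  have hy : 0 < p ^ j := pow_pos hp.pos j
  have hc : (p ^ j).Coprime (n - 1) := Nat.Coprime.pow_left _ ((Nat.Prime.coprime_iff_not_dvd hp).2
    fun h => hp.one_lt.ne' (Nat.dvd_one.1 ((Nat.dvd_sub_iff_right hn
      ((dvd_pow_self p hi.ne').trans h3)).1 h)))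
  obtain ⟨r, rfl⟩ : p ^ j ∣ r := hc.dvd_of_dvd_mul_right ((Nat.dvd_add_right (Dvd.intro_left N rfl)).1
    (h2 ▸ (Dvd.intro _ rfl).mul_left N))
  have h6 : N * p ^ i = N + r * (n - 1) := Nat.eq_of_mul_eq_mul_left hy (by linear_combination h2)
  have h7 : p ^ i ≤ p ^ j * p ^ i := Nat.le_mul_of_pos_left _ hy
  obtain ⟨k, hk⟩ := h3
  obtain ⟨T, hT⟩ := h1
  have h8 : r = 1 := by
    generalize p ^ i = M at *
    generalize p ^ j = y at *
    zify [hn, (by omega : 1 ≤ y * M)] at h6 h4 hk h7 hT hM hN ⊢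
    have h9 : (r : ℤ) - 1 = M * (r * k - N + y * T) := by linear_combination h6 + r * hk + hT
    have h10 : (0 : ℤ) < r := by
      by_contra h
      rw [show (r : ℤ) = 0 by omega] at h6
      nlinarith
    have h11 : (r : ℤ) ≤ M := by
      by_contra h
      have h12 : ((M : ℤ) + 1) * (n - 1) ≤ r * (n - 1) :=
        mul_le_mul_of_nonneg_right (by omega) (by omega)
      have h13 := mul_lt_mul_of_pos_left h4 (by omega : (0 : ℤ) < M + 1)
      have h14 := mul_le_mul_of_nonneg_left h12 (by omega : (0 : ℤ) ≤ y * M + 1)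
      nlinarith [mul_nonneg hN.le (sub_nonneg.2 h7)]
    generalize (r : ℤ) * k - N + y * T = s at h9
    rcases lt_trichotomy s 0 with h | h | h
    · nlinarith
    · rw [h] at h9; omega
    · nlinarith
  subst h8
  have h9 : j = 0 := h5.elim id fun h => by
    by_contra hj
    obtain ⟨j, rfl⟩ := Nat.exists_eq_succ_of_ne_zero hj
    have h10 : ((p : ℤ) ^ (i + 1)) ∣ p ^ i := by
      zify [hn] at h6 h
      push_cast at hT
      rw [pow_succ] at hT
      rw [show (p : ℤ) ^ i = n - p ^ (i + 1) * (p ^ j * T * (p ^ i - 1)) by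
        linear_combination h6 - (p ^ i - 1) * hT]
      exact h.sub (Dvd.intro _ rfl)
    have := (pow_dvd_pow_iff (by exact_mod_cast hp.ne_zero)
      (Nat.prime_iff_prime_int.1 hp).not_isUnit).1 h10
    omega
  subst h9
  refine ⟨rfl, ?_⟩
  rw [pow_zero, one_mul, Nat.mul_sub_one]
  omega

variable {p : ℕ} [hp : Fact p.Prime] {F V Ω : Type} [Field F] [Fintype F] [CharP F p] [AddCommGroup V]
  [Module F V] [FiniteDimensional F V] {B : LinearMap.BilinForm F V} (hA : B.IsAlt)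
  [MulAction (Isom B) Ω] [Finite Ω]

/-- `ee` as an isometry -/
noncomputable def eI (z u : V) (a : F) : Isom B := ⟨ee hA z u a, ee_mem hA z u a⟩

variable (B) in
/-- The stabiliser of `ω` as a linear group. -/
def KK (ω : Ω) : Subgroup (V ≃ₗ[F] V) := (stabilizer (Isom B) ω).map (Isom B).subtype

theorem mem_KK {z u : V} {a : F} {ω : Ω} : ee hA z u a ∈ KK B ω ↔ eI hA z u a • ω = ω :=
  ⟨fun ⟨_, hg, h⟩ => (Subtype.ext h : _ = eI hA z u a) ▸ hg, fun h => ⟨_, h, rfl⟩⟩

variable (B Ω) in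
/-- Transitivity on (points of `Ω`) × (projective points). -/
def PT : Prop := ∀ v w : V, v ≠ 0 → w ≠ 0 → ∀ a b : Ω,
  ∃ g : Isom B, g • a = b ∧ ∃ c : F, c ≠ 0 ∧ g.1 v = c • w

theorem eI_conj {g : Isom B} {v w u : V} {c : F} (hc : c ≠ 0) (h : g.1 v = c • w) (hu : B v u = 0)
    (t : F) : eI hA w (c • g.1 u) (c ^ 2 * t) = g * eI hA v u t * g⁻¹ := by
  have h1 : B w (g.1 u) = 0 := by
    have := (g.2 v u).trans hu
    simpa [h, hc] using this
  exact Subtype.ext ((ee_scale hA h1 c t).symm.trans (h ▸ (conj_ee hA g.2 v u t).symm))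

theorem move {g : Isom B} {v w u : V} {c : F} (hc : c ≠ 0) (h : g.1 v = c • w) (hu : B v u = 0)
    (t : F) (a : Ω) : ee hA v u t ∈ KK B a ↔ ee hA w (c • g.1 u) (c ^ 2 * t) ∈ KK B (g • a) := by
  rw [mem_KK, mem_KK, eI_conj hA hc h hu, mul_smul, mul_smul, inv_smul_smul, smul_left_cancel_iff]

/-- The transvections with centre `z`. -/
noncomputable def zH (z : V) : Multiplicative F →* Isom B :=
  MonoidHom.mk' (fun a => eI hA z 0 a.toAdd) fun a b => Subtype.ext (by
    simpa [eI] using (ee_mul hA (map_zero _) (map_zero _) a.toAdd b.toAdd).symm)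

theorem index_zH (z : V) (ω : Ω) :
    (stabilizer _ ω).relIndex (zH hA z).range * Nat.card (Rz hA (KK B ω) z) = Fintype.card F := by
  rw [← index_comap, ← Nat.card_eq_fintype_card, ← Nat.card_congr (Multiplicative.toAdd (α := F)),
    ← index_mul_card ((stabilizer _ ω).comap (zH hA z))]
  congr 1
  exact Nat.card_congr (Multiplicative.ofAdd.subtypeEquiv fun a => mem_KK hA)

variable (hB : B.Nondegenerate)
include hA hB

theorem eq_zero_of_eI {z : V} {a : F} (hz : z ≠ 0) (h : ∀ v, ee hA z 0 a v ∈ F ∙ v) : a = 0 := by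
  obtain ⟨w, h1, -⟩ := exists_partner hA hB (W := ⊥) (x := z) (by simpa using hz)
  obtain ⟨c, hc⟩ := Submodule.mem_span_singleton.1 (h w)
  rw [H26.MS.tv_apply, h1, mul_one] at hc
  have h2 := congrArg (B z) hc
  simp only [map_smul, map_add, h1, hA.self_eq_zero, smul_eq_mul, mul_one, mul_zero, add_zero] at h2
  rw [h2, one_smul, left_eq_add] at hc
  exact (smul_eq_zero.1 hc).resolve_right hz

theorem ee_mem_Eg {z u : V} (h : B z u = 0) (a : F) : eI hA z u a ∈ Eg (Isom B) z (B z) :=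
  ⟨fun v => by simp [eI, ee_apply hA h, h, hA.self_eq_zero], fun v hv => by
    simp [eI, ee_perp hA h a hv, Submodule.smul_mem, Submodule.mem_span_singleton_self],
    ee_self hA h a⟩

theorem pt_of (hb : BT p (Isom B) Ω) : PT Ω B := by
  intro v w hv hw a b
  have := H59.finite_linearEquiv (F := F) (V := V)
  obtain ⟨k, hk, h1⟩ := exists_map hA hB hv hw
  obtain ⟨S, hS⟩ := (Eg_pgroup (p := p) (Isom B) hw (B w)).exists_le_sylow
  obtain ⟨-, h2⟩ := fix_line (Isom B).subtype S.isPGroup' hw fun x hx => by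
    have h4 : B w x = 0 := by
      simpa [eI, H26.MS.tv_apply, hw] using hx _ (hS (ee_mem_Eg hA hB (map_zero _) 1))
    refine mem_of_perp hA hB fun y hy => hA.isRefl _ _ ?_
    have h5 := hy w (Submodule.mem_span_singleton_self w)
    simpa [eI, ee_perp hA h5 0 h4, hw] using hx _ (hS (ee_mem_Eg hA hB h5 0))
  obtain ⟨g, hg, h4⟩ := hb S ((⟨k, hk⟩ : Isom B) • a) b
  obtain ⟨c, h5, h6⟩ := h2 g hg
  exact ⟨g * (⟨k, hk⟩ : Isom B), by rw [mul_smul, h4], c, h5, (congrArg g.1 h1).trans h6⟩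

variable (p) in
include hp in
theorem sp_core (h3 : 3 ≤ finrank F V) (hm : LM (Isom B) Ω) (ht : PT Ω B)
    (hbig : Nat.card V - 1 < (Fintype.card F + 1) * (Nat.card Ω - 1)) :
    NoTv (Isom B) Ω ∧ Nat.card Ω = Nat.card V := by
  have : Finite V := Module.finite_of_finite F
  have := H59.finite_linearEquiv (F := F) (V := V)
  have := hm.nt
  have : Nontrivial V := finrank_pos_iff.1 (by omega : 0 < finrank F V)
  obtain ⟨a⟩ : Nonempty Ω := inferInstance
  obtain ⟨z, hz⟩ := exists_ne (0 : V)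
  obtain ⟨j, hj⟩ := card_add (p := p) F (V := F) (Rz hA (KK B a) z)
  have k1 : ∀ v, v ≠ 0 → ∀ b : Ω, Nat.card (Rz hA (KK B b) v) = p ^ j := fun v hv b => by
    obtain ⟨g, rfl, c, hc, h⟩ := ht z v hz hv a b
    rw [← hj]
    refine (Nat.card_congr ((Equiv.mulLeft₀ (c ^ 2) (pow_ne_zero 2 hc)).subtypeEquiv fun t => ?_)).symm
    simpa [mem_Rz] using move hA hc h (map_zero _) t a
  have k2 : ∀ v, v ≠ 0 → ∀ b : Ω, ¬ Good hA (KK B b) v := fun v hv b h => by
    refine one_ne_zero (eq_zero_of_eI hA hB hv (hm.ker (eI hA v 0 1) fun c => (mem_KK hA).1 ?_))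
    have h1 : Rz hA (KK B c) v = ⊤ := AddSubgroup.eq_top_of_le_card _ (by
      rw [k1 v hv, ← k1 v hv b, (good_iff hA).1 h, AddSubgroup.card_top])
    exact (good_iff hA).2 h1 1
  obtain ⟨f, -, hq⟩ := FiniteField.card F p
  obtain ⟨i, hi⟩ : ∃ i, Fintype.card F = p ^ j * p ^ i := by
    have h1 := (Rz hA (KK B a) z).card_addSubgroup_dvd_card
    rw [hj, Nat.card_eq_fintype_card, hq, Nat.pow_dvd_pow_iff_le_right hp.out.one_lt] at h1
    exact ⟨f - j, by rw [hq, ← pow_add, Nat.add_sub_cancel' h1]⟩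
  have hi0 : 0 < i := Nat.pos_of_ne_zero (by
    rintro rfl
    exact k2 z hz a ((good_iff hA).2 (AddSubgroup.eq_top_of_le_card _ (by
      rw [hj, Nat.card_eq_fintype_card, hi, pow_zero, mul_one]))))
  have k3 : ∀ b : Ω, (stabilizer _ b).relIndex (zH hA z).range = p ^ i := fun b => by
    have := index_zH hA z b
    rw [k1 z hz, hi, mul_comm] at this
    exact Nat.eq_of_mul_eq_mul_left (pow_pos hp.out.pos j) this
  have k4 : j = 0 ∨ p ^ (i + 1) ∣ Nat.card Ω := by
    by_contra hn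
    rw [not_or] at hn
    obtain ⟨b, hb⟩ : ∃ b : Ω, ¬ p ^ (i + 1) ∣ (stabilizer _ b).relIndex (Eg (Isom B) z (B z)) := by
      by_contra h
      exact hn.2 (mod_dvd _ fun b => not_not.1 fun hb => h ⟨b, hb⟩)
    obtain ⟨k, hk⟩ := (Eg_pgroup (p := p) (Isom B) hz (B z)).card_orbit b
    rw [← card_orbit, hk, Nat.pow_dvd_pow_iff_le_right hp.out.one_lt] at hb
    have h1 : orbit (zH hA z).range b = orbit (Eg (Isom B) z (B z)) b := by
      refine Set.eq_of_subset_of_ncard_le ?_ ?_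
      · rintro _ ⟨⟨_, t, rfl⟩, rfl⟩
        exact ⟨⟨_, ee_mem_Eg hA hB (map_zero _) t.toAdd⟩, rfl⟩
      · rw [← Nat.card_coe_set_eq, ← Nat.card_coe_set_eq, hk, card_orbit, k3]
        exact Nat.pow_le_pow_right hp.out.pos (by omega)
    have h2 : Ful hA (KK B b) z := fun u hu => by
      obtain ⟨⟨_, t, rfl⟩, h⟩ : eI hA z u 0 • b ∈ orbit (zH hA z).range b :=
        h1 ▸ ⟨⟨_, ee_mem_Eg hA hB hu 0⟩, rfl⟩
      have h4 : ((eI hA z 0 t.toAdd)⁻¹ * eI hA z u 0) • b = b := by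
        rw [mul_smul, inv_smul_eq_iff]; exact h.symm
      refine ⟨-t.toAdd, _, h4, ?_⟩
      change (ee hA z 0 t.toAdd)⁻¹ * ee hA z u 0 = _
      rw [ee_inv hA (map_zero _), neg_zero, ee_mul hA (map_zero _) hu]
      simp
    have h4 : ∀ v, v ≠ 0 → Ful hA (KK B a) v := fun v hv u hu => by
      obtain ⟨g, h, c, hc, h'⟩ := ht z v hz hv b a
      have h5 : B z (g.1.symm (c⁻¹ • u)) = 0 := by
        rw [← g.2, h', g.1.apply_symm_apply]; simp [hu]
      obtain ⟨t, h6⟩ := h2 _ h5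
      rw [move hA hc h' h5, g.1.apply_symm_apply, smul_inv_smul₀ hc, h] at h6
      exact ⟨_, h6⟩
    by_cases h5 : (2 : F) = 0
    · obtain ⟨l, hl⟩ := ENat.exists_ne_ne_of_three_le (α := F) (by
        rw [ENat.card_eq_coe_fintype_card, hi]
        have h6 : 1 < p ^ j := Nat.one_lt_pow hn.1 hp.out.one_lt
        have h7 : 1 < p ^ i := Nat.one_lt_pow hi0.ne' hp.out.one_lt
        exact_mod_cast (by nlinarith)) 0 1
      exact k2 z hz a (good_of_ful hA hB h5 hl.1 hl.2 h3 (fun x hx => h4 x (by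
        rintro rfl; exact hx (good_zero hA))) z)
    · obtain ⟨u, v, h6, h7, h8⟩ := exists_pair hA hB h3 hz
      refine k2 z hz a ((good_iff hA).2 (eq_top_of_mul h5 fun t => ?_))
      have h9 : B z (t • u) = 0 := by simp [h6]
      simpa [h8, mul_comm] using two_mul_mem_Rz hA ⟨h9, h4 z hz _ h9⟩ ⟨h7, h4 z hz _ h7⟩
  obtain ⟨r, -, hr⟩ := count hm.two (fun x : ℙ F V × F => eI hA x.1.rep 0 x.2) (fun g => by
    have h0 : ∀ P : ℙ F V, g.1 P.rep ≠ 0 := fun P =>
      (map_ne_zero_iff _ g.1.injective).2 P.rep_nonzero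
    choose c hc using fun P => Projectivization.exists_smul_eq_mk_rep F _ (h0 P)
    refine ⟨fun x => (Projectivization.mk F _ (h0 x.1), ((c x.1)⁻¹ : Fˣ) ^ 2 * x.2), ?_, fun x => ?_⟩
    · rintro ⟨P, s⟩ ⟨P', s'⟩ h
      obtain ⟨h1, h2⟩ := Prod.mk.inj h
      obtain rfl : P = P' := by
        obtain ⟨d, hd⟩ := (Projectivization.mk_eq_mk_iff' F _ _ _ _).1 h1
        rw [← P.mk_rep, ← P'.mk_rep]
        exact (Projectivization.mk_eq_mk_iff' F _ _ _ _).2 ⟨d, g.1.injective (by simpa using hd)⟩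
      exact Prod.ext rfl (mul_left_cancel₀ (pow_ne_zero 2 (Units.ne_zero _)) h2)
    · simpa using eI_conj hA (Units.ne_zero (c x.1)⁻¹) (w := (Projectivization.mk F _ (h0 x.1)).rep)
        (by rw [← hc]; exact (inv_smul_smul (c x.1) _).symm) (map_zero _) x.2) a
  have c1 := card_prod (fun _ : ℙ F V => True) (fun P t => eI hA P.rep 0 t • a = a) (k := p ^ j)
    fun P _ => by
      rw [← k1 _ P.rep_nonzero a]
      exact Nat.card_congr (Equiv.subtypeEquivRight fun t => (mem_KK hA).symm)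
  simp only [true_and, Nat.card_subtype_true] at c1
  have c2 := Projectivization.card' F V
  rw [c1, Nat.card_prod, Nat.card_eq_fintype_card (α := F), hi] at hr
  rw [Nat.card_eq_fintype_card (α := F), hi] at c2
  obtain ⟨rfl, h1⟩ := sp_num hp.out hi0 Nat.card_pos Nat.card_pos (by
    have h1 : p ^ j * p ^ i ∣ Nat.card V := by
      rw [H26.ML.card_V' (F := F), hi]; exact dvd_pow_self _ (by omega)
    have h2 : 1 ≤ p ^ j * p ^ i := hi ▸ Fintype.card_pos
    generalize p ^ j * p ^ i = q at *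
    zify [h2] at c2 h1
    rw [show (Nat.card (ℙ F V) : ℤ) - 1 = q * Nat.card (ℙ F V) - Nat.card V by linear_combination c2]
    exact (Dvd.intro _ rfl).sub h1) hr (mod_dvd _ fun b => (k3 b).symm.dvd)
    (by rwa [c2, hi, Nat.add_sub_cancel] at hbig) k4
  refine ⟨fun g φ u hu hg ω hω => ?_, h1.trans c2.symm⟩
  by_cases h0 : u = 0
  · exact Subtype.ext (LinearEquiv.ext fun v => by simp [hg, h0])
  obtain ⟨w, h2, -⟩ := exists_partner hA hB (W := ⊥) (x := u) (by simpa using h0)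
  obtain ⟨c, rfl⟩ := H62.exists_smul_of_ker_le (φ := B u) (ψ := φ) fun v hv => by
    simpa [hg, hA.self_eq_zero, hA.isRefl _ _ hv, h2] using g.2 v w
  obtain rfl : g = eI hA u 0 c := Subtype.ext (LinearEquiv.ext fun v => by
    simp [hg, eI, H26.MS.tv_apply])
  have h4 := k1 u h0 ω
  rw [pow_zero, AddSubgroup.card_eq_one] at h4
  obtain rfl : c = 0 := AddSubgroup.mem_bot.1 (h4 ▸ (mem_KK hA).2 hω)
  exact Subtype.ext (ee_zero hA u)

end H56.CK
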