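import Cfsg.Agent.H56.CkL1
import Cfsg.Agent.H56.CkS1
import Cfsg.Agent.S2140
import Cfsg.Agent.S2141
import Cfsg.Agent.S2142
import Cfsg.Agent.S2150
import Cfsg.Agent.S0822
import Cfsg.Agent.S0255

/-! CKS (S2193): the chapters on linear and symplectic groups, from the slots. -/

set_option autoImplicit false
set_option linter.unusedSectionVars false

namespace H56.CK

open Module MulAction Subgroup H32.CK H54 H26.ML Cfsg
open scoped MatrixGroups

variable {G Ω : Type} [Group G] [Finite G] [MulAction G Ω] [Finite Ω]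

theorem le_card {H : Type} [Group H] (ε : G ≃* H) (h : Act G Ω) {b : ℕ}
    (hb : ∀ M : Subgroup H, M ≠ ⊤ → b ≤ M.index) : b ≤ Nat.card Ω := by
  have := h.nontrivial
  obtain ⟨a⟩ : Nonempty Ω := inferInstance
  rw [← h.index a, ← index_map_equiv _ ε]
  refine hb _ fun h1 => h.ne_top a (eq_top_iff.2 fun g _ => ?_)
  exact (mem_map_iff_mem ε.injective).1 (h1 ▸ mem_top _ : ε.toMonoidHom g ∈ _)

theorem model {Γ F V : Type} [Group Γ] [Field F] [AddCommGroup V] [Module F V]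
    {L : Subgroup (V ≃ₗ[F] V)} (σ : Γ ≃* L) (hσ : ∀ g ∈ center Γ, ∀ v, (σ g).1 v ∈ F ∙ v)
    (ε : G ≃* Γ ⧸ center Γ) : ∃ f : L →* G, Function.Surjective f ∧ f.ker ≤ center L ∧
      ∀ g, f g = 1 → ∀ v, g.1 v ∈ F ∙ v := by
  have key : ∀ g : L, ε.symm (σ.symm g : Γ) = 1 → σ.symm g ∈ center Γ := fun g h =>
    (QuotientGroup.eq_one_iff _).1 (ε.symm.injective (h.trans (map_one _).symm))
  refine ⟨ε.symm.toMonoidHom.comp ((QuotientGroup.mk' _).comp σ.symm.toMonoidHom),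
    ε.symm.surjective.comp ((QuotientGroup.mk'_surjective _).comp σ.symm.surjective),
    fun g h => mem_center_iff.2 fun k => σ.symm.injective ?_, fun g h v => ?_⟩
  · rw [map_mul, map_mul, mem_center_iff.1 (key g h)]
  · simpa using hσ _ (key g h) v

theorem modelL {F : Type} [Field F] [Fintype F] {m : ℕ} (ε : G ≃* PSL(m, F)) :
    ∃ f : SLg F (Fin m → F) →* G, Function.Surjective f ∧ f.ker ≤ center _ ∧
      ∀ g, f g = 1 → ∀ v, g.1 v ∈ F ∙ v := by
  have hr : (Matrix.SpecialLinearGroup.toLin' : SL(m, F) →* _).range = SLg F (Fin m → F) := by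
    ext g
    rw [mem_SLg]
    constructor
    · rintro ⟨A, rfl⟩
      rw [Matrix.SpecialLinearGroup.toLin'_to_linearMap, LinearMap.det_toLin', A.2]
    · intro h
      exact ⟨⟨LinearMap.toMatrix' g, by rwa [LinearMap.det_toMatrix']⟩,
        LinearEquiv.toLinearMap_injective (Matrix.toLin'_toMatrix' _)⟩
  refine model ((MonoidHom.ofInjective Matrix.SpecialLinearGroup.toLin'_injective).trans
    (MulEquiv.subgroupCongr hr)) (fun g hg v => ?_) ε
  obtain ⟨r, -, h⟩ := Matrix.SpecialLinearGroup.mem_center_iff.1 hg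
  refine Submodule.mem_span_singleton.2 ⟨r, ?_⟩
  change _ = Matrix.SpecialLinearGroup.toLin' g v
  rw [Matrix.SpecialLinearGroup.toLin'_apply, ← h]; ext; simp

theorem jobL (fr : JobFr) (quo : JobQuo) : JobL := by
  intro p hp F _ _ _ m hm G Ω _ _ _ _ ⟨ε⟩ h
  obtain ⟨f, hs, hk, hk'⟩ := modelL ε
  let _ : MulAction (SLg F (Fin m → F)) Ω := MulAction.compHom Ω f
  have := H59.finite_linearEquiv (F := F) (V := Fin m → F)
  have lm := lm_of hs (fun _ _ => rfl) hk' h.toAct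
  obtain ⟨d, rfl⟩ : ∃ d, m = d + 1 := ⟨m - 1, by omega⟩
  have hd : finrank F (Fin (d + 1) → F) = d + 1 := by simp
  have nt := noTv hd (by omega) lm (bt_of hs (fun _ _ => rfl) hk h)
  have hq : 1 < Fintype.card F := Fintype.one_lt_card
  rcases deg hd (by omega) lm nt with hn | hn
  · by_cases hx : d + 1 = 4 ∧ Fintype.card F = 2
    · obtain rfl : d = 3 := by omega
      exact .inr (.inr (.inr (.inr (.inr (.inr (.inr (.inl ⟨F, _, _, hx.2, ⟨ε⟩, by rw [hn, hx.2]; rfl⟩)))))))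
    · have h1 := le_card ε h.toAct (Cfsg.Agent.S2140.result rfl _ hm hx).1
      rw [hn, Nat.div_le_iff_le_mul_add_pred (by omega), pow_succ] at h1
      have h2 : Fintype.card F ^ 1 ≤ Fintype.card F ^ d := Nat.pow_le_pow_right (by omega) (by omega)
      obtain ⟨k, hk⟩ : ∃ k, Fintype.card F = k + 2 := ⟨_, (Nat.sub_add_cancel hq).symm⟩
      rw [hk] at h1 h2
      generalize (k + 2) ^ d = Q at h1 h2
      simp only [Nat.add_succ_sub_one, pow_one, Nat.add_sub_cancel, tsub_le_iff_right] at h1 h2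
      nlinarith
  · obtain ⟨e, -, he⟩ := FiniteField.card F p
    have vt := vt_of (p := p) (by omega) (st_of hs (fun _ _ => rfl) h.toAct (k := e * (d + 1))
      (by rw [hn, he, pow_mul]))
    obtain ⟨rfl, h2 | h2⟩ := quo F _ Ω d hd (by omega) nt vt hn
    · have : Fact (Nat.Prime 7) := ⟨by norm_num⟩
      obtain ⟨ν⟩ := Cfsg.Agent.S0255.result (F := ZMod 7) (K := F) (ZMod.card 7) h2
      exact .inr (.inl ⟨ZMod 7, _, _, by simp, ⟨ε.trans ν.symm⟩, by rw [hn, h2, ZMod.card]; rfl⟩)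
    · refine absurd ?_ (fr F _ Ω hd h2 nt vt)
      rw [hn]
      exact (FiniteField.odd_card_of_char_ne_two (by
        intro h3
        exact h2 (by simpa [h3] using ringChar.Nat.cast_ringChar (R := F))) |> Nat.odd_iff.2).pow

theorem modelS {F : Type} [Field F] [Fintype F] {m : ℕ} (ε : G ≃* PSp m F) :
    ∃ f : Isom (spB (Fin m) F) →* G, Function.Surjective f ∧ f.ker ≤ center _ ∧
      ∀ g, f g = 1 → ∀ v, g.1 v ∈ F ∙ v :=
  model (spEquivIsom (Fin m) F) (fun _ hg => mem_center_sp_iff_forall_mem_span.1 hg) ε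

theorem not_pt (sk : JobSK) (p : ℕ) [Fact p.Prime] {F : Type} [Field F] [Fintype F] [CharP F p]
    {m : ℕ} (hm : 2 ≤ m) [MulAction (Isom (spB (Fin m) F)) Ω] (lm : LM (Isom (spB (Fin m) F)) Ω)
    (h : Fintype.card F ^ (2 * m) - 1 < (Fintype.card F + 1) * (Nat.card Ω - 1)) :
    ¬ PT Ω (spB (Fin m) F) := fun ht => by
  have hc : Nat.card (Fin m ⊕ Fin m → F) = Fintype.card F ^ (2 * m) := by simp [two_mul]
  obtain ⟨h1, h2⟩ := sp_core p spB_isAlt spB_nondegenerate (by simp; omega) lm ht (hc ▸ h)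
  exact sk F Ω m (by omega) lm h1 (h2.trans hc)

theorem jobSp (sk : JobSK) : JobSp := by
  intro p hp F _ _ _ m hm hq G Ω _ _ _ _ ⟨ε⟩ h
  obtain ⟨f, hs, hk, hk'⟩ := modelS ε
  let _ : MulAction (Isom (spB (Fin m) F)) Ω := MulAction.compHom Ω f
  have := H59.finite_linearEquiv (F := F) (V := Fin m ⊕ Fin m → F)
  refine absurd (pt_of spB_isAlt spB_nondegenerate (bt_of hs (fun _ _ => rfl) hk h))
    (not_pt sk p hm (lm_of hs (fun _ _ => rfl) hk' h.toAct) ?_)
  by_cases hx : m = 2 ∧ Fintype.card F = 3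
  · obtain ⟨rfl, h3⟩ := hx
    let _ := Fintype.ofFinite (GaloisField 2 2)
    have h4 : Fintype.card (GaloisField 2 2) = 4 := by
      rw [← Nat.card_eq_fintype_card, GaloisField.card 2 2 two_ne_zero]; rfl
    obtain ⟨ν⟩ := Cfsg.Agent.S0822.result h4 h3
    have h1 := le_card (ε.trans ν.symm) h.toAct (Cfsg.Agent.S2150.result 2 h4 le_rfl).1
    rw [h3]
    omega
  · have h1 := le_card ε h.toAct (Cfsg.Agent.S2141.result rfl m hm hq hx).1
    rw [Nat.div_le_iff_le_mul_add_pred (by omega)] at h1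
    have h2 : Fintype.card F ^ 4 ≤ Fintype.card F ^ (2 * m) :=
      Nat.pow_le_pow_right (by omega) (by omega)
    obtain ⟨k, hk⟩ : ∃ k, Fintype.card F = k + 2 := ⟨Fintype.card F - 2, by omega⟩
    rw [hk] at h1 h2 ⊢
    generalize (k + 2) ^ (2 * m) = Q at h1 h2 ⊢
    obtain ⟨n, hn⟩ : ∃ n, Nat.card Ω = n + 1 := ⟨Nat.card Ω - 1, by have := h.two_le; omega⟩
    rw [hn] at h1 ⊢
    simp only [Nat.add_succ_sub_one, Nat.add_sub_cancel, tsub_le_iff_right] at h1 ⊢
    have h3 : k + 1 ≤ n := by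
      by_contra h3
      nlinarith [Nat.mul_le_mul_left (k + 1) (not_le.1 h3), Nat.zero_le (k ^ 3), Nat.zero_le (k ^ 4)]
    rw [tsub_lt_iff_right (by nlinarith [Nat.zero_le ((k + 2) ^ 4 - 1), pow_pos (by omega : 0 < k + 2) 4])]
    nlinarith

theorem jobXSp (sk : JobSK) (fou : JobFou) : JobXSp := by
  intro F _ _ m hq hm G Ω _ _ _ _ ⟨ε⟩ h _
  obtain ⟨f, hs, hk, hk'⟩ := modelS ε
  let _ : MulAction (Isom (spB (Fin m) F)) Ω := MulAction.compHom Ω f
  have lm := lm_of hs (fun _ _ => rfl) hk' h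
  have : CharP F 2 := charP_of_card_eq_prime hq
  obtain ⟨k, rfl⟩ : ∃ k, m = k + 1 := ⟨m - 1, by omega⟩
  have h4 : 2 ^ 2 ≤ 2 ^ k := Nat.pow_le_pow_right two_pos (by omega)
  have e1 : 2 ^ (2 * (k + 1)) = (2 * 2 ^ k) ^ 2 := by ring
  have h1 := le_card ε h (Cfsg.Agent.S2142.result hq _ hm).1
  have h2 := not_pt sk 2 (by omega) lm (by
    rw [hq, e1]
    rw [Nat.add_sub_cancel, pow_succ] at h1
    generalize 2 ^ k = D at *
    zify [(by omega : 1 ≤ D * 2), (by nlinarith : 1 ≤ (2 * D) ^ 2), h.two_le.trans' one_le_two] at h1 h4 ⊢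
    nlinarith)
  have := h.nontrivial
  obtain ⟨a⟩ : Nonempty Ω := inferInstance
  obtain ⟨v, w, hv, hw, h3⟩ : ∃ v w : Fin (k + 1) ⊕ Fin (k + 1) → F, v ≠ 0 ∧ w ≠ 0 ∧
      ∀ g : Isom (spB (Fin (k + 1)) F), g • a = a → g.1 v ≠ w := by
    by_contra hn
    push Not at hn
    refine h2 fun v w hv hw b c => ?_
    have tr : ∀ b : Ω, ∃ g : Isom (spB (Fin (k + 1)) F), g • a = b := fun b => by
      obtain ⟨g, hg⟩ := h.pre.exists_smul_eq a b
      obtain ⟨g, rfl⟩ := hs g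
      exact ⟨g, hg⟩
    obtain ⟨g, rfl⟩ := tr b
    obtain ⟨g', rfl⟩ := tr c
    obtain ⟨x, h5, h6⟩ := hn (g.1.symm v) (g'.1.symm w) ((map_ne_zero_iff _ g.1.symm.injective).2 hv)
      ((map_ne_zero_iff _ g'.1.symm.injective).2 hw)
    refine ⟨g' * x * g⁻¹, by rw [mul_smul, mul_smul, inv_smul_smul, h5], 1, one_ne_zero, ?_⟩
    change g'.1 (x.1 (g.1.symm v)) = _
    rw [h6, g'.1.apply_symm_apply, one_smul]
  have h5 := fou F _ Ω _ (2 * 2 ^ k) hq spB_isAlt spB_nondegenerate (by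
    rw [← e1, card_V' (F := F), hq]; simp [two_mul]) (by omega) lm a v w hv hw h3
  refine .inr (.inr (.inr (.inr (.inr (.inr (.inr (.inr ⟨F, _, _, k + 1, hm, hq, ⟨ε⟩, ?_⟩)))))))
  rw [Nat.add_sub_cancel, pow_succ]
  generalize 2 ^ k = D at *
  refine h5.imp (fun h => by nlinarith) fun h => ?_
  zify [(by omega : 1 ≤ D * 2)] at h ⊢
  nlinarith

end H56.CK
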