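/- Tower DG (S4984), slot Par: the parabolic subgroup. -/
import Cfsg.Agent.H53.DGSpec2

set_option autoImplicit false
set_option linter.unusedSectionVars false

namespace H56.DGPar

open Cfsg Matrix Module H53.DG

variable {F V : Type} [Field F] [AddCommGroup V] [Module F V] {S : FS F V} {k : ℕ}

theorem dot_inv (a : GL (Fin k) F) (x y : Fin k → F) :
    (a.1 *ᵥ x) ⬝ᵥ ((a⁻¹).1ᵀ *ᵥ y) = x ⬝ᵥ y := by
  rw [dotProduct_mulVec, vecMul_transpose, mulVec_mulVec, Units.inv_mul, one_mulVec]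

theorem dot_inv' (a : GL (Fin k) F) (x y : Fin k → F) :
    ((a⁻¹).1ᵀ *ᵥ y) ⬝ᵥ (a.1 *ᵥ x) = y ⬝ᵥ x := by
  rw [dotProduct_comm, dot_inv, dotProduct_comm]

theorem gl_eq_zero (a : GL (Fin k) F) {x : Fin k → F} (h : a.1 *ᵥ x = 0) : x = 0 := by
  rw [← one_mulVec x, ← Units.inv_mul a, ← mulVec_mulVec, h, mulVec_zero]

theorem glT_eq_zero (a : GL (Fin k) F) {x : Fin k → F} (h : a.1ᵀ *ᵥ x = 0) : x = 0 := by
  rw [← one_mulVec x, ← transpose_one, ← Units.mul_inv a, transpose_mul, ← mulVec_mulVec, h,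
    mulVec_zero]

theorem gl_ext {a b : GL (Fin k) F} (h : ∀ x, a.1 *ᵥ x = b.1 *ᵥ x) : a = b :=
  Units.ext (Matrix.toLin'.injective (LinearMap.ext h))

theorem dot_ext {y y' : Fin k → F} (h : ∀ x, x ⬝ᵥ y = x ⬝ᵥ y') : y = y' := funext fun i => by
  simpa using h (Pi.single i 1)

theorem eps_ne (S : FS F V) : S.ε ≠ 0 := left_ne_zero_of_mul_eq_one S.ε_mul_self

theorem split (g : (S.ext k).I) (x : Fin k → F) (v : V) (y : Fin k → F) :
    g.1 (x, v, y) = g.1 (x, 0, 0) + g.1 (0, v, 0) + g.1 (0, 0, y) := by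
  rw [← map_add, ← map_add]; simp

theorem B1 (x : Fin k → F) (z : EV F k V) : (S.ext k).B (x, 0, 0) z = x ⬝ᵥ z.2.2 := by simp

theorem P_W {g : (S.ext k).I} (hg : g ∈ S.P k) (x : Fin k → F) :
    g.1 (x, 0, 0) = ((g.1 (x, 0, 0)).1, 0, 0) := Prod.ext rfl ((hg _).2 rfl)

theorem perp_of {g : (S.ext k).I} (hg : g ∈ S.P k) {z : EV F k V} (h : (g.1 z).2.2 = 0) :
    z.2.2 = 0 := dot_ext fun x => by
  rw [← B1 (S := S), ← (S.ext k).I_B g, P_W hg, B1, h]; simp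

theorem perp_iff {g : (S.ext k).I} (hg : g ∈ S.P k) (z : EV F k V) : (g.1 z).2.2 = 0 ↔ z.2.2 = 0 :=
  ⟨perp_of hg, fun h => perp_of (inv_mem hg) (by simpa using h)⟩

/-- the action on `W` -/
def aL (g : (S.ext k).I) : (Fin k → F) →ₗ[F] (Fin k → F) :=
  LinearMap.fst F _ _ ∘ₗ g.1.toLinearMap ∘ₗ LinearMap.inl F _ _

theorem aL_apply (g : (S.ext k).I) (x : Fin k → F) : aL g x = (g.1 (x, 0, 0)).1 := rfl

theorem mem_P {g : (S.ext k).I} (h : ∀ x, (g.1 (x, 0, 0)).2 = 0) : g ∈ S.P k := fun z => by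
  have h1 : ∀ x, g.1 (x, 0, 0) = (aL g x, 0, 0) := fun x => Prod.ext rfl (h x)
  refine ⟨fun hz => ?_, fun hz => ?_⟩
  · have h2 : Function.Injective (aL g) := fun x x' e =>
      congrArg Prod.fst (g.1.injective (by rw [h1, h1, e]) : ((x, 0, 0) : EV F k V) = (x', 0, 0))
    obtain ⟨x, hx⟩ := LinearMap.injective_iff_surjective.1 h2 (g.1 z).1
    rw [g.1.injective (show g.1 z = g.1 (x, 0, 0) from by rw [h1, hx]; exact Prod.ext rfl hz)]
    rfl
  · rw [show z = (z.1, 0, 0) from Prod.ext rfl hz]; exact h _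

/-- the action on `W^⊥ / W` -/
def bL (g : (S.ext k).I) : V →ₗ[F] V :=
  LinearMap.fst F _ _ ∘ₗ LinearMap.snd F _ _ ∘ₗ g.1.toLinearMap ∘ₗ LinearMap.inr F _ _ ∘ₗ
    LinearMap.inl F _ _

theorem P_V {g : (S.ext k).I} (hg : g ∈ S.P k) (v : V) :
    g.1 (0, v, 0) = ((g.1 (0, v, 0)).1, bL g v, 0) :=
  Prod.ext rfl (Prod.ext rfl ((perp_iff hg _).2 rfl))

/-- the matrix of the action on `W` -/
def aM : S.P k →* Matrix (Fin k) (Fin k) F where
  toFun g := LinearMap.toMatrix' (aL g.1)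
  map_one' := by rw [← LinearMap.toMatrix'_id]; rfl
  map_mul' g h := by
    rw [← LinearMap.toMatrix'_comp]
    refine congrArg _ (LinearMap.ext fun x => ?_)
    rw [LinearMap.comp_apply, aL_apply g.1, aL_apply h.1, ← P_W h.2]; rfl

theorem aM_mulVec (g : S.P k) (x : Fin k → F) : aM g *ᵥ x = (g.1.1 (x, 0, 0)).1 :=
  LinearMap.toMatrix'_mulVec _ _

variable [FiniteDimensional F V]

/-- the isometry induced on `W^⊥ / W` -/
noncomputable def bI (g : S.P k) : S.I :=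
  S.ofLin (bL g.1) (fun u v => by
    have := (S.ext k).I_B g.1 (0, u, 0) (0, v, 0)
    rw [P_V g.2, P_V g.2 v] at this
    simpa using this) fun v => by
    have := (S.ext k).I_Q g.1 (0, v, 0)
    rw [P_V g.2] at this
    simpa using this

theorem exists_pi : ∃ π, S.IsPi k π := by
  let β : S.P k →* S.I := MonoidHom.mk' bI fun g h => Subtype.ext (LinearEquiv.ext fun v => by
    change (g.1.1 (h.1.1 (0, v, 0))).2.1 = (g.1.1 (0, bL h.1 v, 0)).2.1
    rw [P_V h.2, split, P_W g.2, Prod.mk_zero_zero, Prod.mk_zero_zero, map_zero]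
    simp)
  exact ⟨aM.toHomUnits.prod β, fun g => ⟨fun x => by
    rw [P_W g.2, ← aM_mulVec]; rfl, fun v => ⟨_, P_V g.2 v⟩⟩⟩

theorem exists_W (M : GL (Fin k) F) : ∃ w, S.IsW k M w := by
  let L : EV F k V →ₗ[F] EV F k V :=
    { toFun := fun z => (M.1 *ᵥ z.2.2, z.2.1, S.ε • ((M⁻¹).1ᵀ *ᵥ z.1))
      map_add' := fun z z' => by simp [mulVec_add]
      map_smul' := fun c z => by simp [mulVec_smul, smul_comm c] }
  refine ⟨(S.ext k).ofLin L (fun z z' => ?_) fun z => ?_, fun _ _ _ => rfl⟩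
  · simp only [L, LinearMap.coe_mk, AddHom.coe_mk, FS.ext_B, dotProduct_smul, smul_dotProduct,
      smul_eq_mul, dot_inv, dot_inv']
    linear_combination (z.1 ⬝ᵥ z'.2.2) * S.ε_mul_self
  · simp only [L, LinearMap.coe_mk, AddHom.coe_mk, FS.ext_Q, dotProduct_smul, smul_eq_mul, dot_inv]
    rw [← mul_assoc, S.κ_mul_ε, dotProduct_comm]

theorem exists_L (a : GL (Fin k) F) (h : S.I) : ∃ l, S.IsL k a h l := by
  let L : EV F k V →ₗ[F] EV F k V :=
    { toFun := fun z => (a.1 *ᵥ z.1, h.1 z.2.1, (a⁻¹).1ᵀ *ᵥ z.2.2)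
      map_add' := fun z z' => by simp [mulVec_add]
      map_smul' := fun c z => by simp [mulVec_smul] }
  refine ⟨(S.ext k).ofLin L (fun z z' => ?_) fun z => ?_, fun _ _ _ => rfl⟩
  · simp only [L, LinearMap.coe_mk, AddHom.coe_mk, FS.ext_B, dot_inv, dot_inv', S.I_B]
  · simp only [L, LinearMap.coe_mk, AddHom.coe_mk, FS.ext_Q, dot_inv, S.I_Q]

theorem sum_single (y : Fin k → F) :
    ((0, 0, y) : EV F k V) = ∑ i, y i • ((0, 0, Pi.single i 1) : EV F k V) := by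
  refine Prod.ext ?_ (Prod.ext ?_ ?_)
  · simp [Prod.fst_sum]
  · simp [Prod.fst_sum, Prod.snd_sum]
  · simp only [Prod.snd_sum, Prod.smul_snd]
    exact pi_eq_sum_univ' y

theorem exists_U {u : Fin k → V} {φ : Matrix (Fin k) (Fin k) F} (h : S.Adm k u φ) :
    ∃ g, S.IsU k u φ g := by
  let L : EV F k V →ₗ[F] EV F k V :=
    { toFun := fun z => (z.1 + φ *ᵥ z.2.2 - (fun i => S.B z.2.1 (u i)), z.2.1 + ∑ i, z.2.2 i • u i,
        z.2.2)
      map_add' := fun z z' => by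
        refine Prod.ext (funext fun i => ?_) (Prod.ext ?_ rfl)
        · simp [mulVec_add]; ring
        · simp [add_smul, Finset.sum_add_distrib]; abel
      map_smul' := fun c z => by
        refine Prod.ext (funext fun i => ?_) (Prod.ext ?_ rfl)
        · simp [mulVec_smul]; ring
        · simp [Finset.smul_sum, mul_smul] }
  have hB : ∀ z z', (S.ext k).B (L z) (L z') = (S.ext k).B z z' := fun z z' => by
    have e1 : (fun i => S.B z.2.1 (u i)) ⬝ᵥ z'.2.2 = S.B z.2.1 (∑ i, z'.2.2 i • u i) := by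
      simp [dotProduct, mul_comm]
    have e2 : S.ε * (z.2.2 ⬝ᵥ fun i => S.B z'.2.1 (u i)) = S.B (∑ i, z.2.2 i • u i) z'.2.1 := by
      rw [S.symm]; simp [dotProduct]
    have e3 : (φ *ᵥ z.2.2) ⬝ᵥ z'.2.2 + S.ε * (z.2.2 ⬝ᵥ φ *ᵥ z'.2.2) +
        S.B (∑ i, z.2.2 i • u i) (∑ i, z'.2.2 i • u i) = 0 := by
      rw [dotProduct_mulVec]
      simp only [dotProduct, mulVec, vecMul, map_sum, map_smul, LinearMap.sum_apply,
        LinearMap.smul_apply, smul_eq_mul, Finset.sum_mul, Finset.mul_sum, ← Finset.sum_add_distrib]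
      exact Finset.sum_eq_zero fun i _ => Finset.sum_eq_zero fun j _ => by
        linear_combination z.2.2 j * z'.2.2 i * h.1 i j
    simp only [L, LinearMap.coe_mk, AddHom.coe_mk, FS.ext_B, add_dotProduct, sub_dotProduct,
      dotProduct_add, dotProduct_sub, LinearMap.add_apply, map_add]
    linear_combination e3 - e1 - e2
  let N : Submodule F (EV F k V) :=
    { carrier := {z | (S.ext k).Q (L z) = (S.ext k).Q z}
      add_mem' := fun {a b} ha hb => by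
        rw [Set.mem_ofPred_eq, map_add, FS.Q_add, FS.Q_add, ha, hb, hB]
      zero_mem' := by simp
      smul_mem' := fun c z hz => by
        rw [Set.mem_ofPred_eq, map_smul, QuadraticMap.map_smul, QuadraticMap.map_smul, hz] }
  refine ⟨(S.ext k).ofLin L hB fun z => ?_, fun _ _ _ => rfl⟩
  have h1 : ((z.1, z.2.1, 0) : EV F k V) ∈ N := by
    change (S.ext k).Q (L _) = _
    simp [L]
  have h2 : ((0, 0, z.2.2) : EV F k V) ∈ N := by
    rw [sum_single]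
    refine N.sum_mem fun i _ => N.smul_mem _ ?_
    change (S.ext k).Q (L _) = _
    simpa [L, Pi.single_apply] using h.2 i
  have h3 := N.add_mem h1 h2
  simp only [Prod.mk_add_mk, add_zero, zero_add] at h3
  exact h3

/-- a totally singular complement of `W^⊥` -/
theorem exists_data (f : (Fin k → F) →ₗ[F] EV F k V) (h1 : ∀ y, (f y).2.2 = y)
    (h2 : ∀ y y', (S.ext k).B (f y) (f y') = 0) (h3 : ∀ y, (S.ext k).Q (f y) = 0) :
    ∃ u φ, S.Adm k u φ ∧ (∀ i, u i = (f (Pi.single i 1)).2.1) ∧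
      ∀ y, f y = (φ *ᵥ y, ∑ i, y i • u i, y) := by
  refine ⟨fun i => (f (Pi.single i 1)).2.1, of fun i j => (f (Pi.single j 1)).1 i,
    ⟨fun i j => ?_, fun i => ?_⟩, fun _ => rfl, fun y => ?_⟩
  · simpa [h1] using h2 (Pi.single j 1) (Pi.single i 1)
  · simpa [h1] using h3 (Pi.single i 1)
  · refine Prod.ext (funext fun i => ?_) (Prod.ext ?_ (h1 y))
    · conv_lhs => rw [pi_eq_sum_univ' y]
      simp [mulVec, dotProduct, Prod.fst_sum, mul_comm]
    · conv_lhs => rw [pi_eq_sum_univ' y]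
      simp [Prod.fst_sum, Prod.snd_sum]

theorem U_mem {u : Fin k → V} {φ : Matrix (Fin k) (Fin k) F} {g : (S.ext k).I} (h : S.IsU k u φ g) :
    g ∈ S.P k := mem_P fun x => by rw [h]; simp

variable {π : S.P k →* GL (Fin k) F × S.I}

theorem pi_eq (hπ : S.IsPi k π) (g : S.P k) {a : GL (Fin k) F} {h : S.I}
    (h1 : ∀ x, (g.1.1 (x, 0, 0)).1 = a.1 *ᵥ x) (h2 : ∀ v, (g.1.1 (0, v, 0)).2.1 = h.1 v) :
    π g = (a, h) :=
  Prod.ext (gl_ext fun x => by rw [← h1, (hπ g).1]) (Subtype.ext (LinearEquiv.ext fun v => by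
    obtain ⟨x, hx⟩ := (hπ g).2 v
    rw [← h2, hx]))

theorem pi_L (hπ : S.IsPi k π) (a : GL (Fin k) F) (h : S.I) (l : (S.ext k).I) (hl : S.IsL k a h l) :
    ∃ hl : l ∈ S.P k, π ⟨l, hl⟩ = (a, h) :=
  ⟨mem_P fun x => by rw [hl]; simp, pi_eq hπ _ (fun x => by rw [hl]) fun v => by rw [hl]⟩

theorem ker_iff (hπ : S.IsPi k π) (g : (S.ext k).I) :
    (∃ hg : g ∈ S.P k, π ⟨g, hg⟩ = 1) ↔ ∃ u φ, S.Adm k u φ ∧ S.IsU k u φ g := by
  refine ⟨fun ⟨hg, h⟩ => ?_, fun ⟨u, φ, _, h⟩ => ⟨U_mem h, pi_eq hπ _ (fun x => by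
    rw [h]; ext i; simp) fun v => by rw [h]; simp⟩⟩
  have h1 : ∀ x, g.1 (x, 0, 0) = (x, 0, 0) := fun x => by simpa [h] using (hπ ⟨g, hg⟩).1 x
  have h2 : ∀ v, ∃ x, g.1 (0, v, 0) = (x, v, 0) := fun v => by simpa [h] using (hπ ⟨g, hg⟩).2 v
  obtain ⟨u, φ, h3, -, h5⟩ := exists_data (S := S)
    (g.1.toLinearMap ∘ₗ LinearMap.inr F _ _ ∘ₗ LinearMap.inr F _ _) (fun y => dot_ext fun x => by
      have := (S.ext k).I_B g (x, 0, 0) (0, 0, y)
      rwa [h1, B1, B1] at this) (fun y y' => ((S.ext k).I_B g (0, 0, y) (0, 0, y')).trans (by simp))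
    fun y => ((S.ext k).I_Q g (0, 0, y)).trans (by simp)
  replace h5 : ∀ y, g.1 (0, 0, y) = (φ *ᵥ y, ∑ i, y i • u i, y) := h5
  refine ⟨u, φ, h3, fun x v y => ?_⟩
  obtain ⟨x', hx⟩ := h2 v
  have h6 : x' = -fun i => S.B v (u i) := funext fun i => by
    have := (S.ext k).I_B g (0, v, 0) (0, 0, Pi.single i 1)
    rw [hx, h5] at this
    simp only [FS.ext_B, dotProduct_single, mul_one, zero_dotProduct, mul_zero, add_zero, map_zero,
      Pi.single_apply, ite_smul, one_smul, zero_smul, Finset.sum_ite_eq', Finset.mem_univ,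
      if_true] at this
    exact eq_neg_of_add_eq_zero_left this
  rw [split, h1, hx, h5, h6]
  simp only [Prod.mk_add_mk, zero_add, Prod.mk.injEq, and_true]
  abel

theorem W_inv {M : GL (Fin k) F} {w : (S.ext k).I} (hw : S.IsW k M w) (y : Fin k → F) :
    ∃ x, w.1 (x, 0, 0) = (0, 0, y) :=
  ⟨S.ε • (M.1ᵀ *ᵥ y), by
    rw [hw, mulVec_zero, mulVec_smul, smul_smul, S.ε_mul_self, one_smul, mulVec_mulVec,
      ← transpose_mul, Units.mul_inv, transpose_one, one_mulVec]⟩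

theorem levi (hπ : S.IsPi k π) {M : GL (Fin k) F} {w : (S.ext k).I} (hw : S.IsW k M w)
    {g : (S.ext k).I} (hg : g ∈ S.P k) (hg' : w⁻¹ * g * w ∈ S.P k) : ∃ a h, S.IsL k a h g := by
  have e : ∀ z, g.1 (w.1 z) = w.1 ((w⁻¹ * g * w).1 z) := fun z => by simp
  refine ⟨(π ⟨g, hg⟩).1, (π ⟨g, hg⟩).2, fun x v y => ?_⟩
  have h1 := (hπ ⟨g, hg⟩).1
  obtain ⟨x', h2⟩ := (hπ ⟨g, hg⟩).2 v
  have h3 : x' = 0 := by
    have := e (0, v, 0)
    rw [P_V hg', hw, hw] at this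
    simp only [mulVec_zero, smul_zero] at this
    exact congrArg Prod.fst (h2.symm.trans this)
  obtain ⟨y', h4⟩ : ∃ y', g.1 (0, 0, y) = (0, 0, y') := by
    obtain ⟨x'', hx⟩ := W_inv hw y
    have := e (x'', 0, 0)
    rw [hx, P_W hg', hw, mulVec_zero] at this
    exact ⟨_, this⟩
  have h5 : y' = ((π ⟨g, hg⟩).1⁻¹).1ᵀ *ᵥ y := dot_ext fun z => by
    have := (S.ext k).I_B g (((π ⟨g, hg⟩).1⁻¹).1 *ᵥ z, 0, 0) (0, 0, y)
    rw [h1, h4, B1, B1, mulVec_mulVec, Units.mul_inv, one_mulVec] at this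
    rw [this, dotProduct_mulVec, vecMul_transpose]
  rw [split, h1, h2, h3, h4, h5]
  simp

theorem big_cell {M : GL (Fin k) F} {w : (S.ext k).I} (hw : S.IsW k M w) (x : (S.ext k).I) :
    (∃ p ∈ S.P k, ∃ p' ∈ S.P k, x = p * w * p') ↔ ∀ z, (x.1 (z, 0, 0)).2.2 = 0 → z = 0 := by
  refine ⟨?_, fun h => ?_⟩
  · rintro ⟨p, hp, p', hp', rfl⟩ z hz
    have h1 : (w.1 (p'.1 (z, 0, 0))).2.2 = 0 := perp_of hp hz
    rw [P_W hp', hw] at h1
    have h2 := glT_eq_zero _ ((smul_eq_zero.1 h1).resolve_left (eps_ne S))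
    have h3 : p'.1 (z, 0, 0) = 0 := by rw [P_W hp', h2]; rfl
    exact congrArg Prod.fst (p'.1.map_eq_zero_iff.1 h3)
  let X : (Fin k → F) →ₗ[F] EV F k V := x.1.toLinearMap ∘ₗ LinearMap.inl F _ _
  let T : (Fin k → F) →ₗ[F] (Fin k → F) := LinearMap.snd F _ _ ∘ₗ LinearMap.snd F _ _ ∘ₗ X
  let s := LinearEquiv.ofInjectiveEndo T ((injective_iff_map_eq_zero T).2 h)
  obtain ⟨u, φ, h3, -, h5⟩ := exists_data (S := S) (X ∘ₗ s.symm.toLinearMap)
    (fun y => s.apply_symm_apply y)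
    (fun y y' => ((S.ext k).I_B x (_, 0, 0) (_, 0, 0)).trans (by simp))
    fun y => ((S.ext k).I_Q x (_, 0, 0)).trans (by simp)
  obtain ⟨g, hg⟩ := exists_U h3
  refine ⟨g, U_mem hg, w⁻¹ * g⁻¹ * x, mem_P fun z => ?_, by group⟩
  obtain ⟨z', hz⟩ := W_inv hw (s z)
  have h6 : x.1 (z, 0, 0) = g.1 (w.1 (z', 0, 0)) := by
    have := h5 (s z)
    rw [LinearMap.comp_apply, LinearEquiv.coe_coe, s.symm_apply_apply] at this
    rw [hz, hg]
    refine this.trans ?_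
    simp only [map_zero, LinearMap.zero_apply, zero_add, Prod.mk.injEq, and_true]
    exact (sub_zero _).symm
  have h7 : (w⁻¹ * g⁻¹ * x).1 (z, 0, 0) = (z', 0, 0) := by
    change w⁻¹.1 (g⁻¹.1 (x.1 _)) = _
    rw [h6]; simp
  rw [h7]; rfl

theorem jobPar : APar := by
  intro F _ _ _ V _ _ _ S k
  have : FiniteDimensional F V := Module.Finite.of_finite
  refine ⟨exists_pi, exists_W, exists_L, fun u φ => exists_U, fun g hg => perp_iff hg,
    fun π hπ => ⟨fun p => ?_, pi_L hπ, ker_iff hπ, fun M w hw g hg hg' => levi hπ hw hg hg',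
      fun M w hw => big_cell hw⟩⟩
  obtain ⟨l, hl⟩ := exists_L (S := S) p.1 p.2
  obtain ⟨h1, h2⟩ := pi_L hπ _ _ l hl
  exact ⟨_, h2⟩

end H56.DGPar
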