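/- Tower DG (S4984), slot Res: from `O` to `PΩ`. -/
import Cfsg.Agent.H53.DGSpec2
import Cfsg.Agent.H56.OrthSimple
import Cfsg.Agent.H32.DegreeRatio

set_option autoImplicit false
set_option linter.unusedSectionVars false

namespace H56.DGRes

open Cfsg Matrix Module H53.DG H28 QuadraticMap

variable {F W : Type} [Field F] [AddCommGroup W] [Module F W] [Finite F] [FiniteDimensional F W]

theorem key {Q : QuadraticForm F W} (hQ : Q.polarBilin.Nondegenerate) (h5 : 5 ≤ finrank F W)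
    (H : Subgroup (W ≃ₗ[F] W)) (hH : H = OG Q) :
    ((commutator H).index ∣ 4 ∧ ((2 : F) = 0 → (commutator H).index ∣ 2)) ∧
    (∀ z : commutator H, z ∈ Subgroup.center (commutator H) → z = 1 ∨ ∀ v, z.1.1 v = -v) ∧
    ∀ (g : H) (x y : W), (∀ a, a ≠ 0 → ∃ w, Q w = a ∧ polar Q w x = 0 ∧ polar Q w y = 0) →
      ∃ k : H, k * g ∈ commutator H ∧ k.1 x = x ∧ k.1 y = y := by
  subst hH
  have hE : ¬ IsExc Q := not_isExc_of_finrank (by omega)
  refine ⟨⟨?_, fun h2 => (index_commutator_of_char_two hQ h2 hE (by omega)).dvd⟩, fun z hz => ?_,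
    fun g x y h => ?_⟩
  · by_cases h2 : (2 : F) = 0
    · rw [index_commutator_of_char_two hQ h2 hE (by omega)]; decide
    · rw [index_commutator_of_two_ne hQ h2 (by omega)]
  · exact ((mem_center_iff_of_EG_le hQ (by omega) (H58.exists_singular_of_three_le Q (by omega))
      (EG_le_commutator hQ hE) z).1 hz).imp Subtype.ext fun h v => by rw [h]; rfl
  · obtain ⟨a, ha, hs⟩ := sqcl_surjective (spinor hQ g)
    obtain ⟨u, hu, u1, u2⟩ := h a ha
    obtain ⟨w, hw, w1, w2⟩ := h 1 one_ne_zero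
    have hu0 : Q u ≠ 0 := by rwa [hu]
    have hw0 : Q w ≠ 0 := by rw [hw]; exact one_ne_zero
    rcases Int.units_eq_one_or (dickson hQ g) with hd | hd
    · refine ⟨refl Q u * refl Q w, (mem_commutator_iff hQ hE _).2 ⟨?_, ?_⟩, ?_, ?_⟩
      · simp [dickson_refl hQ hu0, dickson_refl hQ hw0, hd]
      · simp [spinor_refl, hu, hw, hs]
      · change refl Q u (refl Q w x) = x
        rw [refl_apply_of_orth w1, refl_apply_of_orth u1]
      · change refl Q u (refl Q w y) = y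
        rw [refl_apply_of_orth w2, refl_apply_of_orth u2]
    · exact ⟨refl Q u, (mem_commutator_iff hQ hE _).2 ⟨by simp [dickson_refl hQ hu0, hd],
        by simp [spinor_refl, hu, hs]⟩, refl_apply_of_orth u1, refl_apply_of_orth u2⟩

variable {T : FS F W}

theorem desc (ho : T.o = true) (h5 : 5 ≤ finrank F W) {ψ : commutator T.I → ℂ}
    (hψ : IsIrrCharacter _ ψ) (h : ∀ z : commutator T.I, z.1 = T.neg → ψ z = ψ 1) {d : ℕ}
    (hd : ψ 1 = d) : d ∈ charDegrees T.PO := by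
  have : Finite W := Module.finite_of_finite F
  obtain ⟨η, h1, h2⟩ := hψ.exists_quotient (Subgroup.center _) fun z hz => hψ.mem_charKer.2
    (((key (T.hO ho ▸ T.nd) h5 _ (T.I_eq_OG ho)).2.1 z hz).elim (fun e => by rw [e])
      fun e => h z (Subtype.ext (LinearEquiv.ext e)))
  exact ⟨⟨η, h1⟩, charDegree_eq ((h2 1).trans hd)⟩

theorem res (ho : T.o = true) (h5 : 5 ≤ finrank F W) {d : ℕ}
    (h : T.Deg d ∨ (T.Deg' d ∧ T.neg ∉ commutator T.I)) :
    ∃ d' ∈ charDegrees T.PO, d ∣ 4 * d' ∧ ((2 : F) = 0 → d ∣ 2 * d') := by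
  classical
  have : Finite W := Module.finite_of_finite F
  obtain ⟨χ, h1, h2, h3⟩ : ∃ χ, IsIrrCharacter T.I χ ∧ χ 1 = d ∧
      ∀ z : commutator T.I, z.1 = T.neg → χ z = χ 1 := by
    rcases h with ⟨χ, h1, h2, h3⟩ | ⟨⟨χ, h1, h2⟩, h3⟩
    · exact ⟨χ, h1, h2, fun z hz => by rw [hz, h3]⟩
    · exact ⟨χ, h1, h2, fun z hz => absurd (hz ▸ z.2) h3⟩
  have : Fintype (commutator T.I) := Fintype.ofFinite _
  have h4 : IsCharacter (commutator T.I) fun x => χ x := h1.isCharacter.restrict _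
  obtain ⟨ψ, p1, p2⟩ := h4.isClassFunction.exists_irr_classInner_ne_zero
    fun e => h1.apply_one_ne_zero (congrFun e 1)
  obtain ⟨k, hk, h6⟩ := H32.exists_degree_eq_mul_of_constituent h1 p1 p2
  have h7 : d = k * charDegree ψ := by
    rw [h2, ← p1.cast_charDegree] at h6; exact_mod_cast h6
  obtain ⟨⟨i1, i2⟩, -⟩ := key (T.hO ho ▸ T.nd) h5 _ (T.I_eq_OG ho)
  exact ⟨charDegree ψ, desc ho h5 p1 (fun z hz => p1.mem_charKer.1
      (h4.charKer_le_of_constituent p1 p2 (h4.mem_charKer.2 (h3 z hz)))) p1.cast_charDegree.symm,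
    h7 ▸ Nat.mul_dvd_mul_right (hk.trans i1) _, fun h => h7 ▸ Nat.mul_dvd_mul_right (hk.trans (i2 h)) _⟩

variable {V : Type} [AddCommGroup V] [Module F V] [FiniteDimensional F V]

theorem five_le {r : ℕ} (hr : 3 ≤ r) : 5 ≤ finrank F (EV F r V) := by
  simp only [finrank_prod, finrank_fin_fun]; omega

theorem pt_omega (S : FS F V) (ho : S.o = true) {r : ℕ} (hr : 3 ≤ r) (h : (S.ext r).PT ⊤) :
    (S.ext r).PT (commutator _) := by
  intro x y x' y' l1 l2 q1 q2 q3 q4 hB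
  obtain ⟨g, -, g1, g2⟩ := h x y x' y' l1 l2 q1 q2 q3 q4 hB
  obtain ⟨r, rfl⟩ : ∃ s, r = s + 3 := ⟨r - 3, by omega⟩
  have n01 : (0 : Fin (r + 3)) ≠ 1 := by simp
  have n20 : (2 : Fin (r + 3)) ≠ 0 := fun e => by
    have := congrArg Fin.val e
    simp only [Fin.val_two, Fin.val_zero] at this; omega
  have n21 : (2 : Fin (r + 3)) ≠ 1 := fun e => by
    have := congrArg Fin.val e
    simp only [Fin.val_two, Fin.val_one] at this; omega
  obtain ⟨p, -, p1, p2⟩ := h (Pi.single 0 1, 0, 0)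
    (Pi.single 1 1, 0, Pi.single 0 ((S.ext (r + 3)).B x' y')) x' y'
    (LinearIndependent.pair_iff.2 fun s t e => ⟨by simpa using congrFun (congrArg Prod.fst e) 0,
      by simpa using congrFun (congrArg Prod.fst e) 1⟩) l2 (by simp) (by simp) q3 q4 (by simp)
  obtain ⟨k, k1, k2, k3⟩ := (key ((S.ext (r + 3)).hO ho ▸ (S.ext (r + 3)).nd) (five_le hr) _
    ((S.ext (r + 3)).I_eq_OG ho)).2.2 g x' y' fun a _ => by
      have e : ∀ u v, polar (S.ext (r + 3)).Q u v = (S.ext (r + 3)).B u v := fun u v => by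
        rw [(S.ext (r + 3)).hO ho]; rfl
      refine ⟨p.1 (Pi.single 2 1, 0, Pi.single 2 a), ?_, ?_, ?_⟩
      · rw [FS.I_Q]; simp [FS.κ, ho]
      · rw [e, ← p1, FS.I_B]; simp [n20.symm]
      · rw [e]
        nth_rewrite 1 [← p2]
        rw [FS.I_B]; simp [n20, n21.symm]
  exact ⟨k * g, k1, by change k.1 (g.1 x) = _; rw [g1, k2], by change k.1 (g.1 y) = _; rw [g2, k3]⟩

theorem jobRes (r3 : AR3) : ARes := by
  intro F _ _ _ V _ _ _ S hA ho r hr
  have : FiniteDimensional F V := Module.Finite.of_finite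
  have h5 := five_le (F := F) (V := V) hr
  obtain ⟨h1, h2⟩ := r3 F V S hA r (by omega)
  obtain ⟨f, g, d, e, f1, g1, h3, f2, g2, f3, g3⟩ := h2 _ (pt_omega S ho hr h1)
  have h4 : ∀ z : commutator (S.ext r).I, z.1 = (S.ext r).neg → (1 + f + g) z = (1 + f + g) 1 :=
    fun z hz => by rw [← h3]; simp only [hz, FS.pc_neg, OneMemClass.coe_one]
  have c1 : IsCharacter (commutator (S.ext r).I) 1 := isIrrCharacter_one.isCharacter
  refine ⟨fun d hd => ?_, ⟨d, desc (T := S.ext r) ho h5 f1 (fun z hz => ?_) f2, f3⟩,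
    e, desc (T := S.ext r) ho h5 g1 (fun z hz => ?_) g2, g3⟩
  · obtain ⟨d', k1, k2, k3⟩ := res (T := S.ext r) ho h5 hd
    refine ⟨d', k1, k2, fun h => k3 (by_contra fun h2 => ?_)⟩
    exact ringChar_ne_two_of_two_ne h2 (FiniteField.even_card_iff_char_two.2 (Nat.even_iff.1 h))
  · exact apply_eq_of_add f1.isCharacter (c1.add g1.isCharacter)
      (by rw [← add_assoc, add_comm f 1]; exact h4 z hz)
  · exact apply_eq_of_add g1.isCharacter (c1.add f1.isCharacter) (by rw [add_comm g]; exact h4 z hz)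

end H56.DGRes
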