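/- Tower DG (S4984), slot TS: the real cuspidal character of `GL₂` in `Sp_2n(q)`. -/
import Cfsg.Agent.H53.DGSpec2

set_option autoImplicit false
set_option linter.unusedSectionVars false

namespace H56.DGTS

open Cfsg Matrix Module H53.DG H28

variable {F V : Type} [Field F] [Fintype F] [DecidableEq F] [AddCommGroup V] [Module F V] [Fintype V]

/-- the matrix `J` -/
def J (F : Type) [Field F] : GL (Fin 2) F where
  val := !![0, 1; -1, 0]
  inv := !![0, -1; 1, 0]
  val_inv := by ext i j; fin_cases i <;> fin_cases j <;> simp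
  inv_val := by ext i j; fin_cases i <;> fin_cases j <;> simp

theorem J_val : (J F).1 = !![0, 1; -1, 0] := rfl
theorem J_inv : ((J F)⁻¹).1 = !![0, -1; 1, 0] := rfl

theorem J_adj (A : Matrix (Fin 2) (Fin 2) F) : (J F).1 * Aᵀ * ((J F)⁻¹).1 * A = A.det • 1 := by
  rw [J_val, J_inv, det_fin_two]
  ext i j
  fin_cases i <;> fin_cases j <;> simp [mul_apply, Fin.sum_univ_two, vecMul, dotProduct] <;> ring

theorem adm_iff {S : FS F V} (ho : S.o = false) (u : Fin 2 → V) (φ : Matrix (Fin 2) (Fin 2) F) :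
    S.Adm 2 u φ ↔ φ 0 1 - φ 1 0 = S.B (u 0) (u 1) := by
  have e1 : S.ε = -1 := by simp [FS.ε, ho]
  have e2 : S.κ = 0 := by simp [FS.κ, ho]
  have e3 := (S.hS ho).2.self_eq_zero
  have e4 := S.symm (u 0) (u 1)
  simp only [FS.Adm, Fin.forall_fin_two, e1, e2, (S.hS ho).1, e3] at e4 ⊢
  refine ⟨fun h => by linear_combination -h.1.2.1, fun h => ⟨⟨⟨by ring, by
    linear_combination h + e4⟩, by linear_combination -h, by ring⟩, by simp, by simp⟩⟩

theorem sum_lin (f : V →ₗ[F] F) (hf : f ≠ 0) (T : F → ℂ) (hT : ∑ c, T c = 0) :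
    ∑ v, T (f v) = 0 := by
  obtain ⟨w, hw⟩ := LinearMap.surjective_of_ne_zero hf 1
  have h1 : ∑ c : F, ∑ v, T (f v) = ∑ c : F, ∑ v, T (f v + c) := Finset.sum_congr rfl fun c _ => by
    rw [← Equiv.sum_comp (Equiv.addRight (c • w))]; simp [hw]
  rw [Finset.sum_comm (f := fun c v => T (f v + c)), Finset.sum_eq_zero (f := fun v => ∑ c, T (f v + c))
    fun v _ => (Equiv.sum_comp (Equiv.addLeft (f v)) T).trans hT] at h1
  simpa using h1

theorem sum_adm {S : FS F V} (ho : S.o = false) [DecidablePred fun d : (Fin 2 → V) ×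
    Matrix (Fin 2) (Fin 2) F => S.Adm 2 d.1 d.2] (f : Matrix (Fin 2) (Fin 2) F → ℂ) :
    ∑ d : (Fin 2 → V) × Matrix (Fin 2) (Fin 2) F with S.Adm 2 d.1 d.2, f d.2 =
      ∑ x : V, ∑ y : V, ∑ φ : Matrix (Fin 2) (Fin 2) F with φ 0 1 - φ 1 0 = S.B x y, f φ := by
  classical
  simp only [Finset.sum_filter, adm_iff ho]
  rw [Fintype.sum_prod_type]
  refine Eq.trans ?_ (Fintype.sum_prod_type' fun x y : V => ∑ φ : Matrix (Fin 2) (Fin 2) F,
    if φ 0 1 - φ 1 0 = S.B x y then f φ else 0)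
  exact Fintype.sum_equiv (finTwoArrowEquiv V) _ _ fun _ => rfl

theorem card_fib (δ : F) :
    ∑ φ : Matrix (Fin 2) (Fin 2) F with φ 0 1 - φ 1 0 = δ, (1 : ℂ) = Fintype.card F ^ 3 := by
  rw [← Finset.sum_bij (s := (Finset.univ : Finset (F × F × F))) (f := fun _ => (1 : ℂ))
    (fun p _ => !![p.1, p.2.1 + δ; p.2.1, p.2.2]) (by simp) (fun p _ p' _ h => by
      have h1 := congrFun (congrFun h 0) 0
      have h2 := congrFun (congrFun h 1) 0
      have h3 := congrFun (congrFun h 1) 1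
      exact Prod.ext h1 (Prod.ext h2 h3)) (fun φ hφ => ⟨(φ 0 0, φ 1 0, φ 1 1), by simp, by
      rw [← (Finset.mem_filter.1 hφ).2, add_sub_cancel]; exact (eta_fin_two φ).symm⟩) fun _ _ => rfl]
  simp [pow_three]

theorem card_adm {S : FS F V} (ho : S.o = false) :
    (Nat.card {d : (Fin 2 → V) × Matrix (Fin 2) (Fin 2) F // S.Adm 2 d.1 d.2} : ℂ) =
      Fintype.card V ^ 2 * Fintype.card F ^ 3 := by
  classical
  rw [Nat.card_eq_fintype_card, Fintype.card_subtype, Finset.card_eq_sum_ones, Nat.cast_sum,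
    Nat.cast_one, sum_adm ho fun _ => 1]
  simp only [card_fib]
  simp only [Finset.sum_const, Finset.card_univ, nsmul_eq_mul]
  ring

theorem sum_xm {k : ℕ} (σ : GL (Fin k) F → ℂ) : ∑ m, xm σ m = ∑ᶠ a, σ a := by
  rw [finsum_eq_sum_of_fintype]
  refine (Fintype.sum_of_injective Units.val Units.val_injective σ _ (fun m hm => ?_)
    fun a => (xm_apply σ a).symm).symm
  exact Function.extend_apply' _ _ _ hm

/-- `φ ↦ -φ J` -/
def tw : Matrix (Fin 2) (Fin 2) F ≃ Matrix (Fin 2) (Fin 2) F where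
  toFun φ := (-1 : F) • (φ * ((J F)⁻¹).1ᵀ)
  invFun m := (-1 : F) • (m * (J F).1ᵀ)
  left_inv φ := by
    simp only [smul_mul_assoc, smul_smul, mul_assoc, ← transpose_mul, Units.mul_inv]; simp
  right_inv φ := by
    simp only [smul_mul_assoc, smul_smul, mul_assoc, ← transpose_mul, Units.inv_mul]; simp

theorem trace_tw (φ : Matrix (Fin 2) (Fin 2) F) : (tw φ).trace = φ 0 1 - φ 1 0 := by
  rw [tw, Equiv.coe_fn_mk, J_inv]
  simp [trace_fin_two, mul_apply, Fin.sum_univ_two]; ring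

theorem sum_tw {S : FS F V} (ho : S.o = false) [DecidablePred fun d : (Fin 2 → V) ×
    Matrix (Fin 2) (Fin 2) F => S.Adm 2 d.1 d.2] {σ : GL (Fin 2) F → ℂ} (hσ : ∑ᶠ a, σ a = 0) :
    ∑ d : (Fin 2 → V) × Matrix (Fin 2) (Fin 2) F with S.Adm 2 d.1 d.2, xm σ (tw d.2) =
      Fintype.card V * ∑ m : Matrix (Fin 2) (Fin 2) F with m.trace = 0, xm σ m := by
  rw [sum_adm ho fun φ => xm σ (tw φ), Fintype.sum_eq_single 0 fun x hx => sum_lin (S.B x)
    (fun h => hx (S.eq_zero fun u => by simp [h]))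
    (fun δ => ∑ φ : Matrix (Fin 2) (Fin 2) F with φ 0 1 - φ 1 0 = δ, xm σ (tw φ)) (by
      rw [Finset.sum_fiberwise, Equiv.sum_comp tw (xm σ), sum_xm, hσ])]
  simp only [map_zero, LinearMap.zero_apply, Finset.sum_const, Finset.card_univ, nsmul_eq_mul]
  congr 1
  exact Finset.sum_equiv tw (by simp [trace_tw]) fun _ _ => rfl

theorem exists_deg (hol : JobHol F V) (c2 : JobCusp2 F) (S : FS F V) (ho : S.o = false) :
    ∃ D, (S.ext 2).Deg D ∧
      D * (Fintype.card F + 1) = Fintype.card F * (Fintype.card F - 1) * (S.P 2).index := by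
  classical
  obtain ⟨σ, s1, s2, s3, s4, s5⟩ := c2
  have e1 : S.ε = -1 := by simp [FS.ε, ho]
  have hq : 1 < Fintype.card F := Fintype.one_lt_card
  obtain ⟨χ₁, χ₂, a₁, a₂, h1, h2, h3, h4, h5, h6, h7, h8⟩ := hol S 2 (J F) σ (fun _ => 1) s1
    isIrrCharacter_one s3 (one_le_or S two_ne_zero) two_ne_zero
    (fun a => by rw [J_adj]; exact s4 _ (a⁻¹).det_ne_zero) (by
      rw [← s4 1 one_ne_zero, e1, J_val, J_inv]
      congr 1
      ext i j
      fin_cases i <;> fin_cases j <;> simp [Fin.sum_univ_two, vecMul, dotProduct])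
  obtain ⟨h9, h10⟩ := h8 (by
    rw [← s4 (-1) (by simp), ← xm_apply σ (-1)]; simp)
  rw [card_adm ho] at h5
  rw [Finset.sum_congr rfl (g := fun d => xm σ (tw d.2)) fun d hd => by
    rw [e1]
    by_cases hu : IsUnit d.2
    · obtain ⟨h, hh⟩ := h7 _ _ (Finset.mem_filter.1 hd).2 hu
      rw [← funext hh, S.xt_apply, mul_one]; rfl
    · have : xm σ (tw d.2) = 0 := Function.extend_apply' _ _ _ fun ⟨a, ha⟩ => hu (by
        rw [← tw.symm_apply_apply d.2, ← ha]
        exact (isUnit_iff_isUnit_det _).2 (by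
          rw [tw, Equiv.coe_fn_symm_mk, det_smul, det_mul, det_transpose]
          simp [J_val, det_fin_two_of, GeneralLinearGroup.det_ne_zero a]))
      rw [this]; exact mul_eq_zero_of_left this _, sum_tw ho s3.2] at h6
  rw [s2, Nat.cast_sub hq.le, Nat.cast_one, mul_one] at h3 h6
  have q0 : (Fintype.card F : ℂ) ≠ 0 := by simp
  have q1 : (Fintype.card F : ℂ) - 1 ≠ 0 := sub_ne_zero.2 (by exact_mod_cast hq.ne')
  have v0 : (Fintype.card V : ℂ) ≠ 0 := by simp
  have a0 : a₁ * a₂ ≠ 0 := by rw [h5]; simp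
  have k1 : (a₁ + Fintype.card F * a₂) * (Fintype.card F * a₁ + a₂) = 0 := by
    refine mul_left_cancel₀ (pow_ne_zero 2 q1) ?_
    generalize ∑ m : Matrix (Fin 2) (Fin 2) F with m.trace = 0, xm σ m = s at s5 h6
    linear_combination (Fintype.card F - 1) ^ 4 * h5 + Fintype.card F * Fintype.card V ^ 2 * s5 +
      Fintype.card F * ((a₁ + a₂) * (Fintype.card F - 1) + Fintype.card V * s) * h6
  have fin : ∀ χ, IsIrrCharacter _ χ → χ (S.ext 2).neg = χ 1 →
      χ 1 * (Fintype.card F + 1) = Fintype.card F * ((S.P 2).index * (Fintype.card F - 1)) →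
      ∃ D, (S.ext 2).Deg D ∧
        D * (Fintype.card F + 1) = Fintype.card F * (Fintype.card F - 1) * (S.P 2).index :=
    fun χ c1 c2 c3 => ⟨charDegree χ, ⟨χ, c1, c1.cast_charDegree.symm, c2⟩, by
      rw [← c1.cast_charDegree] at c3
      refine Nat.cast_injective (R := ℂ) ?_
      push_cast [hq.le]
      linear_combination c3⟩
  rcases mul_eq_zero.1 k1 with k | k
  · exact fin χ₂ h2 h10 (mul_left_cancel₀ (right_ne_zero_of_mul a0) (by
      linear_combination Fintype.card F * a₂ * h3 + h4 - χ₁ 1 * k))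
  · exact fin χ₁ h1 h9 (mul_left_cancel₀ (left_ne_zero_of_mul a0) (by
      linear_combination Fintype.card F * a₁ * h3 + h4 - χ₂ 1 * k))

theorem sv_self (q j : ℕ) : sv q q (j + 1) = q ^ (2 * (j + 1)) - 1 := by
  rw [sv, Nat.add_sub_cancel, ← pow_succ, mul_comm, ← Nat.sq_sub_sq, one_pow, ← pow_mul, mul_comm]

theorem jobTS (hol : AHol) (c2 : ACusp2) (idx : AIdx) (iso : AIso) : ATS := by
  intro F _ _ _ n hn
  obtain ⟨m, rfl⟩ : ∃ m, n = m + 2 := ⟨n - 2, by omega⟩
  obtain ⟨D, h1, h2⟩ := exists_deg (hol F _) (c2 F) ((zero F false).ext m) rfl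
  have h3 := idx F _ (zero F false) (zero_an F false) m 2
  refine ⟨D, (((iso F _ _).2.2 _ _ ((iso F _ (zero F false)).1 m 2)).2.2 D).1 h1, ?_⟩
  rw [Finset.prod_Ioc_succ_top (by omega), Finset.prod_Ioc_succ_top le_rfl, Finset.Ioc_self,
    Finset.prod_empty, one_mul, zero_a_false, sv_self, sv_self,
    show Finset.Icc 1 2 = {1, 2} from rfl, Finset.prod_pair (by decide), pow_one] at h3
  rw [mul_comm (_ - 1), ← mul_assoc, h2, show 2 * (m + 2) - 2 = 2 * (m + 1) by omega,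
    mul_comm (_ ^ (2 * (m + 2)) - 1), ← h3]
  ring

end H56.DGTS
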