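/- Tower DG (S5732): the normal subgroup of class two. -/
import Cfsg.Agent.H56.DgSpec

set_option autoImplicit false
set_option linter.unusedSectionVars false

namespace H56.DG

open Subgroup
open scoped commutatorElement

universe u

theorem card_le_mul' {H : Type u} [Group H] [Finite H] {L B T : Subgroup H}
    (h : ∀ g ∈ L, ∃ b ∈ B, ∃ t ∈ T, g = b * t) : Nat.card L ≤ Nat.card B * Nat.card T := by
  choose! b hb t ht e using h
  rw [← Nat.card_prod]
  refine Nat.card_le_card_of_injective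
    (fun g : L => ((⟨b g, hb g g.2⟩, ⟨t g, ht g g.2⟩) : B × T)) fun g g' c => Subtype.ext ?_
  have c1 : b g = b g' := congrArg (fun p => (p.1 : H)) c
  have c2 : t g = t g' := congrArg (fun p => (p.2 : H)) c
  rw [e g g.2, e g' g'.2, ← c1, ← c2]

theorem relIndex_mul_card_inf' {H : Type u} [Group H] (A B : Subgroup H) :
    A.relIndex B * Nat.card ↥(A ⊓ B) = Nat.card B := by
  rw [← inf_relIndex_right, relIndex, ← (A ⊓ B).subgroupOf B |>.index_mul_card,
    Nat.card_congr (subgroupOfEquivOfLe (inf_le_right : A ⊓ B ≤ B)).toEquiv]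

/-- The hypotheses of the job. -/
structure C2 {H : Type u} (V : Type u) [Group H] [CommGroup V] [MulDistribMulAction H V]
    (M : Subgroup H) (q : ℕ) (z : H) : Prop where
  pr : q.Prime
  cop : q.Coprime (Nat.card V)
  zM : z ∈ M
  zo : orderOf z = q
  zc : ∀ g ∈ M, Commute g z
  cm : ∀ g ∈ M, ∀ y ∈ M, ⁅g, y⁆ ∈ zpowers z
  pw : ∀ g ∈ M, g ^ q ∈ zpowers z
  fc : ∀ c ∈ M, (∀ g ∈ M, Commute c g) → c ≠ 1 → Fpf V c

namespace C2
variable {H V : Type u} [Group H] [Finite H] [CommGroup V] [Finite V] [MulDistribMulAction H V]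
  {M : Subgroup H} {q : ℕ} {z : H} (c : C2 V M q z)
include c

theorem ZM : zpowers z ≤ M := zpowers_le.2 c.zM

theorem Zc {t g : H} (ht : t ∈ zpowers z) (hg : g ∈ M) : Commute t g := by
  obtain ⟨k, rfl⟩ := ht
  exact ((c.zc g hg).zpow_right k).symm

theorem Z1 {t : H} (ht : t ∈ zpowers z) {v : V} (hv : v ≠ 1) (h : t • v = v) : t = 1 :=
  by_contra fun e => hv (c.fc t (c.ZM ht) (fun _ hg => c.Zc ht hg) e v h)

theorem z1 : z ≠ 1 := fun e => c.pr.ne_one (by rw [← c.zo, e, orderOf_one])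

theorem zf : Fpf V z := fun _ h => by_contra fun hv => c.z1 (c.Z1 (mem_zpowers z) hv h)

theorem comm {v : V} (hv : v ≠ 1) {a b : H} (ha : a ∈ M) (hb : b ∈ M) (ha' : a • v = v)
    (hb' : b • v = v) : Commute a b := by
  have a1 : a ∈ MulAction.stabilizer H v := ha'
  have b1 : b ∈ MulAction.stabilizer H v := hb'
  exact commutatorElement_eq_one_iff_commute.1 (c.Z1 (c.cm a ha b hb) hv
    (mul_mem (mul_mem (mul_mem a1 b1) (inv_mem a1)) (inv_mem b1) : _ ∈ MulAction.stabilizer H v))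

theorem pow1 {v : V} (hv : v ≠ 1) {a : H} (ha : a ∈ M) (ha' : a • v = v) : a ^ q = 1 :=
  c.Z1 (c.pw a ha) hv (pow_mem (MulAction.mem_stabilizer_iff.2 ha') q)

theorem sep {g g' b : H} (hg : g ∈ M) (hg' : g' ∈ M) (hb : b ∈ M)
    (h : g * b * g⁻¹ ≠ g' * b * g'⁻¹) {u : V} (h1 : (g * b * g⁻¹) • u = u)
    (h2 : (g' * b * g'⁻¹) • u = u) : u = 1 := by
  by_contra hu
  have e : g * b * g⁻¹ * (g' * b * g'⁻¹)⁻¹ = ⁅g, b⁆ * ⁅g', b⁆⁻¹ := by
    simp only [commutatorElement_def]; group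
  refine h (mul_inv_eq_one.1 (c.Z1 (e ▸ mul_mem (c.cm g hg b hb) (inv_mem (c.cm g' hg' b hb))) hu
    (mul_mem (MulAction.mem_stabilizer_iff.2 h1) (inv_mem (MulAction.mem_stabilizer_iff.2 h2)) :
      _ ∈ MulAction.stabilizer H u)))

theorem big (ind : JobInd.{u}) (pair : JobPair.{u}) {B : Subgroup H} (hB : B ≤ M) {v : V}
    (hv : v ≠ 1) (hvB : v ∈ cv V (B : Set H)) :
    Nat.card B ≤ (centralizer (B : Set H)).relIndex M ∧
      Nat.card (cv V (B : Set H)) ^ (centralizer (B : Set H)).relIndex M ≤ Nat.card V := by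
  refine ⟨pair H M B z (c.zo ▸ c.pr) hB c.zc c.cm fun b hb h => by_contra fun e =>
    hv (c.fc b (hB hb) h e v (hvB b hb)), ?_⟩
  let ι := M ⧸ (centralizer (B : Set H)).subgroupOf M
  have : Fintype ι := Fintype.ofFinite _
  let g : ι → H := fun i => (Quotient.out i : M)
  have hg : ∀ i, g i ∈ M := fun i => (Quotient.out i : M).2
  let A : ι → Subgroup H := fun i => B.map (MulAut.conj (g i)).toMonoidHom
  have hA : ∀ i, (A i : Set H) = (fun s => g i * s * (g i)⁻¹) '' B := fun i => rfl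
  have := Fact.mk c.pr
  have hq : IsPGroup q B := fun b => ⟨1, Subtype.ext (by
    rw [pow_one]; exact c.pow1 hv (hB b.2) (hvB _ b.2))⟩
  have := ind H V ι A (fun i => ?_) (fun i j _ => ?_) fun i j hij u h1 h2 => ?_
  · rw [Finset.prod_congr rfl fun i _ => (hA i ▸ card_cv_conj (g i) (B : Set H) :
      Nat.card (cv V (A i : Set H)) = _), Finset.prod_const, Finset.card_univ,
      ← Nat.card_eq_fintype_card] at this
    exact this
  · obtain ⟨k, hk⟩ := (hq.map (MulAut.conj (g i)).toMonoidHom).exists_card_eq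
    rw [hk]
    exact c.cop.pow_left k
  · rintro _ ⟨a, ha, rfl⟩ _ ⟨b, hb, rfl⟩
    have e : ∀ k, ∀ s : H, (MulAut.conj (g k)).toMonoidHom s = ⁅g k, s⁆ * s := fun k s => by
      simp [commutatorElement_def]
    have a1 := c.cm _ (hg i) a (hB ha)
    have b1 := c.cm _ (hg j) b (hB hb)
    rw [e, e]
    exact (c.Zc a1 (mul_mem (c.ZM b1) (hB hb))).mul_left
      ((c.Zc b1 (hB ha)).symm.mul_right (c.comm hv (hB ha) (hB hb) (hvB a ha) (hvB b hb)))
  · have : ¬ ((g i)⁻¹ * g j ∈ centralizer (B : Set H)) := fun h => hij (by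
      rw [← QuotientGroup.out_eq' i, ← QuotientGroup.out_eq' j]
      exact QuotientGroup.eq.2 h)
    rw [mem_centralizer_iff] at this
    push Not at this
    obtain ⟨b, hb, e⟩ := this
    refine c.sep (hg i) (hg j) (hB hb) (fun h => e ?_) (h1 _ ⟨b, hb, rfl⟩) (h2 _ ⟨b, hb, rfl⟩)
    calc b * ((g i)⁻¹ * g j) = (g i)⁻¹ * (g i * b * (g i)⁻¹) * g j := by group
      _ = _ := by rw [h]; group

/-- The order of `M` is bounded by a power of the logarithm of `|V|`. -/
theorem bound (ind : JobInd.{u}) (fpf : JobFpf.{u}) (pair : JobPair.{u}) {x : H} (hx : x ∈ M)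
    (hx1 : x ≠ 1) {v : V} (hv : v ≠ 1) (hxv : x • v = v) :
    ∃ r, Nat.card M ≤ r ^ 5 ∧ 2 ^ r ≤ Nat.card V := by
  obtain ⟨v₀, hv₀, hmax⟩ := Set.exists_max_image {u : V | u ≠ 1}
    (fun u => Nat.card ↥(MulAction.stabilizer H u ⊓ M)) (Set.toFinite _) ⟨v, hv⟩
  set B := MulAction.stabilizer H v₀ ⊓ M with hBdef
  have hB : B ≤ M := inf_le_right
  have hvB : v₀ ∈ cv V (B : Set H) := fun s hs => hs.1
  have mx : ∀ w ∈ cv V (B : Set H), w ≠ 1 → ∀ g ∈ M, g • w = w → g ∈ B := fun w hw hw1 g hg e => by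
    have h1 : B ≤ MulAction.stabilizer H w ⊓ M := fun s hs => ⟨hw s hs, hs.2⟩
    rw [eq_of_le_of_card_ge h1 (hmax w hw1)]
    exact ⟨e, hg⟩
  obtain ⟨h1, h2⟩ := c.big ind pair hB hv₀ hvB
  set r := (centralizer (B : Set H)).relIndex M
  have hq0 := c.pr.pos
  have hqB : q ≤ Nat.card B := by
    refine le_trans ?_ (hmax v hv)
    have := Fact.mk c.pr
    have := Subgroup.orderOf_dvd_natCard (MulAction.stabilizer H v ⊓ M) (x := x) ⟨hxv, hx⟩
    rw [orderOf_eq_prime (c.pow1 hv hx hxv) hx1] at this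
    exact Nat.le_of_dvd Nat.card_pos this
  have hz : z ^ q = 1 := c.zo ▸ pow_orderOf_eq_one z
  have hZ : Nat.card (zpowers z) = q := by rw [Nat.card_zpowers, c.zo]
  set C := centralizer (B : Set H) ⊓ M
  have inv : ∀ g ∈ C, ∀ w ∈ cv V (B : Set H), g • w ∈ cv V (B : Set H) := fun g hg w hw s hs => by
    rw [← mul_smul, hg.1 s hs, mul_smul, hw s hs]
  have A : ∀ g ∈ C, g ^ q = 1 → ∃ b ∈ B, ∃ t ∈ zpowers z, g = b * t := fun g hg e => by
    obtain ⟨i, w, hw, hw1, h⟩ := fpf H V q z g (cv V (B : Set H)) c.pr c.cop (c.zc g hg.2).symm hz e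
      c.zf (fun h => hv₀ (mem_bot.1 (h ▸ hvB)))
      (inv z ⟨fun s hs => c.zc s (hB hs), c.zM⟩) (inv g hg)
    exact ⟨_, mx w hw hw1 _ (mul_mem hg.2 (pow_mem c.zM i)) h, _,
      inv_mem (pow_mem (mem_zpowers z) i), (mul_inv_cancel_right _ _).symm⟩
  have hC : Nat.card C ≤ Nat.card B * q ^ 3 := by
    by_cases h : ∀ g ∈ C, g ^ q = 1
    · refine (card_le_mul' fun g hg => A g hg (h g hg)).trans (Nat.mul_le_mul_left _ ?_)
      rw [hZ]
      exact Nat.le_self_pow (by omega) q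
    push Not at h
    obtain ⟨y, hy, hy1⟩ := h
    have hyz : zpowers (y ^ q) = zpowers z := by
      have := Fact.mk c.pr
      refine eq_of_le_of_card_ge (zpowers_le.2 (c.pw y hy.2)) ?_
      rw [hZ, Nat.card_zpowers, orderOf_eq_prime (p := q) ?_ hy1]
      exact orderOf_dvd_iff_pow_eq_one.1 ((orderOf_dvd_of_mem_zpowers (c.pw y hy.2)).trans c.zo.dvd)
    have e1 : Nat.card ↥(centralizer {y} ⊓ C) ≤ Nat.card B * Nat.card (zpowers y) := by
      refine card_le_mul' fun g hg => ?_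
      obtain ⟨k, hk⟩ : g ^ q ∈ zpowers (y ^ q) := hyz ▸ c.pw g hg.2.2
      have cg : Commute g y := (hg.1 y rfl).symm
      obtain ⟨b, hb, t, ht, e⟩ := A (g * (y ^ k)⁻¹) (mul_mem hg.2 (inv_mem (zpow_mem hy k))) (by
        rw [(cg.zpow_right k).inv_right.mul_pow, ← hk, inv_pow, ← zpow_natCast (y ^ k),
          ← zpow_mul, mul_comm k, zpow_mul, zpow_natCast]
        exact mul_inv_cancel _)
      refine ⟨b, hb, t * y ^ k, mul_mem ?_ (zpow_mem (mem_zpowers y) k), ?_⟩
      · exact (zpowers_le.2 (pow_mem (mem_zpowers y) q)) (hyz ▸ ht)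
      · rw [← mul_assoc, ← e, inv_mul_cancel_right]
    have e2 : Nat.card (zpowers y) ≤ q ^ 2 := by
      rw [Nat.card_zpowers]
      refine Nat.le_of_dvd (by positivity) (orderOf_dvd_iff_pow_eq_one.2 ?_)
      rw [sq, pow_mul]
      exact orderOf_dvd_iff_pow_eq_one.1 ((orderOf_dvd_of_mem_zpowers (c.pw y hy.2)).trans c.zo.dvd)
    have e3 : (centralizer {y}).relIndex C ≤ q := by
      rw [← hZ]
      refine Nat.card_le_card_of_injective (fun i : C ⧸ (centralizer {y}).subgroupOf C =>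
        (⟨⁅((Quotient.out i : C) : H), y⁆, c.cm _ (Quotient.out i : C).2.2 y hy.2⟩ : zpowers z))
        fun i j e => ?_
      have e' : ⁅((Quotient.out i : C) : H), y⁆ = ⁅((Quotient.out j : C) : H), y⁆ :=
        congrArg Subtype.val e
      rw [← QuotientGroup.out_eq' i, ← QuotientGroup.out_eq' j]
      refine QuotientGroup.eq.2 (mem_subgroupOf.2 (mem_centralizer_singleton_iff.2 ?_))
      push_cast
      generalize ((Quotient.out i : C) : H) = a at e'
      generalize ((Quotient.out j : C) : H) = b at e'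
      calc a⁻¹ * b * y = a⁻¹ * ⁅b, y⁆ * y * b := by rw [commutatorElement_def]; group
        _ = _ := by rw [← e', commutatorElement_def]; group
    have e4 := relIndex_mul_card_inf' (centralizer {y}) C
    calc Nat.card C = _ := e4.symm
      _ ≤ q * (Nat.card B * q ^ 2) := Nat.mul_le_mul e3 (e1.trans (Nat.mul_le_mul_left _ e2))
      _ = _ := by ring
  refine ⟨r, ?_, le_trans (Nat.pow_le_pow_left ?_ r) h2⟩
  · have e4 := relIndex_mul_card_inf' (centralizer (B : Set H)) M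
    calc Nat.card M = _ := e4.symm
      _ ≤ r * (r * r ^ 3) := Nat.mul_le_mul_left _ (hC.trans (Nat.mul_le_mul h1
          (Nat.pow_le_pow_left (hqB.trans h1) 3)))
      _ = _ := by ring
  · exact (one_lt_card_iff_ne_bot _).2 fun h => hv₀ (mem_bot.1 (h ▸ hvB))

end C2

theorem jobCl2 (ind : JobInd.{u}) (fpf : JobFpf.{u}) (pair : JobPair.{u}) : JobCl2.{u} := by
  intro H V _ _ _ _ _ R M q z S hM hMR h1 h2 h3 h4 h5 h6 h7 h8
  have c : C2 V M q z := ⟨h1, h2, h3, h4, h5, h6, h7, h8⟩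
  classical
  refine or_iff_not_imp_left.2 fun h => ?_
  simp only [Fpf] at h
  push Not at h
  obtain ⟨x, hx, hx1, v, hxv, hv⟩ := h
  have cM : (Set.toFinite (M : Set H)).toFinset.card = Nat.card M :=
    (Set.ncard_eq_toFinset_card _ _).symm
  by_cases L : ∃ u : V, u ≠ 1 ∧ ∃ a ∈ M, ∃ b ∈ M, a • u = u ∧ b • u = u ∧ a ≠ 1 ∧ b ≠ 1 ∧ a ≠ b
  · obtain ⟨u, hu, a, ha, b, hb, hau, hbu, a1, b1, hab⟩ := L
    obtain ⟨r, r1, r2⟩ := c.bound ind fpf pair hx hx1 hv hxv
    have hB : closure {a, b} ≤ M := by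
      rw [closure_le]; rintro _ (rfl | rfl) <;> assumption
    have up : ∀ w ∈ cv V ({a, b} : Set H), w ∈ cv V (closure {a, b} : Set H) := fun w hw =>
      (closure_le (MulAction.stabilizer H w)).2 hw
    have huA : u ∈ cv V ({a, b} : Set H) := by rintro _ (rfl | rfl) <;> assumption
    obtain ⟨e1, e2⟩ := c.big ind pair hB hu (up u huA)
    have e3 : 3 ≤ Nat.card (closure ({a, b} : Set H)) := by
      have : ({1, a, b} : Set H).ncard = 3 := Set.ncard_eq_three.2 ⟨1, a, b, a1.symm, b1.symm, hab, rfl⟩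
      rw [← this]
      refine Set.ncard_le_ncard (s := {1, a, b}) (t := (closure ({a, b} : Set H) : Set H)) ?_
      rintro _ (rfl | h)
      · exact one_mem _
      · exact subset_closure h
    have e4 := cnt_cover S (M := ⊥) bot_le hu huA
      ((Set.toFinite (M : Set H)).toFinset ×ˢ (Set.toFinite (M : Set H)).toFinset)
      (fun t => {t.1, t.2}) fun g => ⟨(g * a * g⁻¹, g * b * g⁻¹), by
        simp only [Finset.mem_product, Set.Finite.mem_toFinset]
        exact ⟨hM.conj_mem a ha g, hM.conj_mem b hb g⟩, by rw [Set.image_pair]⟩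
    rw [relIndex_bot_right, mul_one, Finset.card_product, cM] at e4
    refine Or.inr ⟨r, Nat.card (cv V (closure {a, b} : Set H)), e4.trans ?_,
      (Nat.pow_le_pow_right Nat.card_pos (e3.trans e1)).trans e2, r2⟩
    refine Nat.mul_le_mul ((Nat.mul_le_mul r1 r1).trans_eq (by ring))
      ((Nat.sub_le _ _).trans (card_le_of_le up))
  push Not at L
  have sq : ∀ u : V, u ≠ 1 → ∀ a ∈ M, a • u = u → a * a = 1 := fun u hu a ha e => by
    by_contra h
    by_cases a1 : a = 1
    · exact h (by rw [a1, mul_one])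
    · exact a1 (mul_eq_left.1 (L u hu _ (mul_mem ha ha) a ha (by rw [mul_smul, e, e]) e h a1))
  have q2 : q = 2 := by
    have := Fact.mk c.pr
    rw [← orderOf_eq_prime (c.pow1 hv hx hxv) hx1]
    exact orderOf_eq_prime (by rw [pow_two]; exact sq v hv x hx hxv) hx1
  have zz : z * z = 1 := by rw [← pow_two, ← q2, ← c.zo, pow_orderOf_eq_one]
  have zv : v * z • v = 1 := c.zf _ (by rw [smul_mul', ← mul_smul, zz, one_smul, mul_comm])
  let I : Set H := {y | y ∈ M ∧ y ≠ 1 ∧ ¬ Fpf V y}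
  have key : ∀ y ∈ I, x * y ∉ I := by
    rintro y ⟨hy, y1, hyf⟩ ⟨-, xy1, hf⟩
    simp only [Fpf] at hyf hf
    push Not at hyf hf
    obtain ⟨u, hyu, hu⟩ := hyf
    obtain ⟨u', hu1, hu'⟩ := hf
    have xx := sq v hv x hx hxv
    have yy := sq u hu y hy hyu
    have xy := sq u' hu' _ (mul_mem hx hy) hu1
    have cxy : x * y = y * x := by
      rw [eq_inv_of_mul_eq_one_left xy, mul_inv_rev, ← eq_inv_of_mul_eq_one_left xx,
        ← eq_inv_of_mul_eq_one_left yy]
    by_cases e : v * y • v = 1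
    · have e1 : y • v = z • v := mul_left_cancel (e.trans zv.symm)
      have e2 : (z * y) • v = v := by rw [mul_smul, e1, ← mul_smul, zz, one_smul]
      by_cases e3 : z * y = 1
      · have : y = z := mul_left_cancel (e3.trans zz.symm)
        exact hu (c.zf u (this ▸ hyu))
      · have e4 := L v hv _ (mul_mem c.zM hy) x hx e2 hxv e3 hx1
        have : x * y = z := by rw [← e4, mul_assoc, yy, mul_one]
        exact hu' (c.zf u' (this ▸ hu1))
    · have := L _ e x hx y hy (by rw [smul_mul', hxv, ← mul_smul, cxy, mul_smul, hxv])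
        (by rw [smul_mul', ← mul_smul, yy, one_smul, mul_comm]) hx1 y1
      exact xy1 (by rw [← this, xx])
  have hI : 2 * I.ncard ≤ Nat.card M := by
    have e1 : (I ∪ (fun y => x * y) '' I).ncard = I.ncard + I.ncard := by
      rw [Set.ncard_union_eq (Set.disjoint_left.2 (by rintro _ h ⟨y, hy, rfl⟩; exact key y hy h)),
        Set.ncard_image_of_injective _ (mul_right_injective x)]
    rw [two_mul, ← e1]
    refine Set.ncard_le_ncard (t := (M : Set H)) ?_
    rintro _ (h | ⟨y, hy, rfl⟩)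
    · exact h.1
    · exact mul_mem hx hy.1
  have hS : Nat.card ↥(MulAction.stabilizer H v ⊓ M) ≤ 2 := by
    refine le_trans (Set.ncard_le_ncard (s := ((MulAction.stabilizer H v ⊓ M : Subgroup H) : Set H))
      (t := {1, x}) fun a ha => ?_) (Set.ncard_pair hx1.symm).le
    by_cases a1 : a = 1
    · exact Or.inl a1
    · exact Or.inr (L v hv a ha.2 x hx ha.1 hxv a1 hx1)
  obtain ⟨g, hg, hgx⟩ : ∃ g ∈ M, ¬ Commute x g := by
    by_contra h
    push Not at h
    exact hv (c.fc x hx h hx1 v hxv)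
  refine Or.inl (half S hMR hv hxv (g := g) (fun u e1 e2 => ?_) (Set.toFinite I).toFinset
    (fun h => ?_) ?_)
  · refine c.sep (one_mem M) hg hx (fun h => hgx ?_) (by simpa using e1) e2
    rw [one_mul, inv_one, mul_one, eq_mul_inv_iff_mul_eq] at h
    exact h
  · rw [Set.Finite.mem_toFinset]
    refine ⟨hM.conj_mem x hx h, by simpa using hx1, fun f => hv ?_⟩
    have := f.conj h⁻¹
    exact this v (by simpa [mul_assoc] using hxv)
  · rw [← Set.ncard_eq_toFinset_card _ _]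
    have e4 := relIndex_mul_card_inf' (MulAction.stabilizer H v) M
    have := Nat.mul_le_mul_left ((MulAction.stabilizer H v).relIndex M) hS
    omega

end H56.DG
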