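import Cfsg.Agent.H40.E7TSpec
import Cfsg.Agent.H61.E7W

/-! Job W9 of the tower E7T: the weights of elements of order nine of the torus.  The weights are
`±(x i + x i')`, `i ≠ i'`, for eight elements `x i` of sum zero; only the multiplicities of the `x i` matter. -/

set_option autoImplicit false

namespace H56.E7W9

open Finset H61.E7W

/-- the test -/
def chk (a0 a1 a2 a3 a4 a5 a6 a7 a8 : ℕ) : Bool :=
  !Nat.beq ((a1 + 2 * a2 + 3 * a3 + 4 * a4 + 5 * a5 + 6 * a6 + 7 * a7 + 8 * a8) % 9) 0 ||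
  !Nat.beq (a0 * a3 + a1 * a2 + a2 * a1 + a3 * a0 + a4 * a8 + a5 * a7 + a6 * a6 + a7 * a5 + a8 * a4 + (a0 * a6 + a1 * a5 + a2 * a4 + a3 * a3 + a4 * a2 + a5 * a1 + a6 * a0 + a7 * a8 + a8 * a7)) (a6 + a3) ||
  !Nat.beq (a0 * a1 + a1 * a0 + a2 * a8 + a3 * a7 + a4 * a6 + a5 * a5 + a6 * a4 + a7 * a3 + a8 * a2 + (a0 * a8 + a1 * a7 + a2 * a6 + a3 * a5 + a4 * a4 + a5 * a3 + a6 * a2 + a7 * a1 + a8 * a0) + (a1 + a8)) (a0 * a2 + a1 * a1 + a2 * a0 + a3 * a8 + a4 * a7 + a5 * a6 + a6 * a5 + a7 * a4 + a8 * a3 + (a0 * a7 + a1 * a6 + a2 * a5 + a3 * a4 + a4 * a3 + a5 * a2 + a6 * a1 + a7 * a0 + a8 * a8) + (a5 + a4)) ||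
  !Nat.beq (a0 * a2 + a1 * a1 + a2 * a0 + a3 * a8 + a4 * a7 + a5 * a6 + a6 * a5 + a7 * a4 + a8 * a3 + (a0 * a7 + a1 * a6 + a2 * a5 + a3 * a4 + a4 * a3 + a5 * a2 + a6 * a1 + a7 * a0 + a8 * a8) + (a2 + a7)) (a0 * a4 + a1 * a3 + a2 * a2 + a3 * a1 + a4 * a0 + a5 * a8 + a6 * a7 + a7 * a6 + a8 * a5 + (a0 * a5 + a1 * a4 + a2 * a3 + a3 * a2 + a4 * a1 + a5 * a0 + a6 * a8 + a7 * a7 + a8 * a6) + (a1 + a8)) ||
  Nat.beq (a0 * a0 + a1 * a8 + a2 * a7 + a3 * a6 + a4 * a5 + a5 * a4 + a6 * a3 + a7 * a2 + a8 * a1 + (a0 * a0 + a1 * a8 + a2 * a7 + a3 * a6 + a4 * a5 + a5 * a4 + a6 * a3 + a7 * a2 + a8 * a1)) (112 + (a0 + a0))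

theorem all : al (fun a0 => al (fun a1 => al (fun a2 => al (fun a3 => al (fun a4 => al (fun a5 => al (fun a6 => al (fun a7 => chk a0 a1 a2 a3 a4 a5 a6 a7 (8 - (a0 + a1 + a2 + a3 + a4 + a5 + a6 + a7))) (9 - (a0 + a1 + a2 + a3 + a4 + a5 + a6))) (9 - (a0 + a1 + a2 + a3 + a4 + a5))) (9 - (a0 + a1 + a2 + a3 + a4))) (9 - (a0 + a1 + a2 + a3))) (9 - (a0 + a1 + a2))) (9 - (a0 + a1))) (9 - (a0))) 9 = true := by
  decide +kernel

theorem key {a0 a1 a2 a3 a4 a5 a6 a7 a8 : ℕ} (h : a0 + a1 + a2 + a3 + a4 + a5 + a6 + a7 + a8 = 8) :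
    chk a0 a1 a2 a3 a4 a5 a6 a7 a8 = true := by
  have := al_spec (al_spec (al_spec (al_spec (al_spec (al_spec (al_spec (al_spec all a0 (by omega)) a1
    (by omega)) a2 (by omega)) a3 (by omega)) a4 (by omega)) a5 (by omega)) a6 (by omega)) a7 (by omega)
  rwa [show 8 - (a0 + a1 + a2 + a3 + a4 + a5 + a6 + a7) = a8 by omega] at this

/-- the coordinates -/
def X (i k : ℕ) : ZMod 9 := (H65.fld 4 15 0x80000501800050018005000180500001840000014800000410000040 (7 * i + k) : ℕ)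
/-- the weight `x i + x i'` -/
def ff (p : Fin 8 × Fin 8) : Fin 56 := Fin.ofNat 56 (H65.fld 6 63 0x1c75f8a6b007007a08e7b4175e021928b827e0840969bc38a392502ac049a7a29a80c45b2dbafc3100c001083105300 (8 * p.1 + p.2))

theorem X_sum : ∀ k : Fin 7, ∑ i : Fin 8, X i k = 0 := by decide +kernel

theorem wt_ff : ∀ p : Fin 8 × Fin 8, p.1 ≠ p.2 → ∀ k : Fin 7,
    (H26.E7.wt k (ff p) : ZMod 9) = X p.1 k + X p.2 k ∧
      (H26.E7.wt k (ff p).rev : ZMod 9) = -(X p.1 k + X p.2 k) := by decide +kernel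

theorem fib : ∀ j : Fin 56, ((univ.filter fun p : Fin 8 × Fin 8 => p.1 ≠ p.2).filter (ff · = j)).card +
    ((univ.filter fun p : Fin 8 × Fin 8 => p.1 ≠ p.2).filter fun p => (ff p).rev = j).card = 2 := by
  decide +kernel

theorem sum_fib {ι κ M : Type*} [Fintype κ] [DecidableEq κ] [Semiring M] (s : Finset ι) (g : ι → κ)
    (φ : κ → M) : ∑ p ∈ s, φ (g p) = ∑ j, ((s.filter (g · = j)).card : M) * φ j := by
  rw [← sum_fiberwise' s g φ]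
  simp

theorem two_sum (φ : Fin 56 → ℕ) : 2 * ∑ j, φ j =
    ∑ p ∈ univ.filter fun p : Fin 8 × Fin 8 => p.1 ≠ p.2, φ (ff p) +
      ∑ p ∈ univ.filter fun p : Fin 8 × Fin 8 => p.1 ≠ p.2, φ (ff p).rev := by
  rw [sum_fib _ ff φ, sum_fib _ (fun p => (ff p).rev) φ, ← sum_add_distrib, mul_sum]
  exact sum_congr rfl fun j _ => by rw [← add_mul, Nat.cast_id, Nat.cast_id, fib]

/-- the multiplicities -/
def mu (x : Fin 8 → ZMod 9) (t : ZMod 9) : ℕ := (univ.filter (x · = t)).card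

theorem pairs (x : Fin 8 → ZMod 9) (r : ZMod 9) :
    (∑ p ∈ univ.filter fun p : Fin 8 × Fin 8 => p.1 ≠ p.2, if x p.1 + x p.2 = r then 1 else 0) +
      mu x (5 * r) = ∑ t, mu x t * mu x (r - t) := by
  have h1 : ∑ t, mu x t * mu x (r - t) = ∑ p : Fin 8 × Fin 8, if x p.1 + x p.2 = r then 1 else 0 := by
    rw [Fintype.sum_prod_type]
    refine (sum_fib univ x fun t => mu x (r - t)).symm.trans (sum_congr rfl fun i _ => ?_)
    simp only [mu, card_filter, eq_sub_iff_add_eq']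
  have h2 : ∀ a r : ZMod 9, a + a = r ↔ a = 5 * r := by decide
  rw [h1, ← sum_filter_add_sum_filter_not univ fun p : Fin 8 × Fin 8 => p.1 ≠ p.2]
  congr 1
  rw [mu, card_filter, sum_filter, Fintype.sum_prod_type]
  simp [h2]

theorem cn_eq (a : Fin 7 → ZMod 9) (r : ZMod 9) {x : Fin 8 → ZMod 9} (hx : ∀ i, x i = ∑ k, a k * X i k) :
    2 * H40.E7T.cn a r + (mu x (5 * r) + mu x (5 * -r)) =
      ∑ t, mu x t * mu x (r - t) + ∑ t, mu x t * mu x (-r - t) := by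
  rw [← pairs, ← pairs, add_add_add_comm, add_left_inj]
  rw [H40.E7T.cn, card_filter, two_sum]
  refine congrArg₂ (· + ·) (sum_congr rfl fun p hp => ?_) (sum_congr rfl fun p hp => ?_)
  · simp only [fun k => (wt_ff p (mem_filter.1 hp).2 k).1, hx, mul_add, sum_add_distrib]
  · simp only [fun k => (wt_ff p (mem_filter.1 hp).2 k).2, hx, mul_add, mul_neg, sum_neg_distrib,
      sum_add_distrib, neg_eq_iff_eq_neg]

theorem sum9 {M : Type*} [AddCommMonoid M] (f : ZMod 9 → M) :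
    ∑ t, f t = f 0 + f 1 + f 2 + f 3 + f 4 + f 5 + f 6 + f 7 + f 8 := by
  have := Fin.sum_univ_castSucc (n := 8) f
  rw [Fin.sum_univ_eight] at this
  exact this

theorem jobW9 : H40.E7T.JobW9 := by
  intro a h1 h2 h3 _
  obtain ⟨x, hx⟩ : ∃ x : Fin 8 → ZMod 9, ∀ i, x i = ∑ k, a k * X i k := ⟨_, fun _ => rfl⟩
  have s1 := sum_fib univ x fun _ => 1
  have s2 := sum_fib univ x id
  have s3 : ∑ i, x i = 0 := by
    simp only [hx]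
    rw [sum_comm]
    simp only [← mul_sum, X_sum, mul_zero, sum_const_zero]
  have e0 := cn_eq a 0 hx
  have e1 := cn_eq a 1 hx
  have e2 := cn_eq a 2 hx
  have e3 := cn_eq a 3 hx
  have e4 := cn_eq a 4 hx
  change 8 = ∑ t, mu x t * 1 at s1
  change ∑ i, x i = ∑ t, (mu x t : ZMod 9) * t at s2
  rw [s3, sum9] at s2
  rw [sum9] at s1
  rw [sum9, sum9] at e0 e1 e2 e3 e4
  have s4 : (mu x 1 + 2 * mu x 2 + 3 * mu x 3 + 4 * mu x 4 + 5 * mu x 5 + 6 * mu x 6 + 7 * mu x 7 +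
      8 * mu x 8) % 9 = 0 := by
    rw [← Nat.dvd_iff_mod_eq_zero, ← ZMod.natCast_eq_zero_iff]
    push_cast
    linear_combination -s2
  have k := key (a0 := mu x 0) (a1 := mu x 1) (a2 := mu x 2) (a3 := mu x 3) (a4 := mu x 4) (a5 := mu x 5)
    (a6 := mu x 6) (a7 := mu x 7) (a8 := mu x 8) (by omega)
  simp only [chk, Bool.or_eq_true, Bool.not_eq_true', Nat.beq_eq, ← Bool.not_eq_true] at k
  change 2 * _ + (mu x 0 + mu x 0) = mu x 0 * mu x 0 + mu x 1 * mu x 8 + mu x 2 * mu x 7 + mu x 3 * mu x 6 + mu x 4 * mu x 5 + mu x 5 * mu x 4 + mu x 6 * mu x 3 + mu x 7 * mu x 2 + mu x 8 * mu x 1 + (mu x 0 * mu x 0 + mu x 1 * mu x 8 + mu x 2 * mu x 7 + mu x 3 * mu x 6 + mu x 4 * mu x 5 + mu x 5 * mu x 4 + mu x 6 * mu x 3 + mu x 7 * mu x 2 + mu x 8 * mu x 1) at e0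
  change 2 * _ + (mu x 5 + mu x 4) = mu x 0 * mu x 1 + mu x 1 * mu x 0 + mu x 2 * mu x 8 + mu x 3 * mu x 7 + mu x 4 * mu x 6 + mu x 5 * mu x 5 + mu x 6 * mu x 4 + mu x 7 * mu x 3 + mu x 8 * mu x 2 + (mu x 0 * mu x 8 + mu x 1 * mu x 7 + mu x 2 * mu x 6 + mu x 3 * mu x 5 + mu x 4 * mu x 4 + mu x 5 * mu x 3 + mu x 6 * mu x 2 + mu x 7 * mu x 1 + mu x 8 * mu x 0) at e1
  change 2 * _ + (mu x 1 + mu x 8) = mu x 0 * mu x 2 + mu x 1 * mu x 1 + mu x 2 * mu x 0 + mu x 3 * mu x 8 + mu x 4 * mu x 7 + mu x 5 * mu x 6 + mu x 6 * mu x 5 + mu x 7 * mu x 4 + mu x 8 * mu x 3 + (mu x 0 * mu x 7 + mu x 1 * mu x 6 + mu x 2 * mu x 5 + mu x 3 * mu x 4 + mu x 4 * mu x 3 + mu x 5 * mu x 2 + mu x 6 * mu x 1 + mu x 7 * mu x 0 + mu x 8 * mu x 8) at e2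
  change 2 * _ + (mu x 6 + mu x 3) = mu x 0 * mu x 3 + mu x 1 * mu x 2 + mu x 2 * mu x 1 + mu x 3 * mu x 0 + mu x 4 * mu x 8 + mu x 5 * mu x 7 + mu x 6 * mu x 6 + mu x 7 * mu x 5 + mu x 8 * mu x 4 + (mu x 0 * mu x 6 + mu x 1 * mu x 5 + mu x 2 * mu x 4 + mu x 3 * mu x 3 + mu x 4 * mu x 2 + mu x 5 * mu x 1 + mu x 6 * mu x 0 + mu x 7 * mu x 8 + mu x 8 * mu x 7) at e3
  change 2 * _ + (mu x 2 + mu x 7) = mu x 0 * mu x 4 + mu x 1 * mu x 3 + mu x 2 * mu x 2 + mu x 3 * mu x 1 + mu x 4 * mu x 0 + mu x 5 * mu x 8 + mu x 6 * mu x 7 + mu x 7 * mu x 6 + mu x 8 * mu x 5 + (mu x 0 * mu x 5 + mu x 1 * mu x 4 + mu x 2 * mu x 3 + mu x 3 * mu x 2 + mu x 4 * mu x 1 + mu x 5 * mu x 0 + mu x 6 * mu x 8 + mu x 7 * mu x 7 + mu x 8 * mu x 6) at e4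
  omega

end H56.E7W9
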