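/- Tower E82: classes of semisimple elements and rational tori through them. -/
import Cfsg.Agent.H40.E82Spec
import Cfsg.Agent.H67.InvRed

set_option autoImplicit false
set_option linter.unusedSectionVars false

namespace H56.E82Cl

open Cfsg.Lie H63 H64 H65 H46 H67 H14.E8 Matrix Module H40.E8F H40.E82

open Classical in
/-- Eigenspaces of a diagonalisable matrix. -/
theorem finrank_eig {n k : Type*} [Fintype n] [DecidableEq n] [Field k] (z t : GL n k) {d : n → k}
    (ht : (t : Matrix n n k) = diagonal d) (μ : k) :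
    finrank k (End.eigenspace (Matrix.toLin' (z * t * z⁻¹ : GL n k).1) μ) =
      (Finset.univ.filter fun i => d i = μ).card := by
  have e : Matrix.toLin' (z * t * z⁻¹ : GL n k).1 - μ • (1 : End k (n → k)) =
      Matrix.toLin' (z.1 * diagonal (fun i => d i - μ) * (z⁻¹ : GL n k).1) := by
    have : diagonal (fun i => d i - μ) = t.1 - μ • (1 : Matrix n n k) := by
      rw [ht]
      ext i j
      by_cases h : i = j <;> simp [h]
    rw [this, Matrix.mul_sub, Matrix.sub_mul, Matrix.mul_smul, Matrix.smul_mul, Matrix.mul_one,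
      Units.mul_inv, map_sub, map_smul, Matrix.toLin'_one]
    rfl
  have h1 := LinearMap.finrank_range_add_finrank_ker
    (Matrix.toLin' (z.1 * diagonal (fun i => d i - μ) * (z⁻¹ : GL n k).1))
  have h2 : (z.1 * diagonal (fun i => d i - μ) * (z⁻¹ : GL n k).1).rank =
      Fintype.card {i // d i - μ ≠ 0} := by
    rw [rank_mul_eq_left_of_isUnit_det _ _ (Matrix.isUnits_det_units _),
      rank_mul_eq_right_of_isUnit_det _ _ (Matrix.isUnits_det_units _), Matrix.rank_diagonal]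
  rw [Matrix.rank, ← Matrix.toLin'_apply', Fintype.card_subtype] at h2
  rw [h2, Module.finrank_fintype_fun_eq_card] at h1
  have h3 := Finset.card_filter_add_card_filter_not (s := Finset.univ) fun i => d i = μ
  simp only [sub_ne_zero] at h1
  rw [End.eigenspace_def, e]
  rw [Finset.card_univ] at h3
  have : (Finset.univ.filter fun i => d i ≠ μ).card = (Finset.univ.filter fun i => ¬ d i = μ).card :=
    rfl
  omega

section Gen

variable {D : ChevalleyDatum} [RS D] [Tab D] [Comm D]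

theorem exists_conj {E : Type*} [Field E] [Fintype E] (hk : cker D (AlgebraicClosure E)ˣ = ⊥)
    (p : ℕ) [hp : Fact p.Prime] [CharP E p] (g : ↥(D.group E)) (hg : ¬ p ∣ orderOf g) :
    ∃ (c : Fin D.rank → (AlgebraicClosure E)ˣ) (w : (H64.wdata D).W),
      (∀ r, chi D c (w.1 r) = chi D c r ^ Fintype.card E) ∧ orderOf c = orderOf g ∧
      ∀ u : (H64.wdata D).W, ∃ z ∈ D.group (AlgebraicClosure E), ∃ c',
        (toAlg D E g).1 = z * tor D _ c' * z⁻¹ ∧ orderOf c' = orderOf g ∧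
        ∀ r : Rt D, chi D c' r = chi D c (u.1 r) := by
  obtain ⟨c, w, u, e, a, h1, -, -, h3, -, h5, -, h6⟩ := exists_jordan hk p g
  obtain rfl : a = 0 := by
    rcases a with _ | a
    · rfl
    · exact absurd ⟨e * p ^ a, by rw [h1]; ring⟩ hg
  rw [pow_zero, pow_one] at h3
  rw [h3, mul_one] at h6
  have ho : ∀ c, IsConj (toAlg D E g) (torG D _ c) → orderOf c = orderOf g := fun c h => by
    rw [← orderOf_torG hk, ← orderOf_eq_of_isConj' h, orderOf_injective _ (mapG_injective _)]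
  refine ⟨c, w, h5, ho c h6, fun u => ?_⟩
  obtain ⟨m, hm, hw⟩ := (stBG (D := D) (k := AlgebraicClosure E)).rgd.exists_mem_N_act u⁻¹
  obtain ⟨c', e⟩ := exists_conj_tor_of_N torOK_xG stBG hm c
  have h7 := h6.trans (isConj_iff.2 ⟨m, mul_inv_eq_iff_eq_mul.2 e⟩)
  obtain ⟨z, hz⟩ := isConj_iff.1 h7.symm
  refine ⟨z, z.2, c', by rw [← hz]; rfl, ho c' h7, fun r => ?_⟩
  rw [← torOK_xG.chi_conj stBG hm hw e (u.1 r)]
  congr 2
  exact (u.1.symm_apply_apply r).symm

open Classical in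
theorem finrank_eig_tor {k : Type*} [Field k] (z : GL D.Idx k) (c : Fin D.rank → kˣ) (μ : kˣ) :
    finrank k (End.eigenspace (Matrix.toLin' (z * tor D k c * z⁻¹).1) (μ : k)) =
      (if μ = 1 then D.rank else 0) + (Finset.univ.filter fun r : Rt D => chi D c r = μ).card := by
  rw [finrank_eig z _ (tor_val c), Finset.card_filter, Finset.card_filter, Fintype.sum_sum_type]
  congr 1
  · by_cases h : μ = 1
    · simp [h]
    · have : (1 : k) ≠ μ := fun e => h (Units.ext e.symm)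
      simp [h, this]
  · exact Finset.sum_congr rfl fun r _ => if_congr Units.val_inj rfl rfl

variable {k : Type} [Field k] [IsAlgClosed k] {φ : k →+* k}

theorem exists_x (hk : cker D kˣ = ⊥) {q : ℕ} (hq : 2 ≤ q) (hφ : ∀ t, φ t = t ^ q)
    {z : GL D.Idx k} (hz : z ∈ D.group k) {c : Fin D.rank → kˣ} {n : ℕ} (hn : n ≠ 0)
    (hc : c ^ n = 1) {L : List ℕ} (hL : c ∈ Tw D L φ)
    (hg : GeneralLinearGroup.map φ (z * tor D k c * z⁻¹) = z * tor D k c * z⁻¹) :
    ∃ x ∈ D.group k, x⁻¹ * GeneralLinearGroup.map φ x = nL D (xU D k) L ∧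
      z * tor D k c * z⁻¹ = x * tor D k c * x⁻¹ := by
  obtain ⟨hN, hw⟩ := nL_mem_act (stB_xU D k) L
  have e1 := torOK_xU.nL_conj (stB_xU D k).toStN L (frT D φ c)
  rw [mem_Tw.1 hL] at e1
  rw [map_mul, map_mul, map_inv, map_tor'] at hg
  have h0 : z⁻¹ * GeneralLinearGroup.map φ z * (nL D (xU D k) L)⁻¹ ∈ CP D (xU D k) c := by
    refine mem_CP_of_comm' torOK_xU (stB_xU D k)
      (fun d hd _ => by rwa [← MonoidHom.mem_ker, tor_ker, hk, Subgroup.mem_bot] at hd) hn hc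
      (group_eq (D := D) (F := k) ▸ mul_mem (mul_mem (inv_mem hz) (map_mem_group φ hz))
        (inv_mem (nL_mem_group L))) ?_
    calc _ = z⁻¹ * (GeneralLinearGroup.map φ z * tor D k (frT D φ c) *
          (GeneralLinearGroup.map φ z)⁻¹) * GeneralLinearGroup.map φ z * (nL D (xU D k) L)⁻¹ := by
          rw [← e1]; group
      _ = _ := by rw [hg]; group
  have hθ : ∀ (r : Rt D) t, GeneralLinearGroup.map φ (xU D k r t) = xU D k r (φ t) :=
    fun r t => map_xU φ r t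
  have hP : GeneralLinearGroup.map φ (nL D (xU D k) L) = nL D (xU D k) L :=
    map_nL _ (fun i => (fld_nn hθ (simpleR i) 1).trans (by rw [map_one]; rfl)) L
  obtain ⟨e, he, h9⟩ := H67.Sub.exists_pow_eq_one_of_fix hq hφ hP
  have h1 : ∀ r : Rt D, chi D c r = 1 → chi D c ((wW D L).1 r) = 1 := fun r hr => by
    rw [torOK_xU.chi_conj (stB_xU D k) hN hw (mul_inv_eq_iff_eq_mul.1 e1) r, frT_eq_pow hφ,
      chi_pow, hr, one_pow]
  obtain ⟨y, hy, e4⟩ := (conn_gen_sup {r : Rt D | chi D c r = 1}).lang_tw φ hq hφ _ hP he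
    (fun g _ => by rw [h9, one_mul, mul_one]) (fun y hy => by
      refine (sup_le ?_ ?_ : CP D (xU D k) c ≤ (CP D (xU D k) c).comap
        ((MulAut.conj (nL D (xU D k) L)).toMonoidHom.comp (GeneralLinearGroup.map φ))) hy
      · exact fun u hu => Subgroup.mem_sup_left (hw.conj_gen h1 (fld_gen hθ hu))
      · exact fun u hu => Subgroup.mem_sup_right ((stB_xU D k).rgd.conj_H hN (fld_HH hθ hu))) h0
  have hle : CP D (xU D k) c ≤ D.group k := by
    rw [group_eq]
    exact sup_le (gen_mono _ (Set.subset_univ _)) HH_le_GG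
  have h2 := Subgroup.mem_centralizer_singleton_iff.1 (CP_le torOK_xU (stB_xU D k).toStN c hy)
  refine ⟨z * y⁻¹, mul_mem hz (inv_mem (hle hy)), ?_, ?_⟩
  · calc _ = y * (z⁻¹ * GeneralLinearGroup.map φ z * (nL D (xU D k) L)⁻¹) * nL D (xU D k) L *
          (GeneralLinearGroup.map φ y)⁻¹ := by rw [map_mul, map_inv]; group
      _ = _ := by rw [← e4]; group
  · calc _ = z * y⁻¹ * (y * tor D k c) * z⁻¹ := by group
      _ = _ := by rw [h2]; group

theorem exists_tor {F : Type} [Field F] {ι : F →+* k} (hfix : ∀ t, φ t = t ↔ t ∈ ι.range)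
    (hk : cker D kˣ = ⊥) {q : ℕ} (hq : 2 ≤ q) (hφ : ∀ t, φ t = t ^ q) (g : ↥(D.group F))
    {z : GL D.Idx k} (hz : z ∈ D.group k) {c : Fin D.rank → kˣ} {n : ℕ} {L : List ℕ}
    (e : (mapG D ι g).1 = z * tor D k c * z⁻¹) (hn : n ≠ 0) (hc : c ^ n = 1) (hL : c ∈ Tw D L φ) :
    ∃ x ∈ D.group k, (mapG D ι g).1 = x * tor D k c * x⁻¹ ∧ ∀ d ∈ Tw D L φ, ∃ s : ↥(D.group F),
      (mapG D ι s).1 = x * tor D k d * x⁻¹ ∧
        (s ∈ Subgroup.zpowers g → d ∈ Subgroup.zpowers c) := by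
  obtain ⟨x, hx, e1, e2⟩ := exists_x hk hq hφ hz hn hc hL
    (e ▸ map_eq_of_mem_G0 hfix ⟨g, g.2, rfl⟩)
  rw [e2] at e
  refine ⟨x, hx, e, fun d hd => ?_⟩
  obtain ⟨s, hs, e3⟩ := (twT_untw hfix (tor_injective_of_cker hk) hx e1).conj_mem d hd
  refine ⟨⟨s, hs⟩, e3, fun ⟨m, hm⟩ => ⟨m, ?_⟩⟩
  have e4 : (mapG D ι ⟨s, hs⟩).1 = x * tor D k d * x⁻¹ := e3
  rw [← hm, map_zpow, Subgroup.coe_zpow, e, conj_zpow, ← map_zpow] at e4
  exact (MonoidHom.ker_eq_bot_iff _).1 (tor_ker.trans hk) (by simpa using e4)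

end Gen

attribute [local instance] H65.tabE8 H65.commE8

theorem jobTor : JobTor := by
  intro g z hz c n L e hn hc hL
  obtain ⟨σ, h2, h3, -⟩ := H67.exists_frobAut (ZMod 2)
  exact exists_tor (ι := algebraMap (ZMod 2) K2) (fun t => by
    rw [← h3, h2, ZMod.card, frobenius_def]) (kerE8.cker_eq_bot _) le_rfl (frobenius_def 2) g hz e
    hn hc hL

theorem jobCl (a : JobAlc) : JobCl := by
  classical
  intro n C hC g ζ hg hζ
  have hn : ¬ 2 ∣ n := (by decide : ∀ p ∈ tb2, ¬ 2 ∣ p.1) _ hC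
  obtain ⟨c, w, h1, h2, h3⟩ := exists_conj (kerE8.cker_eq_bot _) 2 g (hg ▸ hn)
  rw [ZMod.card] at h1
  obtain ⟨X, hX, u, h4⟩ := a n C hC c w ζ h1 hζ (h2.trans hg)
  obtain ⟨z, hz, c', e, h5, h6⟩ := h3 u
  have h7 : Cls ζ X c' := fun r => (h6 r).trans (h4 r)
  refine ⟨X, hX, z, hz, c', e, by rw [← hg, ← h5, pow_orderOf_eq_one], h7, fun m => ?_⟩
  have e1 : ad2 g = Matrix.toLin' (z * tor chevE8 K2 c' * z⁻¹).1 := by rw [← e]; rfl
  rw [e1, ← Units.val_pow_eq_pow_val, finrank_eig_tor, cnt]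
  congr 1
  · simp only [← orderOf_dvd_iff_pow_eq_one, hζ, Nat.dvd_iff_mod_eq_zero]
    rfl
  · refine congrArg Finset.card (Finset.filter_congr fun r _ => ?_)
    rw [h7 r, ← zpow_natCast ζ, eq_comm, zpow_eq_zpow_iff_modEq, hζ, Int.modEq_iff_dvd,
      Int.dvd_iff_emod_eq_zero, Nat.cast_one, one_mul]

end H56.E82Cl
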