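/- ORE tower, chapter 1: assembly. -/
import Cfsg.Agent.H56.OreKit

set_option autoImplicit false
set_option linter.unusedSectionVars false

namespace H56.Ore

open Module QuadraticMap

universe u

variable {F V : Type u} [Field F] [Fintype F] [AddCommGroup V] [Module F V] [FiniteDimensional F V]
  {Q : QuadraticForm F V} (hQ : Q.polarBilin.Nondegenerate) (h2 : (2 : F) ≠ 0)

/-- `g` is a commutator of elements of the commutator subgroup. -/
def Com (g : O Q) : Prop :=
  ∃ a ∈ commutator (O Q), ∃ b ∈ commutator (O Q), g = a * b * a⁻¹ * b⁻¹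

include hQ h2

theorem exists_eig (hAB : JobAB.{u}) {s : O Q} (hs : s * s = 1) (U : Submodule F V)
    (h : 4 * finrank F U + 3 ≤ finrank F V) (c : F) :
    ∃ a ∈ perp Q U, Q a = c ∧ (s a = a ∨ s a = -a) := by
  have h1 := s.rk_add_finrank_fix
  rw [rk_eq h2 hs] at h1
  by_cases h3 : 2 * finrank F U + 2 ≤ finrank F s.fix
  · obtain ⟨a, ha, hc⟩ := hAB hQ h2 s.fix U c (disjoint_fix_perp hQ h2 hs) h3
    exact ⟨a, ha.2, hc, .inl (O.mem_fix.1 ha.1)⟩
  · obtain ⟨a, ha, hc⟩ := hAB hQ h2 (O.negOne Q * s).fix U c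
      (disjoint_fix_perp hQ h2 (by rw [neg_mul_neg, hs])) (by omega)
    exact ⟨a, ha.2, hc, .inr (mem_fix_neg.1 ha.1)⟩

theorem com_of (hU : JobU.{u}) {s t : O Q} (hs : s * s = 1) (ht : t * t = 1) (hr : s.rk = t.rk)
    (hsp : spinor hQ s = spinor hQ t) (U : Submodule F V)
    (h1 : ∀ u ∈ U, ∀ u' ∈ U, polar Q u (s u') = polar Q u (t u'))
    (h3 : ∀ u ∈ U, (s u = u ↔ t u = u) ∧ (s u = -u ↔ t u = -u))
    (h4 : ∀ c : F, c ≠ 0 → ∃ a ∈ perp Q U, Q a = c ∧ (s a = a ∨ s a = -a)) (ρ : O Q)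
    (hρ : ∀ h : O Q, (∀ u ∈ U, h u = u) → h * ρ * h⁻¹ = ρ) (hd : dickson hQ ρ = dickson hQ s)
    (hθ : spinor hQ ρ = spinor hQ s) : Com (s * t) := by
  obtain ⟨h, a1, a2, a3, a4⟩ := hU hQ h2 s t U hs ht hr hsp h1 h3 h4
  have hc := mem_commutator_iff hQ (not_isExc_of_two_ne h2)
  refine ⟨s * ρ, (hc _).2 ⟨by rw [map_mul, hd, Int.units_mul_self], by rw [map_mul, hθ]; simp⟩, h,
    (hc _).2 ⟨a1, a2⟩, ?_⟩
  have e : ρ * h = h * ρ := by rw [← mul_inv_eq_iff_eq_mul.1 (hρ h a4)]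
  rw [← a3, mul_assoc s ρ, e, mul_inv_rev, ← eq_inv_of_mul_eq_one_left hs]
  group

omit hQ h2 in
theorem conj_refl_fix {U : Submodule F V} {v : V} (hv : v ∈ U) (h : O Q) (hh : ∀ u ∈ U, h u = u) :
    h * refl Q v * h⁻¹ = refl Q v := by rw [conj_refl, hh v hv]

omit hQ h2 in
theorem conj_refl_fix₂ {U : Submodule F V} {v w : V} (hv : v ∈ U) (hw : w ∈ U) (h : O Q)
    (hh : ∀ u ∈ U, h u = u) : h * (refl Q v * refl Q w) * h⁻¹ = refl Q v * refl Q w := by
  conv_rhs => rw [← conj_refl_fix hv h hh, ← conj_refl_fix hw h hh]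
  group

omit h2 in
theorem dickson_one {s : O Q} (h : Odd s.rk) {v : V} (hv : Q v ≠ 0) :
    dickson hQ (refl Q v) = dickson hQ s := by rw [dickson_refl hQ hv, dickson_apply, h.neg_one_pow]

omit h2 in
theorem dickson_two {s : O Q} (h : Even s.rk) {v w : V} (hv : Q v ≠ 0) (hw : Q w ≠ 0) :
    dickson hQ (refl Q v * refl Q w) = dickson hQ s := by
  rw [map_mul, dickson_refl hQ hv, dickson_refl hQ hw, dickson_apply, h.neg_one_pow]; simp

omit hQ h2 in
theorem Gen.iff {s t : O Q} {v : V} (h : Gen s t v) (a : F) :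
    (s (a • v) = a • v ↔ t (a • v) = a • v) ∧ (s (a • v) = -(a • v) ↔ t (a • v) = -(a • v)) := by
  rcases eq_or_ne a 0 with rfl | ha
  · simp
  · simp only [map_smul, ← smul_neg, (smul_right_injective V ha).eq_iff, h.1, h.2.1, h.2.2.1,
      h.2.2.2, and_self]

omit hQ in
theorem exists_eig_ne {s : O Q} (hs : s * s = 1) {W : Submodule F V} (hW : ∀ x ∈ W, s x ∈ W)
    (h : ¬ ∀ x ∈ W, Q x = 0) : ∃ a ∈ W, Q a ≠ 0 ∧ (s a = a ∨ s a = -a) := by
  by_contra! h0
  refine h fun x hx => ?_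
  have e1 : s (x + s x) = x + s x := by rw [map_add, apply_apply hs, add_comm]
  have e2 : s (x - s x) = -(x - s x) := by rw [map_sub, apply_apply hs, neg_sub]
  have a1 : Q (x + s x) = 0 := by_contra fun h => (h0 _ (W.add_mem hx (hW x hx)) h).1 e1
  have a2 : Q (x - s x) = 0 := by_contra fun h => (h0 _ (W.sub_mem hx (hW x hx)) h).2 e2
  rw [Q_add, s.map_Q] at a1
  rw [Q_sub, s.map_Q] at a2
  exact mul_left_cancel₀ (mul_ne_zero h2 h2) (by linear_combination a1 + a2)

/-- A large fixed space of `s t` contains two orthogonal non-singular common eigenvectors. -/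
theorem exists_two {s t : O Q} (hs : s * s = 1) (ht : t * t = 1)
    (h : finrank F V + 1 < 2 * finrank F (s * t).fix) : ∃ a b, Q a ≠ 0 ∧ Q b ≠ 0 ∧ polar Q a b = 0 ∧
      (s a = a ∨ s a = -a) ∧ (s b = b ∨ s b = -b) ∧ s a = t a ∧ s b = t b := by
  have hK : ∀ x, x ∈ (s * t).fix ↔ s x = t x := fun x => by
    rw [O.mem_fix, O.mul_apply]
    exact ⟨fun h => by conv_lhs => rw [← h, apply_apply hs], fun h => by rw [← h, apply_apply hs]⟩
  have hi : ∀ x ∈ (s * t).fix, s x ∈ (s * t).fix := fun x hx => by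
    rw [hK, apply_apply hs, (hK x).1 hx, apply_apply ht]
  obtain ⟨a, ha, a1, a2⟩ := exists_eig_ne h2 hs hi fun h0 => by
    have := H58.two_mul_finrank_le_of_singular hQ h0
    omega
  obtain ⟨b, hb, b1, b2⟩ := exists_eig_ne h2 hs (W := (s * t).fix ⊓ perp Q (Submodule.span F {a}))
    (fun x hx => ⟨hi x hx.1, mem_perp_span_singleton.2 (by
      have := mem_perp_span_singleton.1 hx.2
      rw [← polar_invol hs]
      rcases a2 with e | e <;> simp [e, this])⟩) fun h0 => by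
    have c4 := Submodule.finrank_sup_add_finrank_inf_eq (s * t).fix (perp Q (Submodule.span F {a}))
    set W := (s * t).fix ⊓ perp Q (Submodule.span F {a})
    have c1 := finrank_perp hQ W
    have c2 : W < perp Q W := by
      refine lt_of_le_of_ne (fun x hx => mem_perp.2 fun w hw => ?_) fun e => a1 (h0 a ?_)
      · have := h0 _ (W.add_mem hw hx)
        rwa [Q_add, h0 w hw, h0 x hx, zero_add, zero_add] at this
      · rw [e]; exact mem_perp'.2 fun w hw => mem_perp_span_singleton.1 hw.2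
    have c3 := Submodule.finrank_lt_finrank_of_lt c2
    have c5 := finrank_perp hQ (Submodule.span F {a})
    have c6 := Submodule.finrank_le ((s * t).fix ⊔ perp Q (Submodule.span F {a}))
    rw [finrank_span_singleton (by rintro rfl; simp at a1)] at c5
    omega
  exact ⟨a, b, a1, b1, mem_perp_span_singleton.1 hb.2, a2, b2, (hK a).1 ha, (hK b).1 hb.1⟩

theorem com_M (hAB : JobAB.{u}) (hU : JobU.{u}) {s t : O Q} (hs : s * s = 1) (ht : t * t = 1)
    (hr : s.rk = t.rk) (hsp : spinor hQ s = spinor hQ t) (hn : 7 ≤ finrank F V)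
    (h : finrank F V + 1 < 2 * finrank F (s * t).fix) : Com (s * t) := by
  obtain ⟨a, b, a1, b1, hab, a2, b2, a3, b3⟩ := exists_two hQ h2 hs ht h
  set U := Submodule.span F {a, b}
  have key : ∀ x y : F, x • a + y • b ∈ perp Q U → x = 0 ∧ y = 0 := fun x y h => by
    simpa [polar_self', hab, polar_comm Q b a, a1, b1, h2] using mem_perp_span_pair.1 h
  have hd : Disjoint U (perp Q U) := Submodule.disjoint_def.2 fun u hu hu' => by
    obtain ⟨x, y, rfl⟩ := Submodule.mem_span_pair.1 hu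
    simp [(key x y hu').1, (key x y hu').2]
  have hf : finrank F U = 2 := finrank_span_pair (LinearIndependent.pair_iff.2 fun x y h =>
    key x y (by rw [h]; exact zero_mem _))
  have hst : ∀ u ∈ U, s u = t u := fun u hu => by
    obtain ⟨x, y, rfl⟩ := Submodule.mem_span_pair.1 hu
    simp [a3, b3]
  have hi : ∀ u ∈ U, s u ∈ U := fun u hu => by
    obtain ⟨x, y, rfl⟩ := Submodule.mem_span_pair.1 hu
    have ha : a ∈ U := Submodule.subset_span (by simp)
    have hb : b ∈ U := Submodule.subset_span (by simp)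
    rw [map_add, map_smul, map_smul]
    refine U.add_mem (U.smul_mem _ ?_) (U.smul_mem _ ?_)
    · rcases a2 with e | e <;> simpa [e] using ha
    · rcases b2 with e | e <;> simpa [e] using hb
  obtain ⟨-, s₂, -, -, -, -, e2, -⟩ := exists_split hQ s hd hi
  have h4 : ∀ c : F, c ≠ 0 → ∃ a ∈ perp Q U, Q a = c ∧ (s a = a ∨ s a = -a) := fun c _ => by
    have := finrank_perp hQ U
    obtain ⟨x, -, x1, x2⟩ := exists_eig (nondeg_res (disjoint_perp_perp hQ hd)) h2 hAB (s := s₂)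
      (O.ext fun x => Subtype.ext (by rw [O.mul_apply, e2, e2, apply_apply hs]; rfl)) ⊥
      (by rw [finrank_bot]; omega) c
    exact ⟨x, x.2, x1, x2.imp (fun h => by rw [← e2, h]) fun h => by rw [← e2, h]; rfl⟩
  have hc := com_of hQ h2 hU hs ht hr hsp U (fun u _ u' hu' => by rw [hst u' hu'])
    (fun u hu => by rw [hst u hu]; simp) h4
  obtain ⟨c, c1, c2⟩ := sqcl_surjective (spinor hQ s)
  obtain ⟨w, hw⟩ := H58.exists_Q_eq (nondeg_res hd) hf.ge c
  obtain ⟨v, hv⟩ := H58.exists_Q_eq (nondeg_res hd) hf.ge 1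
  replace hw : Q w = c := hw
  replace hv : Q v = 1 := hv
  rcases Nat.even_or_odd s.rk with he | he
  · exact hc _ (conj_refl_fix₂ v.2 w.2) (dickson_two hQ he (by simp [hv]) (hw ▸ c1))
      (by rw [map_mul, spinor_refl, spinor_refl, hv, hw, c2]; simp)
  · exact hc _ (conj_refl_fix w.2) (dickson_one hQ he (hw ▸ c1)) (by rw [spinor_refl, hw, c2])

theorem com_core (hR : JobR.{u}) (hP : JobP.{u}) (hAB : JobAB.{u}) (hU : JobU.{u}) {g : O Q}
    (hg : spinor hQ g = 1) {a : ℕ} {θ : SqCl F} (hp : Pr hQ g a a θ) (hn : 7 ≤ finrank F V)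
    (h : (Odd a ∧ 2 * a ≤ finrank F V + 2 ∧ finrank F V ≤ 2 * a + 2) ∨
      (Even a ∧ 12 ≤ finrank F V ∧ 2 * a = finrank F V) ∨ (Even a ∧ θ = 1)) : Com g := by
  obtain ⟨s, hs, ht, rfl, hr, rfl⟩ := hp
  have hsp : spinor hQ s = spinor hQ (s * g) := by rw [map_mul, hg, mul_one]
  obtain ⟨t, rfl⟩ : ∃ t, g = s * t := ⟨s * g, by rw [← mul_assoc, hs, one_mul]⟩
  rw [← mul_assoc s s t, hs, one_mul] at ht hr hsp
  rcases lt_or_ge (finrank F V + 1) (2 * finrank F (s * t).fix) with hK | hK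
  · exact com_M hQ h2 hAB hU hs ht hr.symm hsp hn hK
  have hc := com_of hQ h2 hU hs ht hr.symm hsp
  obtain ⟨c, c1, c2⟩ := sqcl_surjective (spinor hQ s)
  rcases h with ⟨h1, h3, h4⟩ | ⟨h1, h3, h4⟩ | ⟨h1, h3⟩
  · obtain ⟨v, v1, v2, v3⟩ := hR hQ h2 s t c hs ht hr.symm hn h3 h4 hK
    have := finrank_span_le_card (R := F) ({v} : Set V)
    refine hc (Submodule.span F {v}) (fun u hu u' hu' => ?_) (fun u hu => ?_)
      (fun c _ => exists_eig hQ h2 hAB hs _ (by simp at this; omega) c) _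
      (conj_refl_fix (Submodule.mem_span_singleton_self v)) (dickson_one hQ h1 (v1 ▸ c1))
      (by rw [spinor_refl, v1, c2])
    · obtain ⟨x, rfl⟩ := Submodule.mem_span_singleton.1 hu
      obtain ⟨y, rfl⟩ := Submodule.mem_span_singleton.1 hu'
      simp [v2]
    · obtain ⟨x, rfl⟩ := Submodule.mem_span_singleton.1 hu
      exact v3.iff x
  · obtain ⟨v, v1, v2, v3⟩ := hR hQ h2 s t 1 hs ht hr.symm hn (by omega) (by omega) hK
    obtain ⟨w, w1, w2, w3, w4⟩ := hP hQ h2 s t c v hs ht hr.symm h3 h4 hK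
    have h5 : finrank F (Submodule.span F {v, w}) ≤ 2 := by
      have := finrank_range_le_card (R := F) ![v, w]
      rwa [Matrix.range_cons_cons_empty] at this
    refine hc (Submodule.span F {v, w}) (fun u hu u' hu' => ?_) (fun u hu => ?_)
      (fun c _ => exists_eig hQ h2 hAB hs _ (by omega) c) _
      (conj_refl_fix₂ (v := v) (w := w) (Submodule.subset_span (by simp))
        (Submodule.subset_span (by simp))) (dickson_two hQ h1 (by simp [v1]) (w1 ▸ c1))
      (by rw [map_mul, spinor_refl, spinor_refl, v1, w1, c2]; simp)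
    · obtain ⟨x, y, rfl⟩ := Submodule.mem_span_pair.1 hu
      obtain ⟨x', y', rfl⟩ := Submodule.mem_span_pair.1 hu'
      have : polar Q w (s v) = polar Q w (t v) := by
        rw [← polar_invol hs, ← polar_invol ht, polar_comm, w3, polar_comm]
      simp [v2, w2, w3, this]
    · obtain ⟨x, y, rfl⟩ := Submodule.mem_span_pair.1 hu
      rcases eq_or_ne y 0 with rfl | hy
      · simpa only [zero_smul, add_zero] using v3.iff x
      · rw [show x • v + y • w = y • (w + (y⁻¹ * x) • v) by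
          rw [smul_add, smul_smul, mul_inv_cancel_left₀ hy, add_comm]]
        exact (w4 _).iff y
  · exact hc ⊥ (fun u hu _ _ => by simp [(Submodule.mem_bot F).1 hu])
      (fun u hu => by simp [(Submodule.mem_bot F).1 hu])
      (fun c _ => exists_eig hQ h2 hAB hs _ (by rw [finrank_bot]; omega) c) 1 (by simp)
      (by rw [map_one, dickson_apply, h1.neg_one_pow]) (by rw [map_one, h3])

omit hQ h2 in
theorem main (h1 : JobO1.{u}) (h3 : JobO2.{u}) (hR : JobR.{u}) (hP : JobP.{u}) (hAB : JobAB.{u})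
    (hU : JobU.{u}) : Main.{u} := by
  intro F V _ _ _ _ _ Q hQ h2 hn g hg
  obtain ⟨hd, hs⟩ := (mem_commutator_iff hQ (not_isExc_of_two_ne h2) g).1 hg
  have hc := fun a θ hp => com_core hQ h2 hR hP hAB hU hs (a := a) (θ := θ) hp hn
  by_cases h8 : finrank F V = 8
  · rcases h3 hQ h2 g hd h8 with ⟨θ, h⟩ | h
    · exact hc _ _ h (.inl ⟨by decide, by omega, by omega⟩)
    · exact hc _ _ h (.inr (.inr ⟨by decide, rfl⟩))
  obtain ⟨a, θ, hp, a1, a2⟩ := h1 hQ h2 g hd
  rcases Nat.even_or_odd a with ha | ha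
  · rcases Nat.even_or_odd (finrank F V) with hv | hv
    · exact hc _ _ hp (.inr (.inl ⟨ha, by grind, by grind⟩))
    · exact hc _ _ (hp.neg h2).2.2 (.inl ⟨by grind, by omega, by omega⟩)
  · exact hc _ _ hp (.inl ⟨ha, by omega, by omega⟩)

end H56.Ore
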