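/- ORE tower, chapter 1: the cyclic blocks with odd exponent. -/
import Cfsg.Agent.H56.OreKit

set_option autoImplicit false
set_option linter.unusedSectionVars false

namespace H56.Ore

open Module QuadraticMap Polynomial

universe u

section
variable {F V : Type*} [Field F] [AddCommGroup V] [Module F V] {Q : QuadraticForm F V}

theorem aeval_comm' (N : End F V) (p q : F[X]) (x : V) :
    aeval N p (aeval N q x) = aeval N q (aeval N p x) := by
  rw [← End.mul_apply, ← map_mul, mul_comm, map_mul, End.mul_apply]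

theorem aeval_comm_self (N : End F V) (p : F[X]) (x : V) : aeval N p (N x) = N (aeval N p x) := by
  simpa using aeval_comm' N p X x

theorem Cy.aeval_eq_zero {N : End F V} {f : F[X]} {k : ℕ} {v : V} (h : Cy N f k v) {p : F[X]}
    (hp : expand F 2 f ^ k ∣ p) : aeval N p = 0 := LinearMap.ext fun x => by
  obtain ⟨q, rfl⟩ := h.2.2.2.2.2 x
  rw [aeval_comm', (h.2.2.2.2.1 p).2 hp, map_zero, LinearMap.zero_apply]

theorem Cy.exists_anti (hQ : Q.polarBilin.Nondegenerate) (h2 : (2 : F) ≠ 0) {N : End F V}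
    (hN : Skew Q N) {f : F[X]} {k : ℕ} {v : V} (h : Cy N f k v) : ∃ s : O Q, Anti N s := by
  obtain ⟨s, h1, h3⟩ := exists_bar hQ h2 (LinearMap.applyₗ v ∘ₗ (aeval N).toLinearMap)
    bar.toLinearMap h.2.2.2.2.2 bar_bar fun a b => by
      change polar Q (aeval N (bar a) v) (aeval N (bar b) v) = polar Q (aeval N a v) (aeval N b v)
      rw [hN.aeval, bar_bar, polar_comm Q (aeval N a v), hN.aeval, aeval_comm']
  refine ⟨s, h1, fun x => ?_⟩
  obtain ⟨q, rfl⟩ := h.2.2.2.2.2 x
  have a1 : s (aeval N (X * q) v) = aeval N (bar (X * q)) v := h3 _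
  have a2 : s (aeval N q v) = aeval N (bar q) v := h3 _
  simpa [a2] using a1

variable [FiniteDimensional F V]

theorem Anti.two_mul_rk (h2 : (2 : F) ≠ 0) {N : End F V} (hu : IsUnit N) {s : O Q} (h : Anti N s) :
    2 * s.rk = finrank F V := by
  have hk : LinearMap.ker N = ⊥ := LinearMap.ker_eq_bot.2 ((End.isUnit_iff N).1 hu).1
  have := rk_bound h2 h (d := 0) (by simp [hk]) (by simp [hk])
  omega

theorem Anti.isSquare_det (h2 : (2 : F) ≠ 0) {N : End F V} (hu : IsUnit N) {s : O Q} (h : Anti N s)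
    {A : End F V} (h1 : ∀ x, A (N x) = N (A x)) (h3 : ∀ x, s (A x) = A (s x)) :
    IsSquare (LinearMap.det A) := by
  have hA : ∀ x ∈ s.fix, A x ∈ s.fix := fun x hx => by rw [O.mem_fix, h3, O.mem_fix.1 hx]
  let e := (s.fix.subtype.coprod (N ∘ₗ s.fix.subtype)).linearEquivOfInjective
    ((injective_iff_map_eq_zero _).2 fun x hx => by
      change (x.1 : V) + N x.2 = 0 at hx
      have a1 := congrArg s hx
      rw [map_add, h.2, O.mem_fix.1 x.1.2, O.mem_fix.1 x.2.2, map_zero] at a1
      have a2 : (x.1 : V) = 0 := (smul_eq_zero.1 (show (2 : F) • (x.1 : V) = 0 by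
        rw [two_smul]; linear_combination (norm := abel) hx + a1)).resolve_left h2
      rw [a2, zero_add] at hx
      exact Prod.ext (Subtype.ext a2) (Subtype.ext (((End.isUnit_iff N).1 hu).1
        (hx.trans (map_zero N).symm)))) (by
      have := s.rk_add_finrank_fix
      have := h.two_mul_rk h2 hu
      rw [finrank_prod]; omega)
  have he : ∀ x, e x = x.1 + N x.2 := fun _ => rfl
  refine ⟨LinearMap.det (A.restrict hA), ?_⟩
  rw [← LinearMap.det_prodMap, ← LinearMap.det_conj _ e]
  congr 1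
  ext x
  obtain ⟨x, rfl⟩ := e.surjective x
  simp only [LinearMap.comp_apply, LinearEquiv.coe_coe, e.symm_apply_apply]
  simp [he, h1]

theorem Cy.exists_poly (h2 : (2 : F) ≠ 0) {N : End F V} (hu : IsUnit (1 + N)) {f : F[X]} {k : ℕ}
    {v : V} (h : Cy N f k v) {p : F[X]} (hp : ¬ IsSquare (LinearMap.det (aeval N p))) :
    ∃ a b : F[X], ¬ f ∣ a ∧ ¬ IsSquare (LinearMap.det (aeval N (expand F 2 a + X * expand F 2 b))) := by
  obtain ⟨a, b, rfl⟩ := exists_even_odd p
  by_cases ha : f ∣ a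
  swap
  · exact ⟨a, b, ha, hp⟩
  refine ⟨a * (1 + X) + C 2 * (X * b), b * (1 + X) + C 2 * a, fun hf => ?_, fun ⟨r, hr⟩ => hp ?_⟩
  · rw [dvd_add_right (ha.mul_right _), (isUnit_C.2 h2.isUnit).dvd_mul_left] at hf
    rcases h.1.prime.dvd_or_dvd hf with hf | hf
    · exact h.2.2.1 (X_dvd_iff.1 (h.1.dvd_symm irreducible_X hf))
    · have h0 := congrArg LinearMap.det (h.aeval_eq_zero (pow_dvd_pow_of_dvd
        ((map_dvd (expand F 2) ha).add ((map_dvd (expand F 2) hf).mul_left X)) k))
      rcases subsingleton_or_nontrivial V with _ | _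
      · exact hp (by rw [LinearMap.det_eq_one_of_subsingleton]; exact IsSquare.one)
      · rw [map_pow, map_pow, LinearMap.det_zero, zero_pow finrank_pos.ne'] at h0
        exact hp (by rw [pow_eq_zero_iff h.2.2.2.1.ne'] at h0; rw [h0]; exact IsSquare.zero)
  · have e : expand F 2 (a * (1 + X) + C 2 * (X * b)) + X * expand F 2 (b * (1 + X) + C 2 * a) =
        (expand F 2 a + X * expand F 2 b) * ((1 + X) * (1 + X)) := by
      simp only [map_add, map_mul, map_one, expand_X, expand_C]
      rw [show (C 2 : F[X]) = 2 from rfl]; ring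
    have h0 := (LinearMap.isUnit_det _ hu).ne_zero
    rw [e, map_mul, map_mul, map_mul, map_mul, map_add (aeval N) 1 X, map_one, aeval_X] at hr
    exact ⟨r / LinearMap.det (1 + N), by field_simp; linear_combination hr⟩

end

theorem jobTF (hZ : JobZas.{u}) (hD : JobDet.{u}) : JobTF.{u} := by
  intro F V _ _ _ _ _ Q hQ h2 N f k v hN hu hu1 hC hk θ
  obtain ⟨s, hs⟩ := hC.exists_anti hQ h2 hN
  by_cases h0 : spinor hQ s = θ
  · exact ⟨s, hs, hs.two_mul_rk h2 hu, h0⟩
  obtain ⟨p₀, hp₀⟩ := hD N f k v h2 hC hk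
  obtain ⟨a, b, ha, hp⟩ := hC.exists_poly h2 hu1 hp₀
  set p := expand F 2 a + X * expand F 2 b with hpe
  have hA : LinearMap.det (aeval N (expand F 2 a)) ≠ 0 := by
    obtain ⟨x, y, e⟩ := (hC.1.coprime_iff_not_dvd.2 ha).pow_left (m := k)
    have := congrArg (fun q => LinearMap.det (aeval N (expand F 2 q))) e
    simp only [map_add, map_mul, map_pow (expand F 2), map_one, hC.aeval_eq_zero dvd_rfl, mul_zero,
      zero_add] at this
    exact right_ne_zero_of_mul_eq_one this
  have hd : LinearMap.det (aeval N (bar p)) = LinearMap.det (aeval N p) := by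
    have e : s.lin * aeval N p = aeval N (bar p) * s.lin := LinearMap.ext fun x => hs.aeval p x
    have h1 := congrArg LinearMap.det e
    rw [map_mul, map_mul, mul_comm] at h1
    exact (mul_right_cancel₀ (left_ne_zero_of_mul_eq_one (O.det_mul_self hQ s)) h1).symm
  have hne : LinearMap.det (aeval N p) ≠ 0 := fun h => hp (by rw [h]; exact IsSquare.zero)
  have hb := (End.isUnit_iff _).1 ((LinearMap.isUnit_iff_isUnit_det _).2 (hd ▸ hne).isUnit)
  have hb' := (End.isUnit_iff _).1 ((LinearMap.isUnit_iff_isUnit_det _).2 hne.isUnit)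
  let e := LinearEquiv.ofBijective _ hb
  obtain ⟨c, hc⟩ : ∃ c : O Q, ∀ y, c (aeval N (bar p) y) = aeval N p y :=
    ⟨O.ofInj (aeval N p ∘ₗ e.symm.toLinearMap) (fun x => by
      obtain ⟨y, rfl⟩ := e.surjective x
      refine mul_left_cancel₀ h2 ?_
      rw [← polar_self', ← polar_self', LinearMap.comp_apply, LinearEquiv.coe_coe,
        e.symm_apply_apply, hN.aeval, aeval_comm']
      exact ((hN.aeval (bar p) _ _).trans (by rw [bar_bar]; rfl)).symm)
      (hb'.1.comp e.symm.injective), fun y => congrArg (aeval N p) (e.symm_apply_apply y)⟩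
  have hsc : ∀ y, (s * c) (aeval N (bar p) y) = aeval N (bar p) (s y) := fun y => by
    rw [O.mul_apply, hc, hs.aeval]
  have hA' : Anti N (s * c) := ⟨O.ext fun x => by
    obtain ⟨y, rfl⟩ := hb.2 x
    rw [O.mul_apply, hsc, hsc, apply_apply hs.1, O.one_apply], fun x => by
    obtain ⟨y, rfl⟩ := hb.2 x
    rw [← aeval_comm_self, hsc, hsc, hs.2, map_neg, aeval_comm_self]⟩
  refine ⟨s * c, hA', hA'.two_mul_rk h2 hu, ?_⟩
  have e1 : (c.lin + 1) * aeval N (bar p) = (2 : F) • aeval N (expand F 2 a) :=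
    LinearMap.ext fun y => by
      rw [End.mul_apply, LinearMap.add_apply, O.lin_apply, hc, hpe]
      simp [two_smul]
      abel
  have e2 := congrArg LinearMap.det e1
  rw [map_mul, hd, LinearMap.det_smul] at e2
  obtain ⟨d, hd'⟩ := hs.isSquare_det h2 hu (aeval_comm_self N (expand F 2 a))
    fun x => by rw [hs.aeval, bar_expand]
  have e3 : LinearMap.det (c.lin + 1) ≠ 0 := left_ne_zero_of_mul
    (e2 ▸ mul_ne_zero (pow_ne_zero _ h2) hA)
  have e4 : spinor hQ c ≠ 1 := fun h => by
    rw [hZ hQ h2 c e3, sqcl_eq_one_iff'] at h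
    obtain ⟨r, hr⟩ := h
    have hr0 : r ≠ 0 := left_ne_zero_of_mul (hr ▸ mul_ne_zero (pow_ne_zero _ h2) e3)
    refine hp ⟨2 ^ finrank F V * d / r, ?_⟩
    field_simp
    linear_combination (2 ^ finrank F V) * e2 - LinearMap.det (aeval N p) * hr +
      (2 ^ finrank F V) ^ 2 * hd'
  rw [map_mul, SqCl.eq_of_ne_one e4 (y := spinor hQ s * θ) fun h => h0 (by
    simpa using eq_inv_of_mul_eq_one_left h), ← mul_assoc, SqCl.mul_self, one_mul]

end H56.Ore
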