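/- ORE tower, chapter 1: every element of `Ω(V, Q)`, `q` odd, `dim V ≥ 7`, is a commutator. -/
import Cfsg.Agent.H56.OreAsm
import Cfsg.Agent.H56.OreTF
import Cfsg.Agent.H1.OreHyp
import Cfsg.Agent.H1.OreU
import Cfsg.Agent.H12.OreNil
import Cfsg.Agent.H13.OreInd
import Cfsg.Agent.H43.OreP
import Cfsg.Agent.H44.OreCyc
import Cfsg.Agent.H54.OreR
import Cfsg.Agent.H61.OreDet
import Cfsg.Agent.H82.OreBlk
import Cfsg.Agent.H82.OreCnt

set_option autoImplicit false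

namespace H56.Ore

universe u

theorem jobInd' : JobInd.{u} :=
  @H13.Ore.jobInd (@H13.Ore.jobSkew
    (@H12.Ore.jobNil _ _ _ _ _ _ _ (hypQ_nondegenerate ℚ) @H1.Ore.jobHyp) @H44.OreCyc.jobCyc
    (@H44.OreCyc.jobEv @H1.Ore.jobHyp) (@jobTF @H1.Ore.jobZas @H61.Ore.jobDet))

theorem main_odd : Main.{u} :=
  @main (@H82.Ore.jobO1 @jobInd') (@H82.Ore.jobO2 @jobInd')
    (@H54.OreR.jobR @H82.OreCnt.jobCnt1 @H82.OreCnt.jobCnt2)
    (@H43.OreP.jobP @H82.OreCnt.jobCnt1 @H82.OreCnt.jobCnt2) @H1.Ore.jobAB @H1.Ore.jobU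

/-- Transfer to the matrix group. -/
theorem omega_of_com {F : Type*} {ι : Type} [Field F] [Fintype ι] [DecidableEq ι]
    (Q : QuadraticForm F (ι → F)) {q : (ι → F) → F} (h : ⇑Q = q)
    (H : ∀ g ∈ commutator (O Q), ∃ a ∈ commutator (O Q), ∃ b ∈ commutator (O Q),
      g = a * b * a⁻¹ * b⁻¹) (g : Cfsg.Omega F q) :
    ∃ a b : Cfsg.Omega F q, g = a * b * a⁻¹ * b⁻¹ := by
  obtain ⟨a, ha, b, hb, e⟩ := H _ (omegaEquiv Q h g).2
  refine ⟨(omegaEquiv Q h).symm ⟨a, ha⟩, (omegaEquiv Q h).symm ⟨b, hb⟩,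
    (omegaEquiv Q h).injective (Subtype.ext ?_)⟩
  simpa using e

end H56.Ore
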