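/- Product action wreath products: basic definitions. -/
import Cfsg.Agent.Base

set_option autoImplicit false
set_option linter.unusedSectionVars false
set_option linter.unusedVariables false

namespace H56.PA

open Equiv Function

theorem ai {β : Type*} (g : Perm β) (x : β) : g (g⁻¹ x) = x := g.apply_symm_apply x

theorem ia {β : Type*} (g : Perm β) (x : β) : g⁻¹ (g x) = x := g.symm_apply_apply x

section Pts

variable {α : Type*} [Fintype α] [DecidableEq α]

theorem ex_nm (l : List α) (h : l.length < Fintype.card α) : ∃ x, x ∉ l := by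
  by_contra hc
  push Not at hc
  have h1 : (Finset.univ : Finset α) ⊆ l.toFinset := fun x _ => List.mem_toFinset.2 (hc x)
  have h2 := (Finset.card_le_card h1).trans (List.toFinset_card_le l)
  rw [Finset.card_univ] at h2
  omega

/-- The cycle `u ↦ v ↦ w ↦ u`. -/
def tc (u v w : α) : Perm α := swap u w * swap u v

/-- Three different points. -/
structure D3 (u v w : α) : Prop where
  uv : u ≠ v
  uw : u ≠ w
  vw : v ≠ w

variable {u v w x : α}

theorem D3.rev (h : D3 u v w) : D3 u w v := ⟨h.uw, h.uv, h.vw.symm⟩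

theorem tc_1 (h : D3 u v w) : tc u v w u = v := by
  simp [tc, swap_apply_of_ne_of_ne h.uv.symm h.vw]

theorem tc_2 (u v w : α) : tc u v w v = w := by simp [tc]

theorem tc_3 (h : D3 u v w) : tc u v w w = u := by
  simp [tc, swap_apply_of_ne_of_ne h.uw.symm h.vw.symm]

theorem tc_fix (h1 : x ≠ u) (h2 : x ≠ v) (h3 : x ≠ w) : tc u v w x = x := by
  simp [tc, swap_apply_of_ne_of_ne h1 h2, swap_apply_of_ne_of_ne h1 h3]

theorem tc_sign (h : D3 u v w) : Perm.sign (tc u v w) = 1 := by
  simp [tc, Perm.sign_swap h.uv, Perm.sign_swap h.uw]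

theorem tc_cases (h : D3 u v w) (x : α) : (x = u ∧ tc u v w x = v) ∨ (x = v ∧ tc u v w x = w) ∨
    (x = w ∧ tc u v w x = u) ∨ (x ≠ u ∧ x ≠ v ∧ x ≠ w ∧ tc u v w x = x) := by
  by_cases h1 : x = u
  · exact Or.inl ⟨h1, h1 ▸ tc_1 (h1 ▸ h)⟩
  by_cases h2 : x = v
  · exact Or.inr (Or.inl ⟨h2, h2 ▸ tc_2 _ _ _⟩)
  by_cases h3 : x = w
  · exact Or.inr (Or.inr (Or.inl ⟨h3, h3 ▸ tc_3 (h3 ▸ h)⟩))
  exact Or.inr (Or.inr (Or.inr ⟨h1, h2, h3, tc_fix h1 h2 h3⟩))

theorem tc_eq_iff (h : D3 u v w) : tc u v w x = x ↔ x ≠ u ∧ x ≠ v ∧ x ≠ w := by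
  have := h.uv; have := h.uw; have := h.vw
  rcases tc_cases h x with k | k | k | k <;> grind

theorem tc_ne (h : D3 u v w) {a : α} (h1 : a ≠ u) (h2 : a ≠ v) (h3 : a ≠ w) (hx : x ≠ a) :
    tc u v w x ≠ a := fun e => hx ((tc u v w).injective (e.trans (tc_fix h1 h2 h3).symm))

theorem tc_inv (h : D3 u v w) : (tc u v w)⁻¹ = tc u w v := by
  refine inv_eq_of_mul_eq_one_right (Equiv.ext fun x => ?_)
  have := h.uv; have := h.uw; have := h.vw
  rw [Perm.mul_apply, Perm.one_apply]
  rcases tc_cases h.rev x with k | k | k | k <;> rcases tc_cases h (tc u w v x) with l | l | l | l <;>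
    grind

theorem tc_cube (h : D3 u v w) : tc u v w * tc u v w * tc u v w = 1 := by
  refine Equiv.ext fun x => ?_
  have := tc_1 h; have := tc_2 u v w; have := tc_3 h
  simp only [Perm.mul_apply, Perm.one_apply]
  rcases tc_cases h x with k | k | k | k <;> grind

theorem exists_perm2 {p q p' q' : α} (h : p ≠ q) (h' : p' ≠ q') :
    ∃ σ : Perm α, σ p = p' ∧ σ q = q' := by
  refine ⟨swap (swap p p' q) q' * swap p p', ?_, by simp⟩
  rw [Perm.mul_apply, swap_apply_left]
  refine swap_apply_of_ne_of_ne (fun e => h ?_) h'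
  exact (swap p p').injective (by rw [swap_apply_left, ← e])

theorem exists_even (hm : 4 ≤ Fintype.card α) {p q p' q' : α} (h : p ≠ q) (h' : p' ≠ q') :
    ∃ σ : Perm α, Perm.sign σ = 1 ∧ σ p = p' ∧ σ q = q' := by
  obtain ⟨σ, h1, h2⟩ := exists_perm2 h h'
  rcases Int.units_eq_one_or (Perm.sign σ) with e | e
  · exact ⟨σ, e, h1, h2⟩
  obtain ⟨r, hr⟩ := ex_nm [p', q'] (by simp; omega)
  obtain ⟨s, hs⟩ := ex_nm [p', q', r] (by simp; omega)
  simp only [List.mem_cons, List.not_mem_nil, or_false, not_or] at hr hs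
  refine ⟨swap r s * σ, ?_, ?_, ?_⟩
  · rw [Perm.sign_mul, Perm.sign_swap (Ne.symm hs.2.2), e]; simp
  · rw [Perm.mul_apply, h1, swap_apply_of_ne_of_ne (Ne.symm hr.1) (Ne.symm hs.1)]
  · rw [Perm.mul_apply, h2, swap_apply_of_ne_of_ne (Ne.symm hr.2) (Ne.symm hs.2.1)]

end Pts

variable {ι α : Type*} [Fintype ι] [DecidableEq ι] [Fintype α] [DecidableEq α]

/-- The elements of the wreath product. -/
def wr (π : Perm ι) (τ : ι → Perm α) : Perm (ι → α) where
  toFun f i := τ i (f (π.symm i))
  invFun f i := (τ (π i))⁻¹ (f (π i))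
  left_inv f := by funext i; simp
  right_inv f := by funext i; simp

theorem wr_apply (π : Perm ι) (τ : ι → Perm α) (f : ι → α) (i : ι) :
    wr π τ f i = τ i (f (π.symm i)) := rfl

theorem wr_inv_apply (π : Perm ι) (τ : ι → Perm α) (f : ι → α) (i : ι) :
    (wr π τ)⁻¹ f i = (τ (π i))⁻¹ (f (π i)) := rfl

/-- The action on one coordinate. -/
def pur (i : ι) : Perm α →* Perm (ι → α) where
  toFun σ :=
    { toFun := fun x => update x i (σ (x i))
      invFun := fun x => update x i (σ⁻¹ (x i))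
      left_inv := fun x => by simp
      right_inv := fun x => by simp }
  map_one' := Equiv.ext fun x => by simp
  map_mul' σ τ := Equiv.ext fun x => by simp

theorem pur_apply (i : ι) (σ : Perm α) (x : ι → α) : pur i σ x = update x i (σ (x i)) := rfl

theorem pur_same (i : ι) (σ : Perm α) (x : ι → α) : pur i σ x i = σ (x i) := by simp [pur_apply]

theorem pur_ne {i j : ι} (h : j ≠ i) (σ : Perm α) (x : ι → α) : pur i σ x j = x j := by
  simp [pur_apply, h]

theorem pur_eq_iff {i : ι} {σ : Perm α} {x : ι → α} : pur i σ x = x ↔ σ (x i) = x i :=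
  ⟨fun h => by rw [← pur_same, h], fun h => by rw [pur_apply, h, update_eq_self]⟩

theorem pur_comm {i j : ι} (h : i ≠ j) (σ τ : Perm α) : pur i σ * pur j τ = pur j τ * pur i σ :=
  Equiv.ext fun x => by
    simp only [Perm.mul_apply, pur_apply, update_of_ne h, update_of_ne h.symm]
    exact (update_comm h _ _ _).symm

theorem pur_eq_one {i : ι} {σ : Perm α} (h : pur i σ = 1) : σ = 1 := Equiv.ext fun a => by
  have := pur_same i σ fun _ => a
  rw [h] at this
  exact this.symm

/-- The wreath product in product action. -/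
def Wr (ι α : Type*) : Subgroup (Perm (ι → α)) where
  carrier := {σ | ∃ (π : Perm ι) (τ : ι → Perm α), ∀ f i, σ f i = τ i (f (π.symm i))}
  one_mem' := ⟨1, fun _ => 1, fun _ _ => rfl⟩
  mul_mem' := by
    rintro a b ⟨π, τ, h⟩ ⟨π', τ', h'⟩
    exact ⟨π * π', fun i => τ i * τ' (π.symm i), fun f i => by rw [Perm.mul_apply, h, h']; rfl⟩
  inv_mem' := by
    rintro a ⟨π, τ, h⟩
    refine ⟨π⁻¹, fun i => (τ (π i))⁻¹, fun f i => ?_⟩
    have := h (a⁻¹ f) (π i)
    rw [ai, symm_apply_apply] at this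
    change _ = (τ (π i))⁻¹ (f (π i))
    rw [this, ia]

theorem conn' (P : (ι → α) → Prop) (s : Finset ι)
    (h : ∀ x l u, l ∈ s → P x → P (update x l u)) {x y : ι → α} (hx : P x)
    (e : ∀ l, l ∉ s → x l = y l) : P y := by
  have key : ∀ t : Finset ι, t ⊆ s → P (t.piecewise y x) := by
    intro t
    induction t using Finset.induction_on with
    | empty => intro _; simpa using hx
    | insert l t hl ih =>
      intro ht
      rw [Finset.piecewise_insert]
      exact h _ _ _ (ht (Finset.mem_insert_self _ _)) (ih ((Finset.subset_insert _ _).trans ht))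
  have e' : s.piecewise y x = y := funext fun l => by
    by_cases hl : l ∈ s
    · exact Finset.piecewise_eq_of_mem _ _ _ hl
    · rw [Finset.piecewise_eq_of_notMem _ _ _ hl, e l hl]
  exact e' ▸ key s subset_rfl

theorem conn (P : (ι → α) → Prop) (i : ι) (h : ∀ x l u, l ≠ i → P x → P (update x l u))
    {x y : ι → α} (hx : P x) (e : x i = y i) : P y :=
  conn' P (Finset.univ.erase i) (fun x l u hl => h x l u (Finset.ne_of_mem_erase hl)) hx fun l hl => by
    have : l = i := by simpa using hl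
    rw [this, e]

theorem conn0 (P : (ι → α) → Prop) (h : ∀ x l u, P x → P (update x l u))
    {x y : ι → α} (hx : P x) : P y :=
  conn' P Finset.univ (fun x l u _ => h x l u) hx fun l hl => absurd (Finset.mem_univ l) hl

theorem card_inv (X : Finset (ι → α)) (i : ι) (h : ∀ x ∈ X, ∀ u, update x i u ∈ X) (a : α) :
    X.card = Fintype.card α * (X.filter fun x => x i = a).card := by
  rw [Finset.card_eq_sum_card_fiberwise (f := fun x => x i) (t := Finset.univ)
    fun _ _ => Finset.mem_univ _, ← Finset.card_univ, ← smul_eq_mul, ← Finset.sum_const]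
  refine Finset.sum_congr rfl fun b _ => Finset.card_nbij' (fun x => update x i a)
    (fun x => update x i b) ?_ ?_ ?_ ?_
  · intro x hx
    simp only [Finset.coe_filter, Set.mem_ofPred_eq] at hx ⊢
    exact ⟨h x hx.1 a, update_self ..⟩
  · intro x hx
    simp only [Finset.coe_filter, Set.mem_ofPred_eq] at hx ⊢
    exact ⟨h x hx.1 b, update_self ..⟩
  · intro x hx
    simp only [Finset.coe_filter, Set.mem_ofPred_eq] at hx
    simp [← hx.2]
  · intro x hx
    simp only [Finset.coe_filter, Set.mem_ofPred_eq] at hx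
    simp [← hx.2]

/-- The image of a coordinate hyperplane. -/
def hs (g : Perm (ι → α)) (i : ι) (a : α) : Finset (ι → α) := Finset.univ.filter fun x => g⁻¹ x i = a

theorem mem_hs {g : Perm (ι → α)} {i : ι} {a : α} {x : ι → α} : x ∈ hs g i a ↔ g⁻¹ x i = a := by
  simp [hs]

theorem mem_hs1 {i : ι} {a : α} {x : ι → α} : x ∈ hs 1 i a ↔ x i = a := by simp [hs]

theorem mem_hs_mul {c g : Perm (ι → α)} {i : ι} {a : α} {x : ι → α} :
    x ∈ hs (c * g) i a ↔ c⁻¹ x ∈ hs g i a := by simp [mem_hs]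

theorem hs_mul (c g : Perm (ι → α)) (i : ι) (a : α) :
    hs (c * g) i a = (hs g i a).map c.toEmbedding := by
  ext x
  rw [mem_hs_mul, Finset.mem_map_equiv]
  rfl

/-- The size of a hyperplane. -/
def hh (ι α : Type*) [Fintype ι] [Fintype α] : ℕ := Fintype.card α ^ (Fintype.card ι - 1)

theorem mul_hh [Nonempty ι] : Fintype.card α * hh ι α = Fintype.card (ι → α) := by
  rw [hh, Fintype.card_fun, ← pow_succ']
  congr 1
  have := Fintype.card_pos (α := ι)
  omega

theorem card_hs (g : Perm (ι → α)) (i : ι) (a : α) : (hs g i a).card = hh ι α := by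
  have : Nonempty ι := ⟨i⟩
  have : Nonempty α := ⟨a⟩
  have h1 := card_inv (Finset.univ : Finset (ι → α)) i (fun _ _ _ => Finset.mem_univ _) a
  rw [Finset.card_univ, ← mul_hh] at h1
  have h2 := Nat.eq_of_mul_eq_mul_left Fintype.card_pos h1
  rw [← mul_one g, hs_mul, Finset.card_map, h2]
  rfl

theorem hh_pos [Nonempty α] : 0 < hh ι α := pow_pos Fintype.card_pos _

/-- The groups we consider. -/
structure Hyp (G : Subgroup (Perm (ι → α))) : Prop where
  five : 5 ≤ Fintype.card α
  alt : ∀ (i : ι) (σ : Perm α), Perm.sign σ = 1 → pur i σ ∈ G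
  top : ∀ π : Perm ι, ∃ τ : ι → Perm α, wr π τ ∈ G

variable {G : Subgroup (Perm (ι → α))}

theorem Hyp.tc (h : Hyp G) (i : ι) {u v w : α} (d : D3 u v w) : pur i (tc u v w) ∈ G :=
  h.alt i _ (tc_sign d)

theorem Hyp.base (h : Hyp G) (τ : ι → Perm α) (hτ : ∀ i, Perm.sign (τ i) = 1) : wr 1 τ ∈ G := by
  have key : ∀ s : Finset ι, wr 1 (s.piecewise τ fun _ => 1) ∈ G := by
    intro s
    induction s using Finset.induction_on with
    | empty =>
      have : wr (1 : Perm ι) ((∅ : Finset ι).piecewise τ fun _ => 1) = 1 :=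
        Equiv.ext fun f => funext fun i => by simp [wr_apply]; rfl
      rw [this]
      exact G.one_mem
    | insert l s hl ih =>
      have : wr (1 : Perm ι) ((insert l s).piecewise τ fun _ => 1) =
          pur l (τ l) * wr 1 (s.piecewise τ fun _ => 1) := Equiv.ext fun f => funext fun i => by
        by_cases e : i = l
        · subst e
          rw [Perm.mul_apply, pur_same, wr_apply, wr_apply, Finset.piecewise_insert_self,
            Finset.piecewise_eq_of_notMem _ _ _ hl, Perm.one_apply]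
        · rw [Perm.mul_apply, pur_ne e, wr_apply, wr_apply, Finset.piecewise_insert_of_ne _ _ _ e]
      rw [this]
      exact G.mul_mem (h.alt _ _ (hτ l)) ih
  simpa using key Finset.univ

theorem Hyp.exists_wr (h : Hyp G) (π : Perm ι) (p q p' q' : ι → α) (e : ∀ l, p l ≠ q l)
    (e' : ∀ l, p' l ≠ q' l) :
    ∃ τ : ι → Perm α, wr π τ ∈ G ∧ ∀ l, τ l (p l) = p' l ∧ τ l (q l) = q' l := by
  obtain ⟨τ, hτ⟩ := h.top π
  have := h.five
  choose σ h1 h2 using fun l => exists_even (by omega) ((τ l).injective.ne (e l)) (e' l)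
  exact ⟨fun l => σ l * τ l, G.mul_mem (h.base σ h1) hτ, h2⟩

/-- An update is the effect of a three-cycle that avoids a given value. -/
theorem exists_upd (hm : 5 ≤ Fintype.card α) (x : ι → α) (l : ι) {u : α} (hu : u ≠ x l) (a b : α) :
    ∃ w, D3 (x l) u w ∧ w ≠ a ∧ w ≠ b ∧ pur l (tc (x l) u w) x = update x l u := by
  obtain ⟨w, hw⟩ := ex_nm [x l, u, a, b] (by simp; omega)
  simp only [List.mem_cons, List.not_mem_nil, or_false, not_or] at hw
  have d : D3 (x l) u w := ⟨hu.symm, Ne.symm hw.1, Ne.symm hw.2.1⟩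
  exact ⟨w, d, hw.2.2.1, hw.2.2.2, by rw [pur_apply, tc_1 d]⟩

end H56.PA
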