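/- Product action wreath products: overgroups in which the hyperplane stabilizers keep lines. -/
import Cfsg.Agent.H56.PA1

set_option autoImplicit false
set_option linter.unusedSectionVars false
set_option linter.unusedVariables false

namespace H56.PA

open Equiv Function

variable {ι α : Type*} [Fintype ι] [DecidableEq ι] [Fintype α] [DecidableEq α]
  {G : Subgroup (Perm (ι → α))}

/-- Elements that fix a hyperplane pointwise keep the lines transversal to it. -/
def NJ (G : Subgroup (Perm (ι → α))) : Prop :=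
  ∀ i a, ∀ y ∈ G, (∀ x, x i = a → y x = x) → ∀ x j, j ≠ i → y x j = x j

theorem pure_of_lines (h : Hyp G) (nj : NJ G) {i : ι} {y : Perm (ι → α)} (hy : y ∈ G)
    (hl : ∀ x j, j ≠ i → y x j = x j) : ∃ σ, y = pur i σ := by
  have h5 := h.five
  have hl' : ∀ x j, j ≠ i → y⁻¹ x j = x j := fun x j hj => by rw [← hl (y⁻¹ x) j hj, ai]
  have com : ∀ j, j ≠ i → ∀ u v w, D3 u v w → ∀ x, y (pur j (tc u v w) x) = pur j (tc u v w) (y x) := by
    intro j hj u v w d
    obtain ⟨r, hr⟩ := ex_nm [u, v, w] (by simp; omega)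
    simp only [List.mem_cons, List.not_mem_nil, or_false, not_or] at hr
    set b := pur j (tc u v w) with hb
    have hf : ∀ x : ι → α, x j = r → b x = x := fun x e =>
      pur_eq_iff.2 (by rw [e]; exact tc_fix hr.1 hr.2.1 hr.2.2)
    have hk := nj j r (y * b * y⁻¹ * b⁻¹) (G.mul_mem (G.mul_mem (G.mul_mem hy (h.tc j d))
      (G.inv_mem hy)) (G.inv_mem (h.tc j d))) fun x e => by
        have e1 : b⁻¹ x = x := by rw [Perm.inv_eq_iff_eq, hf x e]
        simp only [Perm.mul_apply]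
        rw [e1, hf _ ((hl' x j hj).trans e), ai]
    intro x
    funext l
    by_cases e : l = j
    · subst e
      rw [hl _ _ hj, hb, pur_same, pur_same, hl _ _ hj]
    · have := hk (b (y x)) l e
      simp only [Perm.mul_apply] at this
      rwa [ia, ia] at this
  have key : ∀ x, y x i = y (fun _ => x i) i := fun x =>
    conn (fun z => y z i = y (fun _ => x i) i) i (x := fun _ => x i) (fun z l u hli hz => by
      by_cases e : u = z l
      · rwa [e, update_eq_self]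
      obtain ⟨w, d, -, -, e'⟩ := exists_upd h5 z l e u u
      rw [← e', com l hli _ _ _ d, pur_ne hli.symm, hz]) rfl rfl
  have inj : Injective fun a : α => y (fun _ => a) i := fun a a' e => by
    have : y (fun _ => a) = y (update (fun _ => a) i a') := funext fun l => by
      by_cases e' : l = i
      · rw [e', key (update _ i a'), update_self]
        exact e
      · rw [hl _ _ e', hl _ _ e', update_of_ne e']
    have := congrFun (y.injective this) i
    rwa [update_self] at this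
  refine ⟨Equiv.ofBijective _ inj.bijective_of_finite, Equiv.ext fun x => funext fun l => ?_⟩
  by_cases e : l = i
  · rw [e, pur_same, key]
    rfl
  · rw [pur_ne e, hl _ _ e]

theorem pure1 (h : Hyp G) (nj : NJ G) {i : ι} {a : α} {y : Perm (ι → α)} (hy : y ∈ G)
    (hf : ∀ x, x i = a → y x = x) : ∃ σ, y = pur i σ :=
  pure_of_lines h nj hy (nj i a y hy hf)

/-- Conjugates of the elements that act on one coordinate. -/
def cp (g : Perm (ι → α)) (j : ι) (σ : Perm α) : Perm (ι → α) := g * pur j σ * g⁻¹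

theorem cp_eq_iff {g : Perm (ι → α)} {j : ι} {σ : Perm α} {x : ι → α} :
    cp g j σ x = x ↔ σ (g⁻¹ x j) = g⁻¹ x j := by
  rw [← pur_eq_iff, cp, Perm.mul_apply, Perm.mul_apply, ← Perm.eq_inv_iff_eq]

theorem cp_co (g : Perm (ι → α)) (j : ι) (σ : Perm α) (x : ι → α) :
    g⁻¹ (cp g j σ x) j = σ (g⁻¹ x j) := by
  rw [cp, Perm.mul_apply, Perm.mul_apply, ia, pur_same]

theorem cp_mul (g : Perm (ι → α)) (j : ι) (σ τ : Perm α) : cp g j (σ * τ) = cp g j σ * cp g j τ := by
  simp [cp, mul_assoc]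

theorem cp_inv (g : Perm (ι → α)) (j : ι) (σ : Perm α) : cp g j σ⁻¹ = (cp g j σ)⁻¹ := by
  simp [cp, mul_assoc]

theorem cp_congr {g : Perm (ι → α)} {j : ι} {σ τ : Perm α} {x : ι → α}
    (e : σ (g⁻¹ x j) = τ (g⁻¹ x j)) : cp g j σ x = cp g j τ x := by
  simp only [cp, Perm.mul_apply, pur_apply, e]

theorem Hyp.cp (h : Hyp G) {g : Perm (ι → α)} (hg : g ∈ G) (j : ι) {σ : Perm α}
    (e : Perm.sign σ = 1) : cp g j σ ∈ G :=
  G.mul_mem (G.mul_mem hg (h.alt j σ e)) (G.inv_mem hg)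

theorem pure2 (h : Hyp G) (nj : NJ G) {g : Perm (ι → α)} (hg : g ∈ G) {j : ι} {b : α}
    {y : Perm (ι → α)} (hy : y ∈ G) (hf : ∀ x, g⁻¹ x j = b → y x = x) : ∃ σ, y = cp g j σ := by
  obtain ⟨σ, e⟩ := pure1 h nj (i := j) (a := b) (G.mul_mem (G.mul_mem (G.inv_mem hg) hy) hg)
    fun x e => by rw [Perm.mul_apply, Perm.mul_apply, hf _ (by rwa [ia]), ia]
  exact ⟨σ, by rw [cp, ← e]; group⟩

/-- A bound for the intersections of images of hyperplanes. -/
def Ext (G : Subgroup (Perm (ι → α))) (μ : ℕ) : Prop :=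
  ∀ g₁ ∈ G, ∀ g₂ ∈ G, ∀ i a j b, hs g₁ i a ≠ hs g₂ j b → (hs g₁ i a ∩ hs g₂ j b).card ≤ μ

/-- An extremal pair. -/
structure EP (G : Subgroup (Perm (ι → α))) (μ : ℕ) (g : Perm (ι → α)) (i : ι) (a : α) (j : ι)
    (b : α) : Prop where
  hyp : Hyp G
  nj : NJ G
  ext : Ext G μ
  mem : g ∈ G
  ne : hs 1 i a ≠ hs g j b
  card : (hs 1 i a ∩ hs g j b).card = μ
  pos : 0 < μ

theorem ep_of {μ : ℕ} (h : Hyp G) (nj : NJ G) (e : Ext G μ) (pos : 0 < μ) {g₁ g₂ : Perm (ι → α)}
    (h1 : g₁ ∈ G) (h2 : g₂ ∈ G) {i j : ι} {a b : α} (ne : hs g₁ i a ≠ hs g₂ j b)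
    (c : (hs g₁ i a ∩ hs g₂ j b).card = μ) : EP G μ (g₁⁻¹ * g₂) i a j b := by
  have e1 : hs 1 i a = (hs g₁ i a).map (g₁⁻¹ : Perm _).toEmbedding := by
    rw [← hs_mul, inv_mul_cancel]
  refine ⟨h, nj, e, G.mul_mem (G.inv_mem h1) h2, ?_, ?_, pos⟩
  · rw [e1, hs_mul]
    exact fun k => ne (Finset.map_injective _ k)
  · rw [e1, hs_mul, ← Finset.map_inter, Finset.card_map, c]

variable {μ : ℕ} {g : Perm (ι → α)} {i j : ι} {a b : α}

theorem EP.symm (h : EP G μ g i a j b) : EP G μ g⁻¹ j b i a := by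
  have := ep_of h.hyp h.nj h.ext h.pos h.mem G.one_mem h.ne.symm (by rw [Finset.inter_comm, h.card])
  rwa [mul_one] at this

theorem EP.exD (h : EP G μ g i a j b) : ∃ y, g⁻¹ y j = b ∧ y i ≠ a := by
  by_contra hc
  push Not at hc
  exact h.ne (Finset.eq_of_subset_of_card_le (fun y hy => mem_hs1.2 (hc y (mem_hs.1 hy)))
    (by rw [card_hs, card_hs])).symm

theorem EP.exS (h : EP G μ g i a j b) : ∃ y, g⁻¹ y j = b ∧ y i = a := by
  obtain ⟨y, hy⟩ := Finset.card_pos.1 (h.card ▸ h.pos)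
  rw [Finset.mem_inter, mem_hs1, mem_hs] at hy
  exact ⟨y, hy.2, hy.1⟩

theorem EP.block (h : EP G μ g i a j b) {c : Perm (ι → α)} (hc : c ∈ G)
    (hf : ∀ x, x i = a → c x = x) {x : ι → α} (h1 : g⁻¹ x j = b) (h2 : x i ≠ a)
    (h3 : g⁻¹ (c x) j = b) : ∀ y, g⁻¹ y j = b → g⁻¹ (c y) j = b := by
  by_cases e : hs (c * g) j b = hs g j b
  · intro y hy
    rw [← mem_hs, ← e, mem_hs_mul, ia, mem_hs]
    exact hy
  have k := h.ext _ (G.mul_mem hc h.mem) _ h.mem j b j b e
  have s : hs 1 i a ∩ hs g j b ⊆ hs (c * g) j b ∩ hs g j b := fun y hy => by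
    rw [Finset.mem_inter] at hy ⊢
    refine ⟨mem_hs_mul.2 ?_, hy.2⟩
    rw [Perm.inv_eq_iff_eq.2 (hf y (mem_hs1.1 hy.1)).symm]
    exact hy.2
  have q := Finset.eq_of_subset_of_card_le s (by rw [h.card]; exact k)
  have : c x ∈ hs 1 i a ∩ hs g j b := by
    rw [q, Finset.mem_inter, mem_hs_mul, ia, mem_hs, mem_hs]
    exact ⟨h1, h3⟩
  have e2 := mem_hs1.1 (Finset.mem_inter.1 this).1
  exact absurd (c.injective (hf _ e2) ▸ e2) h2

/-- The second set is kept by all three-cycles that fix the first. -/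
def K2 (g : Perm (ι → α)) (i : ι) (a : α) (j : ι) (b : α) : Prop :=
  ∀ u v w, D3 u v w → a ≠ u → a ≠ v → a ≠ w → ∀ x, g⁻¹ x j = b → g⁻¹ (pur i (tc u v w) x) j = b

theorem K2.all (h5 : 5 ≤ Fintype.card α) (k : K2 g i a j b) {y : ι → α} (h1 : g⁻¹ y j = b)
    (h2 : y i ≠ a) {r : α} (hr : r ≠ a) : ∃ z, g⁻¹ z j = b ∧ z i = r := by
  by_cases e : r = y i
  · exact ⟨y, h1, e.symm⟩
  obtain ⟨w, d, hw, -, e'⟩ := exists_upd h5 y i e a a
  exact ⟨_, k _ _ _ d h2.symm hr.symm hw.symm y h1, by rw [e', update_self]⟩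

theorem EP.dich (h : EP G μ g i a j b) :
    (∃ a', a' ≠ a ∧ ∀ x, g⁻¹ x j = b → x i = a ∨ x i = a') ∨ K2 g i a j b := by
  have h5 := h.hyp.five
  obtain ⟨x, x1, x2⟩ := h.exD
  by_cases hc : ∀ y, g⁻¹ y j = b → y i = a ∨ y i = x i
  · exact Or.inl ⟨_, x2, hc⟩
  push Not at hc
  obtain ⟨y, y1, y2, y3⟩ := hc
  have blk : ∀ u v w, D3 u v w → a ≠ u → a ≠ v → a ≠ w → ∀ z, g⁻¹ z j = b → z i ≠ a → z i ≠ u →
      z i ≠ v → z i ≠ w → ∀ x, g⁻¹ x j = b → g⁻¹ (pur i (tc u v w) x) j = b := by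
    intro u v w d h1 h2 h3 z z1 z2 z3 z4 z5
    refine h.block (h.hyp.tc i d) (fun x e => pur_eq_iff.2 ?_) z1 z2 ?_
    · rw [e, tc_fix h1 h2 h3]
    · rwa [pur_eq_iff.2 (tc_fix z3 z4 z5)]
  have all : ∀ r, r ≠ a → ∃ z, g⁻¹ z j = b ∧ z i = r := by
    intro r hr
    by_cases e : r = x i
    · exact ⟨x, x1, e.symm⟩
    by_cases e2 : r = y i
    · exact ⟨y, y1, e2.symm⟩
    obtain ⟨w, d, w1, w2, e'⟩ := exists_upd h5 x i e a (y i)
    exact ⟨_, blk _ _ _ d x2.symm hr.symm w1.symm y y1 y2 y3 (Ne.symm e2) w2.symm x x1,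
      by rw [e', update_self]⟩
  refine Or.inr fun u v w d h1 h2 h3 => ?_
  obtain ⟨r, hr⟩ := ex_nm [a, u, v, w] (by simp; omega)
  simp only [List.mem_cons, List.not_mem_nil, or_false, not_or] at hr
  obtain ⟨z, z1, rfl⟩ := all r hr.1
  exact blk u v w d h1 h2 h3 z z1 hr.1 hr.2.1 hr.2.2.1 hr.2.2.2

theorem EP.inv_of_K2 (h : EP G μ g i a j b) (k : K2 g i a j b) (k' : K2 g⁻¹ j b i a) {y : ι → α}
    (hy : g⁻¹ y j = b) (r : α) : g⁻¹ (update y i r) j = b := by
  have h5 := h.hyp.five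
  have pres : ∀ u v w, D3 u v w → b ≠ u → b ≠ v → b ≠ w → ∀ x : ι → α, x i = a →
      cp g j (tc u v w) x i = a := fun u v w d h1 h2 h3 x e => by
    have := k' u v w d h1 h2 h3 (g⁻¹ x) (by rwa [inv_inv, ai])
    rwa [inv_inv] at this
  have com : ∀ u v w, D3 u v w → b ≠ u → b ≠ v → b ≠ w → ∀ p q s, D3 p q s → ∀ x,
      cp g j (tc u v w) (pur i (tc p q s) x) = pur i (tc p q s) (cp g j (tc u v w) x) := by
    intro u v w d h1 h2 h3
    set c := cp g j (tc u v w) with hc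
    have cm : c ∈ G := h.hyp.cp h.mem j (tc_sign d)
    have ci : c⁻¹ = cp g j (tc u w v) := by rw [hc, ← cp_inv, tc_inv d]
    have p1 : ∀ x : ι → α, x i = a → c x i = a := pres u v w d h1 h2 h3
    have p2 : ∀ x : ι → α, x i = a → c⁻¹ x i = a := ci ▸ pres u w v d.rev h1 h3 h2
    have f1 : ∀ x : ι → α, g⁻¹ x j = b → c x = x := fun x e =>
      cp_eq_iff.2 (by rw [e, tc_fix h1 h2 h3])
    have com1 : ∀ p q s, D3 p q s → a ≠ p → a ≠ q → a ≠ s → ∀ x,
        c (pur i (tc p q s) x) = pur i (tc p q s) (c x) := by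
      intro p q s d' e1 e2 e3
      set t := pur i (tc p q s) with ht
      have tf : ∀ x : ι → α, x i = a → t x = x := fun x e =>
        pur_eq_iff.2 (by rw [e, tc_fix e1 e2 e3])
      obtain ⟨σ, hσ⟩ := pure1 h.hyp h.nj (i := i) (a := a) (G.mul_mem (G.mul_mem (G.mul_mem
        (G.inv_mem (h.hyp.tc i d')) (G.inv_mem cm)) (h.hyp.tc i d')) cm) fun x e => by
          simp only [Perm.mul_apply]
          rw [tf _ (p1 x e), ia, Perm.inv_eq_iff_eq, tf x e]
      have one : σ = 1 := Equiv.ext fun r => by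
        have ap : ∀ z : ι → α, (t⁻¹ * c⁻¹ * t * c) z = z → σ (z i) = z i := fun z e => by
          rwa [hσ, pur_eq_iff] at e
        by_cases e : r = a
        · refine ap (fun _ => r) ?_
          simp only [Perm.mul_apply]
          rw [tf _ (p1 _ e), ia, Perm.inv_eq_iff_eq, tf _ e]
        obtain ⟨y, y1, y2⟩ := h.exD
        obtain ⟨z, z1, rfl⟩ := k.all h5 y1 y2 e
        refine ap z ?_
        simp only [Perm.mul_apply]
        rw [f1 z z1, Perm.inv_eq_iff_eq.2 (f1 _ (k _ _ _ d' e1 e2 e3 z z1)).symm, ia]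
      intro x
      have := congrArg (fun e : Perm _ => c (t (e x))) hσ
      simp only [one, map_one, Perm.mul_apply, Perm.one_apply] at this
      rw [← this, ai, ai]
    have co : ∀ x : ι → α, c x i = x i := by
      intro x
      by_cases e : x i = a
      · rw [p1 x e, e]
      by_contra e2
      have e3 : c x i ≠ a := fun e3 => e (by rw [← p2 _ e3, ia])
      obtain ⟨q, hq⟩ := ex_nm [c x i, a, x i] (by simp; omega)
      simp only [List.mem_cons, List.not_mem_nil, or_false, not_or] at hq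
      obtain ⟨w, d', w1, w2, e'⟩ := exists_upd h5 (c x) i hq.1 a (x i)
      have := com1 _ _ _ d' e3.symm (Ne.symm hq.2.1) w1.symm x
      rw [pur_eq_iff.2 (tc_fix (Ne.symm e2) (Ne.symm hq.2.2) w2.symm), e'] at this
      have := congrFun this i
      rw [update_self] at this
      exact hq.1 this.symm
    intro p q s d' x
    obtain ⟨r, hr⟩ := ex_nm [p, q, s] (by simp; omega)
    simp only [List.mem_cons, List.not_mem_nil, or_false, not_or] at hr
    set t := pur i (tc p q s) with ht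
    have tf : ∀ x : ι → α, x i = r → t x = x := fun x e =>
      pur_eq_iff.2 (by rw [e, tc_fix hr.1 hr.2.1 hr.2.2])
    obtain ⟨σ, hσ⟩ := pure1 h.hyp h.nj (i := i) (a := r) (G.mul_mem (G.mul_mem (G.mul_mem
      (G.inv_mem (h.hyp.tc i d')) (G.inv_mem cm)) (h.hyp.tc i d')) cm) fun x e => by
        simp only [Perm.mul_apply]
        rw [tf _ ((co x).trans e), ia, Perm.inv_eq_iff_eq, tf x e]
    have one : σ = 1 := Equiv.ext fun r => by
      have := congrArg (fun e : Perm _ => e (fun _ => r) i) hσ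
      simp only [Perm.mul_apply, pur_same] at this
      rw [← this, ← map_inv, pur_same, ← co (c⁻¹ _), ai, pur_same, co, ia, Perm.one_apply]
    have := congrArg (fun e : Perm _ => c (t (e x))) hσ
    simp only [one, map_one, Perm.mul_apply, Perm.one_apply] at this
    rw [← this, ai, ai]
  by_cases e : r = y i
  · rwa [e, update_eq_self]
  obtain ⟨w, d, -, -, e'⟩ := exists_upd h5 y i e a a
  by_contra hc
  obtain ⟨q, hq⟩ := ex_nm [g⁻¹ (update y i r) j, b] (by simp; omega)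
  simp only [List.mem_cons, List.not_mem_nil, or_false, not_or] at hq
  obtain ⟨s, d', s1, -, -⟩ := exists_upd h5 (g⁻¹ (update y i r)) j hq.1 b b
  have := com _ _ _ d' (Ne.symm hc) (Ne.symm hq.2) s1.symm _ _ _ d y
  rw [(cp_eq_iff (x := y)).2 (by rw [hy, tc_fix (Ne.symm hc) (Ne.symm hq.2) s1.symm]), e',
    cp_eq_iff, tc_1 d'] at this
  exact hq.1 this

end H56.PA
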