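/- Product action wreath products: the case that hyperplane stabilizers keep lines, conclusion. -/
import Cfsg.Agent.H56.PA2

set_option autoImplicit false
set_option linter.unusedSectionVars false
set_option linter.unusedVariables false

namespace H56.PA

open Equiv Function

variable {ι α : Type*} [Fintype ι] [DecidableEq ι] [Fintype α] [DecidableEq α]
  {G : Subgroup (Perm (ι → α))} {μ : ℕ} {g : Perm (ι → α)} {i j : ι} {a a' b : α}

theorem EP.c0 (h : EP G μ g i a j b) (k : ∀ x, g⁻¹ x j = b → x i = a ∨ x i = a') {u : α}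
    (h1 : u ≠ a) (h2 : u ≠ a') {b₁ : α} (e : ∀ x, g⁻¹ x j = b₁ → x i = u) : False := by
  have h5 := h.hyp.five
  obtain ⟨x, x1, x2⟩ := h.exS
  obtain ⟨y, y1, y2⟩ := h.exD
  have y3 := (k y y1).resolve_left y2
  obtain ⟨v, hv⟩ := ex_nm [x i, a', u] (by simp; omega)
  simp only [List.mem_cons, List.not_mem_nil, or_false, not_or] at hv
  obtain ⟨w, d, w1, w2, -⟩ := exists_upd h5 x i hv.1 a' u
  obtain ⟨σ, hσ⟩ := pure2 h.hyp h.nj h.mem (b := b₁) (h.hyp.tc i d) fun z hz => pur_eq_iff.2 (by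
    rw [e z hz, tc_fix (x2 ▸ h1) (Ne.symm hv.2.2) w2.symm])
  have fy : pur i (tc (x i) v w) y = y := pur_eq_iff.2 (by
    rw [y3, tc_fix (by rw [x2, ← y3]; exact y2) (Ne.symm hv.2.1) w1.symm])
  rw [hσ, cp_eq_iff, y1, ← x1, ← cp_eq_iff, ← hσ, pur_eq_iff, tc_1 d] at fy
  exact hv.1 fy

theorem EP.c1 (h : EP G μ g i a j b) (k : ∀ x, g⁻¹ x j = b → x i = a ∨ x i = a')
    (h6 : 6 ≤ Fintype.card α) : False := by
  obtain ⟨u, hu⟩ := ex_nm [a, a'] (by simp; omega)
  simp only [List.mem_cons, List.not_mem_nil, or_false, not_or] at hu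
  refine h.c0 k hu.1 hu.2 (b₁ := g⁻¹ (fun _ => u) j) fun y hy => ?_
  by_contra hc
  obtain ⟨v, hv⟩ := ex_nm [a, a', u, y i] (by simp; omega)
  obtain ⟨w, hw⟩ := ex_nm [a, a', u, y i, v] (by simp; omega)
  simp only [List.mem_cons, List.not_mem_nil, or_false, not_or] at hv hw
  have d : D3 u v w := ⟨Ne.symm hv.2.2.1, Ne.symm hw.2.2.1, Ne.symm hw.2.2.2.2⟩
  obtain ⟨σ, hσ⟩ := pure2 h.hyp h.nj h.mem (b := b) (h.hyp.tc i d) fun z hz => pur_eq_iff.2 (by
    rcases k z hz with e | e <;> rw [e]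
    exacts [tc_fix (Ne.symm hu.1) (Ne.symm hv.1) (Ne.symm hw.1),
      tc_fix (Ne.symm hu.2) (Ne.symm hv.2.1) (Ne.symm hw.2.1)])
  have fy : pur i (tc u v w) y = y :=
    pur_eq_iff.2 (tc_fix hc (Ne.symm hv.2.2.2) (Ne.symm hw.2.2.2.1))
  rw [hσ, cp_eq_iff, hy, ← cp_eq_iff, ← hσ, pur_eq_iff, tc_1 d] at fy
  exact hv.2.2.1 fy

/-- Five different points that make up the whole set. -/
structure D5 (a a' u v w : α) : Prop extends D3 u v w where
  aa : a ≠ a'
  au : a ≠ u
  av : a ≠ v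
  aw : a ≠ w
  bu : a' ≠ u
  bv : a' ≠ v
  bw : a' ≠ w
  all : ∀ r, r = a ∨ r = a' ∨ r = u ∨ r = v ∨ r = w

theorem all5 (h5 : Fintype.card α = 5) {a a' u v w : α} (h : [a, a', u, v, w].Nodup) (r : α) :
    r = a ∨ r = a' ∨ r = u ∨ r = v ∨ r = w := by
  have := Finset.eq_univ_of_card [a, a', u, v, w].toFinset (by
    rw [List.toFinset_card_of_nodup h, h5]; rfl)
  simpa using (this ▸ Finset.mem_univ r : r ∈ [a, a', u, v, w].toFinset)

theorem D5.loc {u v w : α} (d : D5 a a' u v w) (g : Perm (ι → α)) (j : ι) :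
    cp g j (swap a a' * swap u v) * cp g j (tc u v w) =
      (cp g j (tc u v w))⁻¹ * cp g j (swap a a' * swap u v) ∧
    (∀ x, cp g j (tc u v w) x ≠ x → ∃ n : ℕ, cp g j (swap a a' * swap u v) x =
      (cp g j (tc u v w) ^ n) x) ∧
    ∀ x, cp g j (swap a a' * swap u v) x = x ↔ g⁻¹ x j = w := by
  obtain ⟨d3, h1, h2, h3, h4, h5, h6, h7, all⟩ := d
  have := d3.uv; have := d3.uw; have := d3.vw
  have := tc_1 d3; have := tc_2 u v w; have := tc_3 d3
  have := tc_1 d3.rev; have := tc_2 u w v; have := tc_3 d3.rev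
  have := tc_fix h2 h3 h4; have := tc_fix h5 h6 h7
  have := tc_fix h2 h4 h3; have := tc_fix h5 h7 h6
  have r1 : (swap a a' * swap u v) a = a' := by simp [swap_apply_of_ne_of_ne h2 h3]
  have r2 : (swap a a' * swap u v) a' = a := by simp [swap_apply_of_ne_of_ne h5 h6]
  have r3 : (swap a a' * swap u v) u = v := by simp [swap_apply_of_ne_of_ne h3.symm h6.symm]
  have r4 : (swap a a' * swap u v) v = u := by simp [swap_apply_of_ne_of_ne h2.symm h5.symm]
  have r5 : (swap a a' * swap u v) w = w := by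
    simp [swap_apply_of_ne_of_ne h4.symm h7.symm, swap_apply_of_ne_of_ne d3.uw.symm d3.vw.symm]
  generalize swap a a' * swap u v = ρ at *
  refine ⟨?_, fun x hx => ?_, fun x => ?_⟩
  · rw [← cp_inv, ← cp_mul, ← cp_mul, tc_inv d3]
    congr 1
    refine Equiv.ext fun r => ?_
    simp only [Perm.mul_apply]
    rcases all r with e | e | e | e | e <;> grind
  · rw [Ne, cp_eq_iff] at hx
    rcases all (g⁻¹ x j) with e | e | e | e | e
    · grind
    · grind
    · exact ⟨1, by rw [pow_one]; exact cp_congr (by grind)⟩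
    · exact ⟨2, by rw [pow_two, ← cp_mul]; exact cp_congr (by rw [Perm.mul_apply]; grind)⟩
    · exact ⟨0, by rw [pow_zero, Perm.one_apply, cp_eq_iff]; grind⟩
  · rw [cp_eq_iff]
    rcases all (g⁻¹ x j) with e | e | e | e | e <;> grind

theorem cp_one (i : ι) (σ : Perm α) : cp 1 i σ = pur i σ := by simp [cp]

/-- Elements that act on the orbits of `c` as powers of `c`. -/
def InM (G : Subgroup (Perm (ι → α))) (c y : Perm (ι → α)) : Prop :=
  y ∈ G ∧ Commute y c ∧ ∀ x, c x ≠ x → ∃ n : ℕ, y x = (c ^ n) x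

theorem cap {c y : Perm (ι → α)} (h : Commute y c) (n : ℕ) (x : ι → α) :
    y ((c ^ n) x) = (c ^ n) (y x) := congrArg (fun e : Perm _ => e x) (h.pow_right n).eq

theorem InM.mul {c y y' : Perm (ι → α)} (h : InM G c y) (h' : InM G c y') : InM G c (y * y') :=
  ⟨G.mul_mem h.1 h'.1, h.2.1.mul_left h'.2.1, fun x hx => by
    obtain ⟨n, e⟩ := h.2.2 x hx
    obtain ⟨n', e'⟩ := h'.2.2 x hx
    exact ⟨n' + n, by rw [Perm.mul_apply, e', cap h.2.1, e, pow_add, Perm.mul_apply]⟩⟩

theorem pure3 (h : Hyp G) (nj : NJ G) (h5 : Fintype.card α = 5) {u v w : α} (d : D5 a a' u v w)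
    {z : Perm (ι → α)} (hz : InM G (pur i (tc u v w)) z) : ∃ σ, z = pur i σ := by
  set c := pur i (tc u v w) with hc
  set θ := pur i (swap a a') with hθ
  have c3 : c ^ 3 = 1 := by
    rw [pow_three', hc, ← map_mul, ← map_mul, tc_cube d.toD3, map_one]
  have mv : ∀ x : ι → α, c x ≠ x ↔ x i ≠ a ∧ x i ≠ a' := fun x => by
    rw [Ne, hc, pur_eq_iff, tc_eq_iff d.toD3]
    obtain ⟨⟨_, _, _⟩, _, _, _, _, _, _, _, all⟩ := d
    rcases all (x i) with e | e | e | e | e <;> grind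
  have triv : ∀ y ∈ G, (∀ x, c x ≠ x → y x = x) → y = 1 ∨ y = θ := by
    intro y hy hf
    obtain ⟨σ, rfl⟩ := pure1 h nj (i := i) (a := u) hy fun x e =>
      hf x ((mv x).2 ⟨e ▸ d.au.symm, e ▸ d.bu.symm⟩)
    have f : ∀ r, r ≠ a → r ≠ a' → σ r = r := fun r h1 h2 =>
      pur_eq_iff.1 (hf (fun _ => r) ((mv _).2 ⟨h1, h2⟩))
    have inj := fun p q => σ.injective.eq_iff (a := p) (b := q)
    have aa := d.aa
    have f1 := f (σ a)
    have f2 := f (σ a')
    by_cases e : σ a = a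
    · exact Or.inl (by rw [show σ = 1 from Equiv.ext fun r => by rw [Perm.one_apply]; grind, map_one])
    · refine Or.inr (congrArg _ (Equiv.ext fun r => ?_))
      rw [swap_apply_def]
      grind
  have θθ : θ * θ = 1 := by rw [hθ, ← map_mul, swap_mul_self, map_one]
  have cube : ∀ y, InM G c y → y * y * y = 1 ∨ y * y * y = θ := fun y hy =>
    triv _ (G.mul_mem (G.mul_mem hy.1 hy.1) hy.1) fun x hx => by
      obtain ⟨n, e⟩ := hy.2.2 x hx
      simp only [Perm.mul_apply]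
      rw [e, cap hy.2.1, e, cap hy.2.1, cap hy.2.1, e, ← Perm.mul_apply, ← Perm.mul_apply, ← pow_add,
        ← pow_add, show n + n + n = 3 * n by ring, pow_mul, c3, one_pow, Perm.one_apply]
  have com : ∀ y y', InM G c y → InM G c y' → y * y * y = 1 → Commute y y' := by
    intro y y' hy hy' y3
    have km := G.mul_mem (G.inv_mem (G.mul_mem hy'.1 hy.1)) (G.mul_mem hy.1 hy'.1)
    rcases triv _ km (fun x hx => by
      obtain ⟨n, e⟩ := hy.2.2 x hx
      obtain ⟨n', e'⟩ := hy'.2.2 x hx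
      rw [Perm.mul_apply, Perm.inv_eq_iff_eq, Perm.mul_apply, Perm.mul_apply, e, e', cap hy.2.1,
        cap hy'.2.1, e, e']
      exact cap ((Commute.refl c).pow_left n') n x) with k | k
    · exact (inv_mul_eq_one.1 k).symm
    have tm : θ ∈ G := k ▸ km
    have ty : θ * y = y * θ ∨ θ = 1 := by
      rcases triv _ (G.mul_mem (G.mul_mem (G.inv_mem hy.1) tm) hy.1) (fun x hx => by
        have : c (y x) ≠ y x := fun e => hx (y.injective (by
          rw [← e, ← Perm.mul_apply, hy.2.1.eq, Perm.mul_apply, e]))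
        rw [mv] at this
        rw [Perm.mul_apply, Perm.mul_apply,
          pur_eq_iff.2 (swap_apply_of_ne_of_ne this.1 this.2), ia]) with q | q
      · exact Or.inr (by simpa [mul_assoc] using congrArg (fun e => y * e * y⁻¹) q)
      · exact Or.inl (by simpa [mul_assoc] using congrArg (fun e => y * e) q)
    have k' : y * y' = y' * y * θ := by rw [← k]; group
    rcases ty with q | q
    · have : Commute (y * y) y' := by
        change y * y * y' = y' * (y * y)
        calc y * y * y' = y * (y * y') := mul_assoc ..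
          _ = y * (y' * y * θ) := by rw [k']
          _ = y * y' * y * θ := by group
          _ = y' * y * (θ * y) * θ := by rw [k']; group
          _ = y' * (y * y) * (θ * θ) := by rw [q]; group
          _ = _ := by rw [θθ, mul_one]
      have e : y = y * y * (y * y) := by rw [← mul_assoc, y3, one_mul]
      rw [e]
      exact this.mul_left this
    · rw [q, mul_one] at k'
      exact k'
  let M : Subgroup (Perm (ι → α)) :=
    { carrier := {y | InM G c y ∧ y * y * y = 1}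
      one_mem' := ⟨⟨G.one_mem, Commute.one_left _, fun x _ => ⟨0, rfl⟩⟩, by simp⟩
      mul_mem' := fun {y y'} hy hy' => ⟨hy.1.mul hy'.1, by
        rw [← pow_three', (com y y' hy.1 hy'.1 hy.2).mul_pow, pow_three', pow_three', hy.2, hy'.2,
          mul_one]⟩
      inv_mem' := fun {y} hy => by
        have : y⁻¹ = y * y := inv_eq_of_mul_eq_one_left hy.2
        refine ⟨this ▸ hy.1.mul hy.1, ?_⟩
        rw [← mul_inv_rev, ← mul_inv_rev, ← mul_assoc, hy.2, inv_one] }
  have : Fact (Nat.Prime 3) := ⟨Nat.prime_three⟩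
  have hM : IsPGroup 3 M := fun y => ⟨1, Subtype.ext (by
    rw [pow_one, Subgroup.coe_pow, pow_three']; exact y.2.2)⟩
  obtain ⟨x₁, hx₁⟩ := hM.nonempty_fixed_point_of_prime_not_dvd_card (ι → α) (by
    rw [Nat.card_eq_fintype_card, Fintype.card_fun, h5]
    exact fun e => absurd (Nat.prime_three.dvd_of_dvd_pow e) (by norm_num))
  have fx : ∀ x : ι → α, x i = x₁ i → ∀ y ∈ M, y x = x := fun x e =>
    conn (fun z => ∀ y ∈ M, y z = z) i (fun z l r hl hz y hy => by
      by_cases e : r = z l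
      · rw [e, update_eq_self, hz y hy]
      obtain ⟨s, d', -, -, e'⟩ := exists_upd h.five z l e r r
      have bc : Commute (pur l (tc (z l) r s)) c := pur_comm hl _ _
      have bm := h.tc l d'
      rw [← e']
      generalize pur l (tc (z l) r s) = β at bc bm
      have : β⁻¹ * y * β ∈ M := ⟨⟨G.mul_mem (G.mul_mem (G.inv_mem bm) hy.1.1) bm,
        (bc.inv_left.mul_left hy.1.2.1).mul_left bc, fun x hx => by
          obtain ⟨n, e⟩ := hy.1.2.2 (β x) fun e => hx (β.injective (by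
            rw [← e, ← Perm.mul_apply, bc.eq, Perm.mul_apply, e]))
          exact ⟨n, by rw [Perm.mul_apply, Perm.mul_apply, e, ← cap bc, ia]⟩⟩, by
          calc _ = β⁻¹ * (y * y * y) * β := by group
            _ = 1 := by rw [hy.2]; group⟩
      exact Perm.inv_eq_iff_eq.1 (hz _ this)) (fun y hy => hx₁ ⟨y, hy⟩) e.symm
  have z2 : z * z ∈ M := ⟨hz.mul hz, by
    have : z * z * (z * z) * (z * z) = z * z * z * (z * z * z) := by group
    rw [this]
    rcases cube z hz with e | e <;> rw [e]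
    exacts [mul_one _, θθ]⟩
  obtain ⟨σ₂, e₂⟩ := pure1 h nj z2.1.1 fun x e => fx x e _ z2
  obtain ⟨σ₃, e₃⟩ : ∃ σ, z * z * z = pur i σ := by
    rcases cube z hz with e | e
    exacts [⟨1, by rw [e, map_one]⟩, ⟨_, e⟩]
  exact ⟨σ₂⁻¹ * σ₃, by rw [map_mul, map_inv, ← e₂, ← e₃]; group⟩

theorem EP.c2 (h : EP G μ g i a j b) (aa : a' ≠ a) (k : ∀ x, g⁻¹ x j = b → x i = a ∨ x i = a')
    (h5 : Fintype.card α = 5) : False := by
  obtain ⟨u, hu⟩ := ex_nm [a, a'] (by simp; omega)
  obtain ⟨v, hv⟩ := ex_nm [a, a', u] (by simp; omega)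
  obtain ⟨w, hw⟩ := ex_nm [a, a', u, v] (by simp; omega)
  simp only [List.mem_cons, List.not_mem_nil, or_false, not_or] at hu hv hw
  have d : D5 a a' u v w := ⟨⟨Ne.symm hv.2.2, Ne.symm hw.2.2.1, Ne.symm hw.2.2.2⟩, aa.symm,
    Ne.symm hu.1, Ne.symm hv.1, Ne.symm hw.1, Ne.symm hu.2, Ne.symm hv.2.1, Ne.symm hw.2.1,
    all5 h5 (by simp; grind)⟩
  obtain ⟨σ, hσ⟩ := pure2 h.hyp h.nj h.mem (b := b) (h.hyp.tc i d.toD3) fun z hz =>
    pur_eq_iff.2 (by
      rcases k z hz with e | e <;> rw [e]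
      exacts [tc_fix d.au d.av d.aw, tc_fix d.bu d.bv d.bw])
  have s3 : ∀ r, σ (σ (σ r)) = r := fun r => by
    have := cp_co g j (σ * σ * σ) (g fun _ => r)
    rw [cp_mul, cp_mul, ← hσ, ← map_mul, ← map_mul, tc_cube d.toD3, map_one, Perm.one_apply, ia] at this
    exact this.symm
  have sb : σ b = b := by
    obtain ⟨x, x1, x2⟩ := h.exS
    rw [← x1, ← cp_eq_iff, ← hσ, pur_eq_iff, x2, tc_fix d.au d.av d.aw]
  obtain ⟨p, sp⟩ : ∃ p, σ p ≠ p := ⟨g⁻¹ (fun _ => u) j, by
    rw [Ne, ← cp_eq_iff, ← hσ, pur_eq_iff, tc_1 d.toD3]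
    exact hv.2.2⟩
  have inj := fun p q => σ.injective.eq_iff (a := p) (b := q)
  obtain ⟨b', hb⟩ := ex_nm [b, p, σ p, σ (σ p)] (by simp; omega)
  simp only [List.mem_cons, List.not_mem_nil, or_false, not_or] at hb
  have := s3 p
  have d' : D5 b b' p (σ p) (σ (σ p)) := ⟨⟨by grind, by grind, by grind⟩, by grind, by grind,
    by grind, by grind, by grind, by grind, by grind, all5 h5 (by simp; grind)⟩
  have eσ : σ = tc p (σ p) (σ (σ p)) := Equiv.ext fun r => by
    have := d'.all (σ b')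
    have := d'.all r
    rcases tc_cases d'.toD3 r with e | e | e | e <;> grind
  generalize σ (σ p) = r at d' eσ
  generalize σ p = q at d' eσ
  subst eσ
  obtain ⟨l1, l2, -⟩ := d.loc 1 i
  obtain ⟨m1, m2, m3⟩ := d'.loc g j
  simp only [cp_one] at l1 l2
  rw [← hσ] at m1 m2
  have sm := h.hyp.alt i (swap a a' * swap u v) (by simp [Perm.sign_swap d.aa, Perm.sign_swap d.uv])
  have tm := h.hyp.cp h.mem j (σ := swap b b' * swap p q)
    (by simp [Perm.sign_swap d'.aa, Perm.sign_swap d'.uv])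
  obtain ⟨τ, hτ⟩ := pure3 (i := i) h.hyp h.nj h5 d ⟨G.mul_mem sm tm, by
    change _ * _ = _ * _
    rw [mul_assoc, m1, ← mul_assoc, ← mul_assoc]
    congr 1
    rw [mul_inv_eq_iff_eq_mul, mul_assoc, l1, mul_inv_cancel_left], fun x hx => by
      obtain ⟨n, e⟩ := m2 x hx
      obtain ⟨n', e'⟩ := l2 ((pur i (tc u v w) ^ n) x) fun e => hx ((pur i (tc u v w) ^ n).injective
        (by rw [← cap (Commute.refl _), e]))
      exact ⟨n' + n, by rw [Perm.mul_apply, e, e', pow_add, Perm.mul_apply]⟩⟩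
  rw [← eq_inv_mul_iff_mul_eq, ← map_inv, ← map_mul] at hτ
  have x1 : g⁻¹ (g fun _ => r) j = r := by rw [ia]
  generalize (g fun _ => r) = x at x1
  have sub : hs 1 i (x i) ⊆ hs g j r := fun y hy => by
    rw [mem_hs, ← m3, hτ, pur_eq_iff, mem_hs1.1 hy, ← pur_eq_iff, ← hτ, m3, x1]
  have q := Finset.eq_of_subset_of_card_le sub (by rw [card_hs, card_hs])
  have mv : ¬ tc u v w (x i) = x i := by
    rw [← pur_eq_iff, hσ, cp_eq_iff, x1, tc_3 d'.toD3]
    exact d'.uw
  refine h.c0 k (u := x i) (fun e => mv ?_) (fun e => mv ?_) (b₁ := r) fun y hy =>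
    mem_hs1.1 (q ▸ mem_hs.2 hy)
  · rw [e, tc_fix d.au d.av d.aw]
  · rw [e, tc_fix d.bu d.bv d.bw]

theorem EP.k2 (h : EP G μ g i a j b) : K2 g i a j b := by
  rcases h.dich with ⟨a', h1, k⟩ | k
  · rcases h.hyp.five.eq_or_lt with e | e
    exacts [(h.c2 h1 k e.symm).elim, (h.c1 k e).elim]
  · exact k

theorem EP.inv (h : EP G μ g i a j b) : ∀ x ∈ hs g j b, ∀ u, update x i u ∈ hs g j b :=
  fun x hx u => mem_hs.2 (h.inv_of_K2 h.k2 h.symm.k2 (mem_hs.1 hx) u)

theorem inter_hs (X : Finset (ι → α)) (i : ι) (a : α) :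
    hs 1 i a ∩ X = X.filter fun x => x i = a := by
  ext x
  simp [mem_hs1, and_comm]

theorem coord_of_nj [Nontrivial ι] (h : Hyp G) (nj : NJ G) (hg : g ∈ G) (j : ι) (b : α) :
    ∃ i a, hs 1 i a = hs g j b := by
  classical
  have h5 := h.five
  by_contra hc
  push Not at hc
  obtain ⟨⟨g₁, g₂, i₁, a₁, j₁, b₁⟩, hm, mx⟩ := (Finset.univ.filter
    fun t : G × G × ι × α × ι × α => hs t.1.1 t.2.2.1 t.2.2.2.1 ≠ hs t.2.1.1 t.2.2.2.2.1 t.2.2.2.2.2
    ).exists_max_image (fun t => (hs t.1.1 t.2.2.1 t.2.2.2.1 ∩ hs t.2.1.1 t.2.2.2.2.1 t.2.2.2.2.2).card)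
    ⟨(1, ⟨g, hg⟩, j, b, j, b), by simpa using hc j b⟩
  simp only [Finset.mem_filter, Finset.mem_univ, true_and] at hm mx
  set μ := (hs g₁.1 i₁ a₁ ∩ hs g₂.1 j₁ b₁).card with hμ
  have ext : Ext G μ := fun p hp q hq i a j b ne => mx (⟨p, hp⟩, ⟨q, hq⟩, i, a, j, b) ne
  have pos : 0 < μ := by
    obtain ⟨i, hi⟩ := exists_ne j
    obtain ⟨r, hr⟩ := ex_nm [b] (by simp; omega)
    refine lt_of_lt_of_le (Finset.card_pos.2 ⟨fun _ => b, by simp [mem_hs1]⟩)
      (ext 1 G.one_mem 1 G.one_mem i b j b fun e => hr ?_)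
    have : update (fun _ => b) j r ∈ hs 1 i b := by simp [mem_hs1, hi]
    rw [e, mem_hs1, update_self] at this
    simp [this]
  have e0 := ep_of h nj ext pos g₁.2 g₂.2 hm rfl
  have e1 := card_inv _ _ e0.inv a₁
  rw [← inter_hs, e0.card, card_hs] at e1
  have inv : ∀ x l u, x ∈ hs g j b → update x l u ∈ hs g j b := by
    intro x l u hx
    obtain ⟨a, -, ha⟩ := Finset.exists_le_card_fiber_of_mul_le_card_of_maps_to
      (s := hs g j b) (t := Finset.univ) (f := fun x => x l) (n := μ) (fun _ _ => Finset.mem_univ _)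
      ⟨b, Finset.mem_univ _⟩ (by rw [card_hs, e1, Finset.card_univ])
    exact EP.inv ⟨h, nj, ext, hg, hc l a, le_antisymm (ext 1 G.one_mem g hg l a j b (hc l a))
      (by rwa [inter_hs]), pos⟩ x hx u
  obtain ⟨r, hr⟩ := ex_nm [b] (by simp; omega)
  have := conn0 (· ∈ hs g j b) inv (x := g fun _ => b) (y := g fun _ => r) (by rw [mem_hs, ia])
  rw [mem_hs, ia] at this
  exact hr (by simp [this])

theorem le_Wr [Nontrivial ι] (h : Hyp G) (nj : NJ G) : G ≤ Wr ι α := by
  intro g hg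
  have h5 := h.five
  choose I A e using fun j b => coord_of_nj h nj (G.inv_mem hg) j b
  have e' : ∀ j b (x : ι → α), g x j = b ↔ x (I j b) = A j b := fun j b x => by
    rw [← mem_hs1 (x := x), e, mem_hs, inv_inv]
  have : Nonempty α := Fintype.card_pos_iff.1 (by omega)
  obtain ⟨b₀⟩ := this
  have iI : ∀ j b, I j b = I j b₀ := fun j b => by
    by_contra hc
    have h1 := (e' j b (update (fun _ => A j b) (I j b₀) (A j b₀))).2 (update_of_ne hc ..)
    have h2 := (e' j b₀ (update (fun _ => A j b) (I j b₀) (A j b₀))).2 (update_self ..)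
    exact hc (by rw [← h1, h2])
  have iA : ∀ j, Injective (A j) := fun j b b' q =>
    ((e' j b fun _ => A j b).2 rfl).symm.trans ((e' j b' fun _ => A j b).2 q)
  have inj : Injective fun j => I j b₀ := fun j j' q => by
    by_contra hc
    obtain ⟨r, hr⟩ := (iA j').bijective_of_finite.2 (A j b₀)
    obtain ⟨s, hs⟩ := ex_nm [r] (by simp; omega)
    have h1 := (e' j b₀ (g⁻¹ (update (fun _ => s) j b₀))).1 (by rw [ai, update_self])
    have h2 := (e' j' r (g⁻¹ (update (fun _ => s) j b₀))).2 (by rw [iI, hr, ← h1]; exact congrArg _ q.symm)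
    rw [ai, update_of_ne (Ne.symm hc)] at h2
    exact hs (by simp [h2])
  refine ⟨(Equiv.ofBijective _ inj.bijective_of_finite).symm,
    fun j => (Equiv.ofBijective _ (iA j).bijective_of_finite).symm, fun f j => ?_⟩
  rw [Equiv.eq_symm_apply]
  exact ((e' j _ f).1 rfl).symm.trans (congrArg f (iI j _))

end H56.PA
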