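/- Product action wreath products: the Jordan case, closure of small sets. -/
import Cfsg.Agent.H56.PA2

set_option autoImplicit false
set_option linter.unusedSectionVars false
set_option linter.unusedVariables false

namespace H56.PA

open Equiv Function

section Gen

variable {Ω : Type*} [DecidableEq Ω] {G : Subgroup (Perm Ω)}

/-- Jordan complements. -/
def JC (G : Subgroup (Perm Ω)) (S : Finset Ω) : Prop :=
  ∀ x y, x ∉ S → y ∉ S → ∃ g ∈ G, (∀ z ∈ S, g z = z) ∧ g x = y

/-- Multiple transitivity. -/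
def MT (G : Subgroup (Perm Ω)) (n : ℕ) : Prop :=
  ∀ (S : Finset Ω) (f : Perm Ω), S.card ≤ n → ∃ g ∈ G, ∀ x ∈ S, g x = f x

/-- All small sets are Jordan complements. -/
def TR (G : Subgroup (Perm Ω)) (t : ℕ) : Prop := ∀ S : Finset Ω, S.card ≤ t → JC G S

theorem JC.map {S : Finset Ω} (h : JC G S) {c : Perm Ω} (hc : c ∈ G) :
    JC G (S.map c.toEmbedding) := by
  intro x y hx hy
  rw [Finset.mem_map_equiv] at hx hy
  obtain ⟨g, hg, h1, h2⟩ := h _ _ hx hy
  refine ⟨c * g * c⁻¹, G.mul_mem (G.mul_mem hc hg) (G.inv_mem hc), fun z hz => ?_, ?_⟩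
  · rw [Finset.mem_map_equiv] at hz
    exact (congrArg c (h1 _ hz)).trans (ai c z)
  · exact (congrArg c h2).trans (ai c y)

theorem TR.mt {t : ℕ} (h : TR G t) : MT G (t + 1) := by
  intro S f
  induction S using Finset.induction_on with
  | empty => exact fun _ => ⟨1, G.one_mem, by simp⟩
  | insert x S hx ih =>
    intro hc
    rw [Finset.card_insert_of_notMem hx] at hc
    obtain ⟨g, hg, e⟩ := ih (by omega)
    obtain ⟨k, hk, e1, e2⟩ := h (S.map f.toEmbedding) (by rw [Finset.card_map]; omega) (g x) (f x)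
      (fun q => by
        obtain ⟨y, hy, q⟩ := Finset.mem_map.1 q
        exact hx (g.injective ((e y hy).trans q) ▸ hy)) (by simpa using hx)
    refine ⟨k * g, G.mul_mem hk hg, fun y hy => ?_⟩
    rcases Finset.mem_insert.1 hy with rfl | hy
    · exact e2
    · rw [Perm.mul_apply, e y hy, e1 _ (by simpa using hy)]

theorem MT.hom [Finite Ω] {n : ℕ} (h : MT G n) {Z Z' : Finset Ω} (e : Z.card = Z'.card)
    (hn : Z.card ≤ n) : ∃ g ∈ G, Z.map (Equiv.toEmbedding g) = Z' := by
  obtain ⟨f, hf⟩ := Perm.exists_map_finset_eq Z Z' e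
  obtain ⟨g, hg, k⟩ := h Z f hn
  refine ⟨g, hg, hf ▸ ?_⟩
  ext y
  simp only [Finset.mem_map, Equiv.coe_toEmbedding]
  exact exists_congr fun x => and_congr_right fun hx => by rw [k x hx]

theorem MT.multi [Finite Ω] {n k : ℕ} (h : MT G n) (hk : k ≤ n) :
    MulAction.IsMultiplyPretransitive G Ω k := ⟨fun x y => by
  obtain ⟨f, hf⟩ := Perm.exists_extending_pair x y x.injective y.injective
  obtain ⟨g, hg, e⟩ := h (Finset.univ.map x) f (by simpa using hk)
  exact ⟨⟨g, hg⟩, Function.Embedding.ext fun i => (e _ (by simp)).trans (hf i)⟩⟩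

end Gen

variable {ι α : Type*} [Fintype ι] [DecidableEq ι] [Fintype α] [DecidableEq α]
  {G : Subgroup (Perm (ι → α))}

theorem jordan_of_not_nj (h : Hyp G) (nj : ¬ NJ G) (i' : ι) (a' : α) : JC G (hs 1 i' a') := by
  have h5 := h.five
  simp only [NJ] at nj
  push Not at nj
  obtain ⟨i, a, y, hy, fx, x, j, hj, ne⟩ := nj
  have xa : y x i ≠ a := fun e => ne (by rw [y.injective (fx _ e)])
  obtain ⟨p, hp⟩ := ex_nm [y x j, x j] (by simp; omega)
  simp only [List.mem_cons, List.not_mem_nil, or_false, not_or] at hp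
  obtain ⟨w, d, w1, -, e⟩ := exists_upd h5 (y x) j hp.1 (x j) (x j)
  have r0 : ∃ g ∈ G, (∀ z : ι → α, z i = a → g z = z) ∧ g (y x) = update (y x) j p := by
    have bm := h.tc j d
    have bx : (pur j (tc (y x j) p w))⁻¹ x = x :=
      Perm.inv_eq_iff_eq.2 (pur_eq_iff.2 (tc_fix ne.symm (Ne.symm hp.2) w1.symm)).symm
    refine ⟨_, G.mul_mem (G.mul_mem (G.mul_mem bm hy) (G.inv_mem bm)) (G.inv_mem hy),
      fun z hz => ?_, ?_⟩
    · simp only [Perm.mul_apply]
      rw [Perm.inv_eq_iff_eq.2 (fx z hz).symm, fx ((pur j (tc (y x j) p w))⁻¹ z)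
        (by rw [← map_inv, pur_ne hj.symm, hz]), ai]
    · simp only [Perm.mul_apply]
      rw [ia, bx, e]
  generalize y x = z at r0 xa hp
  obtain ⟨g, hg, g1, g2⟩ := r0
  choose o ho using fun r : α => ex_nm [r] (by simp; omega)
  simp only [List.mem_singleton] at ho
  have tr : ∀ (x' : ι → α) j' u, j' ≠ i' → x' i' ≠ a' →
      ∃ g ∈ G, (∀ z : ι → α, z i' = a' → g z = z) ∧ g x' = update x' j' u := by
    intro x' j' u hj' hx
    by_cases hu : u = x' j'
    · exact ⟨1, G.one_mem, fun _ _ => rfl, by rw [hu, update_eq_self]; rfl⟩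
    obtain ⟨π, p1, p2⟩ := exists_perm2 hj hj'
    have q1 : π.symm j' = j := by rw [← p1, symm_apply_apply]
    have q2 : π.symm i' = i := by rw [← p2, symm_apply_apply]
    obtain ⟨τ, tm, ht⟩ := h.exists_wr π (fun l => z (π.symm l))
      (fun l => if l = i' then a else if l = j' then p else o (z (π.symm l))) x'
      (fun l => if l = i' then a' else if l = j' then u else o (x' l))
      (fun l => by
        split_ifs with e1 e2
        exacts [by rw [e1, q2]; exact xa, by rw [e2, q1]; exact Ne.symm hp.1, Ne.symm (ho _)])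
      (fun l => by
        split_ifs with e1 e2
        exacts [by rw [e1]; exact hx, by rw [e2]; exact Ne.symm hu, Ne.symm (ho _)])
    have n1 : wr π τ z = x' := funext fun l => (ht l).1
    refine ⟨_, G.mul_mem (G.mul_mem tm hg) (G.inv_mem tm), fun s hs => ?_, ?_⟩
    · rw [Perm.mul_apply, Perm.mul_apply, g1, ai]
      have := (ht i').2
      rw [if_pos rfl, if_pos rfl] at this
      rw [wr_inv_apply, p2, hs, ← this, ia]
    · rw [Perm.mul_apply, Perm.mul_apply, ← n1, ia, g2, n1]
      funext l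
      by_cases e : l = j'
      · have := (ht j').2
        rw [if_neg hj', if_pos rfl, if_neg hj', if_pos rfl] at this
        rw [e, wr_apply, q1, update_self, update_self, this]
      · rw [wr_apply, update_of_ne e, update_of_ne, (ht l).1]
        exact fun q => e (π.symm.injective (q.trans q1.symm))
  intro s s' hs hs'
  rw [mem_hs1] at hs hs'
  simp only [mem_hs1]
  obtain ⟨σ, s1, s2, s3⟩ := exists_even (by omega) hs hs'
  refine (conn (fun q => q i' ≠ a' ∧ ∃ g ∈ G, (∀ z : ι → α, z i' = a' → g z = z) ∧ g s = q) i'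
    (x := pur i' σ s) ?_ ⟨by rwa [pur_same, s2], _, h.alt i' σ s1, fun z e => pur_eq_iff.2
      (by rw [e, s3]), rfl⟩ (by rw [pur_same, s2])).2
  rintro q l u hl ⟨k1, k, km, k2, k3⟩
  obtain ⟨n, nm, n1, n2⟩ := tr q l u hl k1
  exact ⟨by rwa [update_of_ne hl.symm], n * k, G.mul_mem nm km,
    fun z e => by rw [Perm.mul_apply, k2 z e, n1 z e], by rw [Perm.mul_apply, k3, n2]⟩

open Classical in
/-- The intersection of the images of hyperplanes that contain a set. -/
noncomputable def cl (G : Subgroup (Perm (ι → α))) (Z : Finset (ι → α)) : Finset (ι → α) :=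
  Finset.univ.filter fun y => ∀ g ∈ G, ∀ i a, Z ⊆ hs g i a → y ∈ hs g i a

theorem mem_cl {Z : Finset (ι → α)} {y : ι → α} :
    y ∈ cl G Z ↔ ∀ g ∈ G, ∀ i a, Z ⊆ hs g i a → y ∈ hs g i a := by simp [cl]

theorem sub_cl (Z : Finset (ι → α)) : Z ⊆ cl G Z := fun _ hy => mem_cl.2 fun _ _ _ _ e => e hy

theorem cl_sub {Z : Finset (ι → α)} {g : Perm (ι → α)} (hg : g ∈ G) {i : ι} {a : α}
    (e : Z ⊆ hs g i a) : cl G Z ⊆ hs g i a := fun _ hy => mem_cl.1 hy g hg i a e

theorem cl_le {Z Z' : Finset (ι → α)} (e : Z' ⊆ cl G Z) : cl G Z' ⊆ cl G Z := fun _ hy =>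
  mem_cl.2 fun g hg i a k => mem_cl.1 hy g hg i a (e.trans (cl_sub hg k))

theorem cl_map (Z : Finset (ι → α)) {c : Perm (ι → α)} (hc : c ∈ G) :
    cl G (Z.map c.toEmbedding) = (cl G Z).map c.toEmbedding := by
  ext y
  rw [Finset.mem_map_equiv, mem_cl, mem_cl]
  refine ⟨fun k g hg i a e => mem_hs_mul.1 (k _ (G.mul_mem hc hg) i a ?_), fun k g hg i a e => ?_⟩
  · rw [hs_mul]
    exact Finset.map_subset_map.2 e
  · have e1 : g = c * (c⁻¹ * g) := by group
    rw [e1, hs_mul] at e
    rw [e1, mem_hs_mul]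
    exact k _ (G.mul_mem (G.inv_mem hc) hg) i a (Finset.map_subset_map.1 e)

theorem jc_cl (h : Hyp G) (J : ∀ i a, JC G (hs 1 i a)) (Z : Finset (ι → α)) : JC G (cl G Z) := by
  intro x y hx hy
  rw [mem_cl] at hx hy
  push Not at hx hy
  obtain ⟨g, hg, i, a, e, hx⟩ := hx
  obtain ⟨g', hg', i', a', e', hy⟩ := hy
  have : Nonempty ι := ⟨i⟩
  have : Nonempty α := ⟨a⟩
  obtain ⟨w, -, hw⟩ := Finset.exists_mem_notMem_of_card_lt_card (s := hs g i a ∪ hs g' i' a')
    (t := Finset.univ) (by
      have h1 := Finset.card_union_le (hs g i a) (hs g' i' a')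
      have := h.five
      have := hh_pos (ι := ι) (α := α)
      rw [card_hs, card_hs] at h1
      rw [Finset.card_univ, ← mul_hh]
      nlinarith)
  rw [Finset.mem_union, not_or] at hw
  have j1 := (J i a).map hg
  have j2 := (J i' a').map hg'
  rw [← hs_mul, mul_one] at j1 j2
  obtain ⟨p, pm, p1, p2⟩ := j1 x w hx hw.1
  obtain ⟨q, qm, q1, q2⟩ := j2 w y hw.2 hy
  exact ⟨q * p, G.mul_mem qm pm, fun z hz => by
    rw [Perm.mul_apply, p1 z (cl_sub hg e hz), q1 z (cl_sub hg' e' hz)],
    by rw [Perm.mul_apply, p2, q2]⟩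

/-- A Steiner system of closed sets and a set of `t` points in a hyperplane. -/
structure St (G : Subgroup (Perm (ι → α))) (t N : ℕ) (i : ι) (a : α) (P : Finset (ι → α)) : Prop where
  card : ∀ Z : Finset (ι → α), Z.card = t + 1 → (cl G Z).card = N
  lt : t + 2 ≤ N
  sub : ∀ p ∈ P, p i = a
  cP : P.card = t

variable {t N : ℕ} {i : ι} {a : α} {P : Finset (ι → α)} {x y : ι → α}

theorem St.eq (h : St G t N i a P) {Z Z' : Finset (ι → α)} (e : Z' ⊆ cl G Z) (c : Z.card = t + 1)
    (c' : Z'.card = t + 1) : cl G Z' = cl G Z :=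
  Finset.eq_of_subset_of_card_le (cl_le e) (by rw [h.card Z c, h.card Z' c'])

theorem St.ci (h : St G t N i a P) (hx : x ∉ P) : (insert x P).card = t + 1 := by
  rw [Finset.card_insert_of_notMem hx, h.cP]

theorem St.nm (h : St G t N i a P) (hx : x i ≠ a) : x ∉ P := fun e => hx (h.sub x e)

theorem St.Xeq (h : St G t N i a P) (hx : x i ≠ a) (hy : y ∈ cl G (insert x P)) (e : y ∉ P) :
    cl G (insert y P) = cl G (insert x P) :=
  h.eq (Finset.insert_subset hy ((Finset.subset_insert _ _).trans (sub_cl _))) (h.ci (h.nm hx)) (h.ci e)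

theorem St.XH (h : St G t N i a P) (hx : x i ≠ a) (hy : y ∈ cl G (insert x P)) (e : y i = a) :
    y ∈ P := by
  by_contra hc
  have := sub_cl (G := G) _ (Finset.mem_insert_self x P)
  rw [← h.Xeq hx hy hc] at this
  exact hx (mem_hs1.1 (cl_sub G.one_mem (Finset.insert_subset (mem_hs1.2 e)
    fun p hp => mem_hs1.2 (h.sub p hp)) this))

theorem St.other (h : St G t N i a P) (hx : x i ≠ a) :
    ∃ y ∈ cl G (insert x P), y ≠ x ∧ y i ≠ a := by
  obtain ⟨y, h1, h2⟩ := Finset.exists_mem_notMem_of_card_lt_card (s := insert x P)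
    (t := cl G (insert x P)) (by
      have := h.lt
      rw [h.card _ (h.ci (h.nm hx)), h.ci (h.nm hx)]
      omega)
  rw [Finset.mem_insert, not_or] at h2
  exact ⟨y, h1, h2.1, fun e => h2.2 (h.XH hx h1 e)⟩

theorem St.good (h : St G t N i a P) {b : Perm (ι → α)} (hb : b ∈ G) {p : ι → α} (p1 : p ∈ P)
    (p2 : b p ∉ P) (p3 : b p i = a) (k : ∀ q ∈ P, q ≠ p → b q ∈ P) (hx : x i ≠ a)
    (hy : y ∈ cl G (insert x P)) (ya : y i ≠ a) (ne : y ≠ x) (bx : b x = x) (by' : b y = y) :
    False := by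
  have t1 : 0 < t := h.cP ▸ Finset.card_pos.2 ⟨p, p1⟩
  have c : (insert x (insert y (P.erase p))).card = t + 1 := by
    rw [Finset.card_insert_of_notMem, Finset.card_insert_of_notMem, Finset.card_erase_of_mem p1, h.cP]
    · omega
    · exact fun e => h.nm ya (Finset.mem_of_mem_erase e)
    · rw [Finset.mem_insert, not_or]
      exact ⟨ne.symm, fun e => h.nm hx (Finset.mem_of_mem_erase e)⟩
  have xm := sub_cl (G := G) _ (Finset.mem_insert_self x P)
  have pm : P ⊆ cl G (insert x P) := (Finset.subset_insert _ _).trans (sub_cl _)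
  have e1 := h.eq (Finset.insert_subset xm (Finset.insert_subset hy
    ((Finset.erase_subset p P).trans pm))) (h.ci (h.nm hx)) c
  have e2 := h.eq (Z' := (insert x (insert y (P.erase p))).map b.toEmbedding) (fun z hz => by
    obtain ⟨s, s1, rfl⟩ := Finset.mem_map.1 hz
    simp only [Finset.mem_insert, Finset.mem_erase] at s1
    rcases s1 with rfl | rfl | s1
    exacts [bx.symm ▸ xm, by'.symm ▸ hy, pm (k s s1.2 s1.1)]) (h.ci (h.nm hx))
    (by rw [Finset.card_map, c])
  rw [cl_map _ hb, e1] at e2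
  exact p2 (h.XH hx (e2 ▸ Finset.mem_map_of_mem _ (pm p1)) p3)

theorem St.inj (h : St G t N i a P) (h5 : 5 ≤ Fintype.card α) {j : ι} (hj : j ≠ i) (r : α)
    (k : ∀ x y : ι → α, x i ≠ a → y ∈ cl G (insert x P) → y i ≠ a → y ≠ x → x j ≠ r → y j = r) :
    False := by
  choose! o o1 o2 o3 using fun (x : ι → α) (hx : x i ≠ a) => h.other hx
  have c := card_inv (Finset.univ.filter fun x : ι → α => x i ≠ a) j (fun x hx u => by
    simpa [update_of_ne hj.symm] using hx) r
  have c2 := Finset.card_filter_add_card_filter_not (s := Finset.univ.filter fun x : ι → α => x i ≠ a)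
    fun x => x j = r
  have c3 := Finset.card_le_card_of_injOn o
    (s := (Finset.univ.filter fun x : ι → α => x i ≠ a).filter fun x => ¬ x j = r)
    (t := (Finset.univ.filter fun x : ι → α => x i ≠ a).filter fun x => x j = r)
    (fun x hx => by
      simp only [Finset.coe_filter, Finset.mem_filter, Finset.mem_univ, true_and,
        Set.mem_ofPred_eq] at hx ⊢
      exact ⟨o3 x hx.1, k x _ hx.1 (o1 x hx.1) (o3 x hx.1) (o2 x hx.1) hx.2⟩)
    (fun x hx y hy e => by
      simp only [Finset.coe_filter, Finset.mem_filter, Finset.mem_univ, true_and,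
        Set.mem_ofPred_eq] at hx hy
      by_contra hc
      refine hy.2 (k x y hx.1 ?_ hy.1 (Ne.symm hc) hx.2)
      rw [← h.Xeq hx.1 (o1 x hx.1) (h.nm (o3 x hx.1)), e, h.Xeq hy.1 (o1 y hy.1) (h.nm (o3 y hy.1))]
      exact sub_cl _ (Finset.mem_insert_self _ _))
  obtain ⟨s, hs⟩ := ex_nm [a] (by simp; omega)
  have pos : 0 < (Finset.univ.filter fun x : ι → α => x i ≠ a).card :=
    Finset.card_pos.2 ⟨fun _ => s, by simpa using hs⟩
  nlinarith

theorem St.par (h : St G t (t + 2) i a P) (hyp : Hyp G) : 2 ∣ hh ι α := by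
  have h5 := hyp.five
  choose! o o1 o2 o3 using fun (x : ι → α) (hx : x i ≠ a) => h.other hx
  have two : ∀ x : ι → α, x i ≠ a → ∀ y ∈ cl G (insert x P), y i ≠ a → y = x ∨ y = o x := by
    intro x hx y hy ya
    have := Finset.eq_of_subset_of_card_le (s := insert (o x) (insert x P))
      (Finset.insert_subset (o1 x hx) (sub_cl _)) (by
        rw [h.card _ (h.ci (h.nm hx)), Finset.card_insert_of_notMem, h.ci (h.nm hx)]
        rw [Finset.mem_insert, not_or]
        exact ⟨o2 x hx, h.nm (o3 x hx)⟩)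
    rw [← this, Finset.mem_insert, Finset.mem_insert] at hy
    exact hy.elim Or.inr fun e => Or.inl (e.resolve_right (h.nm ya))
  have same : ∀ x : ι → α, x i ≠ a → o x i = x i := by
    intro x hx
    by_contra hc
    obtain ⟨p, hp⟩ := ex_nm [x i, a, o x i] (by simp; omega)
    simp only [List.mem_cons, List.not_mem_nil, or_false, not_or] at hp
    obtain ⟨w, d, w1, w2, e⟩ := exists_upd h5 x i hp.1 a (o x i)
    have e1 : (insert (o x) P).map (pur i (tc (x i) p w)).toEmbedding = insert (o x) P := by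
      conv_rhs => rw [← Finset.map_refl (s := insert (o x) P)]
      ext z
      simp only [Finset.mem_map]
      refine exists_congr fun s => and_congr_right fun s1 => ?_
      rw [show (pur i (tc (x i) p w)).toEmbedding s = s from pur_eq_iff.2 ?_]
      · rfl
      rcases Finset.mem_insert.1 s1 with rfl | s1
      · exact tc_fix hc (Ne.symm hp.2.2) w2.symm
      · rw [h.sub s s1, tc_fix hx.symm (Ne.symm hp.2.1) w1.symm]
    have e2 := cl_map (insert (o x) P) (hyp.tc i d)
    rw [e1, h.Xeq hx (o1 x hx) (h.nm (o3 x hx))] at e2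
    have := two x hx (update x i p) (by
      rw [e2, ← e]
      exact Finset.mem_map_of_mem _ (sub_cl _ (Finset.mem_insert_self _ _)))
      (by rw [update_self]; exact hp.2.1)
    rcases this with q | q <;> have := congrFun q i <;> rw [update_self] at this
    exacts [hp.1 this, hp.2.2 this]
  obtain ⟨s, hs'⟩ := ex_nm [a] (by simp; omega)
  rw [List.mem_singleton] at hs'
  have na : ∀ x ∈ hs 1 i s, x i ≠ a := fun x hx => mem_hs1.1 hx ▸ hs'
  have := Finset.sum_involution (s := hs 1 i s) (f := fun _ => (1 : ZMod 2)) (fun x _ => o x)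
    (fun _ _ => rfl) (fun x hx _ => o2 x (na x hx))
    (fun x hx => mem_hs1.2 ((same x (na x hx)).trans (mem_hs1.1 hx))) fun x hx =>
      ((two _ (o3 x (na x hx)) x (by
        rw [h.Xeq (na x hx) (o1 x (na x hx)) (h.nm (o3 x (na x hx)))]
        exact sub_cl _ (Finset.mem_insert_self _ _)) (na x hx)).resolve_left
        (o2 x (na x hx)).symm).symm
  rwa [Finset.sum_const, card_hs, nsmul_eq_mul, mul_one, ZMod.natCast_eq_zero_iff] at this

end H56.PA
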