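/- Product action wreath products: the Jordan case gives high transitivity. -/
import Cfsg.Agent.H56.PA4

set_option autoImplicit false
set_option linter.unusedSectionVars false
set_option linter.unusedVariables false

namespace H56.PA

open Equiv Function

variable {ι α : Type*} [Fintype ι] [DecidableEq ι] [Fintype α] [DecidableEq α]
  {G : Subgroup (Perm (ι → α))}

/-- A subset of a hyperplane given by its traces on the lines of one direction. -/
def shp (i : ι) (a : α) (j : ι) (R : (ι → α) → Finset α) : Finset (ι → α) :=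
  Finset.univ.filter fun x => x i = a ∧ x j ∈ R (update x j a)

theorem mem_shp {i j : ι} {a : α} {R : (ι → α) → Finset α} {x : ι → α} :
    x ∈ shp i a j R ↔ x i = a ∧ x j ∈ R (update x j a) := by simp [shp]

theorem card_shp {i j : ι} (hj : j ≠ i) (a : α) (R : (ι → α) → Finset α) :
    (shp i a j R).card = ∑ l ∈ (hs 1 i a).filter fun x => x j = a, (R l).card := by
  rw [Finset.card_eq_sum_card_fiberwise (f := fun x => update x j a)
    (t := (hs 1 i a).filter fun x => x j = a) fun x hx => by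
      have := (mem_shp.1 hx).1
      simpa [mem_hs1, update_of_ne hj.symm] using this]
  refine Finset.sum_congr rfl fun l hl => Finset.card_nbij' (fun x => x j)
    (fun r => update l j r) ?_ ?_ ?_ ?_
  · intro x hx
    simp only [Finset.coe_filter, Set.mem_ofPred_eq, mem_shp] at hx
    exact hx.2 ▸ hx.1.2
  · intro r hr
    simp only [Finset.mem_filter, mem_hs1] at hl
    have : update l j a = l := by rw [← hl.2, update_eq_self]
    simp only [Finset.coe_filter, Set.mem_ofPred_eq, mem_shp, update_idem, update_self, this,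
      update_of_ne hj.symm]
    exact ⟨⟨hl.1, hr⟩, trivial⟩
  · intro x hx
    simp only [Finset.coe_filter, Set.mem_ofPred_eq] at hx
    simp [← hx.2]
  · intro r _
    simp

theorem St.good' {t N : ℕ} {i j : ι} {a : α} {R : (ι → α) → Finset α}
    (h : St G t N i a (shp i a j R)) (hyp : Hyp G) (hj : j ≠ i) {l : ι → α} (l1 : l i = a)
    (l2 : l j = a) {u v w : α} (d : D3 u v w) (h1 : u ∈ R l) (h2 : v ∉ R l)
    (k : ∀ l', l' ≠ l → ∀ r ∈ R l', tc u v w r ∈ R l') {x y : ι → α} (hx : x i ≠ a)
    (hy : y ∈ cl G (insert x (shp i a j R))) (ya : y i ≠ a) (ne : y ≠ x)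
    (bx : x j ≠ u ∧ x j ≠ v ∧ x j ≠ w) (by' : y j ≠ u ∧ y j ≠ v ∧ y j ≠ w) : False := by
  have e : update l j a = l := by rw [← l2, update_eq_self]
  refine h.good (hyp.tc j d) (p := update l j u) ?_ ?_ ?_ (fun q q1 q2 => ?_) hx hy ya ne
    (pur_eq_iff.2 ((tc_eq_iff d).2 bx)) (pur_eq_iff.2 ((tc_eq_iff d).2 by'))
  · rw [mem_shp, update_of_ne hj.symm, update_self, update_idem, e]
    exact ⟨l1, h1⟩
  · rw [mem_shp, pur_apply, update_self, update_self, update_idem, update_idem, e, tc_1 d]
    exact fun q => h2 q.2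
  · rw [pur_ne hj.symm, update_of_ne hj.symm, l1]
  · rw [mem_shp] at q1
    rw [mem_shp, pur_apply, update_of_ne hj.symm, update_self, update_idem]
    refine ⟨q1.1, ?_⟩
    by_cases e' : update q j a = l
    · have q3 := q1.2
      rw [e'] at q3 ⊢
      rcases tc_cases d (q j) with s | s | s | s
      · exact absurd (by rw [← e', update_idem, ← s.1, update_eq_self]) q2
      · exact absurd (s.1 ▸ q3) h2
      · rw [s.2]; exact h1
      · exact s.2.2.2.symm ▸ q3
    · exact k _ e' _ q1.2

/-- Full lines and two partial lines. -/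
def Rf (F : Finset (ι → α)) (l₁ : ι → α) (R₁ : Finset α) (l₂ : ι → α) (R₂ : Finset α) (l : ι → α) :
    Finset α :=
  if l ∈ F then Finset.univ else if l = l₁ then R₁ else if l = l₂ then R₂ else ∅

theorem sum_Rf {L F : Finset (ι → α)} (hF : F ⊆ L) {l₁ l₂ : ι → α} (R₁ R₂ : Finset α) (h1 : l₁ ∈ L)
    (h2 : l₂ ∈ L) (n1 : l₁ ∉ F) (n2 : l₂ ∉ F) (ne : l₁ = l₂ → R₂ = ∅) :
    ∑ l ∈ L, (Rf F l₁ R₁ l₂ R₂ l).card = F.card * Fintype.card α + R₁.card + R₂.card := by
  have : ∀ l, (Rf F l₁ R₁ l₂ R₂ l).card = (if l ∈ F then Fintype.card α else 0) +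
      (if l = l₁ then R₁.card else 0) + if l = l₂ then R₂.card else 0 := fun l => by
    unfold Rf
    split_ifs with a b c d e f g <;> simp_all
  simp only [this, Finset.sum_add_distrib, Finset.sum_ite_mem, Finset.sum_ite_eq', h1, h2, if_true,
    Finset.inter_eq_right.2 hF, Finset.sum_const, smul_eq_mul]

theorem no_st [Nontrivial ι] (hyp : Hyp G) {t N : ℕ} (t1 : 1 ≤ t) (t2 : t < hh ι α)
    (hN : ∀ Z : Finset (ι → α), Z.card = t + 1 → (cl G Z).card = N) (lt : t + 2 ≤ N) : False := by
  have h5 := hyp.five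
  obtain ⟨j, i, hj⟩ := exists_pair_ne ι
  obtain ⟨a⟩ : Nonempty α := Fintype.card_pos_iff.1 (by omega)
  set L := (hs 1 i a).filter fun x : ι → α => x j = a with hL
  have cL : hh ι α = Fintype.card α * L.card := by
    rw [← card_hs 1 i a]
    exact card_inv _ j (fun x hx u => by rw [mem_hs1] at hx ⊢; rwa [update_of_ne hj.symm]) a
  have mL : ∀ l ∈ L, l i = a ∧ l j = a := fun l hl => by simpa [hL, mem_hs1] using hl
  have qL : t / Fintype.card α < L.card := Nat.div_lt_of_lt_mul (cL ▸ t2)
  have dm := Nat.div_add_mod' t (Fintype.card α)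
  have ml := Nat.mod_lt t (show 0 < Fintype.card α by omega)
  by_cases ρ0 : t % Fintype.card α = 0
  swap
  · obtain ⟨F, hF, cF⟩ := Finset.exists_subset_card_eq qL.le
    obtain ⟨l, l1, l2⟩ := Finset.exists_mem_notMem_of_card_lt_card (s := F) (t := L) (by omega)
    obtain ⟨R, -, cR⟩ := Finset.exists_subset_card_eq (s := (Finset.univ : Finset α)) ml.le
    have h : St G t N i a (shp i a j (Rf F l R l ∅)) := ⟨hN, lt, fun p hp => (mem_shp.1 hp).1, by
      rw [card_shp hj, sum_Rf hF R ∅ l1 l1 l2 l2 fun _ => rfl, cF, cR, Finset.card_empty]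
      omega⟩
    have e : Rf F l R l ∅ l = R := by simp [Rf, l2]
    have gd : ∀ u v, u ∈ R → v ∉ R → ∀ x y : ι → α, x i ≠ a → y ∈ cl G (insert x (shp i a j (Rf F l R l ∅))) →
        y i ≠ a → y ≠ x → x j ≠ u → x j ≠ v → y j ≠ u → y j ≠ v → False := by
      intro u v hu hv x y x1 y1 y2 ne e1 e2 e3 e4
      obtain ⟨w, hw⟩ := ex_nm [u, v, x j, y j] (by simp; omega)
      simp only [List.mem_cons, List.not_mem_nil, or_false, not_or] at hw
      refine h.good' hyp hj (mL l l1).1 (mL l l1).2 (u := u) (v := v) (w := w)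
        ⟨fun q => hv (q ▸ hu), Ne.symm hw.1, Ne.symm hw.2.1⟩ (e.symm ▸ hu) (e.symm ▸ hv)
        (fun l' n r hr => ?_) x1 y1 y2 ne ⟨e1, e2, Ne.symm hw.2.2.1⟩ ⟨e3, e4, Ne.symm hw.2.2.2⟩
      unfold Rf at hr ⊢
      split_ifs at hr ⊢ <;> simp_all
    by_cases c : R.card ≤ 2
    · obtain ⟨r, hr⟩ := Finset.card_pos.1 (show 0 < R.card by omega)
      refine h.inj h5 hj r fun x y x1 y1 y2 ne e1 => by_contra fun e2 => ?_
      obtain ⟨v, -, hv⟩ := Finset.exists_mem_notMem_of_card_lt_card
        (s := insert (x j) (insert (y j) R)) (t := Finset.univ) (by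
          have := Finset.card_insert_le (x j) (insert (y j) R)
          have := Finset.card_insert_le (y j) R
          rw [Finset.card_univ]
          omega)
      simp only [Finset.mem_insert, not_or] at hv
      exact gd r v hr hv.2.2 x y x1 y1 y2 ne e1 (Ne.symm hv.1) e2 (Ne.symm hv.2.1)
    · obtain ⟨r, -, hr⟩ := Finset.exists_mem_notMem_of_card_lt_card (s := R) (t := Finset.univ)
        (by rw [Finset.card_univ]; omega)
      refine h.inj h5 hj r fun x y x1 y1 y2 ne e1 => by_contra fun e2 => ?_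
      obtain ⟨u, u1, hu⟩ := Finset.exists_mem_notMem_of_card_lt_card
        (s := {x j, y j}) (t := R) (by have := Finset.card_le_two (a := x j) (b := y j); omega)
      simp only [Finset.mem_insert, Finset.mem_singleton, not_or] at hu
      exact gd u r u1 hr x y x1 y1 y2 ne (Ne.symm hu.1) e1 (Ne.symm hu.2) e2
  have q1 : 1 ≤ t / Fintype.card α := by
    refine Nat.pos_of_ne_zero fun this => ?_
    rw [this] at dm
    omega
  obtain ⟨F, hF, cF⟩ := Finset.exists_subset_card_eq (s := L) (n := t / Fintype.card α - 1) (by omega)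
  obtain ⟨l, l1, l2⟩ := Finset.exists_mem_notMem_of_card_lt_card (s := F) (t := L) (by omega)
  obtain ⟨l', l3, l4⟩ := Finset.exists_mem_notMem_of_card_lt_card (s := insert l F) (t := L)
    (by rw [Finset.card_insert_of_notMem l2]; omega)
  rw [Finset.mem_insert, not_or] at l4
  obtain ⟨r, hr⟩ := ex_nm [a] (by simp; omega)
  rw [List.mem_singleton] at hr
  set R := Rf F l (Finset.univ.erase r) l' {a} with hR
  have h : St G t N i a (shp i a j R) := ⟨hN, lt, fun p hp => (mem_shp.1 hp).1, by
    rw [card_shp hj, sum_Rf hF _ _ l1 l3 l2 l4.2 fun e => absurd e.symm l4.1, cF,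
      Finset.card_erase_of_mem (Finset.mem_univ _), Finset.card_univ, Finset.card_singleton,
      Nat.sub_one_mul]
    have := Nat.mul_le_mul_right (Fintype.card α) q1
    omega⟩
  have f1 : ∀ s : List α, s.length + 1 < Fintype.card α → r ∈ s → a ∈ s → ∀ x y : ι → α, x i ≠ a →
      y ∈ cl G (insert x (shp i a j R)) → y i ≠ a → y ≠ x → x j ∈ s → y j ∈ s → x j ≠ r →
      y j ≠ r → False := by
    intro s c s1 s2 x y x1 y1 y2 ne s3 s4 e1 e2
    obtain ⟨u, hu⟩ := ex_nm s (by omega)
    obtain ⟨w, hw⟩ := ex_nm (u :: s) c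
    rw [List.mem_cons, not_or] at hw
    refine h.good' hyp hj (mL l l1).1 (mL l l1).2 (u := u) (v := r) (w := w)
      ⟨by grind, by grind, by grind⟩ (by simp [hR, Rf, l2]; grind) (by simp [hR, Rf, l2])
      (fun l' n r hr => ?_) x1 y1 y2 ne (by grind) (by grind)
    simp only [hR, Rf, n, if_false] at hr ⊢
    split_ifs at hr ⊢
    · exact Finset.mem_univ _
    · rw [Finset.mem_singleton] at hr ⊢
      rw [hr, tc_fix] <;> grind
    · simp at hr
  rcases h5.eq_or_lt with m5 | m6
  swap
  · exact h.inj h5 hj r fun x y x1 y1 y2 ne e1 => by_contra fun e2 =>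
      f1 [r, a, x j, y j] (by simp; omega) (by simp) (by simp) x y x1 y1 y2 ne (by simp) (by simp) e1 e2
  have x1 : (fun _ : ι => r) i ≠ a := hr
  have x2 : (fun _ : ι => r) j = r := rfl
  generalize (fun _ : ι => r) = x at x1 x2
  have f2 : ∀ y ∈ cl G (insert x (shp i a j R)), y i ≠ a → y ≠ x → y j = a := by
    intro y y1 y2 ne
    by_contra e2
    obtain ⟨u, hu⟩ := ex_nm [r, a, y j] (by simp; omega)
    obtain ⟨w, hw⟩ := ex_nm [r, a, y j, u] (by simp; omega)
    simp only [List.mem_cons, List.not_mem_nil, or_false, not_or] at hu hw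
    refine h.good' hyp hj (mL l' l3).1 (mL l' l3).2 (u := a) (v := u) (w := w)
      ⟨by grind, by grind, by grind⟩ (by simp [hR, Rf, l4]) (by simp [hR, Rf, l4, hu])
      (fun l' n r hr => ?_) x1 y1 y2 ne (by grind) (by grind)
    simp only [hR, Rf, n, if_false] at hr ⊢
    split_ifs at hr ⊢
    · exact Finset.mem_univ _
    · rw [Finset.mem_erase] at hr ⊢
      exact ⟨tc_ne ⟨by grind, by grind, by grind⟩ (by grind) (by grind) (by grind) hr.1, by simp⟩
    · simp at hr
  obtain ⟨y, y1, y2, y3⟩ := h.other x1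
  have sub : cl G (insert x (shp i a j R)) ⊆ insert y (insert x (shp i a j R)) := by
    intro z hz
    by_contra hc
    simp only [Finset.mem_insert, not_or] at hc
    have za : z i ≠ a := fun e => hc.2.2 (h.XH x1 hz e)
    have e1 := f2 y y1 y3 y2
    have e2 := f2 z hz za hc.2.1
    exact f1 [r, a] (by simp; omega) (by simp) (by simp) y z y3 (by rwa [h.Xeq x1 y1 (h.nm y3)]) za
      hc.1 (by simp [e1]) (by simp [e2]) (e1 ▸ Ne.symm hr) (e2 ▸ Ne.symm hr)
  have c := (Finset.card_le_card sub).trans (Finset.card_insert_le _ _)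
  rw [hN _ (h.ci (h.nm x1)), h.ci (h.nm x1)] at c
  obtain rfl : N = t + 2 := by omega
  have := h.par hyp
  rw [hh, ← m5] at this
  exact absurd (Nat.prime_two.dvd_of_dvd_pow this) (by norm_num)

theorem mt_of_jordan [Nontrivial ι] (hyp : Hyp G) (J : ∀ i a, JC G (hs 1 i a)) :
    MT G (hh ι α + 1) := by
  have h5 := hyp.five
  have key : ∀ t, t ≤ hh ι α → TR G t := by
    intro t
    induction t with
    | zero =>
      intro _ S hS x y _ _
      refine conn0 (fun y => ∃ g ∈ G, (∀ z ∈ S, g z = z) ∧ g x = y) ?_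
        ⟨1, G.one_mem, fun _ _ => rfl, rfl⟩
      rintro y l u ⟨g, hg, -, e⟩
      rw [Nat.le_zero, Finset.card_eq_zero] at hS
      by_cases hu : u = y l
      · exact ⟨g, hg, by simp [hS], by rw [hu, update_eq_self, e]⟩
      obtain ⟨w, d, -, -, e'⟩ := exists_upd h5 y l hu u u
      exact ⟨_, G.mul_mem (hyp.tc l d) hg, by simp [hS], by rw [Perm.mul_apply, e, e']⟩
    | succ t ih =>
      intro ht S hS
      have tr := ih (by omega)
      rcases hS.eq_or_lt with c | c
      swap
      · exact tr S (by omega)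
      by_cases e : cl G S = S
      · exact e ▸ jc_cl hyp J S
      have lt : t + 2 ≤ (cl G S).card := by
        have := Finset.card_lt_card (Finset.ssubset_iff_subset_ne.2 ⟨sub_cl (G := G) S, Ne.symm e⟩)
        omega
      rcases Nat.eq_zero_or_pos t with rfl | t1
      · obtain ⟨x, rfl⟩ := Finset.card_eq_one.1 c
        refine absurd (Finset.Subset.antisymm (fun y hy => Finset.mem_singleton.2 (funext fun l => ?_))
          (sub_cl _)) e
        exact mem_hs1.1 (cl_sub G.one_mem (by simp [mem_hs1]) hy)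
      refine (no_st hyp t1 ht (fun Z hZ => ?_) lt).elim
      obtain ⟨g, hg, rfl⟩ := tr.mt.hom (c.trans hZ.symm) hS
      rw [cl_map _ hg, Finset.card_map]
  exact (key _ le_rfl).mt

end H56.PA
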