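/- Product action wreath products: the overgroups. -/
import Cfsg.Agent.H56.PA3
import Cfsg.Agent.H56.PA5
import Cfsg.Agent.S4220
import Cfsg.Agent.S0711

set_option autoImplicit false
set_option linter.unusedSectionVars false
set_option linter.unusedVariables false

namespace H56.PA

open Equiv Function

theorem arith {m e : ℕ} (hm : 5 ≤ m) (he : 1 ≤ e) : (m ^ e = m ∧ 28 ≤ m) ∨
    ∃ p q r, p.Prime ∧ m * m ^ e = q * p + r ∧ 1 ≤ q ∧ q < p ∧ q < r ∧ r ≤ m ^ e ∧ 3 ≤ r := by
  by_cases h : 9 * m ≤ m ^ e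
  · generalize m ^ e = n at h
    obtain ⟨p, hp, p1, p2⟩ := Nat.exists_prime_lt_and_le_two_mul (n / 3) (by omega)
    have h5 : 5 * n ≤ m * n := Nat.mul_le_mul_right n hm
    have d := Nat.div_add_mod' (m * n - (n / 3 + 1)) p
    have l := Nat.mod_lt (m * n - (n / 3 + 1)) hp.pos
    have q1 : 1 ≤ (m * n - (n / 3 + 1)) / p := (Nat.le_div_iff_mul_le hp.pos).2 (by omega)
    have q2 : (m * n - (n / 3 + 1)) / p < 3 * m := by
      refine Nat.div_lt_of_lt_mul ?_
      have : m * n ≤ m * (3 * p) := Nat.mul_le_mul_left m (by omega)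
      have : p * (3 * m) = m * (3 * p) := by ring
      omega
    exact Or.inr ⟨p, _, n / 3 + 1 + (m * n - (n / 3 + 1)) % p, hp, by omega, q1, by omega, by omega,
      by omega, by omega⟩
  have e3 : e < 3 := by
    by_contra hc
    have : m ^ 3 ≤ m ^ e := Nat.pow_le_pow_right (by omega) (by omega)
    have : 9 * m ≤ m ^ 3 := by
      rw [pow_succ]
      exact Nat.mul_le_mul_right m (by nlinarith)
    omega
  interval_cases e
  · rw [pow_one]
    by_cases c : 28 ≤ m
    · exact Or.inl ⟨rfl, c⟩
    right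
    have : m < 28 := by omega
    interval_cases m
    exacts [⟨11, 2, 3, by norm_num⟩, ⟨31, 1, 5, by norm_num⟩, ⟨43, 1, 6, by norm_num⟩,
      ⟨61, 1, 3, by norm_num⟩, ⟨73, 1, 8, by norm_num⟩, ⟨97, 1, 3, by norm_num⟩,
      ⟨113, 1, 8, by norm_num⟩, ⟨139, 1, 5, by norm_num⟩, ⟨163, 1, 6, by norm_num⟩,
      ⟨193, 1, 3, by norm_num⟩, ⟨211, 1, 14, by norm_num⟩, ⟨251, 1, 5, by norm_num⟩,
      ⟨283, 1, 6, by norm_num⟩, ⟨317, 1, 7, by norm_num⟩, ⟨353, 1, 8, by norm_num⟩,
      ⟨397, 1, 3, by norm_num⟩, ⟨433, 1, 8, by norm_num⟩, ⟨479, 1, 5, by norm_num⟩,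
      ⟨523, 1, 6, by norm_num⟩, ⟨571, 1, 5, by norm_num⟩, ⟨619, 1, 6, by norm_num⟩,
      ⟨673, 1, 3, by norm_num⟩, ⟨719, 1, 10, by norm_num⟩]
  · right
    have : m < 9 := by nlinarith
    interval_cases m
    exacts [⟨113, 1, 12, by norm_num⟩, ⟨211, 1, 5, by norm_num⟩, ⟨337, 1, 6, by norm_num⟩,
      ⟨509, 1, 3, by norm_num⟩]

theorem supp_comm {Ω : Type*} [Fintype Ω] [DecidableEq Ω] (u v : Perm Ω) :
    (u * v * u⁻¹ * v⁻¹).support.card ≤ 3 * (u.support ∩ v.support).card := by
  have : (u * v * u⁻¹ * v⁻¹).support ⊆ (u.support ∩ v.support) ∪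
      ((u.support ∩ v.support).map u.toEmbedding ∪ (u.support ∩ v.support).map v.toEmbedding) := by
    intro x hx
    by_contra hc
    simp only [Finset.mem_union, Finset.mem_map_equiv, Finset.mem_inter, Perm.mem_support, not_or,
      not_and, not_not] at hc
    obtain ⟨h1, h2, h3⟩ := hc
    refine Perm.mem_support.1 hx ?_
    change (u (u⁻¹ x) ≠ u⁻¹ x → v (u⁻¹ x) = u⁻¹ x) at h2
    change (u (v⁻¹ x) ≠ v⁻¹ x → v (v⁻¹ x) = v⁻¹ x) at h3
    simp only [Perm.mul_apply]
    by_cases e : v x = x
    · rw [Perm.inv_eq_iff_eq.2 e.symm]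
      by_cases e' : u (u⁻¹ x) = u⁻¹ x
      · rw [ai] at e'
        rw [← e', e]
        conv_lhs => rw [e', ai]
      · rw [h2 e', ai]
    · have e1 : u x = x := by_contra fun q => e (h1 q)
      have e2 : u (v⁻¹ x) = v⁻¹ x := by_contra fun q => e (by
        have := h3 q
        rw [ai] at this
        conv_lhs => rw [this, ai])
      rw [Perm.inv_eq_iff_eq.2 e2.symm, ai, e1]
  have h1 := (Finset.card_le_card this).trans (Finset.card_union_le _ _)
  have h2 := Finset.card_union_le ((u.support ∩ v.support).map u.toEmbedding)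
    ((u.support ∩ v.support).map v.toEmbedding)
  rw [Finset.card_map, Finset.card_map] at h2
  omega

variable {ι α : Type*} [Fintype ι] [DecidableEq ι] [Fintype α] [DecidableEq α]
  {G : Subgroup (Perm (ι → α))}

theorem supp_tc (i : ι) {u v w : α} (d : D3 u v w) (S : Finset (ι → α)) :
    ((pur i (tc u v w)).support ∩ S).card ≤ (S.filter fun x => x i = u).card +
      (S.filter fun x => x i = v).card + (S.filter fun x => x i = w).card := by
  refine le_trans (Finset.card_le_card (t := (S.filter fun x => x i = u) ∪ (S.filter fun x => x i = v) ∪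
    S.filter fun x => x i = w) fun x hx => ?_) ((Finset.card_union_le _ _).trans
    (Nat.add_le_add_right (Finset.card_union_le _ _) _))
  rw [Finset.mem_inter, Perm.mem_support, Ne, pur_eq_iff, tc_eq_iff d] at hx
  simp only [Finset.mem_union, Finset.mem_filter]
  tauto

theorem alt_of_mt [Nontrivial ι] (hyp : Hyp G) (mt : MT G (hh ι α + 1)) :
    alternatingGroup (ι → α) ≤ G := by
  have h5 := hyp.five
  rcases arith h5 (show 1 ≤ Fintype.card ι - 1 by have := Fintype.one_lt_card (α := ι); omega) with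
    ⟨e, m28⟩ | ⟨p, q, r, hp, e, q1, q2, q3, q4, q5⟩
  swap
  · exact Cfsg.Agent.S4220.result G hp (by rw [← mul_hh, ← e]; rfl) q1 q2 q3 (by omega)
      (mt.multi (Nat.succ_le_succ q4))
  change hh ι α = _ at e
  obtain ⟨j, i, hj⟩ := exists_pair_ne ι
  obtain ⟨a⟩ : Nonempty α := Fintype.card_pos_iff.1 (by omega)
  obtain ⟨u, hu⟩ := ex_nm [a] (by simp; omega)
  obtain ⟨v, hv⟩ := ex_nm [a, u] (by simp; omega)
  obtain ⟨w, hw⟩ := ex_nm [a, u, v] (by simp; omega)
  simp only [List.mem_cons, List.not_mem_nil, or_false, not_or] at hu hv hw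
  have d : D3 u v w := ⟨Ne.symm hv.2, Ne.symm hw.2.1, Ne.symm hw.2.2⟩
  obtain ⟨R, -, cR⟩ := Finset.exists_subset_card_eq (s := (Finset.univ : Finset α))
    (n := Fintype.card α / 2) (Nat.div_le_self _ _)
  obtain ⟨f, hf⟩ := Perm.exists_extending_pair
    (fun r => update (fun _ => r) i (if r ∈ R then u else a)) (fun r => update (fun _ => a) i r)
    (fun r s q => by simpa [update_of_ne hj] using congrFun q j) fun r s q => by simpa using congrFun q i
  obtain ⟨g, hg, k⟩ := mt (Finset.univ.image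
    fun r => update (fun _ => r) i (if r ∈ R then u else a)) f (Finset.card_image_le.trans (by
      rw [Finset.card_univ]; omega))
  have mv : ∀ r, cp g i (tc u v w) (update (fun _ => a) i r) = update (fun _ => a) i r ↔ r ∉ R := by
    intro r
    rw [cp_eq_iff, ← hf, ← k _ (Finset.mem_image_of_mem _ (Finset.mem_univ r)), ia, update_self,
      tc_eq_iff d]
    split_ifs with c <;> grind
  have cm := hyp.cp hg i (tc_sign d)
  have cs : (cp g i (tc u v w)).support.card ≤ 3 * Fintype.card α := by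
    have := supp_tc i d Finset.univ
    rw [Finset.inter_univ] at this
    rw [cp, Perm.card_support_conj, ← e]
    have c := fun r => card_hs (1 : Perm (ι → α)) i r
    simp only [hs, inv_one, Perm.one_apply] at c
    simp only [c] at this
    omega
  generalize cp g i (tc u v w) = c at mv cm cs
  set H := Finset.univ.filter fun r => 7 ≤ (c.support.filter fun x => x i = r).card with hH
  have cH : 7 * H.card ≤ 3 * Fintype.card α := by
    refine le_trans ?_ cs
    rw [Finset.card_eq_sum_card_fiberwise (s := c.support) (f := fun x => x i) (t := Finset.univ)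
      fun _ _ => Finset.mem_univ _, mul_comm, ← smul_eq_mul]
    exact (Finset.card_nsmul_le_sum _ _ _ fun r hr => (Finset.mem_filter.1 hr).2).trans
      (Finset.sum_le_sum_of_subset (Finset.subset_univ _))
  obtain ⟨r, r1, r2⟩ := Finset.exists_mem_notMem_of_card_lt_card (s := H) (t := R) (by omega)
  obtain ⟨s, s1, s2⟩ := Finset.exists_mem_notMem_of_card_lt_card (s := H) (t := Rᶜ)
    (by rw [Finset.card_compl]; omega)
  obtain ⟨t, -, t2⟩ := Finset.exists_mem_notMem_of_card_lt_card (s := insert r (insert s H))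
    (t := Finset.univ) (by
      have := Finset.card_insert_le r (insert s H)
      have := Finset.card_insert_le s H
      rw [Finset.card_univ]
      omega)
  rw [Finset.mem_compl] at s1
  simp only [hH, Finset.mem_insert, Finset.mem_filter, Finset.mem_univ, true_and, not_or] at r2 s2 t2
  have d' : D3 r s t := ⟨fun q => s1 (q ▸ r1), Ne.symm t2.1, Ne.symm t2.2.1⟩
  have b1 := supp_tc i d' c.support
  have b2 := supp_comm (pur i (tc r s t)) c
  refine (Cfsg.Agent.S0711.result G (k := hh ι α + 1) (by omega) (by rw [← mul_hh]; nlinarith)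
    (mt.multi le_rfl) _ (G.mul_mem (G.mul_mem (G.mul_mem (hyp.tc i d') cm) (G.inv_mem (hyp.tc i d')))
    (G.inv_mem cm)) (fun q => (mv r).1 ?_ r1) (by omega)).2
  have e1 : pur i (tc r s t) (update (fun _ => a) i r) = update (fun _ => a) i s := by
    rw [pur_apply, update_idem, update_self, tc_1 d']
  have := congrArg (fun e : Perm _ => e (update (fun _ => a) i r))
    (mul_inv_eq_iff_eq_mul.1 (mul_inv_eq_one.1 q))
  simp only [Perm.mul_apply] at this
  rw [e1, (mv s).2 s1, ← e1] at this
  exact Equiv.injective _ this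

theorem main [Nontrivial ι] (hyp : Hyp G) : G ≤ Wr ι α ∨ alternatingGroup (ι → α) ≤ G := by
  by_cases nj : NJ G
  · exact Or.inl (le_Wr hyp nj)
  · exact Or.inr (alt_of_mt hyp (mt_of_jordan hyp (jordan_of_not_nj hyp nj)))

theorem not_le [Nontrivial ι] (h5 : 5 ≤ Fintype.card α) : ¬ alternatingGroup (ι → α) ≤ Wr ι α := by
  intro h
  obtain ⟨j, i, hj⟩ := exists_pair_ne ι
  obtain ⟨a⟩ : Nonempty α := Fintype.card_pos_iff.1 (by omega)
  obtain ⟨b, hb⟩ := ex_nm [a] (by simp; omega)
  rw [List.mem_singleton] at hb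
  have : Nonempty α := ⟨a⟩
  obtain ⟨σ, s1, s2, s3⟩ := exists_even (α := ι → α) (by
      have := hh_pos (ι := ι) (α := α)
      rw [← mul_hh]
      nlinarith) (p := fun _ => a) (q := update (fun _ => a) i b) (p' := fun _ => a) (q' := fun _ => b)
    (fun q => hb (by simpa using (congrFun q i).symm)) fun q => hb (congrFun q i).symm
  obtain ⟨π, τ, e⟩ := h (Perm.mem_alternatingGroup.2 s1)
  have k : ∀ l, π.symm l = i := fun l => by
    by_contra hc
    have h1 := e (fun _ => a) l
    have h2 := e (update (fun _ => a) i b) l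
    rw [s3, update_of_ne hc, ← h1, s2] at h2
    exact hb h2
  exact hj (π.symm.injective ((k j).trans (k i).symm))

theorem pur_mem (i : ι) (σ : Perm α) : pur i σ ∈ Wr ι α :=
  ⟨1, update (fun _ => 1) i σ, fun f l => by
    by_cases e : l = i
    · rw [e, pur_same, update_self]; rfl
    · rw [pur_ne e, update_of_ne e]; rfl⟩

theorem sign_pur (i : ι) {σ : Perm α} (h : Perm.sign σ = 1) : Perm.sign (pur i σ) = 1 := by
  have : alternatingGroup α ≤ (alternatingGroup (ι → α)).comap (pur i) := by
    rw [← Perm.closure_three_cycles_eq_alternating, Subgroup.closure_le]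
    intro γ hγ
    have e : γ = γ⁻¹ * γ⁻¹ := by
      have := pow_orderOf_eq_one γ
      rw [Perm.IsThreeCycle.orderOf hγ, pow_three'] at this
      rw [← mul_inv_rev, eq_inv_iff_mul_eq_one, ← mul_assoc, this]
    change Perm.sign (pur i γ) = 1
    rw [e, map_mul, map_mul, Int.units_mul_self]
  exact this (Perm.mem_alternatingGroup.2 h)

theorem sign_inv (σ : Perm (ι → α)) (h : σ * σ = 1) {n : ℕ}
    (e : Fintype.card (ι → α) = (Finset.univ.filter fun x => σ x = x).card + 2 * n) :
    Perm.sign σ = (-1) ^ n := by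
  rw [Perm.sign_of_pow_two_eq_one (by rw [pow_two, h]), e]
  congr 1
  have : Fintype.card (fixedPoints σ) = (Finset.univ.filter fun x => σ x = x).card :=
    Fintype.card_of_subtype _ fun x => by simp [fixedPoints, IsFixedPt]
  omega

theorem even_top [Nontrivial ι] (h5 : 5 ≤ Fintype.card α)
    (h : ¬ (Fintype.card ι = 2 ∧ Fintype.card α % 4 = 2)) (π : Perm ι) :
    ∃ τ : ι → Perm α, Perm.sign (wr π τ) = 1 := by
  obtain ⟨a⟩ : Nonempty α := Fintype.card_pos_iff.1 (by omega)
  rcases Nat.even_or_odd (Fintype.card α) with ev | od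
  · refine ⟨fun _ => 1, ?_⟩
    induction π using Perm.swap_induction_on with
    | one => exact (congrArg _ (Equiv.ext fun _ => rfl)).trans Perm.sign_one
    | swap_mul π i j ij ih =>
      have e : wr (swap i j * π) (fun _ => (1 : Perm α)) = wr (swap i j) (fun _ => 1) * wr π fun _ => 1 :=
        Equiv.ext fun _ => rfl
      have c : (Finset.univ.filter fun x => wr (swap i j) (fun _ => (1 : Perm α)) x = x).card =
          hh ι α := by
        rw [← card_hs 1 i a]
        have m : ∀ x : ι → α, wr (swap i j) (fun _ => (1 : Perm α)) x = x ↔ x i = x j := fun x =>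
          ⟨fun q => by simpa [wr_apply] using congrFun q j, fun q => funext fun l => by
            rw [wr_apply, Perm.one_apply, symm_swap, swap_apply_def]
            grind⟩
        refine Finset.card_nbij' (fun x => update x i a) (fun x => update x i (x j)) ?_ ?_ ?_ ?_
        · intro x _
          simp [mem_hs1]
        · intro x _
          simp [m, update_of_ne ij.symm]
        · intro x hx
          simp only [Finset.coe_filter, Set.mem_ofPred_eq, m] at hx
          simp [update_of_ne ij.symm, ← hx.2]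
        · intro x hx
          simp [← mem_hs1.1 hx]
      obtain ⟨n, hn⟩ : 4 ∣ hh ι α := by
        obtain ⟨s, hs⟩ := ev.two_dvd
        have k1 := Fintype.one_lt_card (α := ι)
        by_cases k2 : Fintype.card ι = 2
        · rw [hh, k2, pow_one]
          omega
        · refine Dvd.dvd.trans ?_ (pow_dvd_pow _ (show 2 ≤ Fintype.card ι - 1 by omega))
          exact ⟨s * s, by rw [hs]; ring⟩
      obtain ⟨m, hm⟩ : ∃ m, Fintype.card α = m + 1 := ⟨Fintype.card α - 1, by omega⟩
      rw [e, map_mul, ih, mul_one, sign_inv _ (Equiv.ext fun f => funext fun l => by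
        simp [wr_apply]) (n := 2 * (m * n)) (by rw [c, ← mul_hh, hn, hm]; ring), pow_mul]
      simp
  obtain ⟨i⟩ : Nonempty ι := inferInstance
  obtain ⟨b, hb⟩ := ex_nm [a] (by simp; omega)
  rw [List.mem_singleton] at hb
  have s : Perm.sign (pur i (swap a b)) = -1 := by
    rw [sign_inv _ (by rw [← map_mul, swap_mul_self, map_one]) (n := hh ι α) ?_,
      Odd.neg_one_pow (show Odd (hh ι α) from od.pow)]
    rw [← Finset.card_univ, ← Finset.card_filter_add_card_filter_not fun x => pur i (swap a b) x = x,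
      two_mul]
    congr 1
    nth_rewrite 1 [← card_hs 1 i a]
    rw [← card_hs 1 i b, ← Finset.card_union_of_disjoint (Finset.disjoint_left.2 fun x h1 h2 =>
      hb ((mem_hs1.1 h2).symm.trans (mem_hs1.1 h1)))]
    congr 1
    ext x
    simp only [Finset.mem_filter, Finset.mem_univ, true_and, pur_eq_iff, Finset.mem_union, mem_hs1,
      swap_apply_def]
    grind
  rcases Int.units_eq_one_or (Perm.sign (wr π fun _ => (1 : Perm α))) with e | e
  · exact ⟨_, e⟩
  · refine ⟨update (fun _ => 1) i (swap a b), ?_⟩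
    have : wr π (update (fun _ => 1) i (swap a b)) = pur i (swap a b) * wr π fun _ => 1 :=
      Equiv.ext fun f => funext fun l => by
        by_cases q : l = i
        · rw [q, Perm.mul_apply, pur_same, wr_apply, update_self]; rfl
        · rw [Perm.mul_apply, pur_ne q, wr_apply, update_of_ne q]; rfl
    rw [this, map_mul, s, e]
    simp

theorem hyp_of [Nontrivial ι] (h5 : 5 ≤ Fintype.card α)
    (h : ¬ (Fintype.card ι = 2 ∧ Fintype.card α % 4 = 2))
    (le : ∀ σ ∈ Wr ι α, Perm.sign σ = 1 → σ ∈ G) : Hyp G :=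
  ⟨h5, fun i σ e => le _ (pur_mem i σ) (sign_pur i e), fun π =>
    (even_top h5 h π).imp fun τ e => le _ ⟨π, τ, fun _ _ => rfl⟩ e⟩

theorem coatom_alt [Nontrivial ι] (h5 : 5 ≤ Fintype.card α)
    (h : ¬ (Fintype.card ι = 2 ∧ Fintype.card α % 4 = 2)) :
    IsCoatom ((Wr ι α).subgroupOf (alternatingGroup (ι → α))) := by
  refine ⟨fun e => not_le h5 (Subgroup.subgroupOf_eq_top.1 e), fun K hK => ?_⟩
  rcases main (hyp_of (G := K.map (alternatingGroup _).subtype) h5 h fun σ h1 h2 =>
    ⟨⟨σ, h2⟩, hK.le h1, rfl⟩) with e | e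
  · exact absurd (fun x hx => e ⟨x, hx, rfl⟩) hK.not_ge
  · refine top_le_iff.1 fun x _ => ?_
    obtain ⟨y, hy, q⟩ := e x.2
    exact Subtype.ext q ▸ hy

theorem coatom_sym [Nontrivial ι] (h5 : 5 ≤ Fintype.card α) {σ : Perm (ι → α)}
    (s : Perm.sign σ = -1) (hσ : σ ∈ Wr ι α) : IsCoatom (Wr ι α) := by
  refine ⟨fun e => not_le h5 (e ▸ le_top), fun K hK => ?_⟩
  rcases main (G := K) ⟨h5, fun i σ _ => hK.le (pur_mem i σ), fun π =>
    ⟨fun _ => 1, hK.le ⟨π, fun _ => 1, fun _ _ => rfl⟩⟩⟩ with e | e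
  · exact absurd e hK.not_ge
  · refine top_le_iff.1 fun x _ => ?_
    rcases Int.units_eq_one_or (Perm.sign x) with q | q
    · exact e q
    · have : x * σ ∈ K := e (show Perm.sign (x * σ) = 1 by rw [map_mul, q, s]; simp)
      exact (K.mul_mem_cancel_right (hK.le hσ)).1 this

end H56.PA
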