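/- SPIN tower (S4578), slots SC, T2, T1: commutation of lifts and traces in the Pin cover. -/
import Cfsg.Agent.H2.SpSpec

set_option autoImplicit false
set_option linter.unusedSectionVars false

namespace H56.SpSC

open Equiv H2.Sp

variable {Ω G V : Type} [Fintype Ω] [DecidableEq Ω] [Group G] [AddCommGroup V] [Module ℂ V]
  [FiniteDimensional ℂ V] (P : Pin Ω G V)

theorem trace_anti {A M : Module.End ℂ V} (h1 : A * A = 1) (h2 : A * M = -(M * A)) :
    LinearMap.trace ℂ V M = 0 := by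
  have h3 : LinearMap.trace ℂ V (A * (M * A)) = LinearMap.trace ℂ V M := by
    rw [LinearMap.trace_mul_comm, mul_assoc, h1, mul_one]
  rw [← mul_assoc, h2, neg_mul, mul_assoc, h1, mul_one, map_neg] at h3
  linear_combination (-1 / 2 : ℂ) * h3

theorem rho_cancel (t : G) {M N : Module.End ℂ V} (h : P.ρ t * M = P.ρ t * N) : M = N := by
  have := congrArg (P.ρ t⁻¹ * ·) h
  simpa only [← mul_assoc, ← map_mul, inv_mul_cancel, map_one, one_mul] using this

theorem rho_ne (g : G) : P.ρ g ≠ -P.ρ g := fun h => by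
  have h1 : (1 : Module.End ℂ V) = -1 := rho_cancel P g (by simpa using h)
  have h2 := congrArg (LinearMap.trace ℂ V) h1
  rw [map_neg, LinearMap.trace_one, P.dim] at h2
  have h3 : ((2 ^ Fintype.card Ω : ℕ) : ℂ) = 0 := by linear_combination (1 / 2 : ℂ) * h2
  simp at h3

theorem rho_comm (y : G) (n : ℕ) : ∀ x : G, (P.π x).support.card = n → Perm.Disjoint (P.π x) (P.π y) →
    P.ρ y * P.ρ x = (if Perm.sign (P.π x) = 1 then 1 else ((Perm.sign (P.π y) : ℤ) : ℂ)) •
      (P.ρ x * P.ρ y) := by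
  induction n using Nat.strong_induction_on with
  | _ n ih =>
  intro x hn hd
  by_cases h1 : P.π x = 1
  · rcases (P.ker x).1 h1 with rfl | rfl <;> simp [h1, P.ρz]
  obtain ⟨a, ha⟩ : ∃ a, P.π x a ≠ a := not_forall.1 fun h => h1 (Equiv.ext h)
  obtain ⟨t, t1, t2⟩ := P.swp a (P.π x a) ha.symm
  have h2 := ih _ (hn ▸ Perm.card_support_swap_mul ha) (t * x) (by rw [map_mul, t1])
    (hd.mono (by
      rw [map_mul, t1]
      exact fun _ hz => (Perm.mem_support_swap_mul_imp_mem_support_ne hz).1) le_rfl)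
  have a1 : P.π y a = a := (hd a).resolve_left ha
  have a2 : P.π y (P.π x a) = P.π x a := (hd _).resolve_left fun e => ha ((P.π x).injective e)
  have h3 : P.ρ y * P.ρ t = ((Perm.sign (P.π y) : ℤ) : ℂ) • (P.ρ t * P.ρ y) := by
    rw [t2, mul_smul_comm, mul_sub, P.actγ, P.actγ, a1, a2, smul_mul_assoc, sub_mul, ← smul_sub,
      smul_comm]
  rw [map_mul P.ρ, ← mul_assoc, h3, smul_mul_assoc, mul_assoc, mul_assoc,
    ← mul_smul_comm _ (P.ρ t), ← mul_smul_comm _ (P.ρ t), map_mul, t1, map_mul,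
    Perm.sign_swap ha.symm] at h2
  have h4 := rho_cancel P t h2
  rcases Int.units_eq_one_or (Perm.sign (P.π x)) with h | h <;>
    rcases Int.units_eq_one_or (Perm.sign (P.π y)) with h' | h' <;>
    simp [h, h', neg_eq_iff_eq_neg] at h4 ⊢ <;> exact h4

theorem sc (x y : G) (hd : Perm.Disjoint (P.π x) (P.π y)) :
    (Perm.sign (P.π x) = 1 ∨ Perm.sign (P.π y) = 1 → x * y = y * x) ∧
    (Perm.sign (P.π x) = -1 → Perm.sign (P.π y) = -1 → x * y = P.z * (y * x)) := by
  have h1 := rho_comm P y _ x rfl hd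
  have h2 : x * y = y * x ∨ x * y = P.z * (y * x) :=
    ((P.ker (x * y * (y * x)⁻¹)).1 (by
      rw [map_mul, map_inv, map_mul, map_mul, hd.commute.eq, mul_inv_cancel])).imp
      mul_inv_eq_one.1 eq_mul_of_mul_inv_eq
  rw [← map_mul, ← map_mul] at h1
  refine ⟨fun h => h2.resolve_right fun e => rho_ne P (y * x) ?_,
    fun h h' => h2.resolve_left fun e => rho_ne P (y * x) ?_⟩
  · rw [e, map_mul P.ρ P.z, P.ρz] at h1
    rcases h with h | h <;> simpa [h] using h1
  · rw [e] at h1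
    simpa [h, h'] using h1

theorem jobSC : SC := fun P x y hd => sc P x y hd

theorem char_z (g : G) : P.ρ.character (P.z * g) = -P.ρ.character g := by
  simp [Representation.character, P.ρz]

theorem t2 (g : G) (h : ¬ OddM (P.π g).partition.parts) : P.ρ.character g = 0 := by
  rcases Int.units_eq_one_or (Perm.sign (P.π g)) with hs | hs
  swap
  · exact trace_anti (P.sq none) (by rw [P.actP, hs]; simp)
  obtain ⟨r, hr, h1⟩ : ∃ r ∈ (P.π g).cycleType, ¬ Odd r := by
    by_contra h2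
    push Not at h2
    exact h fun r hr => (Multiset.mem_add.1 hr).elim (h2 r) fun e => by
      rw [Multiset.eq_of_mem_replicate e]; exact odd_one
  obtain ⟨f, τ, h2, h3, h4, rfl⟩ := Perm.mem_cycleType_iff.1 hr
  obtain ⟨c, rfl⟩ := P.surj f
  have h5 : P.π (c⁻¹ * g) = τ := by rw [map_mul, map_inv, h2, inv_mul_cancel_left]
  have h6 : Perm.sign (P.π c) = -1 := by rw [h4.sign, (Nat.not_odd_iff_even.1 h1).neg_one_pow]
  have h7 := (sc P c (c⁻¹ * g) (h5 ▸ h3)).2 h6 (by
    rw [map_mul, map_inv, map_mul, Perm.sign_inv, h6, hs, mul_one])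
  have h8 := congrArg P.ρ.character h7
  rw [char_z, P.ρ.char_mul_comm (c⁻¹ * g), neg_eq_iff_eq_neg.symm] at h8
  rw [← mul_inv_cancel_left c g, P.ρ.char_mul_comm]
  linear_combination (-1 / 2 : ℂ) * h8

theorem jobT2 : SC → T2 := fun _ _ _ _ _ _ _ _ _ _ _ P g h => t2 P g h

theorem two_step {x y b : Ω} (h1 : x ≠ y) (h2 : x ≠ b) (h3 : y ≠ b) {h : G}
    (hs : Perm.sign (P.π h) = 1) (hx : P.π h x = x) (hy : P.π h y = y) :
    ∃ t, P.π t = swap x b * swap y b ∧ 2 * P.ρ.character (t * h) = P.ρ.character h := by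
  obtain ⟨s, s1, s2⟩ := P.swp x b h2
  obtain ⟨t, t1, t2⟩ := P.swp y b h3
  refine ⟨s * t, by rw [map_mul, s1, t1], ?_⟩
  have c : ∀ {u v : Ω}, u ≠ v → P.π h u = u → LinearMap.trace ℂ V
      (P.a (some (.inl u)) * P.a (some (.inl v)) * P.ρ h) = 0 := fun {u v} e hu =>
    trace_anti (P.sq (some (.inl u))) (by
      have := P.actγ h u
      rw [hs, hu] at this
      simp only [Units.val_one, Int.cast_one, one_smul] at this
      rw [mul_assoc _ (P.ρ h), this, mul_assoc, mul_assoc, ← mul_neg, ← mul_assoc (P.a (some (.inl v))),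
        P.anti (some (.inl v)) _ (by simpa using e.symm), neg_mul, neg_neg, mul_assoc])
  have c1 := c h1 hx
  have c2 := c h2 hx
  have c3 := c h3 hy
  rw [P.anti _ _ (by simpa using h3), neg_mul, map_neg, neg_eq_zero] at c3
  have e : ((Real.sqrt 2 : ℝ) : ℂ)⁻¹ * ((Real.sqrt 2 : ℝ) : ℂ)⁻¹ = 1 / 2 := by
    rw [← mul_inv, ← Complex.ofReal_mul, Real.mul_self_sqrt (by norm_num)]; norm_num
  simp only [Representation.character, map_mul, s2, t2, smul_mul_assoc, mul_smul_comm,
    sub_mul, mul_sub, P.sq, one_mul, map_smul, map_sub, c1, c2, c3, smul_eq_mul]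
  linear_combination 2 * LinearMap.trace ℂ V (P.ρ h) * e

theorem cyc (k : ℕ) : ∀ c h : G, ((P.π c).IsCycle ∧ (P.π c).support.card = 2 * k + 1) ∨
    (k = 0 ∧ P.π c = 1) → Perm.sign (P.π h) = 1 → Perm.Disjoint (P.π c) (P.π h) →
    P.ρ.character (c * h) ^ 2 * 4 ^ k = P.ρ.character h ^ 2 := by
  induction k with
  | zero =>
    rintro c h (⟨h1, h2⟩ | ⟨-, h1⟩) - -
    · have := h1.two_le_card_support; omega
    · rcases (P.ker c).1 h1 with rfl | rfl <;> simp [char_z]
  | succ k ih =>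
    rintro c h (⟨h1, h2⟩ | ⟨h1, -⟩) hs hd
    swap
    · omega
    obtain ⟨f, hf⟩ : ∃ f, P.π c = f := ⟨_, rfl⟩
    rw [hf] at h1 h2 hd
    obtain ⟨x, hx, -⟩ := id h1
    have x2 : f (f x) ≠ x := fun e => by
      rw [h1.eq_swap_of_apply_apply_eq_self hx e, Perm.card_support_swap hx.symm] at h2; omega
    obtain ⟨y, hy⟩ := f.surjective x
    have n1 : x ≠ y := fun e => hx (by rw [e] at hy ⊢; exact hy)
    have n3 : y ≠ f x := fun e => x2 (by rw [← e, hy])
    have f1 := h1.swap_mul hx x2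
    have f2 := Perm.support_swap_mul_eq f x x2
    have f3 : (swap x (f x) * f) y = f x := by rw [Perm.mul_apply, hy, swap_apply_left]
    have f4 : (swap x (f x) * f).support.card = 2 * k + 2 := by
      rw [f2, Finset.card_sdiff_of_subset (by simpa using hx), h2]; rfl
    generalize hg : swap x (f x) * f = g at f1 f2 f3 f4
    have g1 : g y ≠ y := f3 ▸ n3.symm
    have g2 : (swap y (g y) * g).support ⊆ f.support := fun _ hz =>
      (Finset.mem_sdiff.1 (f2 ▸ (Perm.mem_support_swap_mul_imp_mem_support_ne hz).1)).1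
    obtain ⟨d, hd'⟩ := P.surj (swap y (g y) * g)
    obtain ⟨t, t1, t2⟩ := two_step P n1 hx.symm n3 (h := d * h) (by
        rw [map_mul, hd', ← hg, map_mul, map_mul, map_mul, Perm.sign_swap (hg ▸ g1.symm),
          Perm.sign_swap hx.symm, hs, h1.sign, h2, (Nat.odd_add_one.2 (by simp)).neg_one_pow]
        decide) (by
        rw [map_mul, hd', Perm.mul_apply, (hd x).resolve_left hx, f3, ← hg]
        simp [swap_apply_of_ne_of_ne n1 hx.symm]) (by
        rw [map_mul, hd', Perm.mul_apply, (hd y).resolve_left (hy ▸ n1)]; simp)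
    have h3 := ih d h (by
      rw [hd']
      by_cases e : g (g y) = y
      · have e1 := f1.eq_swap_of_apply_apply_eq_self g1 e
        refine Or.inr ⟨?_, (congrArg (swap y (g y) * ·) e1).trans (swap_mul_self _ _)⟩
        rw [e1, Perm.card_support_swap g1.symm] at f4; omega
      · exact Or.inl ⟨f1.swap_mul g1 e, by
          rw [Perm.support_swap_mul_eq g y e, Finset.card_sdiff_of_subset (by simpa using g1), f4]
          rfl⟩) hs (hd.mono (hd' ▸ g2) le_rfl)
    have h4 : P.ρ.character (c * h) ^ 2 = P.ρ.character (t * (d * h)) ^ 2 := by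
      rcases (P.ker (c * (t * d)⁻¹)).1 (by
        rw [map_mul, map_inv, map_mul, hf, t1, hd', f3, ← hg]; simp [mul_assoc]) with e | e
      · rw [mul_inv_eq_one.1 e, mul_assoc]
      · rw [eq_mul_of_mul_inv_eq e, mul_assoc, char_z, neg_sq, mul_assoc]
    rw [h4, ← h3, ← t2]
    ring

theorem t1_aux (σ : Perm Ω) : (∀ r ∈ σ.cycleType, Odd r) → Perm.sign σ = 1 ∧ ∀ g, P.π g = σ →
    P.ρ.character g ^ 2 * 2 ^ σ.cycleType.sum = 2 ^ (2 * Fintype.card Ω + σ.cycleType.card) := by
  have h0 : P.ρ.character 1 ^ 2 = 2 ^ (2 * Fintype.card Ω) := by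
    rw [Representation.char_one, P.dim, mul_comm, pow_mul]; norm_cast
  have step : ∀ σ τ : Perm Ω, σ.Disjoint τ → σ.IsCycle → Odd σ.support.card → Perm.sign τ = 1 →
      (∀ g, P.π g = τ → P.ρ.character g ^ 2 * 2 ^ τ.cycleType.sum =
        2 ^ (2 * Fintype.card Ω + τ.cycleType.card)) → Perm.sign (σ * τ) = 1 ∧ ∀ g, P.π g = σ * τ →
      P.ρ.character g ^ 2 * 2 ^ (σ * τ).cycleType.sum =
        2 ^ (2 * Fintype.card Ω + (σ * τ).cycleType.card) := fun σ τ h1 h2 h3 h4 h5 => by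
    refine ⟨by rw [map_mul, h4, h2.sign, h3.neg_one_pow]; decide, fun g hg => ?_⟩
    obtain ⟨c, rfl⟩ := P.surj σ
    obtain ⟨k, hk⟩ := h3
    have h6 : P.π (c⁻¹ * g) = τ := by rw [map_mul, map_inv, hg, inv_mul_cancel_left]
    have h7 := cyc P k c (c⁻¹ * g) (Or.inl ⟨h2, hk⟩) (h6 ▸ h4) (h6 ▸ h1)
    have h8 := h5 _ h6
    rw [mul_inv_cancel_left] at h7
    rw [h1.cycleType_mul, h2.cycleType, hk, Multiset.sum_add, Multiset.card_add,
      Multiset.sum_singleton, Multiset.card_singleton, add_comm 1, ← add_assoc, pow_succ _ (_ + _),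
      ← h8, ← h7, pow_add, pow_succ _ (2 * k), pow_mul]
    ring
  have one : ∀ g, P.π g = 1 → P.ρ.character g ^ 2 * 2 ^ (1 : Perm Ω).cycleType.sum =
      2 ^ (2 * Fintype.card Ω + (1 : Perm Ω).cycleType.card) := fun g hg => by
    rcases (P.ker g).1 hg with rfl | rfl
    · simpa using h0
    · rw [← mul_one P.z, char_z]; simpa using h0
  refine Perm.cycle_induction_on (fun σ => (∀ r ∈ σ.cycleType, Odd r) → Perm.sign σ = 1 ∧
    ∀ g, P.π g = σ → P.ρ.character g ^ 2 * 2 ^ σ.cycleType.sum =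
      2 ^ (2 * Fintype.card Ω + σ.cycleType.card)) σ (fun _ => ⟨map_one _, one⟩)
    (fun σ h1 h2 => ?_) fun σ τ h1 h2 _ h3 h4 => ?_
  · simpa using step σ 1 (Perm.disjoint_one_right σ) h1 (h2 _ (by simp [h1.cycleType])) (map_one _) one
  · rw [h1.cycleType_mul] at h4
    obtain ⟨h5, h6⟩ := h3 fun r hr => h4 r (Multiset.mem_add.2 (Or.inr hr))
    exact step σ τ h1 h2 (h4 _ (by simp [h2.cycleType])) h5 h6

theorem jobT1 : T1 := by
  intro Ω G V _ _ _ _ _ _ _ P g h
  have h1 := (t1_aux P _ fun r hr => h r (Multiset.mem_add.2 (Or.inl hr))).2 g rfl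
  have h2 := (P.π g).support.card_le_univ
  refine mul_right_cancel₀ (pow_ne_zero (P.π g).cycleType.sum (two_ne_zero' ℂ)) ?_
  rw [h1, ← pow_add, Perm.parts_partition, Multiset.card_add, Multiset.card_replicate,
    Perm.sum_cycleType]
  congr 1; omega

end H56.SpSC
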