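/- Subgroups of symplectic groups in characteristic two containing many 2-transvections. -/
import Cfsg.Agent.H54.SpMat

set_option autoImplicit false
set_option linter.unusedSectionVars false

namespace H56.SpX

open H54 Matrix

variable {l : Type*} [Fintype l] [DecidableEq l] {F : Type*} [Field F] [CharP F 2]

local notation "B" => spB l F
local notation "V" => l ⊕ l → F

theorem Bc (u v : V) : B u v = B v u := by rw [spB_swap, CharTwo.neg_eq]

theorem add_self (v : V) : v + v = 0 := by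
  rw [← two_smul F, CharTwo.two_eq_zero, zero_smul]

variable (L : Subgroup (symplecticGroup l F))

/-- `L` contains the 2-transvection with parameters `s, u, c`. -/
def Has (s u : V) (c : F) : Prop :=
  ∃ g ∈ L, ∀ v, g • v = v + B v s • u + B v u • s + (c * B v s) • s

/-- Centres of large groups of 2-transvections. -/
def Gd (s : V) : Prop := s ≠ 0 ∧ ∀ u, B u s = 0 → ∃ c, Has L s u c

variable {L} {s s' u u' w a b : l ⊕ l → F} {c c' d : F}

theorem Has.zero (s : V) : Has L s 0 0 := ⟨1, one_mem _, fun v => by simp⟩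

theorem Has.mul (hu : B u s = 0) (hu' : B u' s = 0) (h : Has L s u c) (h' : Has L s u' c') :
    Has L s (u + u') (c + c' + B u u') := by
  obtain ⟨g, hg, e⟩ := h
  obtain ⟨g', hg', e'⟩ := h'
  refine ⟨g * g', mul_mem hg hg', fun v => ?_⟩
  rw [mul_smul, e', e]
  simp only [map_add, map_smul, LinearMap.add_apply, LinearMap.smul_apply, smul_eq_mul, hu', hu,
    spB_self, Bc s u, Bc u' u]
  module

theorem Has.conj {g : symplecticGroup l F} (hg : g ∈ L) (h : Has L s u c) :
    Has L (g • s) (g • u) c := by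
  obtain ⟨k, hk, e⟩ := h
  refine ⟨g * k * g⁻¹, mul_mem (mul_mem hg hk) (inv_mem hg), fun v => ?_⟩
  rw [mul_smul, mul_smul, e]
  simp only [smul_add, sp_smul_smul, smul_inv_smul, spB_inv_smul_left]

theorem has_smul (x : F) : Has L (x • s) u c ↔ Has L s (x • u) (x ^ 2 * c) := by
  refine exists_congr fun g => and_congr_right fun _ => forall_congr' fun v => Eq.congr_right ?_
  simp only [map_smul, smul_eq_mul]
  module

theorem has_shift (x : F) : Has L s (u + x • s) c ↔ Has L s u c := by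
  refine exists_congr fun g => and_congr_right fun _ => forall_congr' fun v => Eq.congr_right ?_
  simp only [map_add, map_smul, smul_eq_mul]
  match_scalars <;> grind

theorem Gd.conj {g : symplecticGroup l F} (hg : g ∈ L) (h : Gd L s) : Gd L (g • s) :=
  ⟨fun e => h.1 ((smul_eq_zero_iff_eq g).1 e), fun u hu => by
    obtain ⟨c, hc⟩ := h.2 (g⁻¹ • u) (by rwa [spB_inv_smul_left])
    exact ⟨c, by simpa using hc.conj hg⟩⟩

theorem Gd.smul {x : F} (hx : x ≠ 0) (h : Gd L s) : Gd L (x • s) :=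
  ⟨smul_ne_zero hx h.1, fun u hu => by
    obtain ⟨c, hc⟩ := h.2 (x • u) (by simpa using hu)
    exact ⟨c / x ^ 2, (has_smul x).2 (by rwa [mul_div_cancel₀ _ (pow_ne_zero 2 hx)])⟩⟩

theorem Has.add_zero (hu : B u s = 0) (h : Has L s u c) (h' : Has L s 0 d) : Has L s u (c + d) := by
  simpa using h.mul hu (by simp) h'

theorem Has.sub (hu : B u s = 0) (h : Has L s u c) (h' : Has L s u d) : Has L s 0 (c + d) := by
  simpa [add_self, spB_self] using h.mul hu hu h'

/-- The image of a vector `b` with `B b s = 1`. -/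
theorem Has.move (h : Has L s u c) (hb : B b s = 1) :
    ∃ g ∈ L, g • b = b + u + (B b u + c) • s := by
  obtain ⟨g, hg, e⟩ := h
  exact ⟨g, hg, by rw [e, hb]; module⟩

theorem exists_perp (hs : s ≠ 0) (h : ∀ x : F, s' ≠ x • s) (β : F) :
    ∃ w, B w s = 0 ∧ B s' w = β := by
  obtain ⟨b, hb⟩ := exists_spB_eq hs (1 : F)
  obtain ⟨v, hv⟩ := exists_spB_eq (u := s' + B s' b • s) (fun e => h (B s' b)
    (add_right_cancel (e.trans (add_self _).symm))) β
  refine ⟨v + B s v • b, ?_, ?_⟩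
  · simp [Bc _ s, hb, CharTwo.add_self_eq_zero]
  · simpa [mul_comm] using hv

theorem Has.comm {e : F} (hs : B s s' = 0) (hw : B w s = 0) (h : Has L s' s d)
    (h' : Has L s w e) : Has L s ((d * B s' w) • s') (d * B s' w ^ 2) := by
  obtain ⟨k, hk, ek⟩ := h'
  obtain ⟨g', hg', e'⟩ := h.conj hk
  obtain ⟨g, hg, e⟩ := h
  refine ⟨g * g', mul_mem hg hg', fun v => ?_⟩
  rw [mul_smul, e', e, ek, ek]
  simp only [map_add, map_smul, LinearMap.add_apply, LinearMap.smul_apply, smul_eq_mul, hw, hs,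
    spB_self, Bc s' s, Bc s w]
  match_scalars <;> grind

theorem Has.sq (hs : B s s' = 0) (h1 : Gd L s) (hi : ∀ x : F, s' ≠ x • s) (h : Has L s' s d)
    (hd : d ≠ 0) (x : F) : Has L s (x • s') (x ^ 2 / d) := by
  obtain ⟨w, hw, e⟩ := exists_perp h1.1 hi (x / d)
  obtain ⟨c, hc⟩ := h1.2 w hw
  have := h.comm hs hw hc
  rwa [e, mul_div_cancel₀ _ hd, show d * (x / d) ^ 2 = x ^ 2 / d by field_simp] at this

theorem indep_symm (h0 : s' ≠ 0) (hi : ∀ x : F, s ≠ x • s') (x : F) : s' ≠ x • s :=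
  fun e => hi x⁻¹ (by
    have : x ≠ 0 := fun h => h0 (by rw [e, h, zero_smul])
    rw [e, inv_smul_smul₀ this])

theorem Has.sq₂ (hs : B s s' = 0) (h1 : Gd L s) (h2 : Gd L s') (hi : ∀ x : F, s' ≠ x • s)
    (h : Has L s' s d) (hd : d ≠ 0) {z : F} (hz : z ≠ 0) : Has L s' 0 ((z ^ 2 + 1) * d) := by
  have h3 := (h.sq hs h1 hi hd z⁻¹).sq (s := z⁻¹ • s') (by simp [Bc s' s, hs])
    (h2.smul (inv_ne_zero hz)) (fun x e => indep_symm h1.1 hi (x * z⁻¹) (by
      rw [e, mul_smul])) (by simp [hz, hd]) z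
  rw [has_smul, inv_smul_smul₀ hz] at h3
  have := h3.sub hs h
  rwa [show z⁻¹ ^ 2 * (z ^ 2 / (z⁻¹ ^ 2 / d)) + d = (z ^ 2 + 1) * d by field_simp] at this

/-- Irreducibility. -/
def Irr (L : Subgroup (symplecticGroup l F)) : Prop :=
  ∀ W : Submodule F V, (∀ g ∈ L, ∀ w ∈ W, g • w ∈ W) → W = ⊥ ∨ W = ⊤

theorem Irr.exists (hL : Irr L) {P : V → Prop} (h1 : ∀ g ∈ L, ∀ s, P s → P (g • s))
    (h2 : ∀ x : F, x ≠ 0 → ∀ s, P s → P (x • s)) (ha : P a) (ha0 : a ≠ 0) {v : V} (hv : v ≠ 0) :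
    ∃ s, P s ∧ B v s = 1 := by
  by_contra h
  push Not at h
  let W : Submodule F V :=
    { carrier := {v | ∀ s, P s → B v s = 0}
      add_mem' := fun hu hv s hs => by simp [hu s hs, hv s hs]
      zero_mem' := fun s _ => by simp
      smul_mem' := fun x v hv s hs => by simp [hv s hs] }
  rcases hL W fun g hg w hw s hs => by
    rw [← inv_inv g, spB_inv_smul_left]; exact hw _ (h1 _ (inv_mem hg) s hs) with e | e
  · refine hv ((Submodule.mem_bot F).1 (e ▸ fun s hs => ?_))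
    by_contra h3
    exact h _ (h2 _ (inv_ne_zero h3) s hs) (by simp [h3])
  · exact ha0 (eq_zero_of_spB_left fun v => by
      rw [Bc]; exact (e ▸ Submodule.mem_top : v ∈ W) a ha)

theorem exists_perp₂ [Nontrivial l] [Fintype F] (a b : V) : ∃ u : V, u ≠ 0 ∧ B u a = 0 ∧ B u b = 0 := by
  obtain ⟨u, v, h1, h2⟩ := Fintype.exists_ne_map_eq_of_card_lt (fun u : V => (B u a, B u b)) (by
    have := Fintype.one_lt_card (α := l)
    rw [Fintype.card_prod, Fintype.card_fun, Fintype.card_sum, ← sq]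
    exact Nat.pow_lt_pow_right Fintype.one_lt_card (by omega))
  rw [Prod.mk.injEq] at h2
  exact ⟨u - v, sub_ne_zero.2 h1, by simp [h2.1], by simp [h2.2]⟩

theorem indep_add (hb : B b a = 1) (hu : B u a = 0) (h0 : u ≠ 0) (x : F) : b ≠ x • (b + u) :=
  fun e => by
    have h1 := congrArg (fun v => B v a) e
    simp only [map_smul, map_add, LinearMap.smul_apply, LinearMap.add_apply, hb, hu, add_zero,
      smul_eq_mul, mul_one] at h1
    rw [← h1, one_smul] at e
    exact h0 (by simpa using e)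

variable [Fintype F]

theorem exists_sq (c : F) : ∃ z : F, z ^ 2 = c :=
  Finite.injective_iff_surjective.1 (frobenius F 2).injective c

/-- If there is a transvection with a good centre then all of them are there. -/
theorem exists_full [Nontrivial l] (hL : Irr L) (ha : Gd L a) (hc : c ≠ 0) (h : Has L a 0 c) :
    ∃ b, Gd L b ∧ ∀ c, Has L b 0 c := by
  by_cases hF : ∀ x : F, x = 0 ∨ x = 1
  · refine ⟨a, ha, fun x => ?_⟩
    rcases hF x with rfl | rfl
    · exact .zero a
    · exact (hF c).resolve_left hc ▸ h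
  push Not at hF
  obtain ⟨e, e0, e1⟩ := hF
  obtain ⟨b, ⟨hb, d, hd, hbd⟩, hab⟩ := hL.exists (P := fun s => Gd L s ∧ ∃ c ≠ 0, Has L s 0 c)
    (fun g hg s ⟨h1, c, h2, h3⟩ => ⟨h1.conj hg, c, h2, by simpa using h3.conj hg⟩)
    (fun x hx s ⟨h1, c, h2, h3⟩ => ⟨h1.smul hx, c / x ^ 2, by simp [h2, hx], (has_smul x).2 (by
      rwa [smul_zero, mul_div_cancel₀ _ (pow_ne_zero 2 hx)])⟩) ⟨ha, c, hc, h⟩ ha.1 ha.1
  rw [Bc] at hab
  obtain ⟨u, u0, ua, ub⟩ := exists_perp₂ a b
  have hx : ∀ x : F, B (x • u) a = 0 := fun x => by simp [ua]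
  choose γ hγ using fun x : F => ha.2 _ (hx x)
  obtain ⟨x, hx0, h1⟩ : ∃ x : F, x ≠ 0 ∧ Has L a (x • u) 0 := by
    have h2 : ∀ p : F × Bool, Has L a (p.1 • u) (γ p.1 + if p.2 then c else 0) := fun p =>
      (hγ p.1).add_zero (hx _) (by split_ifs; exacts [h, .zero a])
    obtain ⟨p, p', h3, h4⟩ := Fintype.exists_ne_map_eq_of_card_lt
      (fun p : F × Bool => γ p.1 + if p.2 then c else 0) (by
        have := Fintype.card_pos (α := F)
        rw [Fintype.card_prod, Fintype.card_bool]; omega)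
    refine ⟨p.1 + p'.1, fun h5 => h3 ?_, ?_⟩
    · obtain ⟨x, i⟩ := p
      obtain ⟨y, j⟩ := p'
      obtain rfl : x = y := CharTwo.add_eq_zero.1 h5
      cases i <;> cases j <;> simp_all
    · have := (h2 p).mul (hx _) (hx _) (h2 p')
      simpa [h4, CharTwo.add_self_eq_zero, spB_self, add_smul] using this
  obtain ⟨g, hg, h2⟩ := h1.move hab
  have h3 : B b (x • u) = 0 := by simp [Bc b u, ub]
  rw [h3, add_zero, zero_smul, add_zero] at h2
  have h4 : B (b + x • u) b = 0 := by simp [spB_self, ub]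
  obtain ⟨d', hd', h5⟩ : ∃ d' ≠ 0, Has L b (b + x • u) d' := by
    obtain ⟨d', h5⟩ := hb.2 _ h4
    by_cases h6 : d' = 0
    · exact ⟨d' + d, by simpa [h6] using hd, h5.add_zero h4 hbd⟩
    · exact ⟨d', h6, h5⟩
  have h6 : ∀ c, c ≠ d' → Has L b 0 c := fun c hc => by
    obtain ⟨z, hz⟩ := exists_sq (c / d' + 1)
    have := h5.sq₂ h4 (h2 ▸ hb.conj hg) hb (indep_add hab (hx x) (smul_ne_zero hx0 u0)) hd'
      (z := z) fun h0 => hc (by
        rw [h0, zero_pow two_ne_zero, eq_comm, CharTwo.add_eq_zero, div_eq_one_iff_eq hd'] at hz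
        exact hz)
    rwa [hz, add_assoc, CharTwo.add_self_eq_zero, add_zero, div_mul_cancel₀ _ hd'] at this
  refine ⟨b, hb, fun c => ?_⟩
  by_cases h7 : c = d'
  · have := (h6 (d' + e * d') (by simp [e0, hd'])).add_zero (by simp) (h6 (e * d') (by
      simpa [hd'] using e1))
    rwa [add_assoc, CharTwo.add_self_eq_zero, add_zero, ← h7] at this
  · exact h6 c h7

theorem eq_top_of_has [Nontrivial l] (hL : Irr L) (ha : Gd L a) (hc : c ≠ 0) (h : Has L a 0 c) :
    L = ⊤ := by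
  obtain ⟨b, hb⟩ := exists_full hL ha hc h
  have key := fun v => hL.exists (P := fun s => Gd L s ∧ ∀ c, Has L s 0 c)
    (fun g hg s h => ⟨h.1.conj hg, fun c => by simpa using (h.2 c).conj hg⟩)
    (fun x hx s h => ⟨h.1.smul hx, fun c => (has_smul x).2 (by simpa using h.2 _)⟩) hb hb.1.1
    (v := v)
  refine eq_top_of_tv_mem L fun v c => ?_
  by_cases hv : v = 0
  · rw [hv, tv_zero_left]; exact one_mem _
  obtain ⟨t, ht, h1⟩ := key v hv
  obtain ⟨b, hb, h2⟩ := key t ht.1.1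
  rw [Bc] at h2
  have h3 : B (v + b) t = 0 := by simp [h1, h2, CharTwo.add_self_eq_zero]
  obtain ⟨d, hd⟩ := ht.1.2 _ h3
  obtain ⟨g, hg, e⟩ := (hd.add_zero h3 (ht.2 (d + B b (v + b)))).move h2
  have h4 : g • b = v := by rw [e]; match_scalars <;> grind
  obtain ⟨k, hk, e'⟩ := (hb.2 c).conj hg
  rwa [show tv v c = k from sp_ext fun w => by rw [e', tv_smul, h4]; simp]

end H56.SpX
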