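/- Subgroups of symplectic groups containing many 2-transvections: the orthogonal case. -/
import Cfsg.Agent.H56.SpX1

set_option autoImplicit false
set_option linter.unusedSectionVars false

namespace H56.SpX

open H54 Matrix

variable {l : Type*} [Fintype l] [DecidableEq l] {F : Type*} [Field F] [CharP F 2]

local notation "B" => spB l F
local notation "V" => l ⊕ l → F

/-- No transvection has a good centre. -/
def Uq (L : Subgroup (symplecticGroup l F)) : Prop := ∀ s c, Gd L s → Has L s 0 c → c = 0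

/-- The parameter vanishes on good vectors. -/
def Zr (L : Subgroup (symplecticGroup l F)) : Prop :=
  ∀ s s', Gd L s → Gd L s' → B s' s = 0 → Has L s s' 0

variable {L : Subgroup (symplecticGroup l F)} {s s' u u' w a b : l ⊕ l → F} {c c' d μ : F}

theorem Uq.eq (hU : Uq L) (hs : Gd L s) (hu : B u s = 0) (h : Has L s u c) (h' : Has L s u d) :
    c = d := CharTwo.add_eq_zero.1 (hU _ _ hs (h.sub hu h'))

theorem Has.symm (h : Has L s u 0) : Has L u s 0 := by
  obtain ⟨g, hg, e⟩ := h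
  exact ⟨g, hg, fun v => by rw [e]; module⟩

theorem Has.gd (h : Has L s u c) (hb : B b s = 1) (h1 : Gd L b) :
    Gd L (b + u + (B b u + c) • s) := by
  obtain ⟨g, hg, e⟩ := h.move hb
  exact e ▸ h1.conj hg

theorem has_add : Has L s (s + u) c ↔ Has L s u c := by
  simpa [add_comm] using has_shift (L := L) (s := s) (u := u) (c := c) 1

theorem exists_perp_pair (hb : B b a = 1) (wa : B w a = 0) (wb : B w b = 0) (w0 : w ≠ 0) :
    ∃ u, B u a = 0 ∧ B u b = 0 ∧ B w u = 1 := by
  obtain ⟨v, hv⟩ := exists_spB_eq w0 (1 : F)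
  exact ⟨v + B v b • a + B v a • b, by simp [spB_self, hb, CharTwo.add_self_eq_zero], by
    simp [spB_self, Bc a b, hb, CharTwo.add_self_eq_zero], by simp [hv, wa, wb]⟩

theorem Zr.gd (hZ : Zr L) (ha : Gd L a) (hb : Gd L b) (hab : B b a = 1) (wa : B w a = 0)
    (wb : B w b = 0) (w0 : w ≠ 0) (h : Gd L (b + w)) : Gd L w := by
  have h1 : Has L b w 0 := has_add.1 (hZ _ _ hb h (by simp [spB_self, wb]))
  have h2 := h1.gd (Bc a b ▸ hab) ha
  obtain ⟨u, u1, -, u3⟩ := exists_perp_pair hab wa wb w0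
  obtain ⟨c, g, hg, e⟩ := ha.2 u u1
  have := h2.conj hg
  rw [e] at this
  convert this using 1
  simp [spB_self, wa, Bc a w, Bc a u, u1, u3, add_comm a w, add_assoc, add_self]

variable [Fintype F]

theorem exists_line (ha : Gd L a) (hu : B u a = 0) (hμ : μ ≠ 0) (hU : Uq L) :
    ∃ x : F, x ≠ 0 ∧ (Has L a (x • u) 0 ∨ Has L a (x • u) μ) := by
  have hx : ∀ x : F, B (x • u) a = 0 := fun x => by simp [hu]
  choose γ hγ using fun x : F => ha.2 _ (hx x)
  by_cases h : Function.Injective γ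
  · obtain ⟨x, rfl⟩ := Finite.injective_iff_surjective.1 h μ
    exact ⟨x, fun h0 => hμ (hU _ _ ha (by simpa [h0] using hγ 0)), .inr (hγ x)⟩
  · obtain ⟨x, y, h1, h2⟩ := Function.not_injective_iff.1 h
    refine ⟨x + y, fun h3 => h2 (CharTwo.add_eq_zero.1 h3), .inl ?_⟩
    simpa [h1, CharTwo.add_self_eq_zero, spB_self, add_smul] using (hγ x).mul (hx _) (hx _) (hγ y)

variable [Nontrivial l] (hU : Uq L) (hZ : Zr L)
include hU hZ

theorem eq_zero_of_gd (ha : Gd L a) (hb : Gd L b) (hab : B b a = 1) (h : Gd L (b + μ • a)) :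
    μ = 0 := by
  by_contra hμ
  obtain ⟨u, u0, ua, ub⟩ := exists_perp₂ a b
  obtain ⟨x, hx, h1⟩ := exists_line ha ua hμ hU
  have w0 := smul_ne_zero hx u0
  have wa : B (x • u) a = 0 := by simp [ua]
  have wb : B (x • u) b = 0 := by simp [ub]
  generalize x • u = w at h1 w0 wa wb
  have hab' : B (b + μ • a) a = 1 := by simp [hab, spB_self]
  have wb' : B w (b + μ • a) = 0 := by simp [wa, wb]
  obtain ⟨h2, h3⟩ : Gd L (b + w) ∧ Gd L (b + μ • a + w) := by
    rcases h1 with h1 | h1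
    · exact ⟨by simpa [Bc b w, wb] using h1.gd hab hb, by
        simpa only [Bc _ w, wb', add_zero, zero_smul] using h1.gd hab' h⟩
    · refine ⟨?_, by simpa [Bc b w, wb, add_right_comm] using h1.gd hab hb⟩
      simpa only [Bc _ w, wb', zero_add, add_right_comm b (μ • a), add_assoc, add_self, add_zero]
        using h1.gd hab' h
  have hw := hZ.gd ha hb hab wa wb w0 h2
  have h4 := (hZ _ _ hw hb (Bc w b ▸ wb)).mul (Bc w b ▸ wb) (Bc w _ ▸ wb')
    (hZ _ _ hw h (Bc w _ ▸ wb'))
  have h5 := hZ _ _ hw (ha.smul hμ) (by simp [Bc a w, wa])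
  rw [← add_assoc, add_self, zero_add] at h4
  have := hU.eq hw (by simp [Bc a w, wa]) h4 h5
  simp [spB_self, hab, hμ] at this

theorem eq_of_gd (ha : Gd L a) (hb : Gd L b) (hab : B b a = 1) (ua : B u a = 0) (ub : B u b = 0)
    (h : Has L a u c) (h1 : Gd L (b + u + μ • a)) : μ = c := by
  have h2 := h.gd (by simp [hab, ua, spB_self]) h1
  rw [show b + u + μ • a + u + (B (b + u + μ • a) u + c) • a = b + (μ + c) • a by
    simp only [map_add, map_smul, LinearMap.add_apply, LinearMap.smul_apply, Bc b u, ub, Bc a u, ua,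
      spB_self, smul_eq_mul]
    match_scalars <;> grind] at h2
  exact CharTwo.add_eq_zero.1 (eq_zero_of_gd hU hZ ha hb hab h2)

theorem Has.swap (ha : Gd L a) (hb : Gd L b) (hab : B b a = 1) (wa : B w a = 0) (wb : B w b = 0)
    (h : Has L a w c) (hc : c ≠ 0) (y : F) (h1 : Has L a (y • w) d) :
    Has L b ((c⁻¹ * y) • w) (c⁻¹ ^ 2 * d) := by
  have h2 := (h.gd hab hb).smul (inv_ne_zero hc)
  obtain ⟨e, he⟩ := (hb.smul (inv_ne_zero hc)).2 w (by simp [wb])
  have h3 : c = e := eq_of_gd hU hZ (hb.smul (inv_ne_zero hc)) (ha.smul hc)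
    (by simp [Bc a b, hab, hc]) (by simp [wb]) (by simp [wa]) he (by
      convert h.gd hab hb using 1
      rw [Bc b w, wb, smul_inv_smul₀ hc]; module)
  subst h3
  obtain ⟨g, hg, e1⟩ := (has_smul _).1 he
  obtain ⟨k, hk, e2⟩ := h
  have h4 := h1.conj (mul_mem hk hg)
  rw [show (k * g) • a = c⁻¹ • b by
      rw [mul_smul, e1, e2]
      simp only [map_add, map_smul, LinearMap.add_apply, LinearMap.smul_apply, Bc a b, hab, Bc a w,
        wa, Bc b w, wb, spB_self, smul_eq_mul]
      match_scalars <;> field_simp <;> grind,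
    show (k * g) • y • w = y • w by
      rw [mul_smul, e1, e2]; simp [wa, wb, spB_self], has_smul, smul_smul] at h4
  exact h4

theorem Has.hom (ha : Gd L a) (hb : Gd L b) (hab : B b a = 1) (ua : B u a = 0) (ub : B u b = 0)
    (h : Has L a u c) (y : F) : Has L a (y • u) (y ^ 2 * c) := by
  rcases eq_or_ne y 0 with rfl | hy
  · simpa using Has.zero a
  have hx : ∀ x : F, B (x • u) a = 0 := fun x => by simp [ua]
  have hx' : ∀ x : F, B (x • u) b = 0 := fun x => by simp [ub]
  by_cases h0 : ∃ x : F, x ≠ 0 ∧ Has L a (x • u) 0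
  · obtain ⟨x, x0, h1⟩ := h0
    rcases eq_or_ne u 0 with rfl | u0
    · rw [hU _ _ ha h]; simpa using Has.zero a
    have h2 := hZ.gd ha hb hab (hx x) (hx' x) (smul_ne_zero x0 u0)
      (by
        have := h1.gd hab hb
        rwa [Bc b, hx', zero_add, zero_smul, _root_.add_zero] at this)
    have h3 : ∀ z : F, z ≠ 0 → Has L a (z • u) 0 := fun z hz => hZ _ _ ha (by
      simpa [smul_smul, x0] using h2.smul (div_ne_zero hz x0)) (hx z)
    rw [hU.eq ha ua h (by simpa using h3 1 one_ne_zero), mul_zero]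
    exact h3 y hy
  have key : ∀ z : F, z ≠ 0 → ∀ x d, Has L a (x • u) d → Has L b ((z⁻¹ * x) • u) (z⁻¹ ^ 2 * d) :=
    fun z hz x d hd => by
      obtain ⟨t, t0, ht⟩ := exists_line ha ua hz hU
      have := Has.swap hU hZ ha hb hab (hx t) (hx' t) (ht.resolve_left fun h => h0 ⟨t, t0, h⟩) hz
        (x / t) (d := d) (by rwa [smul_smul, div_mul_cancel₀ _ t0])
      rwa [smul_smul, mul_assoc, div_mul_cancel₀ _ t0] at this
  obtain ⟨e, he⟩ := ha.2 _ (hx y)
  have h1 := key 1 one_ne_zero y e he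
  have h2 := key y⁻¹ (inv_ne_zero hy) 1 c (by rwa [one_smul])
  simp only [inv_one, one_mul, one_pow, inv_inv, mul_one] at h1 h2
  rwa [← hU.eq hb (hx' y) h1 h2]

theorem exists_form (hL : Irr L) (ha : Gd L a) : ∃ Q : QuadraticForm F V,
    (∀ u v, QuadraticMap.polar Q u v = B u v) ∧ Q a = 0 ∧ (∀ g ∈ L, ∀ v, Q (g • v) = Q v) ∧
      ∀ s u, s ≠ 0 → Q s = 0 → B u s = 0 → Has L s u (Q u) := by
  have hg : ∀ {v : V}, v ≠ 0 → ∃ s, Gd L s ∧ B v s = 1 := fun hv =>
    hL.exists (fun _ hg _ h => h.conj hg) (fun _ hx _ h => h.smul hx) ha ha.1 hv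
  obtain ⟨b, hb, hab⟩ := hg ha.1
  rw [Bc] at hab
  let π : V →ₗ[F] V := LinearMap.id + (LinearMap.flip B b).smulRight a +
    (LinearMap.flip B a).smulRight b
  have hπ : ∀ v, π v = v + B v b • a + B v a • b := fun _ => rfl
  have πa : ∀ v, B (π v) a = 0 := fun v => by simp [hπ, spB_self, hab, CharTwo.add_self_eq_zero]
  have πb : ∀ v, B (π v) b = 0 := fun v => by
    simp [hπ, spB_self, Bc a b, hab, CharTwo.add_self_eq_zero]
  choose γ hγ using fun v => ha.2 _ (πa v)
  have h1 : ∀ v w, B (v + w) b * B (v + w) a + γ (v + w) =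
      (B v b * B v a + γ v) + (B w b * B w a + γ w) + B v w := fun v w => by
    rw [hU.eq ha (πa _) (hγ (v + w)) (map_add π v w ▸ (hγ v).mul (πa _) (πa _) (hγ w)), hπ, hπ]
    simp only [map_add, map_smul, LinearMap.add_apply, LinearMap.smul_apply, Bc a, Bc b w,
      hab, spB_self, smul_eq_mul]
    grind
  let Q : QuadraticForm F V := ⟨fun v => B v b * B v a + γ v, fun x v => by
    rw [hU.eq ha (πa _) (hγ (x • v)) (map_smul π x v ▸ (hγ v).hom hU hZ ha hb hab (πa _) (πb _) x)]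
    simp only [map_smul, LinearMap.smul_apply, smul_eq_mul]; ring, B, h1⟩
  have hQ : ∀ v, Q v = B v b * B v a + γ v := fun _ => rfl
  have h2 : ∀ v w, Q (v + w) = Q v + Q w + B v w := h1
  have h3 : ∀ s, Gd L s → Q s = 0 := fun s hs => by
    by_cases h : B s a = 0
    · rw [hQ, h, hU.eq ha (πa s) (hγ s) (by
        simpa only [hπ, h, zero_smul, add_zero, has_shift] using hZ _ _ ha hs h)]
      simp
    · have h4 : B ((B s a)⁻¹ • s) a = 1 := by simp [h]
      have h5 := hs.smul (inv_ne_zero h)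
      suffices Q ((B s a)⁻¹ • s) = 0 by simpa [Q.map_smul, h] using this
      generalize (B s a)⁻¹ • s = t at h4 h5
      rw [hQ, h4, mul_one, eq_of_gd hU hZ ha hb hab (πa t) (πb t) (hγ t) (μ := B t b) (by
        convert h5 using 1
        rw [hπ, h4]; match_scalars <;> grind), CharTwo.add_self_eq_zero]
  have h4 : ∀ g ∈ L, ∀ v, Q (g • v) = Q v := by
    let W : Submodule F V :=
      { carrier := {v | ∀ g ∈ L, Q (g • v) = Q v}
        add_mem' := fun hu hv g hg => by rw [smul_add, h2, h2, hu g hg, hv g hg, spB_smul]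
        zero_mem' := fun g _ => by rw [smul_zero]
        smul_mem' := fun x v hv g hg => by rw [sp_smul_smul, Q.map_smul, Q.map_smul, hv g hg] }
    rcases hL W fun g hg w hw k hk => by rw [← mul_smul, hw _ (mul_mem hk hg), hw g hg] with e | e
    · exact absurd ((Submodule.mem_bot F).1 (e ▸ fun g hg => by rw [h3 _ (ha.conj hg), h3 a ha])) ha.1
    · exact fun g hg v => (e ▸ Submodule.mem_top : v ∈ W) g hg
  have h5 : ∀ v s (x : F), Q s = 0 → Q (v + x • s) = Q v + x * B v s := fun v s x hs => by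
    simp [h2, Q.map_smul, hs]
  refine ⟨Q, fun u v => by rw [QuadraticMap.polar, h2]; ring, h3 a ha, h4, fun s u s0 hs hu => ?_⟩
  have h6 : Gd L s := by
    obtain ⟨t, ht, e1⟩ := hg s0
    obtain ⟨r, hr, e2⟩ := hg ht.1
    rw [Bc] at e2
    obtain ⟨c, hc⟩ := ht.2 (r + s) (by simp [e1, e2, CharTwo.add_self_eq_zero])
    have h7 := hc.gd e2 hr
    rw [← add_assoc, add_self, zero_add] at h7
    have h8 := h3 _ h7
    rw [h5 _ _ _ (h3 t ht), hs, e1, zero_add, mul_one] at h8
    simpa only [h8, zero_smul, add_zero] using h7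
  obtain ⟨c, hc⟩ := h6.2 u hu
  obtain ⟨r, hr⟩ := exists_spB_eq s0 (1 : F)
  rw [Bc] at hr
  obtain ⟨g, hg, e⟩ := hc.move hr
  have h7 := h4 g hg r
  rw [e, h5 _ _ _ hs, h2, map_add, LinearMap.add_apply, hr, hu] at h7
  rwa [show Q u = c by grind]

end H56.SpX
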