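/- Subgroups of symplectic groups containing many 2-transvections: the exceptional case. -/
import Cfsg.Agent.H56.SpX2
import Cfsg.Agent.H56.SymIdx
import Cfsg.Agent.S0247

set_option autoImplicit false
set_option linter.unusedSectionVars false

namespace H56.SpX

open H54 Matrix

section
variable {l : Type*} [Fintype l] [DecidableEq l] {F : Type*} [Field F] [CharP F 2]

local notation "B" => spB l F
local notation "V" => l ⊕ l → F

variable {L : Subgroup (symplecticGroup l F)} {s s' u u' w a b b' : l ⊕ l → F} {c c' d μ : F}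

theorem Has.move' (hu : B u s = 0) (h : Has L s u c) (hb : B b s = 1) :
    ∃ g ∈ L, g • s = s ∧ g • b = b + u + (B b u + c) • s := by
  obtain ⟨g, hg, e⟩ := h
  exact ⟨g, hg, by simp [e, spB_self, Bc s u, hu], by rw [e, hb]; module⟩

theorem Has.symm_one (hF : ∀ x : F, x = 0 ∨ x = 1) (hU : Uq L) (hs : Gd L s) (hu : Gd L u)
    (h0 : B u s = 0) (h : Has L s u c) : Has L u s c := by
  obtain ⟨e, he⟩ := hu.2 s (Bc u s ▸ h0)
  rcases hF c with rfl | rfl
  · exact h.symm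
  rcases hF e with rfl | rfl
  · exact absurd (hU.eq hs h0 h he.symm) one_ne_zero
  · exact he

theorem all_gd (hL : Irr L) (hU : Uq L) (hZ : ¬ Zr L) :
    (∀ x : F, x = 0 ∨ x = 1) ∧ ∀ v, v ≠ 0 → Gd L v := by
  simp only [Zr, not_forall] at hZ
  obtain ⟨s, s', hs, hs', h0, h1⟩ := hZ
  obtain ⟨d, hd⟩ := hs.2 s' h0
  have d0 : d ≠ 0 := fun h => h1 (h ▸ hd)
  have hF : ∀ x : F, x = 0 ∨ x = 1 := fun x => or_iff_not_imp_left.2 fun hx => by
    have := hU _ _ hs (hd.sq₂ h0 hs' hs (indep_symm hs.1 fun y e => h1 (by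
      simpa [e] using (has_shift (u := 0) y).2 (Has.zero s))) d0 hx)
    rw [mul_eq_zero, or_iff_left d0, ← one_pow 2, ← CharTwo.add_sq, pow_eq_zero_iff two_ne_zero,
      CharTwo.add_eq_zero] at this
    exact this
  obtain rfl := (hF d).resolve_left d0
  obtain ⟨b, hb, hab⟩ := hL.exists (fun _ hg _ h => h.conj hg) (fun _ hx _ h => h.smul hx) hs hs.1 hs.1
  rw [Bc] at hab
  obtain ⟨a, b, ha, hab, hb, hb'⟩ : ∃ a b, Gd L a ∧ B b a = 1 ∧ Gd L b ∧ Gd L (b + a) := by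
    have h2 := hd.gd hab hb
    rcases hF (B b s') with e | e
    · obtain ⟨g, hg, e'⟩ := hd.symm_one hF hU hs hs' h0
      exact ⟨s, b + s', hs, by simp [hab, h0], by simpa [e', e, hab] using hb.conj hg, by
        simpa [e] using h2⟩
    · exact ⟨s', b, hs', e, hb, by simpa [e, CharTwo.add_self_eq_zero] using h2⟩
  refine ⟨hF, fun v hv => ?_⟩
  obtain ⟨t, ht, e⟩ := hL.exists (P := fun s => ∀ v, B v s = 1 → Gd L v)
    (fun g hg s h v hv => by simpa using (h (g⁻¹ • v) (by rwa [spB_inv_smul_left])).conj hg)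
    (fun x hx s h => by rwa [(hF x).resolve_left hx, one_smul]) (a := a) (fun v hv => by
      have h2 : B (b + v) a = 0 := by simp [hab, hv, CharTwo.add_self_eq_zero]
      obtain ⟨c, hc⟩ := ha.2 _ h2
      have h3 := hc.gd hab hb
      have h4 := hc.gd (by simp [hab, spB_self]) hb'
      rw [map_add B b a, LinearMap.add_apply, Bc a, h2, add_zero, add_right_comm b a] at h4
      rw [← add_assoc, add_self, zero_add] at h3 h4
      rcases hF (B b (b + v) + c) with e | e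
      · simpa [-map_add, e] using h3
      · simpa [-map_add, e, add_assoc, add_self] using h4) ha.1 hv
  exact ht v e

variable (hF : ∀ x : F, x = 0 ∨ x = 1) (hU : Uq L) (hG : ∀ v, v ≠ 0 → Gd L v)
include hF hU hG

theorem false_of_vecs (s0 : s ≠ 0) (s0' : s' ≠ 0) (s1 : s + s' ≠ 0) (h1 : B u u' = 1) (h2 : B s s' = 0)
    (h3 : B u s = 0) (h4 : B u s' = 0) (h5 : B u' s = 0) (h6 : B u' s' = 0) : False := by
  have u0 : u ≠ 0 := by rintro rfl; simp at h1
  have u0' : u' ≠ 0 := by rintro rfl; simp at h1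
  have u1 : u + u' ≠ 0 := fun h => by
    simpa [h1, spB_self] using congrArg (B u) h
  obtain ⟨c1, e1⟩ := (hG s s0).2 u h3
  obtain ⟨c2, e2⟩ := (hG s s0).2 u' h5
  obtain ⟨c3, e3⟩ := (hG s' s0').2 u h4
  obtain ⟨c4, e4⟩ := (hG s' s0').2 u' h6
  have sy := fun {s u : V} {c : F} (s0 : s ≠ 0) (u0 : u ≠ 0) =>
    Has.symm_one (c := c) hF hU (hG s s0) (hG u u0)
  have a1 := (sy s0 u1 (by simp [h3, h5]) (e1.mul h3 h5 e2)).mul (by simp [Bc s, h3, h5])
    (by simp [Bc s', h4, h6]) (sy s0' u1 (by simp [h4, h6]) (e3.mul h4 h6 e4))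
  have a2 := sy u0 s1 (by simp [Bc s, Bc s' u, h3, h4])
    ((sy s0 u0 h3 e1).mul (Bc u s ▸ h3) (Bc u s' ▸ h4) (sy s0' u0 h4 e3))
  have a3 := sy u0' s1 (by simp [Bc s, Bc s' u', h5, h6])
    ((sy s0 u0' h5 e2).mul (Bc u' s ▸ h5) (Bc u' s' ▸ h6) (sy s0' u0' h6 e4))
  have a4 := sy s1 u1 (by simp [h3, h4, h5, h6])
    (a2.mul (by simp [h3, h4]) (by simp [h5, h6]) a3)
  have := hU.eq (hG _ u1) (by simp [Bc s, Bc s' u, Bc s' u', h3, h4, h5, h6]) a1 a4
  rw [h1, h2] at this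
  grind

theorem card_le_two : Fintype.card l ≤ 2 := by
  by_contra! h
  obtain ⟨i, j, k, h1, h2, h3⟩ := Fintype.two_lt_card_iff.1 h
  refine false_of_vecs hF hU hG (s := Pi.single (.inl j) 1) (s' := Pi.single (.inl k) 1)
    (u := Pi.single (.inr i) 1) (u' := Pi.single (.inl i) 1) (by simp) (by simp)
    (fun h => by simpa [h3] using congrFun h (.inl j)) ?_ ?_ ?_ ?_ ?_ ?_ <;>
  simp [spB_single_inl_right, h1.symm, h2.symm]

variable [Fintype F] [Nontrivial l]

theorem trans_stab (hb : B b a = 1) (hb' : B b' a = 1) : ∃ g ∈ L, g • a = a ∧ g • b = b' := by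
  have a0 : a ≠ 0 := by rintro rfl; simp at hb
  have h1 : B (b + b') a = 0 := by simp [hb, hb', CharTwo.add_self_eq_zero]
  obtain ⟨c, hc⟩ := (hG a a0).2 _ h1
  obtain ⟨g, hg, e1, e2⟩ := hc.move' h1 hb
  rw [← add_assoc, add_self, zero_add] at e2
  rcases hF (B b (b + b') + c) with e | e
  · exact ⟨g, hg, e1, by rw [e2, e, zero_smul, add_zero]⟩
  rw [e, one_smul] at e2
  obtain ⟨w, wa, wb, hw⟩ : ∃ w, B w a = 0 ∧ B w b' = 0 ∧ Has L a w 1 := by
    obtain ⟨u, u0, ua, ub⟩ := exists_perp₂ a b'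
    obtain ⟨u', ua', ub', h2⟩ := exists_perp_pair hb' ua ub u0
    obtain ⟨c1, e1⟩ := (hG a a0).2 u ua
    obtain ⟨c2, e2⟩ := (hG a a0).2 u' ua'
    rcases hF c1 with rfl | rfl
    · rcases hF c2 with rfl | rfl
      · exact ⟨u + u', by simp [ua, ua'], by simp [ub, ub'], by simpa [h2] using e1.mul ua ua' e2⟩
      · exact ⟨u', ua', ub', e2⟩
    · exact ⟨u, ua, ub, e1⟩
  have h2 : B (b' + a) (a + w) = 1 := by simp [hb', spB_self, Bc b' w, Bc a w, wa, wb]
  obtain ⟨k, hk, e3⟩ := (has_add.2 hw).symm_one hF hU (hG a a0)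
    (hG _ (by rintro h; simp [h] at h2)) (by simp [spB_self, wa])
  refine ⟨k * g, mul_mem hk hg, ?_, ?_⟩
  · simp [mul_smul, e1, e3, spB_self, Bc a w, wa]
  · rw [mul_smul, e2, e3, h2, map_add, LinearMap.add_apply, hb', spB_self]
    match_scalars <;> grind

theorem trans_pair {a' : V} (hb : B b a = 1) (hb' : B b' a' = 1) :
    ∃ g ∈ L, g • a = a' ∧ g • b = b' := by
  obtain ⟨t, h1, h2⟩ : ∃ t, B t a = 1 ∧ B t a' = 1 := by
    rcases hF (B b a') with e | e
    · rcases hF (B b' a) with e' | e'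
      · exact ⟨b + b', by simp [hb, e'], by simp [hb', e]⟩
      · exact ⟨b', e', hb'⟩
    · exact ⟨b, hb, e⟩
  obtain ⟨g, hg, e1, e2⟩ := trans_stab hF hU hG hb h1
  obtain ⟨k, hk, e3, e4⟩ := trans_stab hF hU hG (Bc t a ▸ h1) (Bc t a' ▸ h2)
  obtain ⟨m, hm, e5, e6⟩ := trans_stab hF hU hG h2 hb'
  exact ⟨m * k * g, mul_mem (mul_mem hm hk) hg, by simp [mul_smul, *], by simp [mul_smul, *]⟩

end

theorem card_pairs : Fintype.card {p : (Fin 2 ⊕ Fin 2 → ZMod 2) × (Fin 2 ⊕ Fin 2 → ZMod 2) //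
    ∑ i, (p.2 (.inr i) * p.1 (.inl i) - p.2 (.inl i) * p.1 (.inr i)) = 1} = 120 := by
  decide +kernel

theorem exc_case {F : Type*} [Field F] [CharP F 2] [Fintype F] (hF : ∀ x : F, x = 0 ∨ x = 1)
    (h2 : Fintype.card F = 2) {L : Subgroup (symplecticGroup (Fin 2) F)} (hU : Uq L)
    (hG : ∀ v, v ≠ 0 → Gd L v) :
    L = ⊤ ∨ Nonempty (L ≃* alternatingGroup (Fin 6)) ∨ Nonempty (L ≃* Equiv.Perm (Fin 5)) := by
  obtain ⟨e⟩ := Cfsg.Agent.S0247.result h2
  let σ := ZMod.castHom (dvd_refl 2) F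
  have h1 : spB (Fin 2) F (Pi.single (.inr 0) 1) (Pi.single (.inl 0) 1) = 1 := by
    simp [spB_single_inl_right]
  choose g hg e1 e2 using fun p : {p : (Fin 2 ⊕ Fin 2 → ZMod 2) × (Fin 2 ⊕ Fin 2 → ZMod 2) //
      ∑ i, (p.2 (.inr i) * p.1 (.inl i) - p.2 (.inl i) * p.1 (.inr i)) = 1} =>
    trans_pair hF hU hG h1 (a' := σ ∘ p.1.1) (b' := σ ∘ p.1.2) (by
      simpa [spB_eq_sum, -Fin.sum_univ_two] using congrArg σ p.2)
  have h3 : Nat.card _ ≤ Nat.card L := Nat.card_le_card_of_injective (fun p => (⟨g p, hg p⟩ : L))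
    fun p p' h => by
      have h4 : g p = g p' := congrArg Subtype.val h
      exact Subtype.ext (Prod.ext (σ.injective.comp_left ((e1 p).symm.trans (h4 ▸ e1 p')))
        (σ.injective.comp_left ((e2 p).symm.trans (h4 ▸ e2 p'))))
  rw [Nat.card_eq_fintype_card, card_pairs] at h3
  let H := L.map e.toMonoidHom
  let φ : L ≃* H := e.subgroupMap L
  have h4 := H.card_mul_index
  rw [← Nat.card_congr φ.toEquiv, Nat.card_perm, Nat.card_fin] at h4
  by_cases h5 : alternatingGroup (Fin 6) ≤ H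
  · have h6 := Sym.index_le_two h5
    have h7 := H.index_ne_zero_of_finite
    by_cases h8 : H.index = 1
    · refine .inl (Subgroup.map_injective (f := e.toMonoidHom) e.injective ?_)
      rw [Subgroup.map_top_of_surjective _ e.surjective]
      exact Subgroup.index_eq_one.1 h8
    · exact .inr (.inl ⟨φ.trans (MulEquiv.subgroupCongr
        (Equiv.Perm.eq_alternatingGroup_of_index_eq_two (by omega)))⟩)
  · have h6 : 6 ≤ H.index := by simpa using Sym.card_le_index (by simp) h5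
    obtain ⟨ψ⟩ := Sym.equiv_five (H := H) (by simp) (by
      have : Nat.factorial 6 = 720 := rfl
      nlinarith)
    exact .inr (.inr ⟨φ.trans ψ⟩)

end H56.SpX
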