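/- Overgroups of the Eichler group in characteristic two. -/
import Cfsg.Agent.H56.OmegaGen
import Cfsg.Agent.H56.OmegaFin

set_option autoImplicit false
set_option linter.unusedSectionVars false

namespace H56.SpX

open Module QuadraticMap

variable {F V : Type*} [Field F] [AddCommGroup V] [Module F V] [FiniteDimensional F V]
  {Q : QuadraticForm F V} (hQ : Q.polarBilin.Nondegenerate)

theorem eq_one_of_rk {g : O Q} (h : g.rk = 0) : g = 1 := O.ext fun x => sub_eq_zero.1 (by
  have := g.sub_mem_mov x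
  rwa [Submodule.finrank_eq_zero.1 h, Submodule.mem_bot] at this)

include hQ

theorem eq_refl_of_rk {g : O Q} (h : g.rk = 1) : ∃ b, Q b ≠ 0 ∧ g = refl Q b := by
  obtain ⟨⟨_, y, rfl⟩, b0, hb⟩ := finrank_eq_one_iff'.1 h
  have h1 : Q (g y - y) ≠ 0 := fun h0 => b0 (Subtype.ext (sub_eq_zero.2 (O.mem_fix.1 (by
    rw [← O.perp_mov hQ, mem_perp]
    intro w hw
    obtain ⟨c, e⟩ := hb ⟨w, hw⟩
    have e' : c • (g y - y) = w := congrArg Subtype.val e
    rw [Q_sub, g.map_Q] at h0
    rw [← e', polar_smul_left, polar_sub_left, polar_self', smul_eq_mul]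
    linear_combination (-c) * h0))))
  have h2 := (wall_mul_refl_of_mem hQ g h1 (g.sub_mem_mov y)).1
  exact ⟨_, h1, by rw [← refl_inv, ← mul_eq_one_iff_eq_inv]; exact eq_one_of_rk (by omega)⟩

theorem dickson_eich' (h4 : finrank F V = 4) (u v : V) : dickson hQ (eich Q u v) = 1 := by
  by_cases h : Q u = 0 ∧ polar Q u v = 0
  · have := dickson_eich (nondegenerate_prod hQ (hypQ_nondegenerate F))
      (not_isExc_of_finrank (by simp [h4])) (u, 0) (v, 0)
    rw [show eich (Q.prod (hypQ F)) (u, 0) (v, 0) = O.prodHom Q (hypQ F) (eich Q u v, 1) from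
      O.ext fun x => by
        rw [eich_apply (by simp [h.1]) (by simp [h.2])]
        ext <;> simp [eich_apply h.1 h.2], dickson_prodHom hQ (hypQ_nondegenerate F)] at this
    simpa using this
  · rw [eich_of_not h, map_one]

theorem EG_iff [Finite F] (h2 : (2 : F) = 0) (h3 : 3 ≤ finrank F V) {e : V} (he : e ≠ 0)
    (hQe : Q e = 0) (g : O Q) : g ∈ EG Q ↔ dickson hQ g = 1 := by
  by_cases hE : IsExc Q
  swap
  · have := SqCl.subsingleton_of_char_two h2
    rw [mem_EG_iff hQ hE h3 ⟨e, he, hQe⟩, and_iff_left (Subsingleton.elim _ _)]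
  have hk : EG Q ≤ (dickson hQ).ker := EG_le fun u v _ _ _ => dickson_eich' hQ hE.2.1 u v
  refine ⟨fun h => hk h, fun hg => ?_⟩
  obtain ⟨f, h⟩ := exists_isHyp hQ he hQe
  obtain ⟨k, hk1, c, c0, e1⟩ := h.exists_EG_apply_eq_smul hQ h3 (x := g e) (by simpa) (by simpa)
  rw [(hE.1 c).resolve_left c0, one_smul] at e1
  have h' := (h.map g).map k
  rw [e1] at h'
  obtain ⟨v, e2⟩ := h.exists_eich_apply (x := k (g f)) (by rw [h'.ef]; exact one_ne_zero)
  rw [h'.ef, h'.qf, zero_div, zero_smul, zero_add, one_smul] at e2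
  have e3 : eich Q e v e = e := by
    by_cases h0 : polar Q e v = 0
    · exact eich_apply_self hQe h0
    · rw [eich_of_not fun h => h0 h.2, O.one_apply]
  have hm := mul_mem (eich_mem_EG (Q := Q) e v) hk1
  rw [← (EG Q).mul_mem_cancel_left hm]
  have a1 : dickson hQ (eich Q e v * k * g) = 1 := by rw [map_mul, hk hm, hg, mul_one]
  have a2 : Submodule.span F {e, f} ≤ (eich Q e v * k * g).fix := Submodule.span_le.2 (by
    rintro _ (rfl | rfl) <;> simp [O.mem_fix, e1, e2, e3])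
  generalize eich Q e v * k * g = t at a1 a2
  have a3 := t.rk_add_finrank_fix
  have a4 := Submodule.finrank_mono a2
  rw [finrank_span_pair h.linearIndependent] at a4
  rw [hE.2.1] at a3
  obtain ⟨r, hr⟩ := (dickson_eq_one_iff hQ t).1 a1
  by_cases h0 : t.rk = 0
  · rw [eq_one_of_rk h0]; exact one_mem _
  obtain ⟨a, b1, b2, b3⟩ := h.exists_perp_Q_ne hQ h3
  have a5 := (wall_mul_refl_of_mem hQ t b3 (by
    rw [← O.perp_fix hQ, ← Submodule.eq_of_le_of_finrank_eq a2 (by
      rw [finrank_span_pair h.linearIndependent]; omega)]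
    exact mem_perp_span_pair.2 ⟨b1, b2⟩)).1
  obtain ⟨b, b4, e4⟩ := eq_refl_of_rk hQ (g := t * refl Q a) (by omega)
  obtain ⟨x, x0, ex⟩ := h.exists_mk_refl hQ b3
  obtain ⟨y, y0, ey⟩ := h.exists_mk_refl hQ b4
  rw [(hE.1 x).resolve_left x0] at ex
  rw [(hE.1 y).resolve_left y0, ← ex, QuotientGroup.eq, ← e4] at ey
  simpa [← mul_assoc, mul_assoc t] using (EG Q).inv_mem ((Subgroup.Normal.conj_mem inferInstance _ ey (refl Q a)))

theorem top_or_even [Finite F] (h2 : (2 : F) = 0) (h3 : 3 ≤ finrank F V) {e : V} (he : e ≠ 0)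
    (hQe : Q e = 0) {M : Subgroup (O Q)} (hM : EG Q ≤ M) : M = ⊤ ∨ ∀ g, g ∈ M ↔ Even g.rk := by
  have h := EG_iff hQ h2 h3 he hQe
  by_cases h0 : ∀ g ∈ M, dickson hQ g = 1
  · exact .inr fun g => by rw [← dickson_eq_one_iff hQ]; exact ⟨h0 g, fun hg => hM ((h g).2 hg)⟩
  push Not at h0
  obtain ⟨k, hk, h1⟩ := h0
  refine .inl (eq_top_iff.2 fun g _ => ?_)
  rcases Int.units_eq_one_or (dickson hQ g) with e | e
  · exact hM ((h g).2 e)
  · exact (M.mul_mem_cancel_left hk).1 (hM ((h _).2 (by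
      rw [map_mul, e, (Int.units_eq_one_or (dickson hQ k)).resolve_left h1]; simp)))

end H56.SpX
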