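/- Large subgroups of the unipotent radical of a point stabiliser in a symplectic group. -/
import Cfsg.Agent.H56.SpX3
import Cfsg.Agent.H56.SpX4
import Cfsg.Agent.H54.SpAutDefs
import Cfsg.Agent.H90.PermMod
import Cfsg.Agent.H2.Core

set_option autoImplicit false
set_option linter.unusedSectionVars false

namespace H56.SpX

open H54 Matrix

variable {l : Type} [Fintype l] [DecidableEq l] {F : Type*} [Field F] [CharP F 2] [Fintype F]

local notation "B" => spB l F
local notation "V" => l ⊕ l → F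

variable {a b : l ⊕ l → F}

theorem triv_of_normal [Nontrivial l] (ha : a ≠ 0)
    (N : Subgroup (MulAction.stabilizer (symplecticGroup l F) a)) [hN : N.Normal]
    (hp : IsPGroup 2 N) (x : MulAction.stabilizer (symplecticGroup l F) a) (hx : x ∈ N) (u : V)
    (hu : B u a = 0) : ∃ c : F, x.1 • u = u + c • a := by
  classical
  have key : ∀ v, (∀ x ∈ N, x.1 • v - v ∈ Submodule.span F {a}) →
      ∀ g : symplecticGroup l F, g • a = a → x.1 • g • v - g • v ∈ Submodule.span F {a} :=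
    fun v hv g hg => by
      obtain ⟨c, e⟩ := Submodule.mem_span_singleton.1 (hv _ (hN.conj_mem' x hx ⟨g, hg⟩))
      refine Submodule.mem_span_singleton.2 ⟨c, ?_⟩
      have := congrArg (g • ·) e
      simpa [sp_smul_smul, hg, smul_sub, mul_smul] using this
  let ρ := (Representation.ofDistribMulAction F N V).quotient (Submodule.span F {a}) fun g =>
    (Submodule.span_singleton_le_iff_mem _ _).2
      (Submodule.mem_span_singleton.2 ⟨1, (one_smul _ _).trans g.1.2.symm⟩)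
  obtain ⟨v, -, v0, hv⟩ := H90.exists_fixed_of_isPGroup (p := 2) hp ρ ⊤ (by
    obtain ⟨b, hb⟩ := exists_spB_eq ha (1 : F)
    refine (Submodule.ne_bot_iff _).2 ⟨Submodule.Quotient.mk b, trivial, fun h => ?_⟩
    obtain ⟨c, rfl⟩ := Submodule.mem_span_singleton.1 ((Submodule.Quotient.mk_eq_zero _).1 h)
    simp [spB_self] at hb) fun _ _ _ => trivial
  obtain ⟨v, rfl⟩ := Submodule.Quotient.mk_surjective _ v
  have h1 : ∀ x ∈ N, x.1 • v - v ∈ Submodule.span F {a} := fun x hx =>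
    (Submodule.Quotient.eq _).1 (hv ⟨x, hx⟩)
  have li : ∀ w : V, w ∉ Submodule.span F {a} → LinearIndependent F ![a, w] := fun w hw =>
    (LinearIndependent.pair_iff' ha).2 fun c e => hw (Submodule.mem_span_singleton.2 ⟨c, e⟩)
  replace v0 : v ∉ Submodule.span F {a} := fun h => v0 ((Submodule.Quotient.mk_eq_zero _).2 h)
  suffices x.1 • u - u ∈ Submodule.span F {a} by
    obtain ⟨c, e⟩ := Submodule.mem_span_singleton.1 this
    exact ⟨c, by rw [e, add_sub_cancel]⟩
  by_cases h2 : u ∈ Submodule.span F {a}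
  · obtain ⟨c, rfl⟩ := Submodule.mem_span_singleton.1 h2
    rw [sp_smul_smul, show x.1 • a = a from x.2, sub_self]
    exact zero_mem _
  by_cases h3 : B a v = 0
  · obtain ⟨g, e1, e2⟩ := sp_witt_pair (li v v0) (li u h2) (by rw [h3, Bc, hu])
    exact e2 ▸ key v h1 g e1
  · obtain ⟨g, e1, e2⟩ := sp_witt_pair (li v v0) (linearIndependent_pair_of_spB_ne_zero
      (u := a) (v := v + u) (by simpa [Bc a u, hu])) (by simp [Bc a u, hu])
    have := Submodule.sub_mem _ (key v h1 g e1) (h1 x hx)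
    rwa [e2, smul_add, show x.1 • v + x.1 • u - (v + u) - (x.1 • v - v) = x.1 • u - u by abel] at this

theorem smul_eq_of_triv (hb : B b a = 1) {x : symplecticGroup l F} (h1 : x • a = a)
    (h2 : ∀ u, B u a = 0 → ∃ c : F, x • u = u + c • a) (v : V) : x • v =
      v + B v a • (x • b + b) + B v (x • b + b) • a + (B b (x • b + b) * B v a) • a := by
  have h3 : B a (x • b) = 1 := by rw [← h1, spB_smul, Bc, hb]
  obtain ⟨c, e⟩ := h2 (v + B v a • b) (by simp [hb, CharTwo.add_self_eq_zero])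
  have h4 := spB_smul x (v + B v a • b) b
  rw [e] at h4
  rw [smul_add, sp_smul_smul, ← eq_sub_iff_add_eq] at e
  simp only [map_add, map_smul, LinearMap.add_apply, LinearMap.smul_apply, h3, spB_self,
    smul_eq_mul] at h4 ⊢
  rw [e]
  generalize x • b = y at *
  match_scalars <;> grind

theorem gd_of_card (ha : a ≠ 0) {X : Subgroup (symplecticGroup l F)} (h1 : ∀ x ∈ X, x • a = a)
    (h2 : ∀ x ∈ X, ∀ u, B u a = 0 → ∃ c : F, x • u = u + c • a)
    (hc : Fintype.card F ^ (2 * Fintype.card l) ≤ Nat.card X * Fintype.card F ^ 2)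
    (ht : ∀ c, tv a c ∈ X → c = 0) : Gd X a := by
  obtain ⟨b, hb⟩ := exists_spB_eq ha (1 : F)
  have hb' := hb
  rw [Bc] at hb
  have hw : ∀ x ∈ X, B (x • b + b) a = 0 := fun x hx => by
    rw [map_add, LinearMap.add_apply, ← h1 x hx, spB_smul, h1 x hx, CharTwo.add_self_eq_zero]
  have hh : ∀ x ∈ X, Has X a (x • b + b) (B b (x • b + b)) := fun x hx =>
    ⟨x, hx, smul_eq_of_triv hb (h1 x hx) (h2 x hx)⟩
  let φ : X → {u : V // B u a = 0 ∧ B u b = 0} := fun x =>
    ⟨x.1 • b + b + B (x.1 • b + b) b • a, by simp [-map_add, map_add B (x.1 • b + b), hw _ x.2,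
      spB_self], by simp [-map_add, map_add B (x.1 • b + b), hb', CharTwo.add_self_eq_zero]⟩
  have hi : Function.Injective φ := fun x y h => by
    have e : x.1 • b + b + _ = y.1 • b + b + _ := congrArg Subtype.val h
    have a1 := (has_shift (B (x.1 • b + b) b)).2 (hh x x.2)
    obtain ⟨g, hg, e'⟩ := a1.sub (φ x).2.1 (e ▸ (has_shift (B (y.1 • b + b) b)).2 (hh y y.2))
    have a2 := ht (B b (x.1 • b + b) + B b (y.1 • b + b)) (by
      rwa [show tv a _ = g from sp_ext fun w => by rw [e', tv_smul]; simp [-map_add]])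
    rw [Bc _ b, Bc _ b, CharTwo.add_eq_zero.1 a2, add_left_inj] at e
    exact Subtype.ext (sp_ext fun v => by
      rw [smul_eq_of_triv hb (h1 x x.2) (h2 x x.2), smul_eq_of_triv hb (h1 y y.2) (h2 y y.2), e])
  have h3 := Nat.card_le_card_of_injective (fun p : {u : V // B u a = 0 ∧ B u b = 0} × F × F =>
    p.1.1 + p.2.1 • a + p.2.2 • b) fun p p' h => by
      have a1 : p.2.2 = p'.2.2 := by
        simpa [p.1.2.1, p'.1.2.1, spB_self, hb] using congrArg (fun v => B v a) h
      have a2 : p.2.1 = p'.2.1 := by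
        simpa [p.1.2.2, p'.1.2.2, spB_self, hb'] using congrArg (fun v => B v b) h
      exact Prod.ext (Subtype.ext (by simpa [a1, a2] using h)) (Prod.ext a2 a1)
  rw [Nat.card_prod, Nat.card_prod, Nat.card_fun, Nat.card_sum, Nat.card_eq_fintype_card (α := F),
    Nat.card_eq_fintype_card (α := l), ← sq, ← two_mul] at h3
  have h4 := (hi.bijective_of_nat_card_le (Nat.le_of_mul_le_mul_right (h3.trans hc)
    (pow_pos Fintype.card_pos 2))).2
  refine ⟨ha, fun u hu => ?_⟩
  obtain ⟨x, e⟩ := h4 ⟨u + B u b • a, by simp [hu, spB_self], by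
    simp [hb', CharTwo.add_self_eq_zero]⟩
  have e' : x.1 • b + b + _ = u + _ := congrArg Subtype.val e
  exact ⟨_, (has_shift _).1 (e' ▸ (has_shift _).2 (hh x x.2))⟩

theorem mem_pres {g : GL (l ⊕ l) F} : g ∈ Cfsg.preserving (Units.coeHom (Matrix (l ⊕ l) (l ⊕ l) F))
    (fun u v : V => ∑ i, (u (.inl i) * v (.inr i) + u (.inr i) * v (.inl i))) ↔
      g ∈ (spToGL l F).range := by
  have h : (fun u v : V => ∑ i, (u (.inl i) * v (.inr i) + u (.inr i) * v (.inl i))) =
      fun u v => B u v := by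
    funext u v
    simp only [spB_eq_sum, CharTwo.sub_eq_add, add_comm]
  rw [h]
  exact ⟨fun hg => ⟨⟨g, mem_sp_iff.2 hg⟩, Units.ext rfl⟩, by rintro ⟨g, rfl⟩; exact spB_smul g⟩

theorem rank_tv (ha : a ≠ 0) {c : F} (hc : c ≠ 0) :
    ((tv a c : Matrix (l ⊕ l) (l ⊕ l) F) - 1).rank = 1 := by
  rw [Matrix.rank, ← finrank_span_singleton (K := F) ha]
  suffices LinearMap.range ((tv a c : Matrix (l ⊕ l) (l ⊕ l) F) - 1).mulVecLin =
    Submodule.span F {a} by rw [this]
  have h : ∀ w, ((tv a c : Matrix (l ⊕ l) (l ⊕ l) F) - 1).mulVecLin w = (c * B w a) • a :=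
    fun w => by simp [tv_coe, tvMat_mulVec]
  obtain ⟨b, hb⟩ := exists_spB_eq ha c⁻¹
  refine le_antisymm ?_ (Submodule.span_le.2 ?_)
  · rintro _ ⟨w, rfl⟩
    exact Submodule.mem_span_singleton.2 ⟨_, (h w).symm⟩
  · rintro _ rfl
    exact ⟨b, by rw [h, Bc, hb, mul_inv_cancel₀ hc, one_smul]⟩

theorem orth_case [Nontrivial l] (ha : a ≠ 0) {L : Subgroup (symplecticGroup l F)}
    {Q : QuadraticForm F V} (h1 : ∀ u v, QuadraticMap.polar Q u v = B u v) (h2 : Q a = 0)
    (h3 : ∀ g ∈ L, ∀ v, Q (g • v) = Q v)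
    (h4 : ∀ s u, s ≠ 0 → Q s = 0 → B u s = 0 → Has L s u (Q u)) :
    L.map (spToGL l F) = Cfsg.isometryGroup F Q ∨ ∀ g : GL (l ⊕ l) F, g ∈ L.map (spToGL l F) ↔
      g ∈ Cfsg.isometryGroup F Q ∧ Even ((g : Matrix (l ⊕ l) (l ⊕ l) F) - 1).rank := by
  have hQ : Q.polarBilin.Nondegenerate := nondegenerate_of_polar fun x hx =>
    eq_zero_of_spB_left fun v => by rw [← h1, hx]
  have hle : L.map (spToGL l F) ≤ Cfsg.isometryGroup F Q := by
    rintro _ ⟨g, hg, rfl⟩
    exact mem_isometryGroup.2 (h3 g hg)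
  let M := (L.map (spToGL l F)).comap
    ((Cfsg.isometryGroup F Q).subtype.comp (toO Q rfl).symm.toMonoidHom)
  have hM : ∀ g : Cfsg.isometryGroup F Q, toO Q rfl g ∈ M ↔ g.1 ∈ L.map (spToGL l F) :=
    fun g => by simp [M, -Subgroup.mem_map]
  rcases top_or_even hQ CharTwo.two_eq_zero (by
    have := Fintype.one_lt_card (α := l)
    simp; omega) ha h2 (M := M) (EG_le fun s u s0 hs hu => by
      obtain ⟨g, hg, e⟩ := h4 s u s0 hs (by rwa [Bc, ← h1])
      refine ⟨g, hg, gl_ext_smul fun v => (e v).trans ?_⟩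
      refine Eq.trans ?_ (toO_symm_mulVec Q rfl _ v).symm
      rw [eich_apply hs hu, h1, h1, Bc u v, Bc s v]
      match_scalars <;> grind) with h | h
  · exact .inl (le_antisymm hle fun g hg => (hM ⟨g, hg⟩).1 (h ▸ Subgroup.mem_top _))
  · have hr : ∀ g : Cfsg.isometryGroup F Q,
        (toO Q rfl g).rk = ((g.1 : Matrix (l ⊕ l) (l ⊕ l) F) - 1).rank := fun g => by
      rw [O.rk, O.mov, lin_toO, Matrix.rank, ← Matrix.toLin'_one, ← map_sub]; rfl
    exact .inr fun g => ⟨fun hg => ⟨hle hg, hr ⟨g, hle hg⟩ ▸ (h _).1 ((hM ⟨g, hle hg⟩).2 hg)⟩,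
      fun hg => (hM ⟨g, hg.1⟩).1 ((h _).2 ((hr ⟨g, hg.1⟩).symm ▸ hg.2))⟩

end H56.SpX
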