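import Cfsg.Agent.Base

/-! A group `Γ` acting on a directed graph: the group of pairs (path from the base vertex `x₀` to
`γ • x₀`, `γ`) inside `FreeGroup E ⋊ Γ`, and its finite subgroups. -/

set_option autoImplicit false

namespace H56.VF

open FreeGroup

variable {Γ E X : Type*} [Group Γ] [MulAction Γ E] [MulAction Γ X]

/-- The action on letters. -/
def lt (γ : Γ) (a : E × Bool) : E × Bool := (γ • a.1, a.2)

variable (Γ E) in
/-- The action on the free group. -/
def act : Γ →* MulAut (FreeGroup E) :=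
  MonoidHom.mk' (fun γ => freeGroupCongr (MulAction.toPerm γ)) fun a b => by
    ext x
    change map _ x = map _ (map _ x)
    rw [map.comp]
    congr 2
    ext e
    exact mul_smul a b e

theorem act_mk (γ : Γ) (l : List (E × Bool)) : act Γ E γ (mk l) = mk (l.map (lt γ)) := rfl

theorem lt_injective (γ : Γ) : Function.Injective (lt γ : E × Bool → E × Bool) := fun a b h => by
  simp only [lt, Prod.mk.injEq, smul_left_cancel_iff] at h
  exact Prod.ext h.1 h.2

theorem toWord_act [DecidableEq E] (γ : Γ) (w : FreeGroup E) :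
    (act Γ E γ w).toWord = w.toWord.map (lt γ) := by
  conv_lhs => rw [← mk_toWord (x := w), act_mk, toWord_mk]
  refine IsReduced.reduce_eq ?_
  rw [FreeGroup.IsReduced, List.isChain_map]
  exact List.IsChain.imp (fun a b h h' => h (smul_left_cancel γ h')) isReduced_toWord

theorem norm_act [DecidableEq E] (γ : Γ) (w : FreeGroup E) : (act Γ E γ w).norm = w.norm := by
  simp [FreeGroup.norm, toWord_act]

/-- An equivariant directed graph. -/
structure Gr (Γ E X : Type*) [Group Γ] [MulAction Γ E] [MulAction Γ X] where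
  /-- source -/
  src : E → X
  /-- target -/
  tgt : E → X
  src_smul : ∀ (γ : Γ) e, src (γ • e) = γ • src e
  tgt_smul : ∀ (γ : Γ) e, tgt (γ • e) = γ • tgt e

namespace Gr

variable (G : Gr Γ E X)

/-- The initial vertex of a letter. -/
def s (a : E × Bool) : X := if a.2 then G.src a.1 else G.tgt a.1

/-- The final vertex of a letter. -/
def t (a : E × Bool) : X := G.s (a.1, !a.2)

theorem s_lt (γ : Γ) (a : E × Bool) : G.s (lt γ a) = γ • G.s a := by
  obtain ⟨e, b⟩ := a
  cases b <;> simp [s, lt, G.src_smul, G.tgt_smul]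

theorem t_lt (γ : Γ) (a : E × Bool) : G.t (lt γ a) = γ • G.t a := G.s_lt γ (a.1, !a.2)

/-- Paths. -/
def Path : X → List (E × Bool) → X → Prop
  | x, [], y => x = y
  | x, a :: l, y => G.s a = x ∧ Path (G.t a) l y

variable {G} {x y z : X} {l m : List (E × Bool)}

theorem path_append : G.Path x (l ++ m) z ↔ ∃ y, G.Path x l y ∧ G.Path y m z := by
  induction l generalizing x with
  | nil => simp [Path]
  | cons a l ih => simp [Path, ih, and_assoc]

theorem Path.red (h : G.Path x l y) (hr : Red l m) : G.Path x m y := by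
  induction hr with
  | refl => exact h
  | tail _ h1 ih =>
    cases h1 with
    | @not L₁ L₂ e b =>
      obtain ⟨u, h2, h3, -, h4⟩ := path_append.1 ih
      refine path_append.2 ⟨u, h2, ?_⟩
      rwa [t, Bool.not_not, h3] at h4

theorem Path.inv (h : G.Path x l y) : G.Path y (invRev l) x := by
  induction l generalizing x with
  | nil => exact Eq.symm h
  | cons a l ih =>
    rw [invRev_cons]
    exact path_append.2 ⟨_, ih h.2, rfl, by simpa [t, Path] using h.1⟩

theorem Path.smul (h : G.Path x l y) (γ : Γ) : G.Path (γ • x) (l.map (lt γ)) (γ • y) := by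
  induction l generalizing x with
  | nil => exact congrArg _ h
  | cons a l ih => exact ⟨by rw [s_lt, h.1], by rw [t_lt]; exact ih h.2⟩

theorem Path.ind (h : G.Path x l y) {M : X → Prop} (hM : ∀ a ∈ l, M (G.s a) → M (G.t a))
    (hx : M x) : M y := by
  induction l generalizing x with
  | nil => exact h ▸ hx
  | cons a l ih =>
    exact ih h.2 (fun b hb => hM b (List.mem_cons_of_mem _ hb))
      (hM a List.mem_cons_self (h.1 ▸ hx))

variable (G) in
/-- The group of paths. -/
def PG (x₀ : X) : Subgroup (FreeGroup E ⋊[act Γ E] Γ) where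
  carrier := {g | ∃ l, FreeGroup.mk l = g.left ∧ G.Path x₀ l (g.right • x₀)}
  one_mem' := ⟨[], rfl, by simp [Path]⟩
  mul_mem' := by
    rintro g h ⟨l, h1, h2⟩ ⟨m, h3, h4⟩
    refine ⟨l ++ m.map (lt g.right), ?_, path_append.2 ⟨_, h2, ?_⟩⟩
    · rw [SemidirectProduct.mul_left, ← h1, ← h3, act_mk, mul_mk]
    · rw [SemidirectProduct.mul_right, mul_smul]
      exact h4.smul _
  inv_mem' := by
    rintro g ⟨l, h1, h2⟩
    refine ⟨(invRev l).map (lt g.right⁻¹), ?_, ?_⟩
    · rw [SemidirectProduct.inv_left, ← h1, inv_mk, act_mk]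
    · simpa using h2.inv.smul g.right⁻¹

variable {x₀ : X} {g : FreeGroup E ⋊[act Γ E] Γ}

theorem path_toWord [DecidableEq E] (h : g ∈ G.PG x₀) :
    G.Path x₀ g.left.toWord (g.right • x₀) := by
  obtain ⟨l, h1, h2⟩ := h
  rw [← h1, toWord_mk]
  exact h2.red reduce.red

theorem smul_eq_of_left (h : g ∈ G.PG x₀) (h1 : g.left = 1) : g.right • x₀ = x₀ := by
  classical
  have := path_toWord h
  rw [h1, toWord_one] at this
  exact Eq.symm this

theorem inr_mem {γ : Γ} (h : γ • x₀ = x₀) : SemidirectProduct.inr γ ∈ G.PG x₀ :=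
  ⟨[], rfl, h.symm⟩

theorem letter_mem {γ : Γ} {a : E × Bool} (h : G.s a = x₀) (h' : G.t a = γ • x₀) :
    (⟨FreeGroup.mk [a], γ⟩ : FreeGroup E ⋊[act Γ E] Γ) ∈ G.PG x₀ := ⟨[a], rfl, h, h'⟩

end Gr

section fin
variable [DecidableEq E] {H : Subgroup (FreeGroup E ⋊[act Γ E] Γ)} {D : ℕ}
  {g h : FreeGroup E ⋊[act Γ E] Γ} {a b : E × Bool} {l m : List (E × Bool)}

theorem head_eq (hD : ∀ k ∈ H, k.left.norm ≤ g.left.norm) (hg : g ∈ H) (hh : h ∈ H)
    (e1 : g.left.toWord = a :: l) (e2 : h.left.toWord = b :: m) : b = a := by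
  by_contra hne
  have h1 := hD _ (H.mul_mem (H.inv_mem hh) hg)
  have h2 : (h⁻¹ * g).left = act Γ E h.right⁻¹ (h.left⁻¹ * g.left) := by simp
  have h3 : IsReduced (invRev (b :: m) ++ a :: l) := by
    have r1 : IsReduced (invRev (b :: m)) := by rw [← e2, ← toWord_inv]; exact isReduced_toWord
    have r2 : IsReduced (a :: l) := e1 ▸ isReduced_toWord
    refine List.IsChain.append r1 r2 fun u hu v hv => ?_
    rw [invRev_cons] at hu
    obtain rfl : (b.1, !b.2) = u := by simpa [invRev] using hu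
    obtain rfl : a = v := by simpa using hv
    intro h4
    by_contra h5
    exact hne (Prod.ext h4 (by simpa using h5))
  rw [h2, norm_act, FreeGroup.norm, toWord_mul, toWord_inv, e1, e2, h3.reduce_eq, FreeGroup.norm,
    e1] at h1
  simp at h1

theorem norm_conj_lt (hD : ∀ k ∈ H, k.left.norm ≤ g.left.norm) (hg : g ∈ H) (hh : h ∈ H)
    (e1 : g.left.toWord = a :: l) :
    ((mk [a])⁻¹ * h.left * act Γ E h.right (mk [a])).norm < g.left.norm := by
  have h0 : g.left.norm = l.length + 1 := by rw [FreeGroup.norm, e1]; rfl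
  rcases e2 : h.left.toWord with _ | ⟨b, m⟩
  · rw [toWord_eq_nil_iff] at e2
    have h1 : lt h.right a = a := head_eq hD hg (H.mul_mem hh hg) e1
      (m := l.map (lt h.right)) (by simp [e2, toWord_act, e1])
    rw [e2, act_mk, List.map_singleton, h1, h0, mul_one, inv_mul_cancel]
    simp
  obtain rfl := head_eq hD hg hh e1 e2
  have h1 := hD h hh
  have h2 : h⁻¹.left.toWord = (invRev (b :: m)).map (lt h.right⁻¹) := by
    rw [SemidirectProduct.inv_left, toWord_act, toWord_inv, e2]
  rcases m.eq_nil_or_concat with rfl | ⟨m, c, rfl⟩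
  · have := congrArg Prod.snd (head_eq hD hg (H.inv_mem hh) e1 (m := []) h2)
    simp [lt] at this
  · have h3 : lt h.right⁻¹ (c.1, !c.2) = b := head_eq hD hg (H.inv_mem hh) e1
      (m := (invRev (b :: m)).map (lt h.right⁻¹)) (by rw [h2]; simp [invRev])
    have h4 : act Γ E h.right (mk [b]) = (mk [c])⁻¹ := by
      rw [← h3, act_mk, inv_mk]
      simp [lt, invRev]
    have h5 : h.left = mk [b] * mk m * mk [c] := by
      rw [← mk_toWord (x := h.left), e2]; simp [mul_mk]
    rw [FreeGroup.norm, e2] at h1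
    rw [h4, h5, mul_assoc (mk [b]), inv_mul_cancel_left, mul_inv_cancel_right]
    refine norm_mk_le.trans_lt ?_
    simp at h1
    omega

end fin

theorem Gr.exists_conj (G : Gr Γ E X) {x₀ : X} (htr : ∀ x, ∃ γ : Γ, γ • x₀ = x)
    (H : Subgroup (FreeGroup E ⋊[act Γ E] Γ)) [Finite H] (hH : H ≤ G.PG x₀) :
    ∃ c ∈ G.PG x₀, ∀ h ∈ H, (c⁻¹ * h * c).left = 1 := by
  classical
  obtain ⟨g, hg⟩ := Finite.exists_max fun h : H => h.1.left.norm
  suffices ∀ (D : ℕ) (H : Subgroup (FreeGroup E ⋊[act Γ E] Γ)), H ≤ G.PG x₀ →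
      (∀ h ∈ H, h.left.norm ≤ D) → ∃ c ∈ G.PG x₀, ∀ h ∈ H, (c⁻¹ * h * c).left = 1 from
    this _ H hH fun h hh => hg ⟨h, hh⟩
  intro D
  induction D with
  | zero => exact fun H _ h => ⟨1, one_mem _, fun k hk => by simpa using h k hk⟩
  | succ D ih =>
    intro H hH hD
    by_cases h1 : ∀ h ∈ H, h.left.norm ≤ D
    · exact ih H hH h1
    push Not at h1
    obtain ⟨g, hg, h1⟩ := h1
    have h2 : g.left.norm = D + 1 := le_antisymm (hD g hg) h1
    rcases e1 : g.left.toWord with _ | ⟨a, l⟩
    · simp [FreeGroup.norm, e1] at h2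
    have h3 := Gr.path_toWord (hH hg)
    rw [e1] at h3
    obtain ⟨γ, hγ⟩ := htr (G.t a)
    have hc := Gr.letter_mem h3.1 hγ.symm
    obtain ⟨c, h4, h5⟩ := ih (H.map (MulAut.conj (⟨FreeGroup.mk [a], γ⟩ : FreeGroup E ⋊[act Γ E] Γ)⁻¹))
      (by rintro _ ⟨h, hh, rfl⟩; simpa [mul_assoc] using mul_mem (mul_mem (inv_mem hc) (hH hh)) hc) (by
        rintro _ ⟨h, hh, rfl⟩
        have := norm_conj_lt (h2 ▸ hD) hg hh e1
        rw [← norm_act γ⁻¹, h2] at this
        simpa [Nat.lt_succ_iff] using this)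
    exact ⟨_, mul_mem hc h4, fun h hh => by simpa [mul_assoc] using h5 _ ⟨h, hh, rfl⟩⟩

/-- An isomorphism between subgroups of a finite group is induced by a permutation. -/
theorem exists_perm {S : Type*} [Group S] [Finite S] (K : Subgroup S) (ψ : K →* S)
    (hψ : Function.Injective ψ) : ∃ g : Equiv.Perm S, ∀ (k : K) x, g (k * x) = ψ k * g x := by
  obtain ⟨T, hT, -⟩ := K.exists_isComplement_right 1
  obtain ⟨T', hT', -⟩ := ψ.range.exists_isComplement_right 1
  have h1 : Nat.card T = Nat.card T' := by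
    have h2 := hT.card_mul_card.trans hT'.card_mul_card.symm
    have h3 : Nat.card K = Nat.card ψ.range := Nat.card_congr (MonoidHom.ofInjective hψ).toEquiv
    exact Nat.eq_of_mul_eq_mul_left (Nat.card_pos (α := K)) (by
      simpa only [SetLike.coe_sort_coe, ← h3] using h2)
  obtain ⟨e⟩ := Finite.card_eq.1 h1
  let g : Equiv.Perm S := hT.equiv.trans
    ((Equiv.prodCongr (MonoidHom.ofInjective hψ).toEquiv e).trans hT'.equiv.symm)
  have hg : ∀ (k : K) (t : T), g (k * t) = ψ k * e t := fun k t => by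
    have : hT.equiv (k * t) = (k, t) := hT.equiv.eq_symm_apply.1 rfl
    simp only [g, Equiv.trans_apply, this]
    rfl
  refine ⟨g, fun k x => ?_⟩
  obtain ⟨⟨k', t⟩, rfl⟩ := hT.2 x
  have := hg (k * (k' : K)) t
  rw [Subgroup.coe_mul, mul_assoc, ψ.map_mul, mul_assoc, ← hg] at this
  exact this

end H56.VF
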