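import Cfsg.Agent.H56.VFree1

/-! Every fusion system on a finite group is realised by a virtually free group. -/

set_option autoImplicit false

namespace H56.VF

open FreeGroup Cfsg

universe u

variable {Ω : Type u} [Group Ω] {S : Subgroup Ω} (F : FusionSystem S)

/-- The left regular representation. -/
def lam (S : Subgroup Ω) : S →* Equiv.Perm S := MulAction.toPermHom S S

/-- The maps of the system. -/
abbrev II : Type u := Σ P : Subgroup Ω, F.Hom P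

/-- The source of a map, inside the symmetric group. -/
abbrev PP (i : II F) : Subgroup (Equiv.Perm S) := (i.1.subgroupOf S).map (lam S)

/-- Edges. -/
abbrev EE : Type u := Σ i : II F, Equiv.Perm S ⧸ PP F i

/-- Vertices. -/
abbrev XX (S : Subgroup Ω) : Type u := Equiv.Perm S ⧸ (lam S).range

theorem lam_injective : Function.Injective (lam S) := MulAction.toPerm_injective

theorem exists_gg [Finite S] (i : II F) : ∃ g : Equiv.Perm S, ∀ (x : i.1) (hx : (x : Ω) ∈ S),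
    g * lam S ⟨x, hx⟩ * g⁻¹ = lam S ⟨i.2.1 x, (F.le_of_mem i.2.2).2 x⟩ := by
  obtain ⟨P, φ, hφ⟩ := i
  have h := F.le_of_mem hφ
  obtain ⟨g, hg⟩ := exists_perm (P.subgroupOf S) ((φ.codRestrict S h.2).comp
    (Subgroup.subgroupOfEquivOfLe h.1).toMonoidHom)
    (((φ.injective_codRestrict S h.2).2 (F.injective_of_mem hφ)).comp
      (Subgroup.subgroupOfEquivOfLe h.1).injective)
  refine ⟨g, fun x hx => ?_⟩
  rw [mul_inv_eq_iff_eq_mul]
  ext y : 1
  exact hg ⟨⟨x, hx⟩, x.2⟩ y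

variable [Finite S]

/-- A permutation inducing the map. -/
noncomputable def gg (i : II F) : Equiv.Perm S := (exists_gg F i).choose

theorem gg_spec (i : II F) (x : i.1) (hx : (x : Ω) ∈ S) :
    gg F i * lam S ⟨x, hx⟩ * (gg F i)⁻¹ = lam S ⟨i.2.1 x, (F.le_of_mem i.2.2).2 x⟩ :=
  (exists_gg F i).choose_spec x hx

/-- The graph. -/
noncomputable def gr : Gr (Equiv.Perm S) (EE F) (XX S) where
  src e := Subgroup.quotientMapOfLE (Subgroup.map_le_range _ _) e.2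
  tgt e := Quotient.liftOn' e.2 (fun γ => ((γ * (gg F e.1)⁻¹ : Equiv.Perm S) : XX S)) (by
    intro a b h
    obtain ⟨x, hx, h⟩ := QuotientGroup.leftRel_apply.1 h
    refine QuotientGroup.eq.2 ⟨_, (gg_spec F e.1 ⟨x, hx⟩ x.2).symm.trans ?_⟩
    rw [show lam S ⟨x, x.2⟩ = _ from h]
    group)
  src_smul := by rintro γ ⟨i, ⟨a⟩⟩; rfl
  tgt_smul := by
    rintro γ ⟨i, ⟨a⟩⟩
    exact congrArg QuotientGroup.mk (mul_assoc γ a _)

theorem src_mk (i : II F) (a : Equiv.Perm S) : (gr F).src ⟨i, a⟩ = a := rfl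

theorem tgt_mk (i : II F) (a : Equiv.Perm S) :
    (gr F).tgt ⟨i, a⟩ = (a * (gg F i)⁻¹ : Equiv.Perm S) := rfl

/-- Conjugation by `γ⁻¹` induces a map of the system on `P`. -/
def MM (P : Subgroup Ω) (hP : P ≤ S) (γ : Equiv.Perm S) : Prop :=
  ∃ ψ ∈ F.Hom P, ∀ x : P, ∃ h : ψ x ∈ S, lam S ⟨ψ x, h⟩ = γ⁻¹ * lam S ⟨x, hP x.2⟩ * γ

variable {F} {P : Subgroup Ω} {hP : P ≤ S} {γ γ' : Equiv.Perm S}

omit [Finite S] in
theorem MM.one : MM F P hP 1 :=
  ⟨_, F.conj_mem hP (one_mem S), fun x => ⟨by simpa [conjHom] using hP x.2, by simp [conjHom]⟩⟩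

omit [Finite S] in
theorem MM.comp (h : MM F P hP γ) {Q : Subgroup Ω} {χ : Q →* Ω} (hχ : χ ∈ F.Hom Q)
    (h1 : ∀ (x : P) (y : S), lam S y = γ⁻¹ * lam S ⟨x, hP x.2⟩ * γ → ∃ hy : (y : Ω) ∈ Q,
      lam S ⟨χ ⟨y, hy⟩, (F.le_of_mem hχ).2 _⟩ = γ'⁻¹ * lam S ⟨x, hP x.2⟩ * γ') :
    MM F P hP γ' := by
  obtain ⟨ψ, hψ, h⟩ := h
  choose h2 h3 using h
  choose h4 h5 using fun x => h1 x _ (h3 x)
  exact ⟨_, F.comp_mem hψ hχ h4, fun x => ⟨_, h5 x⟩⟩

omit [Finite S] in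
theorem MM.of_eq (h : MM F P hP γ) (e : (γ : XX S) = γ') : MM F P hP γ' := by
  obtain ⟨s, hs⟩ := QuotientGroup.eq.1 e
  refine h.comp (F.conj_mem le_rfl (inv_mem s.2)) fun x y hy => ⟨y.2, ?_⟩
  rw [show γ' = γ * lam S s by rw [hs]; group]
  refine Eq.trans (congrArg _ (Subtype.ext (by simp [conjHom]) : _ = s⁻¹ * y * s)) ?_
  rw [(lam S).map_mul, (lam S).map_mul, hy, (lam S).map_inv]
  group

theorem MM.step {a : EE F × Bool} (ha : ∀ x : P, lam S ⟨x, hP x.2⟩ • a.1 = a.1)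
    (h : ∃ γ : Equiv.Perm S, (γ : XX S) = (gr F).s a ∧ MM F P hP γ) :
    ∃ γ : Equiv.Perm S, (γ : XX S) = (gr F).t a ∧ MM F P hP γ := by
  obtain ⟨⟨i, ⟨b⟩⟩, c⟩ := a
  obtain ⟨γ, h1, h⟩ := h
  have h2 : ∀ x : P, ∃ z : i.1, ∃ hz : (z : Ω) ∈ S,
      lam S ⟨z, hz⟩ = b⁻¹ * lam S ⟨x, hP x.2⟩ * b := fun x => by
    have h3 : ((lam S ⟨x, hP x.2⟩ * b : Equiv.Perm S) : Equiv.Perm S ⧸ PP F i) = b :=
      eq_of_heq (Sigma.mk.inj (ha x)).2
    obtain ⟨z, hz, h4⟩ := QuotientGroup.eq.1 h3.symm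
    exact ⟨⟨z, hz⟩, z.2, h4.trans (mul_assoc _ _ _).symm⟩
  cases c with
  | true =>
    refine ⟨b * (gg F i)⁻¹, rfl, (h.of_eq h1).comp i.2.2 fun x y hy => ?_⟩
    obtain ⟨z, hz, h3⟩ := h2 x
    obtain rfl : y = ⟨z, hz⟩ := lam_injective (hy.trans h3.symm)
    refine ⟨z.2, ?_⟩
    rw [← gg_spec F i z hz, h3]
    group
  | false =>
    obtain ⟨χ, hχ, h4⟩ := F.inv_mem i.2.2
    refine ⟨b, rfl, (h.of_eq h1).comp hχ fun x y hy => ?_⟩
    obtain ⟨z, hz, h3⟩ := h2 x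
    obtain rfl : y = ⟨i.2.1 z, (F.le_of_mem i.2.2).2 z⟩ := lam_injective (by
      rw [hy, ← gg_spec F i z hz, h3]; group)
    exact ⟨⟨z, rfl⟩, by rw [← h3]; exact congrArg _ (Subtype.ext (h4 z))⟩

variable (F)

/-- The realising group. -/
noncomputable abbrev GG := (gr F).PG ((1 : Equiv.Perm S) : XX S)

/-- The embedding of `S`. -/
noncomputable def io : S →* GG F :=
  (SemidirectProduct.inr.comp (lam S)).codRestrict _ fun s =>
    Gr.inr_mem (QuotientGroup.eq.2 ⟨s⁻¹, by simp⟩)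

theorem coe_io (s : S) : (io F s).1 = SemidirectProduct.inr (lam S s) := rfl

theorem realized : F.IsRealizedBy (io F) := by
  classical
  refine ⟨fun a b h => lam_injective (SemidirectProduct.inr_injective (congrArg Subtype.val h)),
    fun P hP φ hφ => ⟨fun h => ?_, fun ⟨g, hg⟩ => ?_⟩⟩
  · let i : II F := ⟨P, φ, h⟩
    let e : EE F := ⟨i, (1 : Equiv.Perm S)⟩
    refine ⟨(⟨_, Gr.letter_mem (γ := (gg F i)⁻¹) (a := (e, true)) rfl
      (congrArg QuotientGroup.mk (by simp [e]))⟩ : GG F)⁻¹, fun x => Subtype.ext ?_⟩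
    have h1 : lam S ⟨x, hP x.2⟩ • e = e := congrArg (Sigma.mk i)
      (QuotientGroup.eq.2 ⟨⟨x, hP x.2⟩⁻¹, (P.subgroupOf S).inv_mem x.2, by simp⟩)
    have h2 : act _ (EE F) (lam S ⟨x, hP x.2⟩) (mk [(e, true)]) = mk [(e, true)] := by
      rw [act_mk, List.map_singleton, lt, h1]
    simp only [Subgroup.coe_mul, inv_inv, Subgroup.coe_inv, coe_io]
    ext : 1
    · simp [h2, -inv_mk]
    · simpa using (gg_spec F i x (hP x.2)).symm
  · have h1 := Gr.path_toWord (g⁻¹).2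
    have h2 : ∀ x : P, act _ (EE F) (lam S ⟨x, hP x.2⟩) (g⁻¹).1.left = (g⁻¹).1.left := fun x => by
      have : io F ⟨x, hP x.2⟩ * g⁻¹ = g⁻¹ * io F ⟨φ x, hφ x⟩ := by rw [hg]; group
      simpa [coe_io] using congrArg (fun y : GG F => y.1.left) this
    obtain ⟨γ, h3, h4⟩ := h1.ind (M := fun y => ∃ γ : Equiv.Perm S, (γ : XX S) = y ∧ MM F P hP γ)
      (fun a ha => MM.step fun x => by
        have := congrArg toWord (h2 x)
        rw [toWord_act] at this
        exact congrArg Prod.fst (List.map_inj_left.1 (this.trans (List.map_id _).symm) a ha))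
      ⟨1, rfl, MM.one⟩
    obtain ⟨ψ, h5, h6⟩ := h4.of_eq (γ' := (g⁻¹).1.right) (h3.trans (by simp))
    convert h5 using 1
    ext x
    obtain ⟨h7, h8⟩ := h6 x
    refine congrArg Subtype.val (lam_injective (a₁ := ⟨φ x, hφ x⟩) (a₂ := ⟨ψ x, h7⟩) ?_)
    rw [h8]
    simpa [coe_io] using congrArg (fun y : GG F => y.1.right) (hg x)

theorem finite_conj (H : Subgroup (GG F)) [Finite H] :
    ∃ g : GG F, ∀ h ∈ H, g * h * g⁻¹ ∈ (io F).range := by
  have : Finite (H.map (GG F).subtype) := 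
    Finite.of_surjective _ ((GG F).subtype.subgroupMap_surjective H)
  obtain ⟨c, hc, h⟩ := (gr F).exists_conj (x₀ := ((1 : Equiv.Perm S) : XX S))
    (by rintro ⟨a⟩; exact ⟨a, congrArg QuotientGroup.mk (mul_one a)⟩) _ (Subgroup.map_subtype_le H)
  refine ⟨(⟨c, hc⟩ : GG F)⁻¹, fun k hk => ?_⟩
  have h1 := h k ⟨k, hk, rfl⟩
  obtain ⟨s, hs⟩ := QuotientGroup.eq.1
    (Gr.smul_eq_of_left (mul_mem (mul_mem (inv_mem hc) k.2) hc) h1).symm
  refine ⟨s, Subtype.ext ?_⟩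
  ext : 1
  · rw [inv_inv]; exact h1.symm
  · simpa [coe_io] using hs

theorem exists_free : ∃ N : Subgroup (GG F), N.Normal ∧ IsFreeGroup N ∧
    N.index ∣ (Nat.card S).factorial := by
  let f : GG F →* Equiv.Perm S := SemidirectProduct.rightHom.comp (GG F).subtype
  refine ⟨f.ker, inferInstance, ?_, ?_⟩
  · let l : f.ker →* FreeGroup (EE F) := MonoidHom.mk' (fun g => g.1.1.left) fun a b => by
      have : a.1.1.right = 1 := a.2
      simp [this]
    have hl : Function.Injective l := fun a b h => Subtype.ext (Subtype.ext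
      (SemidirectProduct.ext h ((show a.1.1.right = 1 from a.2).trans
        (show b.1.1.right = 1 from b.2).symm)))
    exact IsFreeGroup.ofMulEquiv (MonoidHom.ofInjective hl).symm
  · rw [Subgroup.index_ker, ← Nat.card_perm]
    exact Subgroup.card_subgroup_dvd_card _

end H56.VF
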