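/- Modules of `SL₂(q)` in defining characteristic, part 4: small dimensions. -/
import Cfsg.Agent.H56.SL2M3
import Cfsg.Agent.H56.Witt

set_option autoImplicit false
set_option linter.unusedSectionVars false

namespace H56.SL2M

open Matrix Polynomial
open scoped MatrixGroups

section wt
variable {k : Type*} [Field k] (p : ℕ) [hp : Fact p.Prime] [CharP k p]

theorem mem_wt' {j m : ℕ} : m ∈ wt k j ↔ (j.choose m : k) ≠ 0 := by
  rw [mem_wt, and_iff_right_iff_imp]
  intro h
  by_contra hc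
  exact h (by rw [Nat.choose_eq_zero_of_lt (not_le.1 hc), Nat.cast_zero])

theorem mem_wt_rec {j m : ℕ} : m ∈ wt k j ↔ m % p ≤ j % p ∧ m / p ∈ wt k (j / p) := by
  rw [mem_wt', mem_wt', choose_ne_zero_iff (p := p)]

theorem card_wt_rec (j : ℕ) : (wt k j).card = (j % p + 1) * (wt k (j / p)).card := by
  rw [← Finset.card_range (j % p + 1), ← Finset.card_product]
  have h := Nat.mod_lt j hp.out.pos
  refine Finset.card_bij' (fun m _ => (m % p, m / p)) (fun x _ => x.1 + p * x.2)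
    (fun m hm => by simpa [Nat.lt_succ_iff] using (mem_wt_rec p).1 hm) (fun x hx => ?_)
    (fun m _ => Nat.mod_add_div m p) fun x hx => ?_
  all_goals
    obtain ⟨h1, h2⟩ := Finset.mem_product.1 hx
    have h3 : x.1 < p := by have := Finset.mem_range.1 h1; omega
  · rw [mem_wt_rec p, Nat.add_mul_mod_self_left, Nat.add_mul_div_left _ _ hp.out.pos,
      Nat.mod_eq_of_lt h3, Nat.div_eq_of_lt h3, zero_add]
    exact ⟨by have := Finset.mem_range.1 h1; omega, h2⟩
  · rw [Nat.add_mul_mod_self_left, Nat.add_mul_div_left _ _ hp.out.pos,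
      Nat.mod_eq_of_lt h3, Nat.div_eq_of_lt h3, zero_add]

theorem wt_small {j : ℕ} (h : (wt k j).card ≤ 7) : ∃ i i' d d', i < i' ∧ d < p ∧ d' < p ∧
    j = d * p ^ i + d' * p ^ i' ∧ (wt k j).card = (d + 1) * (d' + 1) ∧
      ∀ m, m ∈ wt k j ↔ ∃ e ≤ d, ∃ e' ≤ d', m = e * p ^ i + e' * p ^ i' := by
  have h0 := hp.out.pos
  induction j using Nat.strong_induction_on with | _ j ih =>
  rcases j.eq_zero_or_pos with rfl | hj
  · have : ∀ m, m ∈ wt k 0 ↔ m = 0 := fun m => by cases m <;> simp [mem_wt]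
    exact ⟨0, 1, 0, 0, one_pos, h0, h0, by simp, by
      rw [show wt k 0 = {0} from Finset.ext fun m => by simp [this]]; rfl, by simpa using this⟩
  have h1 := card_wt_rec (k := k) p j
  obtain ⟨i, i', d, d', a1, a2, a3, a4, a5, a6⟩ := ih _ (Nat.div_lt_self hj hp.out.one_lt)
    ((Nat.le_mul_of_pos_left _ (Nat.succ_pos _)).trans (h1.symm.trans_le h))
  have h2 := Nat.mod_add_div j p
  have h3 := Nat.mod_lt j h0
  have key : ∀ m, m ∈ wt k j ↔
      ∃ c ≤ j % p, ∃ e ≤ d, ∃ e' ≤ d', m = c + (e * p ^ (i + 1) + e' * p ^ (i' + 1)) := fun m => by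
    rw [mem_wt_rec p, a6]
    refine ⟨fun ⟨b1, e, b2, e', b3, b4⟩ => ⟨_, b1, e, b2, e', b3, ?_⟩, ?_⟩
    · conv_lhs => rw [← Nat.mod_add_div m p, b4]
      ring
    · rintro ⟨c, b1, e, b2, e', b3, rfl⟩
      rw [show e * p ^ (i + 1) + e' * p ^ (i' + 1) = p * (e * p ^ i + e' * p ^ i') by ring,
        Nat.add_mul_mod_self_left, Nat.add_mul_div_left _ _ h0, Nat.mod_eq_of_lt (a := c) (by omega),
        Nat.div_eq_of_lt (a := c) (by omega), zero_add]
      exact ⟨b1, e, b2, e', b3, rfl⟩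
  rw [a4] at h2
  rw [a5] at h1
  by_cases c1 : j % p = 0
  · exact ⟨i + 1, i' + 1, d, d', by omega, a2, a3, by rw [← h2, c1]; ring, by rw [h1, c1]; ring,
      by simpa [c1] using key⟩
  by_cases c2 : d = 0
  · exact ⟨0, i' + 1, j % p, d', by omega, h3, a3, by nth_rw 1 [← h2, c2]; ring, by
      rw [h1, c2]; ring, by simpa [c2] using key⟩
  obtain rfl : d' = 0 := by
    by_contra c3
    have := Nat.mul_le_mul (show 2 ≤ j % p + 1 by omega)
      (Nat.mul_le_mul (show 2 ≤ d + 1 by omega) (show 2 ≤ d' + 1 by omega))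
    omega
  exact ⟨0, i + 1, j % p, d, by omega, h3, a2, by nth_rw 1 [← h2]; ring, by rw [h1]; ring,
    by simpa using key⟩

/-- One non-zero digit, or two. -/
theorem wt_cases {j : ℕ} (h : (wt k j).card ≤ 7) :
    (∃ i d, d < p ∧ j = d * p ^ i ∧ (wt k j).card = d + 1 ∧ ∀ m, m ∈ wt k j ↔ ∃ e ≤ d, m = e * p ^ i) ∨
    ∃ i i' d d', i < i' ∧ 0 < d ∧ 0 < d' ∧ j = d * p ^ i + d' * p ^ i' ∧
      (wt k j).card = (d + 1) * (d' + 1) ∧
      ∀ m, m ∈ wt k j ↔ ∃ e ≤ d, ∃ e' ≤ d', m = e * p ^ i + e' * p ^ i' := by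
  obtain ⟨i, i', d, d', a1, a2, a3, a4, a5, a6⟩ := wt_small p h
  rcases d.eq_zero_or_pos with rfl | c1
  · exact .inl ⟨i', d', a3, by simpa using a4, by simpa using a5, by simpa using a6⟩
  rcases d'.eq_zero_or_pos with rfl | c2
  · exact .inl ⟨i, d, a2, by simpa using a4, by simpa using a5, by simpa using a6⟩
  exact .inr ⟨i, i', d, d', a1, c1, c2, a4, a5, a6⟩

theorem wt_eq_image {j d i : ℕ} (h : ∀ m, m ∈ wt k j ↔ ∃ e ≤ d, m = e * p ^ i) :
    wt k j = (Finset.range (d + 1)).map ⟨(· * p ^ i), mul_left_injective₀ (pow_ne_zero _ hp.out.ne_zero)⟩ :=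
  Finset.ext fun m => by simp [h, eq_comm]

end wt

section eig
variable {k : Type*} [Field k] {F : Type*} [Field F] {ι : F →+* k} {y : SL(2, F)} {μ ν : k}

theorem Eig.pow (h : Eig ι y μ ν) (m : ℕ) : Eig ι (y ^ m) (μ ^ m) (ν ^ m) := by
  obtain ⟨ξ, η, h1, h2, h3⟩ := h
  have key : ∀ (ξ : Fin 2 → k) (μ : k), (∀ i, ι (y i 0) * ξ 0 + ι (y i 1) * ξ 1 = μ * ξ i) →
      ∀ i, ι ((y ^ m) i 0) * ξ 0 + ι ((y ^ m) i 1) * ξ 1 = μ ^ m * ξ i := fun ξ μ h i => by
    induction m with
    | zero => fin_cases i <;> simp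
    | succ m ih =>
      simp only [pow_succ, Matrix.SpecialLinearGroup.coe_mul, Matrix.mul_apply, Fin.sum_univ_two, map_add, map_mul]
      linear_combination ι ((y ^ m) i 0) * h 0 + ι ((y ^ m) i 1) * h 1 + μ * ih
  exact ⟨ξ, η, h1, key ξ μ h2, key η ν h3⟩

theorem Eig.eq_one_iff (h : Eig ι y μ ν) : y = 1 ↔ μ = 1 ∧ ν = 1 := by
  obtain ⟨ξ, η, h1, h2, h3⟩ := h
  have a0 := h2 0
  have a1 := h2 1
  have b0 := h3 0
  have b1 := h3 1
  constructor
  · rintro rfl
    simp only [Matrix.SpecialLinearGroup.coe_one, one_apply_eq, map_one, ne_eq, zero_ne_one, one_ne_zero,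
      not_false_eq_true, one_apply_ne, map_zero] at a0 a1 b0 b1
    exact ⟨mul_right_cancel₀ h1 (by linear_combination η 0 * a1 - η 1 * a0),
      mul_right_cancel₀ h1 (by linear_combination ξ 1 * b0 - ξ 0 * b1)⟩
  · rintro ⟨rfl, rfl⟩
    ext i j
    refine ι.injective (mul_right_cancel₀ h1 ?_)
    fin_cases i <;> fin_cases j <;> simp only [Fin.zero_eta, Fin.mk_one, Matrix.SpecialLinearGroup.coe_one,
      one_apply_eq, map_one, ne_eq, zero_ne_one, one_ne_zero, not_false_eq_true, one_apply_ne, map_zero]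
    · linear_combination η 1 * a0 - ξ 1 * b0
    · linear_combination ξ 0 * b0 - η 0 * a0
    · linear_combination η 1 * a1 - ξ 1 * b1
    · linear_combination ξ 0 * b1 - η 0 * a1

variable (ι)

theorem eig_neg_one : Eig ι (-1) (-1) (-1) :=
  ⟨![1, 0], ![0, 1], by simp, fun i => by fin_cases i <;> simp, fun i => by fin_cases i <;> simp⟩

theorem eig_torus (s : Fˣ) : Eig ι (hh s) (ι s) (ι s)⁻¹ :=
  ⟨![1, 0], ![0, 1], by simp, fun i => by fin_cases i <;> simp [hh_coe],
    fun i => by fin_cases i <;> simp [hh_coe]⟩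

theorem pow_eq_one_of_trace (p : ℕ) [hp : Fact p.Prime] [CharP F p] (h : y.1.trace ^ 2 = 4) :
    y ^ p = 1 ∨ y ^ p = -1 := by
  have hd : y 0 0 * y 1 1 - y 0 1 * y 1 0 = 1 := by have := y.2; rwa [det_fin_two] at this
  rw [trace_fin_two] at h
  have key : ∀ e : F, y 0 0 + y 1 1 = 2 * e → e * e = 1 → y.1 ^ p = scalar _ e ^ p := fun e h1 h2 => by
    rw [← sub_eq_zero, ← sub_pow_char_of_commute _ (scalar_commute _ (fun _ => .all _ _) _).symm]
    refine pow_eq_zero_of_le hp.out.two_le ?_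
    ext i j
    fin_cases i <;> fin_cases j <;> simp [sq, Matrix.mul_apply]
    · linear_combination (y 0 0) * h1 - hd + h2
    · linear_combination (y 0 1) * h1
    · linear_combination (y 1 0) * h1
    · linear_combination (y 1 1) * h1 - hd + h2
  rcases mul_eq_zero.1 (show (y 0 0 + y 1 1 - 2) * (y 0 0 + y 1 1 + 2) = 0 by
    linear_combination h) with e | e
  · exact .inl (Subtype.ext (by simpa using key 1 (by linear_combination e) (one_mul 1)))
  · have := key (-1) (by linear_combination e) (by simp)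
    rw [map_neg, map_one] at this
    rcases neg_one_pow_eq_or (Matrix (Fin 2) (Fin 2) F) p with e | e
    · exact .inl (Subtype.ext (by simpa [e] using this))
    · exact .inr (Subtype.ext (by simpa [e] using this))

theorem exists_eig [IsAlgClosed k] (h : y.1.trace ^ 2 ≠ 4) : ∃ μ : k, μ ≠ 0 ∧ Eig ι y μ μ⁻¹ ∧
    μ + μ⁻¹ = ι y.1.trace ∧ ∀ m, μ ^ m = 1 ↔ y ^ m = 1 := by
  have hd : ι (y 0 0) * ι (y 1 1) - ι (y 0 1) * ι (y 1 0) = 1 := by
    rw [← map_mul, ← map_mul, ← map_sub, ← det_fin_two, y.2, map_one]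
  suffices ∃ μ ν : k, μ * ν = 1 ∧ Eig ι y μ ν ∧ μ + ν = ι y.1.trace by
    obtain ⟨μ, ν, h1, h2, h3⟩ := this
    obtain rfl := eq_inv_of_mul_eq_one_right h1
    exact ⟨μ, left_ne_zero_of_mul_eq_one h1, h2, h3, fun m => by simp [(h2.pow m).eq_one_iff]⟩
  obtain ⟨μ, h1⟩ := IsAlgClosed.exists_root (C 1 * X ^ 2 + C (-ι y.1.trace) * X + C 1 : k[X])
    (by rw [degree_quadratic one_ne_zero]; decide)
  simp only [IsRoot.def, eval_add, eval_mul, eval_C, eval_pow, eval_X, trace_fin_two, map_add] at h1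
  have h2 : ι (y 0 0) + ι (y 1 1) - μ - μ ≠ 0 := fun e => h (ι.injective (by
    rw [trace_fin_two, map_pow, map_add, map_ofNat]
    linear_combination (ι (y 0 0) + ι (y 1 1) - 2 * μ) * e - 4 * h1))
  by_cases hb : y 0 1 = 0
  · by_cases hc : y 1 0 = 0
    · exact ⟨ι (y 0 0), ι (y 1 1), by simpa [hb] using hd, ⟨![1, 0], ![0, 1], by simp,
        fun i => by fin_cases i <;> simp [hc], fun i => by fin_cases i <;> simp [hb]⟩,
        by simp [trace_fin_two]⟩
    · refine ⟨μ, ι (y 0 0) + ι (y 1 1) - μ, by linear_combination -h1, ⟨![μ - ι (y 1 1), ι (y 1 0)],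
        ![ι (y 0 0) - μ, ι (y 1 0)], fun e => mul_ne_zero ((map_ne_zero ι).2 hc) h2 ?_,
        fun i => ?_, fun i => ?_⟩, by simp [trace_fin_two]⟩
      · simp only [cons_val_zero, cons_val_one] at e
        linear_combination -e
      all_goals
        fin_cases i <;> simp only [Fin.zero_eta, Fin.mk_one, cons_val_zero, cons_val_one]
      · linear_combination -hd - h1
      · ring
      · linear_combination -hd - h1
      · ring
  · refine ⟨μ, ι (y 0 0) + ι (y 1 1) - μ, by linear_combination -h1, ⟨![ι (y 0 1), μ - ι (y 0 0)],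
      ![ι (y 0 1), ι (y 1 1) - μ], fun e => mul_ne_zero ((map_ne_zero ι).2 hb) h2 ?_,
      fun i => ?_, fun i => ?_⟩, by simp [trace_fin_two]⟩
    · simp only [cons_val_zero, cons_val_one] at e
      linear_combination e
    all_goals
      fin_cases i <;> simp only [Fin.zero_eta, Fin.mk_one, cons_val_zero, cons_val_one]
    · ring
    · linear_combination -hd - h1
    · ring
    · linear_combination -hd - h1

theorem exists_eig' [IsAlgClosed k] (p : ℕ) [Fact p.Prime] [CharP F p] (h : y ^ (2 * p) ≠ 1) :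
    ∃ μ : k, μ ≠ 0 ∧ Eig ι y μ μ⁻¹ ∧ ∀ m, μ ^ m = 1 ↔ y ^ m = 1 := by
  obtain ⟨μ, h1, h2, -, h3⟩ := exists_eig ι (y := y) fun e => h (by
    rw [pow_mul']
    rcases pow_eq_one_of_trace p e with e | e <;> simp [e])
  exact ⟨μ, h1, h2, h3⟩

end eig

/-- The representation attached to a homomorphism to an orthogonal group. -/
def orep {k V G : Type*} [Field k] [AddCommGroup V] [Module k V] [Group G] {Q : QuadraticForm k V}
    (φ : G →* O Q) : Representation k G V where
  toFun g := (φ g).lin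
  map_one' := by rw [map_one]; rfl
  map_mul' g h := by rw [map_mul]; rfl

end H56.SL2M
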