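/- An element of order five acting on a group of order sixteen: eigenvalue multiplicities. -/
import Cfsg.Agent.H56.X1

set_option autoImplicit false

namespace H56.X

open Module Polynomial H56.SL2M

variable {k : Type*} [Field k] {V : Type*} [AddCommGroup V] [Module k V]

theorem exists_signs (h2 : (2 : k) ≠ 0) {ι : Type*} (s : Finset ι) (e : ι → End k V)
    (he : ∀ i, e i * e i = 1) (hc : ∀ i j, Commute (e i) (e j)) (U : Submodule k V)
    (hU : ∀ i, ∀ v ∈ U, e i v ∈ U) {v : V} (hv : v ∈ U) (h0 : v ≠ 0) :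
    ∃ w ∈ U, w ≠ 0 ∧ ∀ i ∈ s, e i w = w ∨ e i w = -w := by
  classical
  induction s using Finset.induction_on with
  | empty => exact ⟨v, hv, h0, by simp⟩
  | insert a s _ ih =>
    obtain ⟨w, hw, hw0, h⟩ := ih
    have h1 : e a (e a w) = w := by rw [← End.mul_apply, he]; rfl
    have h3 : ∀ i, e i (e a w) = e a (e i w) := fun i => by
      rw [← End.mul_apply, (hc i a).eq, End.mul_apply]
    by_cases h4 : w + e a w = 0
    · refine ⟨w, hw, hw0, fun i hi => ?_⟩
      rcases Finset.mem_insert.1 hi with rfl | hi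
      · exact .inr (eq_neg_of_add_eq_zero_right h4)
      · exact h i hi
    · refine ⟨_, add_mem hw (hU a w hw), h4, fun i hi => ?_⟩
      rcases Finset.mem_insert.1 hi with rfl | hi
      · exact .inl (by rw [map_add, h1, add_comm])
      · rcases h i hi with h5 | h5
        · exact .inl (by rw [map_add, h3, h5])
        · exact .inr (by rw [map_add, h3, h5, map_neg, neg_add])

theorem signs_ne (h2 : (2 : k) ≠ 0) {ζ : k} (hζ : 1 + ζ + ζ ^ 2 + ζ ^ 3 + ζ ^ 4 = 0)
    {a b c d e : k} (ha : a = 1 ∨ a = -1) (hb : b = 1 ∨ b = -1) (hc : c = 1 ∨ c = -1)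
    (hd : d = 1 ∨ d = -1) (he : e = 1 ∨ e = -1) (hp : a * b * c * d * e = 1)
    (h : a + ζ * b + ζ ^ 2 * c + ζ ^ 3 * d + ζ ^ 4 * e = 0) :
    a = 1 ∧ b = 1 ∧ c = 1 ∧ d = 1 ∧ e = 1 := by
  have h5 : ζ ^ 5 = 1 := by linear_combination (ζ - 1) * hζ
  have h0 : ∀ i : ℕ, 2 * ζ ^ i ≠ 0 := fun i => mul_ne_zero h2 (pow_ne_zero _ fun h0 => by
    simp [h0] at h5)
  have h1 : ∀ i j : ℕ, 2 * (ζ ^ i + ζ ^ j) ≠ 0 := fun i j => mul_ne_zero h2 fun h1 => h2 (by
    have : (ζ ^ i) ^ 5 = (-ζ ^ j) ^ 5 := by rw [eq_neg_of_add_eq_zero_left h1]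
    rw [neg_pow, ← pow_mul, ← pow_mul, mul_comm i, mul_comm j, pow_mul, pow_mul, h5] at this
    linear_combination this)
  rcases ha with rfl | rfl <;> rcases hb with rfl | rfl <;> rcases hc with rfl | rfl <;>
    rcases hd with rfl | rfl <;> rcases he with rfl | rfl
  all_goals first
    | exact ⟨rfl, rfl, rfl, rfl, rfl⟩
    | exact absurd (by linear_combination -hp) h2
    | exact absurd (by linear_combination hζ + h) (h0 0)
    | exact absurd (by linear_combination hζ + h) (h0 1)
    | exact absurd (by linear_combination hζ + h) (h0 2)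
    | exact absurd (by linear_combination hζ + h) (h0 3)
    | exact absurd (by linear_combination hζ + h) (h0 4)
    | exact absurd (by linear_combination hζ - h) (h1 0 1)
    | exact absurd (by linear_combination hζ - h) (h1 0 2)
    | exact absurd (by linear_combination hζ - h) (h1 0 3)
    | exact absurd (by linear_combination hζ - h) (h1 0 4)
    | exact absurd (by linear_combination hζ - h) (h1 1 2)
    | exact absurd (by linear_combination hζ - h) (h1 1 3)
    | exact absurd (by linear_combination hζ - h) (h1 1 4)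
    | exact absurd (by linear_combination hζ - h) (h1 2 3)
    | exact absurd (by linear_combination hζ - h) (h1 2 4)
    | exact absurd (by linear_combination hζ - h) (h1 3 4)

/-- If `y` permutes five commuting involutions with product one and without common fixed vector,
its eigenvalue multiplicities are invariant under fifth roots of unity. -/
theorem eigen_le [FiniteDimensional k V] (h2 : (2 : k) ≠ 0) {ζ : k}
    (hζ : 1 + ζ + ζ ^ 2 + ζ ^ 3 + ζ ^ 4 = 0) (y : End k V) (e : Fin 5 → End k V)
    (he : ∀ i, e i * e i = 1) (hc : ∀ i j, Commute (e i) (e j))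
    (hp : e 0 * e 1 * e 2 * e 3 * e 4 = 1) (hy : ∀ i, y * e (i + 1) = e i * y)
    (hf : ∀ v, (∀ i, e i v = v) → v = 0) (μ : k) :
    finrank k (y.eigenspace μ) ≤ finrank k (y.eigenspace (ζ * μ)) := by
  have h5 : ζ ^ 5 = 1 := by linear_combination (ζ - 1) * hζ
  let θ : End k V := e 0 + ζ • e 1 + ζ ^ 2 • e 2 + ζ ^ 3 • e 3 + ζ ^ 4 • e 4
  have h1 : y * θ = ζ • (θ * y) := by
    have a0 : y * e 0 = e 4 * y := hy 4
    have a1 : y * e 1 = e 0 * y := hy 0
    have a2 : y * e 2 = e 1 * y := hy 1
    have a3 : y * e 3 = e 2 * y := hy 2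
    have a4 : y * e 4 = e 3 * y := hy 3
    simp only [θ, mul_add, add_mul, mul_smul_comm, smul_mul_assoc, a0, a1, a2, a3, a4, smul_add,
      smul_smul, ← pow_succ', h5, one_smul, ← sq]
    abel
  have h3 : LinearMap.ker θ = ⊥ := by
    by_contra hne
    obtain ⟨v, hv, h0⟩ := Submodule.exists_mem_ne_zero_of_ne_bot hne
    obtain ⟨w, hw, hw0, h⟩ := exists_signs h2 Finset.univ e he hc (LinearMap.ker θ)
      (fun i u hu => by
        have : Commute θ (e i) := (((((hc 0 i).add_left ((hc 1 i).smul_left _)).add_left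
          ((hc 2 i).smul_left _)).add_left ((hc 3 i).smul_left _)).add_left ((hc 4 i).smul_left _))
        rw [LinearMap.mem_ker, ← End.mul_apply, this.eq, End.mul_apply, LinearMap.mem_ker.1 hu,
          map_zero]) hv h0
    have h4 : ∀ i, ∃ s : k, (s = 1 ∨ s = -1) ∧ e i w = s • w := fun i =>
      (h i (Finset.mem_univ i)).elim (fun h => ⟨1, .inl rfl, by simp [h]⟩)
        fun h => ⟨-1, .inr rfl, by simp [h]⟩
    choose s hs hs' using h4
    have h6 := signs_ne h2 hζ (hs 0) (hs 1) (hs 2) (hs 3) (hs 4) (by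
      have := congrArg (fun f : End k V => f w) hp
      simp only [End.mul_apply, hs', map_smul, smul_smul, End.one_apply] at this
      refine smul_left_injective k hw0 ?_
      simp only [one_smul]
      rw [← this]; congr 1; ring) (by
      have := LinearMap.mem_ker.1 hw
      simp only [θ, LinearMap.add_apply, LinearMap.smul_apply, hs', smul_smul, ← add_smul] at this
      exact (smul_eq_zero.1 this).resolve_right hw0)
    refine hw0 (hf w fun i => ?_)
    rw [hs']
    fin_cases i <;> simp [h6.1, h6.2.1, h6.2.2.1, h6.2.2.2.1, h6.2.2.2.2]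
  rw [← LinearEquiv.finrank_eq (Submodule.equivMapOfInjective θ (LinearMap.ker_eq_bot.1 h3) _).symm]
  refine Submodule.finrank_mono ?_
  rintro _ ⟨v, hv, rfl⟩
  rw [End.mem_eigenspace_iff, ← End.mul_apply, h1, LinearMap.smul_apply, End.mul_apply,
    End.mem_eigenspace_iff.1 hv, map_smul, smul_smul]

end H56.X
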