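/- Fixed spaces of explicitly listed 2-groups, and modules for `2⁴ : A₆` in characteristic three. -/
import Cfsg.Agent.H56.X3
import Cfsg.Agent.H71.Env

set_option autoImplicit false

namespace H56.X

open Module Polynomial H56.SL2M H14.E8 H71

variable {k : Type*} [Field k] {V : Type*} [AddCommGroup V] [Module k V]
variable {G : Type*} [Group G] (ρ : Representation k G V) (u : ℕ → G)

/-- The vectors fixed by the letters in `S`. -/
noncomputable def Fix (S : List ℕ) : Submodule k V := ⨅ l ∈ S, End.eigenspace (ρ (u l)) 1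

variable {ρ u}

theorem mem_Fix {S : List ℕ} {m : V} : m ∈ Fix ρ u S ↔ ∀ l ∈ S, ρ (u l) m = m := by
  simp [Fix, Submodule.mem_iInf]

theorem evw_map {M : Submodule k V} {w : List ℕ} (h : ∀ l ∈ w, M ≤ M.comap (ρ (u l))) {m : V}
    (hm : m ∈ M) : ρ (evw u w) m ∈ M := by
  induction w with
  | nil => simpa using hm
  | cons a w ih =>
    rw [evw_cons, map_mul]
    exact h a List.mem_cons_self (ih fun l hl => h l (List.mem_cons_of_mem _ hl))

theorem evw_fix {S : List ℕ} {m : V} (hm : m ∈ Fix ρ u S) {w : List ℕ} (h : ∀ l ∈ w, l ∈ S) :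
    ρ (evw u w) m = m := by
  induction w with
  | nil => simp
  | cons a w ih =>
    rw [evw_cons, map_mul, End.mul_apply, ih fun l hl => h l (List.mem_cons_of_mem _ hl),
      mem_Fix.1 hm a (h a List.mem_cons_self)]

theorem fix_map {S : List ℕ} {g : G} (W : ℕ → List ℕ)
    (h : ∀ l ∈ S, (∀ i ∈ W l, i ∈ S) ∧ u l * g = g * evw u (W l)) :
    Fix ρ u S ≤ (Fix ρ u S).comap (ρ g) := fun m hm => mem_Fix.2 fun l hl => by
  rw [← End.mul_apply, ← map_mul, (h l hl).2, map_mul, End.mul_apply, evw_fix hm (h l hl).1]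

theorem sum_list [FiniteDimensional k V] [Finite G] (h2 : (2 : k) ≠ 0) (ρ : Representation k G V)
    {S : List ℕ} {W : List (List ℕ)} {n : ℕ} (hW : ∀ w ∈ W, ∀ l ∈ w, l ∈ S) (h1 : [] ∈ W)
    (hS : ∀ l ∈ S, ∀ a ∈ W.map (evw u), a * u l ∈ W.map (evw u)) (hn : (W.map (evw u)).Nodup)
    (hl : W.length = 2 ^ n) :
    ((W.map (evw u)).map fun g => tau (ρ g)).sum = 2 ^ n * finrank k (Fix ρ u S) := by
  classical
  set L := W.map (evw u)
  have h3 : ∀ w : List ℕ, (∀ l ∈ w, l ∈ S) → ∀ a ∈ L, a * evw u w ∈ L := fun w hw => by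
    induction w with
    | nil => simp
    | cons b w ih =>
      intro a ha
      rw [evw_cons, ← mul_assoc]
      exact ih (fun l hl => hw l (List.mem_cons_of_mem _ hl)) _ (hS b (hw b List.mem_cons_self) a ha)
  let K₀ : Submonoid G :=
    { carrier := {g | g ∈ L}
      one_mem' := List.mem_map.2 ⟨[], h1, rfl⟩
      mul_mem' := fun {a b} ha hb => by
        obtain ⟨w, hw, rfl⟩ := List.mem_map.1 hb
        exact h3 w (hW w hw) a ha }
  let K : Subgroup G := ⟨K₀, fun {a} ha => by
    obtain ⟨j, hj⟩ := mem_powers_iff_mem_zpowers.2 (inv_mem (Subgroup.mem_zpowers a))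
    exact hj ▸ K₀.pow_mem ha j⟩
  let _ : Fintype K := Fintype.ofFinite _
  have hc : Fintype.card K = 2 ^ n := by
    rw [Fintype.card_of_subtype (p := (· ∈ K)) L.toFinset fun _ => List.mem_toFinset,
      List.toFinset_card_of_nodup hn, List.length_map, hl]
  have h := sum_tau_eq h2 (IsPGroup.of_card (Nat.card_eq_fintype_card.trans hc))
    (ρ.comp K.subtype)
  have h4 : Representation.invariants (ρ.comp K.subtype) = Fix ρ u S := by
    ext m
    refine ⟨fun hm => mem_Fix.2 fun l hl => hm ⟨u l, ?_⟩, fun hm g => ?_⟩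
    · exact one_mul (u l) ▸ hS l hl 1 K.one_mem
    · obtain ⟨g, hg⟩ := g
      obtain ⟨w, hw, rfl⟩ := List.mem_map.1 hg
      exact evw_fix hm (hW w hw)
  rw [h4, hc] at h
  rw [← List.sum_toFinset _ hn,
    Finset.sum_subtype (p := (· ∈ K)) L.toFinset fun _ => List.mem_toFinset]
  exact_mod_cast h

open Classical in
/-- An element of order five has no fixed vector on the fixed space of `2⁴`. -/
theorem fix_y [FiniteDimensional k V] (h2 : (2 : k) ≠ 0) (h5 : ((5 : ℕ) : k) ≠ 0) {ζ : k}
    (hζ : IsPrimitiveRoot ζ 5) (y : End k V) (e : Fin 5 → End k V)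
    (he : ∀ i, e i * e i = 1) (hc : ∀ i j, Commute (e i) (e j))
    (hp : e 0 * e 1 * e 2 * e 3 * e 4 = 1) (hy : ∀ i, y * e (i + 1) = e i * y) (hy5 : y ^ 5 = 1)
    {M : Submodule k V} (hM : ∀ v, v ∈ M ↔ ∀ i, e i v = v) (hd : finrank k M = 8)
    (hn : y.charpoly.roots.count (ζ ^ 0) = 48 ∧ y.charpoly.roots.count (ζ ^ 1) = 50 ∧
      y.charpoly.roots.count (ζ ^ 2) = 50 ∧ y.charpoly.roots.count (ζ ^ 3) = 50 ∧
      y.charpoly.roots.count (ζ ^ 4) = 50 ∨
      y.charpoly.roots.count (ζ ^ 0) = 68 ∧ y.charpoly.roots.count (ζ ^ 1) = 45)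
    {m : V} (hm : m ∈ M) (hym : y m = m) : m = 0 := by
  have hyM : M ≤ M.comap y := fun v hv => (hM _).2 fun i => by
    rw [← End.mul_apply, ← hy, End.mul_apply, (hM v).1 hv]
  have heM : ∀ i, M ≤ M.comap (e i) := fun i v hv => by
    rwa [Submodule.mem_comap, (hM v).1 hv]
  have key : ∀ f g : End k (V ⧸ M),
      (∀ v, f (Submodule.Quotient.mk v) = g (Submodule.Quotient.mk v)) → f = g :=
    fun f g h => LinearMap.ext fun v => Submodule.Quotient.induction_on _ v h
  have ap : ∀ {f g : End k V}, f = g → ∀ v, f v = g v := fun h v => by rw [h]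
  have h6 : ∀ μ, finrank k (End.eigenspace (M.mapQ M y hyM) μ) ≤
      finrank k (End.eigenspace (M.mapQ M y hyM) (ζ * μ)) :=
    eigen_le h2 (by simpa [Finset.sum_range_succ] using hζ.geom_sum_eq_zero (by norm_num)) _
      (fun i => M.mapQ M (e i) (heM i))
      (fun i => key _ _ fun v => congrArg Submodule.Quotient.mk (ap (he i) v))
      (fun i j => key _ _ fun v => congrArg Submodule.Quotient.mk (ap (hc i j).eq v))
      (key _ _ fun v => congrArg Submodule.Quotient.mk (ap hp v))
      (fun i => key _ _ fun v => congrArg Submodule.Quotient.mk (ap (hy i) v))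
      fun v hv => by
        obtain ⟨v, rfl⟩ := Submodule.Quotient.mk_surjective _ v
        refine (Submodule.Quotient.mk_eq_zero _).2 ((hM v).2 fun i => ?_)
        have h7 := (hM _).1 ((Submodule.Quotient.eq _).1 (hv i)) i
        rw [map_sub, ← End.mul_apply, he, End.one_apply] at h7
        refine sub_eq_zero.1 ((smul_eq_zero.1 ?_).resolve_left h2)
        rw [two_smul]
        nth_rewrite 1 [← h7]
        abel
  have q5 : (M.mapQ M y hyM : End k (V ⧸ M)) ^ 5 = 1 := key _ _ fun v =>
    congrArg Submodule.Quotient.mk (ap hy5 v)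
  have r5 : (y.restrict hyM : End k M) ^ 5 = 1 := LinearMap.ext fun v => Subtype.ext (ap hy5 v)
  simp only [← count_roots h5 q5] at h6
  have c0 := h6 (ζ ^ 0)
  have c1 := h6 (ζ ^ 1)
  have c2 := h6 (ζ ^ 2)
  have c3 := h6 (ζ ^ 3)
  have c4 := h6 (ζ ^ 4)
  rw [← pow_succ'] at c0 c1 c2 c3 c4
  rw [show ζ ^ (4 + 1) = ζ ^ 0 by rw [pow_zero]; exact hζ.pow_eq_one] at c4
  simp only [Nat.reduceAdd] at c0 c1 c2 c3
  set s := (LinearMap.charpoly (y.restrict hyM : End k M)).roots
  have h7 : ∑ a ∈ Finset.range 5, s.count (ζ ^ a) ≤ 8 := by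
    rw [← Finset.sum_image (f := fun a => s.count a) hζ.injOn_pow, ← hd,
      ← LinearMap.charpoly_natDegree (y.restrict hyM : End k M)]
    refine le_trans ?_ (card_roots' _)
    rw [← Multiset.sum_count_eq_card (s := (Finset.range 5).image (ζ ^ ·) ∪ s.toFinset)
      fun a ha => Finset.mem_union_right _ (Multiset.mem_toFinset.2 ha)]
    exact Finset.sum_le_sum_of_subset Finset.subset_union_left
  simp only [Finset.sum_range_succ, Finset.range_zero, Finset.sum_empty] at h7
  rw [charpoly_sub_quot M y hyM, roots_mul (mul_ne_zero (LinearMap.charpoly_monic _).ne_zero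
    (LinearMap.charpoly_monic _).ne_zero)] at hn
  simp only [Multiset.count_add] at hn
  have h8 : s.count (ζ ^ 0) = 0 := by
    simp only [s] at h7 ⊢
    omega
  rw [count_roots h5 r5, Submodule.finrank_eq_zero, pow_zero] at h8
  have : (⟨m, hm⟩ : M) ∈ End.eigenspace (y.restrict hyM : End k M) 1 :=
    End.mem_eigenspace_iff.2 (Subtype.ext (by simpa using hym))
  rw [h8] at this
  exact congrArg Subtype.val this

/-- The words `a yʲ g`. -/
def cw (C : List (List ℕ × List ℕ)) : List (List ℕ) :=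
  C.flatMap fun p => (List.range 5).map fun j => p.1 ++ (List.replicate j 6 ++ p.2)

theorem cw_zero {M : Submodule k V} (hx : M ≤ M.comap (ρ (u 5))) (hy : M ≤ M.comap (ρ (u 6)))
    (h5 : u 6 ^ 5 = 1) (hM : ∀ m ∈ M, ρ (u 6) m = m → m = 0) {C : List (List ℕ × List ℕ)}
    (hC : ∀ p ∈ C, ∀ l ∈ p.2, l = 5 ∨ l = 6) {m : V} (hm : m ∈ M) :
    (((cw C).map (evw u)).map fun g => ρ g m).sum = 0 := by
  induction C with
  | nil => rfl
  | cons p C ih =>
    rw [cw, List.flatMap_cons, List.map_append, List.map_append, List.sum_append, ← cw,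
      ih fun q hq => hC q (List.mem_cons_of_mem _ hq), add_zero]
    have h1 : ρ (evw u p.2) m ∈ M := evw_map (fun l hl => by
      rcases hC p List.mem_cons_self l hl with rfl | rfl <;> assumption) hm
    have h3 : ∀ v, ρ (u 6) (ρ (u 6) (ρ (u 6) (ρ (u 6) (ρ (u 6) v)))) = v := fun v => by
      have := congrArg (fun g => ρ g v) h5
      simpa [pow_succ] using this
    simp only [List.range_succ, List.range_zero, List.map_cons, List.map_nil,
      List.nil_append, List.replicate, evw_append, evw_cons, List.cons_append, map_mul,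
      End.mul_apply, List.sum_cons, List.sum_nil, add_zero, ← map_add]
    generalize ρ (evw u p.2) m = v at h1
    rw [hM _ (add_mem h1 (hy (add_mem h1 (hy (add_mem h1 (hy (add_mem h1 (hy h1)))))))), map_zero]
    simp only [map_add, h3]
    abel

theorem sum_mod3 [CharP k 3] {α : Type*} {L : List α} {c : α → ℕ} {f : α → V}
    (hf : ∀ a b, c a = c b → f a = f b) {a₀ : α} (h0 : (L.map c).count (c a₀) % 3 = 1)
    (h : ∀ b ∈ L.map c, b = c a₀ ∨ (L.map c).count b % 3 = 0) : (L.map f).sum = f a₀ := by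
  classical
  let F : ℕ → V := fun b => if h : ∃ a, c a = b then f h.choose else 0
  have h1 : ∀ a, f a = F (c a) := fun a => by
    have h2 : ∃ b, c b = c a := ⟨a, rfl⟩
    simp only [F, dif_pos h2]
    exact hf _ _ h2.choose_spec.symm
  have h3 : ∀ (n : ℕ) (v : V), n • v = (n % 3) • v := fun n v => by
    rw [← Nat.cast_smul_eq_nsmul k, ← Nat.cast_smul_eq_nsmul k, CharP.cast_eq_mod k 3]
  rw [funext h1, show (fun a => F (c a)) = F ∘ c from rfl, ← List.map_map,
    Finset.sum_list_map_count, Finset.sum_eq_single (c a₀), h3, h0, one_smul]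
  · rfl
  · intro b hb hb'
    rw [h3, (h b (List.mem_toFinset.1 hb)).resolve_left hb', zero_smul]
  · intro hb
    rw [List.count_eq_zero_of_not_mem fun e => hb (List.mem_toFinset.2 e), zero_smul]

end H56.X
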