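/- `E₈(3)` has no subgroup `U₄(3)`. -/
import Cfsg.Agent.H56.X5
import Cfsg.Agent.H14.E8Val
import Cfsg.Agent.H41.U43F

set_option autoImplicit false
set_option maxRecDepth 100000
set_option Elab.async false

namespace H56.X

open Module Polynomial H14.E8 H71 H49 H41.U43 Cfsg.Lie

/-- Generators of `2⁴ : A₆`. -/
noncomputable def uX (l : ℕ) : X :=
  evw vX (nth [[0, 5, 17], [2, 7, 17], [2, 6], [17], [0, 4, 17], [0, 18], [12, 19]] [] l)

def wE : List (List ℕ) :=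
  [[], [0], [1], [2], [3], [0,1], [0,2], [0,3], [1,2], [1,3], [2,3], [0,1,2], [0,1,3], [0,2,3],
   [1,2,3], [0,1,2,3]]

def wK : List (List ℕ) :=
  [[], [0], [1], [2], [3], [5], [0,1], [0,2], [0,3], [0,5], [1,2], [1,3], [1,5], [2,3], [2,5],
   [3,5], [5,1], [5,2], [5,5], [0,1,2], [0,1,3], [0,1,5], [0,2,3], [0,5,5], [1,2,3], [1,2,5],
   [1,3,5], [1,5,1], [1,5,2], [1,5,5], [2,3,5], [2,5,2], [2,5,5], [3,5,5], [5,1,5], [5,2,5],
   [5,5,2], [5,5,5], [0,1,2,3], [0,1,5,5], [0,5,5,2], [0,5,5,5], [1,2,3,5], [1,2,5,2],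
   [1,2,5,5], [1,5,1,5], [1,5,5,5], [2,3,5,5], [2,5,2,5], [2,5,5,2], [2,5,5,5], [3,5,5,5],
   [5,1,5,2], [5,1,5,5], [5,2,5,5], [5,5,2,5], [5,5,5,2], [0,1,5,5,5], [0,5,5,2,5], [0,5,5,5,2],
   [2,3,5,5,5], [2,5,2,5,5], [2,5,5,2,5], [3,5,5,5,2]]

def wQ' : List (List ℕ) :=
  [[], [0], [2], [4], [6], [0,0], [0,2], [0,4], [0,6], [2,0], [2,4], [2,6], [4,6], [6,4],
   [0,0,0], [0,0,2], [0,0,4], [0,0,6], [0,2,4], [0,2,6], [0,4,6], [0,6,4], [2,0,4], [2,0,6],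
   [2,4,6], [2,6,4], [0,0,0,4], [0,0,0,6], [0,0,2,4], [0,0,2,6], [0,2,4,6], [0,2,6,4]]

def wC : List (List ℕ) :=
  [[11,17], [18], [2], [], [9,2], [17], [17,9], [8,2], [18,2], [8], [9], [17,2]]

def cert : List (List ℕ × List ℕ) :=
  [([5,5,6,6,5], [5,6]), ([5,6,5,5], [5,6,6,5,5,6]), ([5,6,5,5], [5,6,6,5,5,6]), ([6,5], []),
   ([5,5,5,6,5,5,6,6,5], [5,5,6,5,6]), ([5,5,5,6,5,5], [5,6]), ([5,6,5,5,6,6,5],
   [5,6,5,5,6,5,6]), ([5,6,5,5,6,6,5], [5,6,5,5,6,5,6]), ([5,5,5], [5,6,6,5,6]), ([5,5],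
   [5,6,5,5,6]), ([5,6,5,5], [5,5,6,5,5,5,6]), ([5,5,6,5,5,5], []), ([5,5,6,5,5,5], []),
   ([5,6,5], [5,6,6,5,6]), ([5,5,5], [5,6,5,5,6,5,6]), ([5,5,5], [5,6,5,5,6,5,6]), ([5],
   [5,6,6,5,6]), ([5], [5,6,6,5,6]), ([6,5,6,5,5], [5,6,5,5,6,5,6]), ([6,5,5], [5,6,5,5,5,6]),
   ([5], [5,6,5,5,6]), ([5], [5,6,5,5,6]), ([6,5,5], [5,5,6,5,6,6,5,6]), ([6,6,5,5,6,5,5],
   [5,6,6,5,5,6]), ([6,6,5,5,6,5,5], [5,6,6,5,5,6]), ([6,5,5,6,5], [5,6,5,5,5,6]), ([6,5,5,6,5],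
   [5,6,5,5,5,6]), ([5,5,6,5,5,5,6,5], []), ([5,6,5,5,6,5,5], [5,6,6]), ([5,6,5,5,6,5,5],
   [5,6,6]), ([5,5,6,5,6,6,5,6,5,5], []), ([5,5,6,5,6,6,5,6,5,5], []), ([], [5,5,6,5,6,6,5,6]),
   ([], [5,5,6,5,6,6,5,6]), ([6,5,5,5,6,5], [5,6,6,5,5,6]), ([6,5,5,5,6,5], [5,6,6,5,5,6]),
   ([5,6,5,5,6,5,5], []), ([5,6,5,5,5,6,5], [5,6,5,6,6]), ([5,5,5,6,5,5,5], []),
   ([5,5,5,6,5,5,5], []), ([], [5,5,5,6]), ([5,5,6,5,6,6,5,6,5,5], [5,5,6]),
   ([5,5,6,5,6,6,5,6,5,5], [5,5,6]), ([5,6,5,5], [5,6,6]), ([5,6,5,5], [5,6,6]), ([5,6,5,6,5,5],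
   [5,6,6]), ([5,5,5,6,5,5], [5,6,5,5,5,6]), ([5,5,5,6,5,5], [5,6,5,5,5,6]), ([5,5,5,6,5,5,5],
   [5,6,6,5,5,6]), ([6,5,6,6,5], []), ([6,5,6,6,5], []), ([5,6,5,5,6,5], [5,5,6]),
   ([5,5,5,6,5,5,6,6,5], [5,5,6,5,6,6,5,6]), ([5,5,5,6,5,5,6,6,5], [5,5,6,5,6,6,5,6]),
   ([6,5,6,5], [5,6,5,5,6]), ([6,6,5,5,6,5,5], [5,6,5,5,6])]

/-- The order of a 2-element. -/
noncomputable def cls (g : X) : ℕ := g.frc fun g => bif eqB g 1 then 0 else (g * g).frc fun h =>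
  bif eqB h 1 then 1 else (h * h).frc fun t => bif eqB t 1 then 2 else bif eqB (t * t) 1 then 3 else 4

theorem cls_spec (g : X) : (cls g = 0 → g = 1) ∧ (cls g = 1 → orderOf g = 2) ∧
    (cls g = 2 → orderOf g = 4) ∧ (cls g = 3 → orderOf g = 8) := by
  have e2 : g * g = g ^ 2 ^ 1 := (sq g).symm
  have e4 : g * g * (g * g) = g ^ 2 ^ 2 := by rw [e2, ← pow_add]; rfl
  have e8 : g ^ 2 ^ 2 * g ^ 2 ^ 2 = g ^ 2 ^ 3 := by rw [← pow_add]; rfl
  simp only [cls, UG.frc_eq, e8, e4, Bool.cond_eq_ite, eqB_iff]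
  rw [e2]
  split_ifs with h0 h1 h2 h3
  · simp [h0]
  · simpa using orderOf_eq_prime_pow (n := 0) (by simpa using h0) h1
  · simpa using orderOf_eq_prime_pow h1 h2
  · simpa using orderOf_eq_prime_pow h2 h3
  · simp

/-- A list of elements is closed under the generators and has no repetitions. -/
noncomputable def clos (u : ℕ → X) (S : List ℕ) (W : List (List ℕ)) : Bool :=
  UG.frcL (W.map (evw u)) fun L => allL (fun l => allL (fun a => (a * u l).frc fun b =>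
    memN b.c (L.map UG.c)) L) S && decide (L.map UG.c).Nodup

theorem of_clos {u : ℕ → X} {S : List ℕ} {W : List (List ℕ)} (h : clos u S W = true) :
    (∀ l ∈ S, ∀ a ∈ W.map (evw u), a * u l ∈ W.map (evw u)) ∧ (W.map (evw u)).Nodup := by
  rw [clos, UG.frcL_eq, Bool.and_eq_true, decide_eq_true_eq] at h
  refine ⟨fun l hl a ha => ?_, h.2.of_map _⟩
  have := of_allL (of_allL h.1 l hl) a ha
  rw [UG.frc_eq] at this
  obtain ⟨b, hb, e⟩ := List.mem_map.1 (of_memN this)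
  exact UG.ext' e ▸ hb

theorem closE : clos uX [0, 1, 2, 3] wE = true := by decide +kernel
theorem closK : clos uX [0, 1, 2, 3, 5] wK = true := by decide +kernel
theorem closQ : clos vX [0, 2, 4, 6] wQ' = true := by decide +kernel

theorem clsE : (wE.map (evw uX)).map cls = 0 :: List.replicate 15 1 := by decide +kernel

theorem clsK : (wK.map (evw uX)).map cls =
  [0, 1, 1, 1, 1, 2, 1, 1, 1, 3, 1, 1, 3, 1, 2, 3, 3, 2, 1, 1, 1, 2, 1, 2, 1, 3, 2, 2, 3, 2, 3,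
   2, 2, 2, 2, 2, 2, 2, 1, 1, 2, 3, 2, 3, 2, 2, 3, 2, 1, 1, 2, 3, 2, 3, 2, 2, 2, 2, 3, 3, 3, 2,
   2, 3] := by decide +kernel

theorem clsQ : (wQ'.map (evw vX)).map cls =
  [0, 2, 2, 2, 2, 1, 2, 1, 1, 2, 1, 1, 2, 2, 2, 2, 2, 2, 1, 1, 1, 1, 1, 1, 1, 1, 1, 1, 1, 1, 1,
   1] := by decide +kernel

theorem conjQ : allL (fun g => g.frc fun g => Nat.blt (cls g) 2 ||
    (wC.map (evw vX)).any fun c => eqB (c * vX 0) (g * c)) (wQ'.map (evw vX)) = true := by
  decide +kernel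

/-- A label of the coset `g⟨x⟩`. -/
noncomputable def lab (g : X) : ℕ := g.frc fun g => (g * uX 5).frc fun a => (a * uX 5).frc fun b =>
  (b * uX 5).frc fun c => min (min g.c a.c) (min b.c c.c)

theorem lab_spec (g : X) : ∃ i : ℕ, lab g = (g * uX 5 ^ i).c := by
  simp only [lab, UG.frc_eq, min_def]
  split_ifs
  all_goals first
    | (refine ⟨0, ?_⟩; rw [pow_zero, mul_one]; done)
    | (refine ⟨1, ?_⟩; rw [pow_one]; done)
    | (refine ⟨2, ?_⟩; rw [sq, mul_assoc]; done)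
    | (refine ⟨3, ?_⟩; rw [pow_three, mul_assoc, mul_assoc])

/-- Evaluate a list of numbers before use. -/
noncomputable def frcN (L : List ℕ) : (List ℕ → Bool) → Bool :=
  List.rec (motive := fun _ => (List ℕ → Bool) → Bool) (fun f => f [])
    (fun x _ ih f => frcD x fun x _ => ih fun L => f (x :: L)) L

theorem frcN_eq (L : List ℕ) (f : List ℕ → Bool) : frcN L f = f L := by
  induction L generalizing f with
  | nil => rfl
  | cons x L ih =>
    show frcD x (fun x _ => frcN L fun L => f (x :: L)) = _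
    rw [frcD_eq, ih]

theorem cert_ok : frcN (((cw cert).map (evw uX)).map lab) (fun L => frcD (lab 1) fun c _ =>
    decide (L.count c % 3 = 1) && allL (fun b => Nat.beq b c || decide (L.count b % 3 = 0)) L) =
    true := by decide +kernel

theorem relE : (∀ i : Fin 5, uX i * uX i = 1) ∧ (∀ i j : Fin 5, uX i * uX j = uX j * uX i) ∧
    uX 0 * uX 1 * uX 2 * uX 3 * uX 4 = 1 ∧
    (∀ i : Fin 5, uX 6 * uX (i + 1 : Fin 5) = uX i * uX 6) ∧ uX 4 = evw uX [0, 1, 2, 3] ∧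
    uX 6 * uX 6 * uX 6 * uX 6 * uX 6 = 1 ∧ uX 6 ≠ 1 ∧
    ∀ l ∈ [0, 1, 2, 3], (∀ i ∈ [[0, 2], [3], [0, 1, 2], [0]].getD l [], i ∈ [0, 1, 2, 3]) ∧
      uX l * uX 5 = uX 5 * evw uX ([[0, 2], [3], [0, 1, 2], [0]].getD l []) := by
  decide +kernel

theorem sum_cls {L : List X} {c : List ℕ} (h : L.map cls = c) (f : X → ℤ) (F : ℕ → ℤ)
    (hf : ∀ g ∈ L, f g = F (cls g)) : (L.map f).sum = (c.map F).sum := by
  rw [← h, List.map_map]
  exact congrArg _ (List.map_congr_left hf)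

open Classical in
theorem no_rep {k V : Type*} [Field k] [CharP k 3] [AddCommGroup V] [Module k V]
    [FiniteDimensional k V] (ρ : Representation k X V) (hV : finrank k V = 248)
    (s2 : ∀ g, orderOf g = 2 → tau (ρ g) = 24 ∨ tau (ρ g) = -8)
    (s4 : ∀ g, orderOf g = 4 → (tau (ρ g), tau (ρ (g ^ 2))) ∈ L4)
    (s8 : ∀ g, orderOf g = 8 → (tau (ρ g), tau (ρ (g ^ 2)), tau (ρ (g ^ 4))) ∈ L8)
    {ζ : k} (hζ : IsPrimitiveRoot ζ 5) (s5 : ∀ g, orderOf g = 5 →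
      (ρ g).charpoly.roots.count (ζ ^ 0) = 48 ∧ (ρ g).charpoly.roots.count (ζ ^ 1) = 50 ∧
      (ρ g).charpoly.roots.count (ζ ^ 2) = 50 ∧ (ρ g).charpoly.roots.count (ζ ^ 3) = 50 ∧
      (ρ g).charpoly.roots.count (ζ ^ 4) = 50 ∨
      (ρ g).charpoly.roots.count (ζ ^ 0) = 68 ∧ (ρ g).charpoly.roots.count (ζ ^ 1) = 45) :
    False := by
  have : Finite X := Nat.finite_of_card_ne_zero (by rw [card_X]; norm_num)
  have two_ne : (2 : k) ≠ 0 := by
    exact_mod_cast (CharP.cast_eq_zero_iff k 3 2).not.2 (by norm_num)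
  have cj : ∀ {a b : X}, IsConj a b → tau (ρ b) = tau (ρ a) := fun hc => by
    obtain ⟨c, rfl⟩ := isConj_iff.1 hc
    rw [map_mul, map_mul, tau_conj _ _ _ (by rw [← map_mul, mul_inv_cancel, map_one])]
  have t1 : tau (ρ 1) = 248 := by rw [map_one, tau_one two_ne, hV]; rfl
  have t2 : ∀ g, orderOf g = 2 → tau (ρ g) = tau (ρ (vX 16)) := fun g hg => cj (one_class g hg)
  have t4 : ∀ g, orderOf g = 4 → (tau (ρ g), tau (ρ (vX 16))) ∈ L4 := fun g hg => by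
    rw [← t2 (g ^ 2) (by rw [orderOf_pow, hg]; rfl)]
    exact s4 g hg
  have tz : tau (ρ (vX 16)) = -8 := by
    refine (s2 _ orderOf_z).resolve_left fun h24 => ?_
    have h1 := sum_list two_ne ρ (n := 5) (by decide) (by decide) (of_clos closQ).1
      (of_clos closQ).2 rfl
    rw [sum_cls clsQ _ (fun c => if c = 0 then 248 else if c = 1 then 24 else tau (ρ (vX 0)))
      fun g hg => ?_] at h1
    · have h2 := t4 (vX 0) ((cls_spec _).2.2.1 (by decide +kernel))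
      simp only [h24, L4, List.mem_cons, Prod.mk.injEq, List.not_mem_nil, or_false] at h2
      simp only [List.map_cons, List.map_nil, List.sum_cons, List.sum_nil, OfNat.ofNat_ne_zero,
        OfNat.ofNat_ne_one, one_ne_zero, if_true, if_false] at h1
      omega
    · split_ifs with h0 h1
      · rw [(cls_spec g).1 h0, t1]
      · rw [t2 g ((cls_spec g).2.1 h1), h24]
      · have := of_allL conjQ g hg
        rw [UG.frc_eq, Bool.or_eq_true, Nat.blt_eq, List.any_eq_true] at this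
        obtain ⟨c, -, hc⟩ := this.resolve_left (by omega)
        exact cj (isConj_iff.2 ⟨c, by rw [eqB_iff.1 hc, mul_inv_cancel_right]⟩)
  obtain ⟨r1, r2, r3, r4, r5, r6, r7, r8⟩ := relE
  have hE := sum_list two_ne ρ (n := 4) (by decide) (by decide) (of_clos closE).1
    (of_clos closE).2 rfl
  rw [sum_cls clsE _ (fun c => if c = 0 then 248 else -8) fun g hg => by
    have h1 : cls g ∈ 0 :: List.replicate 15 1 := clsE ▸ List.mem_map_of_mem hg
    split_ifs with h0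
    · rw [(cls_spec g).1 h0, t1]
    · rw [t2 g ((cls_spec g).2.1 (by simpa [h0] using h1)), tz]] at hE
  replace hE : finrank k (Fix ρ uX [0, 1, 2, 3]) = 8 := by
    change (128 : ℤ) = _ at hE
    omega
  have hK := sum_list two_ne ρ (n := 6) (by decide) (by decide) (of_clos closK).1
    (of_clos closK).2 rfl
  have hK' : ((wK.map (evw uX)).map fun g => ([248, -8, 0, -4] : List ℤ).getD (cls g) 0).sum ≤
      ((wK.map (evw uX)).map fun g => tau (ρ g)).sum := List.sum_le_sum fun g hg => by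
    have h1 : cls g < 4 := by
      have h2 := List.mem_map_of_mem (f := cls) hg
      rw [clsK] at h2
      revert h2
      generalize cls g = c
      revert c
      decide
    have h3 := cls_spec g
    interval_cases cls g
    · rw [h3.1 rfl, t1]; rfl
    · rw [t2 g (h3.2.1 rfl), tz]; rfl
    · have h2 := t4 g (h3.2.2.1 rfl)
      simp only [tz, L4, List.mem_cons, Prod.mk.injEq, List.not_mem_nil, or_false] at h2
      change 0 ≤ _
      omega
    · have h2 := s8 g (h3.2.2.2 rfl)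
      have h4 := t2 (g ^ 4) (by rw [orderOf_pow, h3.2.2.2 rfl]; rfl)
      simp only [h4, tz, L8, List.mem_cons, Prod.mk.injEq, List.not_mem_nil, or_false] at h2
      change -4 ≤ _
      omega
  rw [sum_cls clsK _ (fun c => ([248, -8, 0, -4] : List ℤ).getD c 0) fun _ _ => rfl, hK] at hK'
  obtain ⟨m, hm, hm0⟩ := Submodule.exists_mem_ne_zero_of_ne_bot
    (p := Fix ρ uX [0, 1, 2, 3, 5]) fun e => by
      rw [e, finrank_bot] at hK'
      exact absurd hK' (by decide)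
  have hm1 : m ∈ Fix ρ uX [0, 1, 2, 3] := mem_Fix.2 fun l hl => mem_Fix.1 hm l (by
    simp only [List.mem_cons] at hl ⊢; tauto)
  have hx : ∀ i : ℕ, ρ (uX 5 ^ i) m = m := fun i => by
    induction i with
    | zero => simp
    | succ i ih => rw [pow_succ, map_mul, End.mul_apply, mem_Fix.1 hm 5 (by simp), ih]
  have y5 : uX 6 ^ 5 = 1 := by rw [← r6]; simp [pow_succ]
  have hM : ∀ v, v ∈ Fix ρ uX [0, 1, 2, 3] ↔ ∀ i : Fin 5, ρ (uX i) v = v := fun v =>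
    ⟨fun hv i => by
      fin_cases i
      iterate 4 exact mem_Fix.1 hv _ (by simp)
      exact (congrArg (fun g => ρ g v) r5).trans (evw_fix hv fun _ hl => hl),
    fun hv => mem_Fix.2 fun l hl => by
      simp only [List.mem_cons, List.not_mem_nil, or_false] at hl
      rcases hl with rfl | rfl | rfl | rfl
      exacts [hv 0, hv 1, hv 2, hv 3]⟩
  have : Fact (Nat.Prime 5) := ⟨by norm_num⟩
  have hy := fun v => fix_y two_ne ((CharP.cast_eq_zero_iff k 3 5).not.2 (by norm_num)) hζ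
    (ρ (uX 6)) (fun i => ρ (uX i)) (fun i => by rw [← map_mul, r1, map_one])
    (fun i j => by rw [Commute, SemiconjBy, ← map_mul, r2, map_mul])
    (by simp only [← map_mul]; exact (congrArg ρ r3).trans (map_one ρ))
    (fun i => by rw [← map_mul, r4, map_mul]) (by rw [← map_pow, y5, map_one]) hM hE
    (s5 _ (orderOf_eq_prime y5 r7)) (m := v)
  have h4 := cw_zero (fix_map _ r8) (fun v hv => (hM _).2 fun i => by
    rw [← End.mul_apply, ← map_mul, ← r4, map_mul, End.mul_apply, (hM v).1 hv]) y5 hy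
    (C := cert) (by decide) hm1
  have h5 := cert_ok
  rw [frcN_eq, frcD_eq, Bool.and_eq_true, decide_eq_true_eq] at h5
  rw [sum_mod3 (k := k) (c := lab) (fun a b hab => by
    obtain ⟨i, hi⟩ := lab_spec a
    obtain ⟨j, hj⟩ := lab_spec b
    have := congrArg (fun g => ρ g m) (UG.ext' (hi.symm.trans (hab.trans hj)))
    simpa only [map_mul, End.mul_apply, hx] using this) h5.1 fun b hb => by
      simpa using of_allL h5.2 b hb, map_one] at h4
  exact hm0 h4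

theorem no_u43 {F : Type*} [Field F] [Fintype F] (h : Fintype.card F = 9)
    (H : Subgroup ↥(chevE8.group (ZMod 3))) : IsEmpty (↥H ≃* Cfsg.PSU 4 F 3) := ⟨fun e => by
  obtain ⟨e'⟩ := equiv_PSU F h
  obtain ⟨ψ, hψ⟩ : ∃ ψ : X →* G8, ∀ x, orderOf (ψ x) = orderOf x :=
    ⟨H.subtype.comp (e'.trans e.symm).toMonoidHom, fun x =>
      (Subgroup.orderOf_coe ((e'.trans e.symm) x)).trans (MulEquiv.orderOf_eq _ x)⟩
  obtain ⟨ζ, hζ⟩ := exists_zeta (n := 5) (by decide)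
  refine no_rep (ad.comp ψ) finrank_ad (fun g hg => ?_) (fun g hg => ?_) (fun g hg => ?_)
    (IsPrimitiveRoot.coe_units_iff.2 (hζ ▸ IsPrimitiveRoot.orderOf ζ)) fun g hg => ?_
  all_goals simp only [MonoidHom.comp_apply, map_pow ψ]
  · exact tau2 _ ((hψ g).trans hg)
  · exact tau4 _ ((hψ g).trans hg)
  · exact tau8 _ ((hψ g).trans hg)
  have o5 := (hψ g).trans hg
  obtain ⟨Y, hY, h1, h2⟩ := exists_class (C := cl5) (by decide) o5.dvd hζ
  have h3 := h2 1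
  rw [pow_one] at h3
  simp only [h3]
  exact ((by decide +kernel : ∀ X ∈ cl5, (∀ i : Fin 8, 5 ∣ 1 * X.getD i 0) ∨
    (cnt 5 X 1 0 = 48 ∧ cnt 5 X 1 1 = 50 ∧ cnt 5 X 1 2 = 50 ∧ cnt 5 X 1 3 = 50 ∧
      cnt 5 X 1 4 = 50 ∨ cnt 5 X 1 0 = 68 ∧ cnt 5 X 1 1 = 45)) Y hY).resolve_left fun h5 => by
    have := h1 _ h5
    rw [o5] at this
    omega⟩

end H56.X
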